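import Cfsg.Agent.H7.Qk1
import Cfsg.Agent.H2.Ab2c
import Cfsg.Agent.H2.Qc0

/-! Rank witnesses for the alternating groups. -/

set_option autoImplicit false

open Cfsg Subgroup CfH3.QK Equiv Equiv.Perm

namespace CfH7.Qk

theorem rt_of_es {K : Type*} [Group K] (h : CfH2.Qc.ES K) : RT 3 K := by
  obtain ⟨x, y, z, s, t, n1, n2, n3, a1, a2, a3, b1, b2, b3, sx, sy, sz, tx, ty, tz⟩ := h
  have key : ∀ {g : K} {a : ℕ}, g ^ 3 = 1 → g ≠ 1 → g ^ a * g ^ a = 1 → 3 ∣ a := by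
    intro g a h1 hn e
    have := orderOf_dvd_of_pow_eq_one ((pow_add g a a).trans e)
    rw [orderOf_eq_prime h1 hn] at this
    omega
  refine ⟨x, y, z, a1, a2, a3, b1, b2, b3, isConj_iff.2 ⟨s, sx⟩, isConj_iff.2 ⟨s, sy⟩,
    isConj_iff.2 ⟨t, tz⟩, fun a b c e => ?_⟩
  have c1 : Commute (x ^ a) (y ^ b) := b1.pow_pow a b
  have c2 : Commute (x ^ a) (z ^ c) := b2.pow_pow a c
  have c3 : Commute (y ^ b) (z ^ c) := b3.pow_pow b c
  have cj : ∀ g : K, (g * x * g⁻¹) ^ a * (g * y * g⁻¹) ^ b * (g * z * g⁻¹) ^ c = 1 := fun g => by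
    rw [conj_pow, conj_pow, conj_pow, conj_mul, conj_mul, e, mul_one, mul_inv_cancel]
  have e1 := cj s
  have e2 := cj t
  rw [sx, sy, sz, inv_pow, inv_pow, ← mul_inv_rev, ← c1.eq, eq_inv_of_mul_eq_one_left e, inv_inv] at e1
  rw [tx, ty, tz, inv_pow, inv_pow, mul_assoc, c3.inv_right.eq, ← mul_assoc, ← mul_inv_rev, ← c2.eq] at e2
  have e3 : x ^ a * z ^ c * y ^ b = 1 := by rw [mul_assoc, ← c3.eq, ← mul_assoc, e]
  rw [eq_inv_of_mul_eq_one_left e3, inv_inv] at e2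
  obtain ⟨c, rfl⟩ := key a3 n3 e1
  obtain ⟨b, rfl⟩ := key a2 n2 e2
  rw [pow_mul, pow_mul, a2, a3, one_pow, one_pow, mul_one, mul_one] at e
  have := orderOf_dvd_of_pow_eq_one e
  rw [orderOf_eq_prime a1 n1] at this
  exact ⟨this, Dvd.intro _ rfl, Dvd.intro _ rfl⟩

theorem alt_emb {m n : ℕ} (h : m ≤ n) :
    ∃ f : alternatingGroup (Fin m) →* alternatingGroup (Fin n), Function.Injective f := by
  classical
  let ι := Fin.castLEEmb h
  refine ⟨((viaEmbeddingHom ι).comp (alternatingGroup (Fin m)).subtype).codRestrict _ fun x => ?_,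
    fun a b e => Subtype.ext (viaEmbeddingHom_injective ι (congrArg Subtype.val e))⟩
  rw [mem_alternatingGroup]
  exact (@sign_extendDomain _ _ _ _ _ _ _ _ (_) _).trans (mem_alternatingGroup.1 x.2)

theorem rk_alt6 : PRankAtLeast 3 2 (alternatingGroup (Fin 6)) := by
  refine rank2_of Nat.prime_three (x := ⟨swap 0 1 * swap 1 2, mem_alternatingGroup.2 (by decide)⟩)
    (y := ⟨swap 3 4 * swap 4 5, mem_alternatingGroup.2 (by decide)⟩) (by decide) (by decide) (by decide)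
    (by decide) fun h => ?_
  obtain ⟨k, hk⟩ := mem_zpowers_iff.1 h
  have h3 := congrArg (fun g : alternatingGroup (Fin 6) => g.1 3) hk
  simp only [SubgroupClass.coe_zpow] at h3
  rw [zpow_apply_eq_self_of_apply_eq_self (by decide)] at h3
  exact absurd h3 (by decide)

theorem t_alt {K : Type*} [Group K] [Finite K] [IsSimpleGroup K] (_hK : ¬ IsMulCommutative K)
    (h : IsAlternating K) : T K := by
  obtain ⟨n, hn, ⟨e⟩⟩ := h
  refine T.equiv e ?_
  rcases (by omega : n = 5 ∨ (6 ≤ n ∧ n ≤ 8) ∨ 9 ≤ n) with rfl | ⟨h1, h2⟩ | h9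
  · have : Fact (Nat.Prime 5) := ⟨by norm_num⟩
    obtain ⟨e'⟩ := CfH2.psl_equiv_A5 (F := ZMod 5) (.inr (ZMod.card 5))
    exact T.equiv e'.symm t_psl2
  · obtain ⟨f, hf⟩ := alt_emb h1
    refine T.of_c (rank_map f hf rk_alt6) (NS.of_primes fun r hr hd => ?_)
    have h3 := hd.trans (card_subgroup_dvd_card _)
    rw [Nat.card_perm, Nat.card_eq_fintype_card, Fintype.card_fin, hr.dvd_factorial] at h3
    have h4 : r ≤ 8 := h3.trans h2
    interval_cases r <;> first | decide | exact absurd hr (by norm_num)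
  · obtain ⟨f, hf⟩ := alt_emb h9
    exact T.of_rt3 ((rt_of_es CfH2.Qc.es_alt9).map f hf)

end CfH7.Qk
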