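import Cfsg.Agent.OD.Pre
import Cfsg.Agent.H7.GM13

/-! # Conjugates of a local pushing-up datum -/

set_option autoImplicit false
set_option linter.unusedSectionVars false

open Cfsg Subgroup CfH9 CfLp Equiv
open scoped commutatorElement MatrixGroups

namespace CfH7

open CfH8 (BB JJ MaxEl)

section
variable {G : Type*} [Group G] [Finite G] {q : ℕ} {J V V' X Y F F' F'' F''' : Subgroup G}

/-- what a block sees of `J` -/
structure LD (q : ℕ) (J V F : Subgroup G) : Prop where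
  le : V ≤ J
  el : IsElementaryAbelian 2 V
  nm : J ≤ Nm(V)
  cm : ∀ c ∈ J, c ∈ Cz(V) → ∀ e ∈ F, ⁅c, e⁆ ∈ V
  c1 : q * Nat.card (V ⊓ Cz(J) : Subgroup G) ≤ Nat.card V
  c2 : Nat.card J ≤ q * Nat.card (J ⊓ Cz(V) : Subgroup G)
  ti : ∀ x ∈ J, ∀ v ∈ V, ⁅x, v⁆ ∈ Cz(F) → x ∈ Cz(V) ∨ v ∈ Cz(J)
  pg : ∀ Q : Subgroup G, IsPGroup 2 Q → F ≤ Nm(Q) → Q ⊓ J ≤ Cz(V)

theorem conj_comm_el (g a b : G) : g⁻¹ * ⁅a, b⁆ * g = ⁅g⁻¹ * a * g, g⁻¹ * b * g⁆ := by group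

namespace LD

theorem cj' (d : LD q J V F) (g : G) : LD q (cj g J) (cj g V) (cj g F) where
  le := cj_mono g d.le
  el := elemAb_map d.el _
  nm := cj_normalizer g V ▸ cj_mono g d.nm
  cm c h1 h2 e h3 := by
    rw [← cj_centralizer] at h2
    rw [mem_cj] at h1 h2 h3 ⊢
    exact conj_comm_el g c e ▸ d.cm _ h1 h2 _ h3
  c1 := by rw [← cj_centralizer, ← cj_inf, card_cj, card_cj]; exact d.c1
  c2 := by rw [← cj_centralizer, ← cj_inf, card_cj, card_cj]; exact d.c2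
  ti x h1 v h2 h3 := by
    rw [← cj_centralizer] at h3
    rw [← cj_centralizer, ← cj_centralizer, mem_cj, mem_cj]
    rw [mem_cj] at h1 h2 h3
    exact d.ti _ h1 _ h2 (conj_comm_el g x v ▸ h3)
  pg Q h1 h2 := by
    rw [← cj_centralizer, ← cj_cj_inv g Q, ← cj_inf, cj_le_cj_iff]
    exact d.pg _ (isPGroup_cj h1 _) (cj_normalizer g⁻¹ Q ▸ cj_le_iff.1 h2)

theorem cj (d : LD q J V F) {g : G} (hg : g ∈ Nm(J)) : LD q J (cj g V) (cj g F) := by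
  simpa only [cj_eq_of_mem_normalizer hg] using d.cj' g

theorem sq (d : LD q J V F) {y : G} (h1 : y ∈ J) (c : y ∈ Cz(V)) : y * y ∈ Cz(F) := fun f hf => by
  have u := d.cm y h1 c f hf
  have k : y * f = ⁅y, f⁆ * (f * y) := by group
  rw [mul_assoc, k, ← mul_assoc y, ← c _ u, mul_assoc, ← mul_assoc y, k,
    ← mul_assoc ⁅_, _⁆, ← mul_assoc ⁅_, _⁆, ← _root_.sq ⁅_, _⁆, d.el.2 _ u, one_mul, mul_assoc]

theorem comm (d : LD q J V F) {a b : G} (h1 : a ∈ J ⊓ Cz(V)) (h2 : b ∈ J ⊓ Cz(V)) :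
    ⁅a, b⁆ ∈ Cz(F) := by
  have h3 := mul_mem (inv_mem h1) h2
  rw [show ⁅a, b⁆ = a * a * (a⁻¹ * b * (a⁻¹ * b)) * (b * b)⁻¹ by group]
  exact mul_mem (mul_mem (d.sq h1.1 h1.2) (d.sq h3.1 h3.2)) (inv_mem (d.sq h2.1 h2.2))

theorem ti' (d : LD q J V F) {x v : G} (h1 : x ∈ J) (h2 : x ∉ Cz(V)) (h3 : v ∈ V)
    (h : x * v = v * x) : v ∈ Cz(J) :=
  (d.ti x h1 v h3 (commutatorElement_eq_one_iff_mul_comm.2 h ▸ one_mem _)).resolve_left h2

theorem cover (d : LD q J V F) (d' : LD q J X F') (n : ¬ V ≤ Cz(X)) {j : G} (hj : j ∈ J) :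
    ∃ x ∈ X, ∃ c ∈ J ⊓ Cz(V), x * c = j := by
  obtain ⟨y, h1, h2⟩ := SetLike.not_le_iff_exists.1 n
  have m : X ≤ Nm(J ⊓ Cz(V)) :=
    d'.le.trans (le_normalizer_inf le_normalizer (d.nm.trans (Nm_le_Nm_Cz V)))
  have l : X ⊓ (J ⊓ Cz(V)) ≤ X ⊓ Cz(J) := fun x hx =>
    mi hx.1 (d'.ti' (d.le h1) h2 hx.1 (hx.2.2 y h1))
  have c := card_sup_mul_card_inf m
  have e : X ⊔ (J ⊓ Cz(V)) = J := eq_of_le_of_card_ge (sup_le d'.le inf_le_left) <|
    Nat.le_of_mul_le_mul_right (((Nat.mul_le_mul d.c2 (card_le_of_le l)).trans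
      ((mul_right_comm _ _ _).le.trans (Nat.mul_le_mul_right _ d'.c1))).trans c.ge) Nat.card_pos
  exact (mem_sup_of_le_Nm m).1 (e.ge hj)

theorem comm_eq (d : LD q J V F) (d' : LD q J X F') (n : ¬ V ≤ Cz(X)) {j v : G} (hj : j ∈ J)
    (hv : v ∈ V) : ∃ x ∈ X, ⁅j, v⁆ = ⁅x, v⁆ := by
  obtain ⟨x, hx, c, hc, rfl⟩ := d.cover d' n hj
  refine ⟨x, hx, ?_⟩
  rw [commutatorElement_mul_left_eq_conj_mul,
    commutatorElement_eq_one_iff_mul_comm.2 (hc.2 v hv).symm]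
  group

theorem tri (d : LD q J V F) (d' : LD q J V' F') (dX : LD q J X F'') (h1 : ¬ V ≤ Cz(X))
    (h2 : ¬ V' ≤ Cz(X)) : V ≤ Cz(V') := by
  by_contra n
  have h1' : ¬ X ≤ Cz(V) := fun e => h1 (le_Cz_comm e)
  obtain ⟨x, hx, h3⟩ := SetLike.not_le_iff_exists.1 h1'
  obtain ⟨y, hy, h4⟩ := SetLike.not_le_iff_exists.1 fun e => h2 (le_Cz_comm e)
  obtain ⟨v', hv', c, hc, e⟩ := d.cover d' n (dX.le hx)
  obtain ⟨v, hv, k⟩ := dX.comm_eq d h1' (d'.le hv') hx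
  have s : ⁅v', x⁆ = c * c := by
    have a1 := d'.el.2 _ hv'
    have a2 := dX.el.2 _ hx
    rw [_root_.sq, ← eq_inv_iff_mul_eq_one] at a1 a2
    rw [show c = v'⁻¹ * x by rw [← e]; group, commutatorElement_def, ← a1, ← a2]
    simp only [mul_assoc]
  have b := (d.ti x (dX.le hx) v hv (by
    rw [← commutatorElement_inv, ← k, s]; exact inv_mem (d.sq hc.1 hc.2))).resolve_left h3
  rw [commutatorElement_eq_one_iff_mul_comm.2 (b x (dX.le hx)).symm] at k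
  have b' := (dX.ti v' (d'.le hv') x hx (k ▸ one_mem _)).resolve_right
    fun e => h3 (Cz_anti d.le e)
  exact h3 (e ▸ mul_mem (Cz_anti d.le (d'.ti' (dX.le hy) h4 hv' (b' y hy))) hc.2)

theorem path (d : LD q J V F) (d' : LD q J V' F') (dX : LD q J X F'') (dY : LD q J Y F''')
    (h3 : ¬ Y ≤ Cz(V)) (h1 : ¬ V ≤ Cz(X)) (h2 : ¬ X ≤ Cz(V')) : ¬ Y ≤ Cz(V') := fun n => by
  have h2' : ¬ V' ≤ Cz(X) := fun e => h2 (le_Cz_comm e)
  have t := d.tri d' dX h1 h2'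
  refine h2 fun x hx v' hv' => ?_
  obtain ⟨v, hv, k⟩ := dX.comm_eq d (fun e => h1 (le_Cz_comm e)) (d'.le hv') hx
  obtain ⟨y, hy, k'⟩ := d.comm_eq dY (fun e => h3 (le_Cz_comm e)) (dX.le hx) hv
  rcases d'.ti x (dX.le hx) v' hv' (by
    rw [← commutatorElement_inv, k, commutatorElement_inv, k']
    exact d'.comm (mi (dY.le hy) (n hy)) (mi (d.le hv) (t hv))) with e | e
  · exact e v' hv'
  · exact (e x (dX.le hx)).symm

theorem le_Nm (d : LD q J V F) {W : Subgroup G} (h1 : V ≤ W) (h2 : W ≤ J ⊓ Cz(V)) : F ≤ Nm(W) :=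
  le_Nm_of_comm_le_left (commutator_le.2 fun c hc e he => h1 (d.cm c (h2 hc).1 (h2 hc).2 e he))

theorem le_Nm_comm (d : LD q J V F) {W : Subgroup G} (h2 : W ≤ J ⊓ Cz(V)) : F ≤ Nm(⁅W, W⁆) :=
  (le_Cz_comm (commutator_le.2 fun _ ha _ hb => d.comm (h2 ha) (h2 hb))).trans
    (centralizer_le_normalizer _)

end LD

theorem ld_main {T M H : Subgroup G} (d : LD q J V F) (hV : V ≠ ⊥) (hT : SylIn 2 T ⊤)
    (TM : T ≤ M) (TH : T ≤ H) (hJ : M ≤ Nm(J)) (JT : J ≤ T)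
    (hH : ∀ X, T ≤ X → F ≤ X → H ≤ X)
    (par : ∀ L, T ≤ L → pCoreOf 2 L ≠ ⊥ → Cz(pCoreOf 2 L) ≤ pCoreOf 2 L)
    (h1 : pCoreOf 2 H ≤ Cz(V)) (h2 : V ≤ pCoreOf 2 H) :
    ∃ R, R ≠ ⊥ ∧ R ≤ J ∧ M ⊔ H ≤ Nm(R) := by
  let r : G → G → Prop := fun g h => ¬ cj g V ≤ Cz(cj h V)
  have dd : ∀ g ∈ M, LD q J (cj g V) (cj g F) := fun g hg => d.cj (hJ hg)
  have sy : ∀ {g h}, r g h → r h g := fun e e' => e (le_Cz_comm e')
  have tr : ∀ k {g h}, r g h → r (k * g) (k * h) := fun k g h e e' => e (by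
    rwa [cj_mul, cj_mul, ← cj_centralizer, cj_le_cj_iff] at e')
  have pa : ∀ {a b c e}, a ∈ M → b ∈ M → c ∈ M → e ∈ M → r a b → r b c → r c e → r a e :=
    fun ha hb hc he => (dd _ hb).path (dd _ he) (dd _ hc) (dd _ ha)
  by_cases h0 : ∃ g ∈ M, r g 1; swap
  · have l : nclo V M ≤ J ⊓ Cz(V) := nclo_le_iff'.2 fun g hg => le_inf (dd g hg).le
      (by_contra fun e => h0 ⟨g, hg, fun e' => e (by rwa [cj_one] at e')⟩)
    have n := right_le_Nm_nclo V M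
    exact ⟨_, ne_bot_of_le (le_nclo V M) hV, l.trans inf_le_left,
      sup_le n (hH _ (TM.trans n) (d.le_Nm (le_nclo V M) l))⟩
  exfalso
  obtain ⟨g₀, m₀, r₀⟩ := h0
  let C : G → Prop := fun g => r g 1 ∨ ∃ h ∈ M, r g h ∧ r h 1
  have cl : ∀ {a b}, a ∈ M → b ∈ M → C a → r b a → C b := fun {a b} ha hb e e' => by
    rcases e with e | ⟨h, hh, e, e''⟩
    · exact Or.inr ⟨a, ha, e', e⟩
    · exact Or.inl (pa hb ha hh (one_mem _) e' e e'')
  have key : ∀ g ∈ M, ∃ t ∈ T, C (t * g) := by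
    by_contra! n
    obtain ⟨g, hg, n⟩ := n
    let W : Subgroup G := ⨆ g : {g // g ∈ M ∧ ∀ t ∈ T, ¬ C (t * g)}, cj (g : G) V
    have l : ∀ {g}, g ∈ M → (∀ t ∈ T, ¬ C (t * g)) → cj g V ≤ W := fun {g} h h' =>
      le_iSup (fun g : {g // g ∈ M ∧ ∀ t ∈ T, ¬ C (t * g)} => cj (g : G) V) ⟨g, h, h'⟩
    have TW : T ≤ Nm(W) := fun t ht => mem_normalizer_of_cj_le (cj_le_iff.2 (iSup_le fun g =>
      cj_le_iff.1 (cj_mul t g V ▸ l (mul_mem (TM ht) g.2.1) fun s hs =>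
        mul_assoc s t g ▸ g.2.2 _ (mul_mem hs ht))))
    have w : ∀ {h}, h ∈ M → C h → W ≤ J ⊓ Cz(cj h V) := fun {h} hh c => iSup_le fun g =>
      le_inf (dd _ g.2.1).le (by_contra fun e => g.2.2 1 (one_mem _)
        ((one_mul (g : G)).symm ▸ cl hh g.2.1 c e))
    have nZ : ⁅W, W⁆ ≠ ⊥ := fun e => tr g r₀ <| (l (mul_mem hg m₀) fun t ht c => n t ht
      (cl (mul_mem (TM ht) (mul_mem hg m₀)) (mul_mem (TM ht) hg) c (by
        simpa only [mul_one, mul_assoc] using sy (tr (t * g) r₀)))).trans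
      ((comm_eq_bot_left.1 e).trans (Cz_anti (by rw [mul_one]; exact l hg n)))
    have TZ : T ≤ Nm(⁅W, W⁆) := fun t ht => mem_Nm_commutator (TW ht) (TW ht)
    have w1 := w (one_mem _) (Or.inr ⟨g₀, m₀, sy r₀, r₀⟩)
    rw [cj_one] at w1
    have HZ := hH _ TZ (d.le_Nm_comm w1)
    have pW : IsPGroup 2 (⁅W, W⁆ : Subgroup G) := hT.pgrp.to_le
      ((commutator_le_self W).trans ((w1.trans inf_le_left).trans JT))
    have k := par _ TZ (ne_bot_of_le (le_pCoreOf le_normalizer le_rfl pW) nZ)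
    have k' := pCoreOf_le_pCoreOf_of_le (p := 2) HZ
      ((sylIn_pCoreOf_le (hT.mono TZ le_top)).trans TH)
    refine sy r₀ ?_
    rw [cj_one]
    exact (le_inf ((le_Cz_comm (k'.trans h1)).trans k) d.le).trans ((dd _ m₀).pg _
      (isPGroup_pCoreOf _) (((dd _ m₀).le_Nm_comm (w m₀ (Or.inl r₀))).trans
        (le_normalizer_pCoreOf _)))
  have od : ∀ k : ℕ, r (g₀ ^ (2 * k + 1)) 1 := fun k => by
    induction k with
    | zero => simpa using r₀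
    | succ k ih =>
      have s : ∀ j : ℕ, r (g₀ ^ (j + 1)) (g₀ ^ j) := fun j => by
        simpa only [mul_one, pow_succ] using tr (g₀ ^ j) r₀
      exact pa (pow_mem m₀ _) (pow_mem m₀ _) (pow_mem m₀ _) (one_mem _) (s (2 * k + 2))
        (s (2 * k + 1)) ih
  obtain ⟨a, m, ⟨k, rfl⟩, e⟩ := Nat.exists_eq_two_pow_mul_odd (orderOf_pos g₀).ne'
  have mu := pow_mem m₀ (2 * k + 1)
  obtain ⟨g, hg, h3⟩ := (hT.mono TM le_top).exists_conj_mem mu (k := a) (by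
    rw [← pow_mul, mul_comm, ← e, pow_orderOf_eq_one])
  have ru := od k
  generalize g₀ ^ (2 * k + 1) = u at mu ru h3
  obtain ⟨t, ht, c⟩ := key g hg
  have mp := mul_mem (TM ht) hg
  have h4 : t * g * u * (t * g)⁻¹ ∈ T := by
    simpa only [mul_assoc, mul_inv_rev] using mul_mem (mul_mem ht h3) (inv_mem ht)
  generalize t * g = s at mp c h4
  have r1 : r (s * u) s := by simpa only [mul_one] using tr s ru
  have mv := mul_mem (mul_mem mp mu) (inv_mem mp)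
  have o := one_mem M
  have r2 : r (s * u * s⁻¹) 1 := by
    rcases c with c | ⟨h, hh, c, c'⟩
    · refine pa mv (mul_mem mp mu) mp o ?_ r1 c
      simpa only [mul_one, inv_mul_cancel_right] using sy (tr (s * u * s⁻¹) c)
    · have mh := mul_mem mv hh
      refine pa mv mh hh o ?_ ?_ c'
      · simpa only [mul_one] using sy (tr (s * u * s⁻¹) c')
      · refine pa mh (mul_mem mp mu) mp hh ?_ r1 c
        simpa only [inv_mul_cancel_right] using sy (tr (s * u * s⁻¹) c)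
  refine r2 ?_
  rw [cj_one]
  exact ((cj_mono _ h2).trans (cj_eq_of_mem_normalizer
    (le_normalizer_pCoreOf H (TH h4))).le).trans h1

end
end CfH7
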