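import Cfsg.Agent.OD.Pre
import Cfsg.Agent.H7.QT1

/-! # A block yields a local datum -/

set_option autoImplicit false
set_option linter.unusedSectionVars false

open Cfsg Subgroup CfH9 CfLp Equiv
open scoped commutatorElement MatrixGroups

namespace CfH7

open CfH8 (BB JJ MaxEl)
open MulAction (stabilizer)

universe u

section
variable {n : ℕ} {a b w : Fin n} {s : Perm (Fin n)} {v : PV n}

/-- vectors supported on three points -/
def tri3 (a b w : Fin n) : AddSubgroup (PV n) where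
  carrier := {v | ∀ i, i ≠ a → i ≠ b → i ≠ w → v i = 0}
  zero_mem' _ _ _ _ := rfl
  add_mem' h h' i h1 h2 h3 := by rw [pv_add, h i h1 h2 h3, h' i h1 h2 h3, add_zero]
  neg_mem' h i h1 h2 h3 := neg_eq_zero.2 (h i h1 h2 h3)

theorem smul_app (i : Fin n) : (s • v) (s i) = v i := by rw [pv_smul]; simp

theorem tri3_smul (hv : v ∈ tri3 a b w) (h : (s a = a ∧ s b = b) ∨ (s a = b ∧ s b = a))
    (hw : s w = w) : s • v ∈ tri3 a b w := fun i h1 h2 h3 => by
  obtain ⟨j, rfl⟩ := s.surjective i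
  rw [smul_app]
  refine hv j ?_ ?_ ?_ <;> rintro rfl <;> tauto

theorem tri3_fix (hv : v ∈ tri3 a b w) (h : (s a = a ∧ s b = b) ∨ (s a = b ∧ s b = a ∧ v a = v b))
    (hw : s w = w) : s • v = v := funext fun i => by
  have := tri3_smul hv (h.imp_right fun e => ⟨e.1, e.2.1⟩) hw
  obtain ⟨j, rfl⟩ := s.surjective i
  rw [smul_app]
  by_cases h1 : j = a
  · subst h1; rcases h with e | e <;> rw [e.1]; exact e.2.2
  by_cases h2 : j = b
  · subst h2; rcases h with e | e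
    · rw [e.2]
    · rw [e.2.1, e.2.2]
  by_cases h3 : j = w
  · rw [h3, hw]
  rw [hv j h1 h2 h3, hv (s j)] <;> intro e
  · rcases h with e' | e'
    · exact h1 (s.injective (e.trans e'.1.symm))
    · exact h2 (s.injective (e.trans e'.2.1.symm))
  · rcases h with e' | e'
    · exact h2 (s.injective (e.trans e'.2.symm))
    · exact h1 (s.injective (e.trans e'.1.symm))
  · exact h3 (s.injective (e.trans hw.symm))

theorem tri3_zero (ab : a ≠ b) (aw : a ≠ w) (bw : b ≠ w) (hv : v ∈ tri3 a b w) (he : v ∈ evn n)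
    (h : (swap a b * swap a w) • v = v) : v = 0 := by
  have h1 := smul_app (s := swap a b * swap a w) (v := v) w
  have h2 := smul_app (s := swap a b * swap a w) (v := v) b
  rw [h, Perm.mul_apply, swap_apply_right, swap_apply_left] at h1
  rw [h, Perm.mul_apply, swap_apply_of_ne_of_ne ab.symm bw, swap_apply_right] at h2
  have h3 : ∑ i ∈ {a, b, w}, v i = ∑ i, v i := Finset.sum_subset (Finset.subset_univ _)
    fun i _ hi => by
      simp only [Finset.mem_insert, Finset.mem_singleton, not_or] at hi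
      exact hv i hi.1 hi.2.1 hi.2.2
  rw [mem_evn.1 he, Finset.sum_insert (by simp [ab, aw]), Finset.sum_pair bw, h2, ← h1,
    CharTwo.add_self_eq_zero, add_zero] at h3
  funext i
  by_cases e1 : i = a
  · rw [e1, h2, h3]; rfl
  by_cases e2 : i = b
  · rw [e2, h3]; rfl
  by_cases e3 : i = w
  · rw [e3, ← h1, h3]; rfl
  exact hv i e1 e2 e3

theorem top_of_hub {Y : Subgroup (Perm (Fin n))} (k : ∀ c, swap c w ∈ Y) : Y = ⊤ :=
  top_unique fun g _ => mem_of_swaps fun i hi => by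
    generalize g i = j at hi
    by_cases e : i = w
    · exact e ▸ swap_comm j w ▸ k j
    by_cases e' : j = w
    · exact e' ▸ k i
    rw [← swap_mul_swap_mul_swap (x := j) (y := w) (z := i) e' hi, swap_comm w i]
    exact mul_mem (mul_mem (k i) (k j)) (k i)

end

section
variable {G : Type*} [Group G] [Finite G] {p : ℕ} [hp : Fact p.Prime] {T E M Q : Subgroup G}

theorem BK.le_Cz_of_pgrp (h : BK p T E) (hQ : IsPGroup p Q) (h1 : Q ≤ Nm(E)) (h2 : E ≤ Nm(Q)) :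
    Q ≤ Cz(bV p E) := by
  have n := h1.trans (Nm_le_Nm_bV (p := p) E)
  refine h.le_Cz_of_sec0 h1 (by_contra fun e => ?_)
  exact (commutator_lt_of_isPGroup (isPGroup_bV E) hQ n fun e' =>
    h.V_not_le (e'.le.trans bot_le)).not_ge (h.irr' ((comm_le_left n).trans (bV_le E))
      (le_normalizer_commutator (right_le_Nm_comm _ _) h2) e)

theorem BK.Q_two (h : BK 2 T E) : pCoreOf 2 E = bV 2 E :=
  BLK.Q_eq_V h (h.exc.resolve_right fun e => absurd e.three (by decide))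

theorem blk_V_le_J (h : IsBaumannBlock p T E) (VT : bV p E ≤ T) : bV p E ≤ JJ p T := by
  obtain ⟨A, hA⟩ := CfH8.exists_maxEl p T
  refine le_sup_right.trans (hA.of_card_le (sup_le (inf_le_left.trans hA.le) VT)
    (elemAb_sup (elemAb_of_le inf_le_left hA.el) (elemAb_bV E) inf_le_right) ?_).le_J
  have k1 := blk_noo h (hA.le_J.trans ((CfH8.J_le_B T).trans (bk_of h).B_le_Nm)) hA.el
  rw [← card_sup_mul_card_inf (inf_le_right.trans (Cz_le_Nm _))] at k1
  refine Nat.le_of_mul_le_mul_right ((Nat.mul_le_mul_left _ (card_le_of_le (le_inf inf_le_right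
    (le_secCz (A := A ⊓ Cz(bV p E) ⊓ bV p E) (inf_le_right.trans ((bV_le' E).trans
      (le_normalizer.trans (Nm_le_Nm_bV0 E)))) ((comm_eq_bot_right.2 ((inf_le_left.trans
        inf_le_left).trans (elemAb_le_Cz hA.el))).le.trans bot_le))))).trans k1) Nat.card_pos

theorem two_mul_card_le {A B : Subgroup G} (h : A < B) : 2 * Nat.card A ≤ Nat.card B := by
  obtain ⟨k, hk⟩ := card_dvd_of_le h.le
  have := card_lt_of_lt h
  have : 0 < Nat.card A := Nat.card_pos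
  rw [hk, mul_comm]
  exact Nat.mul_le_mul_left _ (by by_contra! c; interval_cases k <;> omega)

variable (blk : IsBaumannBlock 2 T E) (hT : IsPGroup 2 T) (VT : bV 2 E ≤ T)
  (nJ : ¬ JJ 2 T ≤ Cz(bV 2 E))
include blk hT VT nJ

theorem ld_lin (l : Ln 2 E) : ∃ q, LD q (JJ 2 T) (bV 2 E) E := by
  have h := bk_of blk
  have nN : JJ 2 T ≤ Nm(E) := (CfH8.J_le_B T).trans h.B_le_Nm
  obtain ⟨K, _, _, l⟩ := l
  obtain ⟨n, hK⟩ := l.card
  obtain ⟨R, D, b⟩ := l.bd h (X := Nm(E)) le_normalizer (Nm_le_Nm_bV E) (Or.inl le_rfl)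
  have o := b.off_J hT VT nN
  have lm := lm_slN (F := K)
  obtain ⟨s, hs⟩ := (lm.off hK o.el o.eq.ge).resolve_left fun e =>
    nJ ((im_eq_bot_iff b.ker nN).1 e)
  have r : Rt (Fin 2 → K) (im D.ρ (JJ 2 T)) := hs ▸ lm.rt_U.cj _
  have c := card_im b.ker nN
  have t := b.tight VT nN
  refine ⟨Nat.card (im D.ρ (JJ 2 T)), blk_V_le_J blk VT, elemAb_bV E, nN.trans D.n,
    fun c h1 h2 e h3 => h.Q_two.le (h.comm_le_Q (zpowers_le.2 (nN h1)) (zpowers_le.2 h2)
      (commutator_mem_commutator (mem_zpowers _) h3)), ?_, c.ge, fun x h1 v h2 h3 => ?_,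
    fun Q h1 h2 => (inf_le_inf_left Q nN).trans (h.le_Cz_of_pgrp h1.to_inf_left inf_le_right
      (le_normalizer_inf h2 (le_normalizer.trans le_normalizer)))⟩
  · have k := b.noo nN o.el
    rw [t, ← c, mul_right_comm, mul_comm] at k
    exact Nat.le_of_mul_le_mul_left k Nat.card_pos
  · refine (em (D.ρ ⟨x, nN h1⟩ = 1)).imp (b.ker _).1 fun e => (t.le ((D.pre_fx (rl_map D.ρ nN)).le
      ⟨h2, r.cent _ (mem_im (x := ⟨x, nN h1⟩) h1) e _ ?_⟩)).2
    have u := commutator_mem_right h2 (D.n (nN h1))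
    rw [← sub_eq_zero, ← D.c_comm ⟨x, nN h1⟩ h2]
    exact (D.c_zero _ u).2 (mi u h3)

theorem ld_sym {m : ℕ} (l : SymB E m) (sp : bV0 2 E = ⊥) (TM : T ≤ M) (nM : ¬ E ≤ M) :
    ∃ V F, LD 2 (JJ 2 T) V F ∧ V ≠ ⊥ ∧ V ≤ bV 2 E ∧ F ≤ E ∧ ¬ F ≤ M := by
  have h := bk_of blk
  have nN : JJ 2 T ≤ Nm(E) := (CfH8.J_le_B T).trans h.B_le_Nm
  obtain ⟨R, D, bd⟩ := l.bd h (X := Nm(E)) le_normalizer (Nm_le_Nm_bV E) (Or.inl le_rfl)
  have o := bd.off_J hT VT nN
  have kQ : ∀ x : Nm(E), (x : G) ∈ E → D.ρ x = 1 → (x : G) ∈ bV 2 E := fun x h1 h2 =>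
    h.Q_two.le (h.mem_Q h1 ((bd.ker x).1 h2))
  set L := im D.ρ (JJ 2 T)
  have ne : ∀ {a b w}, a ≠ b → swap a b ∈ L → (∀ s ∈ L, s w = w) → a ≠ w := fun ab hs hw e =>
    ab (e.trans ((hw _ hs).symm.trans (e ▸ swap_apply_left _ _)))
  obtain ⟨a, b, w, x, ab, hs, hw, xE, x3, ex, xM⟩ : ∃ (a b w : Fin (2 * m + 1)) (x : Nm(E)), a ≠ b ∧
      swap a b ∈ L ∧ (∀ s ∈ L, s w = w) ∧ (x : G) ∈ E ∧ x ^ 3 = 1 ∧ D.ρ x = swap a b * swap a w ∧
      (x : G) ∉ M := by
    by_contra! c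
    have l1 : M ⊓ E ≤ Nm(E) := inf_le_right.trans le_normalizer
    have k : ∀ a b w, a ≠ b → swap a b ∈ L → (∀ s ∈ L, s w = w) →
        swap a w ∈ im D.ρ ((M ⊓ E) ⊔ JJ 2 T) := fun a b w ab hs hw => by
      have t := Perm.isThreeCycle_swap_mul_swap_same ab (ne ab hs hw)
        (ne ab.symm (swap_comm a b ▸ hs) hw)
      obtain ⟨x, hx, ex⟩ := bd.im.ge t.mem_alternatingGroup
      have e3 : D.ρ (x ^ 3) = 1 := by rw [map_pow, ex, ← t.orderOf, pow_orderOf_eq_one]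
      have e4 : D.ρ (x ^ 4) = swap a b * swap a w := by rw [pow_succ, map_mul, e3, one_mul, ex]
      have e6 : (x ^ 3) ^ 2 = 1 := Subtype.ext ((elemAb_bV E).2 _ (kQ _ (pow_mem hx 3) e3))
      have m4 : ((x ^ 4 : Nm(E)) : G) ∈ E := pow_mem hx 4
      exact (mul_mem_cancel_left (im_mono le_sup_right hs)).1 (e4 ▸ mem_im (mem_sup_left (mi
        (c a b w _ ab hs hw m4 (by
          rw [← pow_mul, show 4 * 3 = 3 * 2 * 2 from rfl, pow_mul, pow_mul, e6, one_pow]) e4) m4)))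
    obtain ⟨a, b, ab, hs⟩ := o.exists_swap fun e => nJ ((im_eq_bot_iff bd.ker nN).1 e)
    obtain ⟨w, hw⟩ := (elemAb_isPGroup o.el).nonempty_fixed_point_of_prime_not_dvd_card
      (Fin (2 * m + 1)) (by simp)
    replace hw : ∀ s ∈ L, s w = w := fun s hs => hw ⟨s, hs⟩
    have t : im D.ρ ((M ⊓ E) ⊔ JJ 2 T) = ⊤ := top_of_hub (w := w) fun i => by
      by_cases e : ∀ s ∈ L, s i = i
      · by_cases iw : i = w
        · rw [iw, swap_self]; exact one_mem _
        rw [← swap_mul_swap_mul_swap (x := w) (y := a) (z := i) (ne ab hs hw).symm (Ne.symm iw),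
          swap_comm w a]
        exact mul_mem (mul_mem (k a b i ab hs e) (k a b w ab hs hw)) (k a b i ab hs e)
      · push Not at e
        obtain ⟨s, h1, h2⟩ := e
        exact k i (s i) w h2.symm (o.swap_mem h1 h2) hw
    have k1 : im D.ρ E ≤ im D.ρ (M ⊓ E) := by
      refine (im_mono h.res.ge).trans ?_
      rw [im_res le_normalizer]
      refine (pResidualOf_mono (le_top.trans t.ge)).trans ?_
      rw [← im_res (sup_le l1 nN)]
      exact im_mono (pResidualOf_le_of_le_sup (CfH8.isPGroup_J hT) (le_normalizer_inf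
        (((CfH8.J_le T).trans TM).trans le_normalizer) nN) le_rfl)
    refine nM fun f hf => ?_
    obtain ⟨y, hy, e⟩ := k1 (mem_im (x := ⟨f, le_normalizer hf⟩) hf)
    rw [← mul_inv_cancel_left (y : G) f]
    exact mul_mem hy.1 (TM (VT (kQ (y⁻¹ * ⟨f, le_normalizer hf⟩) (mul_mem (inv_mem hy.2) hf)
      (by rw [map_mul, map_inv, e, inv_mul_cancel]))))
  have aw := ne ab hs hw
  have bw := ne ab.symm (swap_comm a b ▸ hs) hw
  have t3 := Perm.isThreeCycle_swap_mul_swap_same ab aw bw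
  have inj : ∀ {u v : G}, u ∈ bV 2 E → v ∈ bV 2 E → D.c u = D.c v → u = v := fun hu hv e =>
    inv_mul_eq_one.1 (mem_bot.1 (sp.le ((D.c_eq_iff hu hv).1 e)))
  have ci : ∀ (y : Nm(E)) {v : G}, v ∈ bV 2 E → ((y : G) * v = v * y ↔ D.ρ y • D.c v = D.c v) :=
    fun y v hv => by
      rw [← D.act y v hv, ← mul_inv_eq_iff_eq_mul]
      exact ⟨fun e => by rw [e], inj (conj_mem_of_mem_normalizer (D.n y.2) hv) hv⟩
  have k : ∀ s ∈ L, (s a = a ∧ s b = b) ∨ (s a = b ∧ s b = a) := fun s h1 => by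
    have e1 := o.orb hs (i := a) (by simpa using ab.symm) h1
    have e2 := o.orb hs (i := b) (by simpa using ab) h1
    rw [swap_apply_left] at e1
    rw [swap_apply_right] at e2
    have := s.injective.ne ab
    grind
  obtain ⟨z, hz, ez⟩ := D.c_surj _ (pe_mem a w)
  have zV : z ∈ D.pre (tri3 a b w) := ⟨hz, fun i h1 _ h3 => by simp [ez, pe_apply, h1, h3]⟩
  have hc : ∀ y : Nm(E), (y : G) ∈ JJ 2 T → ((y : G) ∈ Cz(D.pre (tri3 a b w)) ↔ D.ρ y a = a) :=
    fun y hy => by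
      have k' := k _ (mem_im hy)
      refine ⟨fun e => by_contra fun n => ?_, fun e v hv => ((ci y hv.1).2 (tri3_fix hv.2
        (Or.inl (k'.resolve_right fun e' => ab (e.symm.trans e'.1))) (hw _ (mem_im hy)))).symm⟩
      have := congrFun ((ci y hz).1 (e z zV).symm) a
      rw [ez, smul_pe, (k'.resolve_left fun e => n e.1).1, hw _ (mem_im hy)] at this
      simp [pe_apply, ab, aw] at this
  have nm : JJ 2 T ≤ Nm(D.pre (tri3 a b w)) := fun y hy => mem_normalizer_of_conj_mem fun v hv =>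
    ⟨conj_mem_of_mem_normalizer (D.n (nN hy)) hv.1, D.act ⟨y, nN hy⟩ v hv.1 ▸
      tri3_smul hv.2 (k _ (mem_im hy)) (hw _ (mem_im hy))⟩
  have cs : ∀ s : Perm (Fin (2 * m + 1)), s * (swap a b * swap a w) * s⁻¹ =
      swap (s a) (s b) * swap (s a) (s w) := fun s => by
    rw [swap_apply_apply, swap_apply_apply]; group
  obtain ⟨t, ht, et⟩ := hs
  have tn : (t : G) ∉ Cz(D.pre (tri3 a b w)) := fun e =>
    ab (((hc t ht).1 e).symm.trans (et ▸ swap_apply_left a b))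
  refine ⟨D.pre (tri3 a b w), zpowers x, ⟨(D.pre_le _).trans (blk_V_le_J blk VT),
    elemAb_of_le (D.pre_le _) (elemAb_bV E), nm, fun c h1 h2 e h3 => ?_,
    two_mul_card_le (inf_lt_left.2 fun e => tn (le_Cz_comm e ht)), ?_, fun y h1 v h2 h3 => ?_,
    fun Q h1 h2 c h3 => ?_⟩, fun e => tn (e ▸ le_Cz_comm bot_le (mem_top _)), D.pre_le _,
    zpowers_le.2 xE, fun e => xM (e (mem_zpowers _))⟩
  · obtain ⟨c, rfl⟩ : ∃ c' : Nm(E), c' = c := ⟨⟨c, nN h1⟩, rfl⟩
    obtain ⟨j, rfl⟩ := h3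
    obtain ⟨e1, e2⟩ := (k _ (mem_im h1)).resolve_right fun e => ab (((hc c h1).1 h2).symm.trans e.1)
    have e3 : Commute (D.ρ c) (D.ρ x) := by
      rw [ex, Commute, SemiconjBy, ← mul_inv_eq_iff_eq_mul, cs, e1, e2, hw _ (mem_im h1)]
    have y3 : (x ^ j) ^ 3 = 1 := by
      rw [← zpow_natCast, ← _root_.zpow_mul, mul_comm, _root_.zpow_mul, zpow_natCast, x3,
        _root_.one_zpow]
    have yE : ((x ^ j : Nm(E)) : G) ∈ E := zpow_mem xE j
    have e4 : Commute (D.ρ c) (D.ρ (x ^ j)) := map_zpow D.ρ x j ▸ e3.zpow_right j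
    have fx : ∀ i, i ≠ a → i ≠ b → i ≠ w → D.ρ (x ^ j) i = i := fun i h1 h2 h3 =>
      map_zpow D.ρ x j ▸ zpow_mem (show D.ρ x ∈ stabilizer _ i by
        rw [MulAction.mem_stabilizer_iff, ex, Perm.smul_def, Perm.mul_apply,
          swap_apply_of_ne_of_ne h1 h3, swap_apply_of_ne_of_ne h1 h2]) j
    change ((⁅c, x ^ j⁆ : Nm(E)) : G) ∈ _
    generalize x ^ j = y at y3 yE e4 fx
    have u := kQ ⁅c, y⁆ (commutator_mem_right yE c.2) (by
      rw [map_commutatorElement, commutatorElement_eq_one_iff_commute.2 e4])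
    refine ⟨u, fun i h1 h2 h3 => ?_⟩
    have u3 : ⁅c, y⁆ * (y * ⁅c, y⁆ * y⁻¹) * (y * (y * ⁅c, y⁆ * y⁻¹) * y⁻¹) = 1 := by
      rw [show ⁅c, y⁆ * (y * ⁅c, y⁆ * y⁻¹) * (y * (y * ⁅c, y⁆ * y⁻¹) * y⁻¹) =
        c * y ^ 3 * c⁻¹ * (y ^ 3)⁻¹ by simp only [pow_succ, pow_zero]; group, y3]
      simp
    generalize ⁅c, y⁆ = d at u u3
    have u1 := conj_mem_of_mem_normalizer (D.n y.2) u
    have u2 := conj_mem_of_mem_normalizer (D.n y.2) u1
    have u4 := congrArg (fun g : Nm(E) => D.c g (D.ρ y i)) u3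
    simp only [Subgroup.coe_mul, Subgroup.coe_inv, Subgroup.coe_one] at u4
    rw [D.c_mul _ (mul_mem u u1) _ u2, D.c_mul _ u _ u1, D.act y _ u1, D.act y _ u, D.c_one, pv_add,
      pv_add, smul_app, smul_app, ← fx i h1 h2 h3, smul_app, fx i h1 h2 h3, fx i h1 h2 h3,
      CharTwo.add_self_eq_zero, zero_add] at u4
    exact u4
  · have e : (Cz(D.pre (tri3 a b w))).relIndex (JJ 2 T) = 2 :=
      relIndex_eq_two_iff.2 ⟨t, ht, fun y hy => by
        obtain ⟨y, rfl⟩ : ∃ y' : Nm(E), y' = y := ⟨⟨y, nN hy⟩, rfl⟩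
        rw [← Subgroup.coe_mul, hc _ (mul_mem hy ht), hc _ hy, map_mul, et, Perm.mul_apply,
          swap_apply_left]
        have := k _ (mem_im hy)
        unfold Xor
        grind⟩
    rw [← card_mul_relIndex (inf_le_left : JJ 2 T ⊓ Cz(D.pre (tri3 a b w)) ≤ _), inf_relIndex_left, e,
      mul_comm]
  · obtain ⟨y, rfl⟩ : ∃ y' : Nm(E), y' = y := ⟨⟨y, nN h1⟩, rfl⟩
    have u := commutator_mem_right h2 (nm h1)
    have u0 := tri3_zero ab aw bw u.2 (D.c_mem _ u.1) (ex ▸ (ci x u.1).1 (h3 _ (mem_zpowers _)))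
    rw [D.c_comm y h2.1, sub_eq_zero] at u0
    refine (k _ (mem_im h1)).imp (fun e => (hc y h1).2 e.1) fun e j hj => (ci ⟨j, nN hj⟩ h2.1).2
      (tri3_fix h2.2 ((k _ (mem_im hj)).imp_right fun e' => ⟨e'.1, e'.2, ?_⟩) (hw _ (mem_im hj)))
    rw [← smul_app (s := D.ρ y) (v := D.c v) a, u0, e.1]
  · obtain ⟨c, rfl⟩ : ∃ c' : Nm(E), c' = c := ⟨⟨c, nN h3.2⟩, rfl⟩
    refine (hc c h3.2).2 ((k _ (mem_im h3.2)).resolve_right fun e => ?_).1
    obtain ⟨j, hj⟩ := isPGroup_iff_mem.1 h1 _ (commutator_mem_left h3.1 (h2 (mem_zpowers _)))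
    have e1 : D.ρ ⁅c, x⁆ = swap a b * swap a w := by
      rw [map_commutatorElement, commutatorElement_def, ex, cs, e.1, e.2, hw _ (mem_im h3.2),
        swap_comm b a, mul_assoc, mul_inv_rev, swap_inv, swap_inv, mul_right_inj,
        swap_comm b w, ← swap_mul_swap_mul_swap (x := b) (y := a) (z := w) ab.symm bw, swap_comm b a]
      simp only [mul_assoc, swap_mul_self_mul, swap_mul_self, mul_one]
    have e2 : (swap a b * swap a w) ^ 2 ^ j = 1 := by
      rw [← e1, ← map_pow, show ⁅c, x⁆ ^ 2 ^ j = 1 from Subtype.ext hj, map_one]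
    have := orderOf_dvd_of_pow_eq_one e2
    rw [t3.orderOf] at this
    exact absurd (Nat.prime_three.dvd_of_dvd_pow this) (by decide)

end
end CfH7
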