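import Cfsg.Agent.OD.Pre
import Cfsg.Agent.H7.QT2

/-! # A common normal subgroup for a minimal parabolic and an overgroup of the Sylow group -/

set_option autoImplicit false
set_option linter.unusedSectionVars false

open Cfsg Subgroup CfH9 CfLp Equiv
open scoped commutatorElement MatrixGroups

namespace CfH7

open CfH8 (BB JJ MaxEl)

universe u

variable {G : Type u} [Group G] [Finite G] {T M H Y R : Subgroup G}

theorem common_normal (hT : SylIn 2 T ⊤)
    (par : ∀ L, T ≤ L → pCoreOf 2 L ≠ ⊥ → Cz(pCoreOf 2 L) ≤ pCoreOf 2 L) (TM : T ≤ M)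
    (u : UMax T H Y) (hH : pCoreOf 2 H ≠ ⊥) (hR : R ≠ ⊥) (RT : R ≤ T)
    (hS : SylIn 2 R (pResidualOf 2 H ⊔ R)) (hM : M ≤ Nm(R)) :
    ∃ X, X ≠ ⊥ ∧ X ≤ R ∧ M ⊔ H ≤ Nm(X) := by
  by_contra! n
  have TH := u.le'
  have e := (hT.mono TH le_top).sup_pResidualOf
  set K := pResidualOf 2 H ⊔ R
  have KH : K ≤ H := sup_le (pResidualOf_le H) (RT.trans TH)
  have sK : SubnIn K H := subnIn_of_normal KH (e.ge.trans (sup_le (le_sup_left.trans le_normalizer)
    fun t ht => mem_Nm_sup (le_normalizer_pResidualOf H (TH ht)) (hM (TM ht))))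
  have cK : ChP 2 K := sK.charP (chP_iff.2 (inf_le_right.trans (par H TH hH)))
  have hX : ∀ X, T ≤ X → ¬ H ⊓ X ≤ Y → H ≤ X := fun X h1 h2 =>
    (u.eq_of_not_le (le_inf TH h1) inf_le_left h2).ge.trans inf_le_right
  have k : ∀ C, C ≠ ⊥ → C ≤ R → Nm(R) ≤ Nm(C) → K ⊓ Nm(C) ≤ Y := fun C h1 h2 h3 =>
    (inf_le_inf_right _ KH).trans (by_contra fun e => n C h1 h2
      (sup_le (hM.trans h3) (hX _ (TM.trans (hM.trans h3)) e)))
  have mR := map_subgroupOf_eq_of_le hS.le
  obtain ⟨E, h, nE⟩ := (core_full (p := 2) K).1 _ (Y.subgroupOf K) hS.subgroupOf_top cK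
    (cs_le (map_le_iff_le_comap.1 (by
      rw [map_subtype_Cz, map_OZ_inj K.subtype_injective, mR]
      exact (inf_le_inf_left _ (centralizer_le_normalizer _)).trans
        (k _ (OZ_ne_bot hS.pgrp hR) (OZ_le _) (Nm_le_Nm_OZ _)))) fun C h1 h2 h3 =>
      map_le_iff_le_comap.1 (by
        have c := char_map K.subtype_injective h1 h3
        have l := map_mono (f := K.subtype) h1
        rw [map_B_inj K.subtype_injective, mR] at c l
        rw [map_subtype_Nm]
        refine k _ (by rwa [ne_eq, map_eq_bot_iff_of_injective _ K.subtype_injective])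
          (l.trans (CfH8.B_le R)) ((CfH8.Nm_le_Nm_B (p := 2) R).trans ?_)
        simpa only [map_subgroupOf_eq_of_le l] using Nm_le_Nm_char _ (hK := c)))
    fun e' => u.lt.not_ge (e.ge.trans (sup_le (le_sup_left.trans (subgroupOf_eq_top.1 e')) u.le))
  have nJ := h.bk.not_J_le hS.subgroupOf_top
  rw [← map_Cz_of_injective K.subtype_injective, CfH8.map_J_of_injective _ K.subtype_injective,
    map_bV K.subtype_injective, mR] at nJ
  rw [subgroupOf, ← map_le_iff_le_comap] at nE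
  replace h := h.of_rel hS.le
  generalize E.map K.subtype = E at h nJ nE
  have VQ := ((bV_le (p := 2) E).trans (bW_le E)).trans h.sub.pCoreOf_le
  have VR := VQ.trans (sylIn_pCoreOf_le hS)
  have sE := h.sub.trans sK
  have nO := sE.pCoreOf_le_Nm_pResidualOf (p := 2)
  rw [h.bk.res] at nO
  have hO := h.bk.le_Cz_of_pgrp (isPGroup_pCoreOf H) nO (sE.le.trans (le_normalizer_pCoreOf H))
  obtain ⟨q, V, F, d, h1, h2, h3, h4⟩ : ∃ q V F, LD q (JJ 2 R) V F ∧ V ≠ ⊥ ∧ V ≤ bV 2 E ∧ F ≤ E ∧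
      ¬ F ≤ Y := by
    by_cases l : Ln 2 E
    · obtain ⟨q, d⟩ := ld_lin h.blk hS.pgrp VR nJ l
      exact ⟨q, _, _, d, fun e => h.bk.V_not_le (e.le.trans bot_le), le_rfl, le_rfl, nE⟩
    · obtain ⟨-, m, s⟩ := (blk_kind h.blk).resolve_left l
      exact ⟨2, ld_sym h.blk hS.pgrp VR nJ s (h.sp.resolve_right l) (RT.trans u.le) nE⟩
  obtain ⟨X, h5, h6, h7⟩ := ld_main d h1 hT TM TH (hM.trans (CfH8.Nm_le_Nm_J R))
    ((CfH8.J_le R).trans RT) (fun X h5 h6 => hX X h5 fun e => h4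
      ((le_inf (h3.trans sE.le) h6).trans e)) par (hO.trans (Cz_anti h2))
    (h2.trans (VQ.trans sK.pCoreOf_le))
  exact n X h5 (h6.trans (CfH8.J_le R)) h7

theorem oddGenerated_eq (H : Subgroup G) : oddGenerated H = pResidualOf 2 H := by
  rw [pResidualOf_eq_closure]
  simp only [oddGenerated, Nat.coprime_two_right]

end CfH7
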