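import Cfsg.Agent.OD.Pre
import Cfsg.Agent.H7.QT3
import Cfsg.Agent.H1.EStep

/-! # The cubic case of the qrc-lemma -/

set_option autoImplicit false
set_option linter.unusedSectionVars false

open Cfsg Subgroup CfH9 CfLp Equiv
open scoped commutatorElement MatrixGroups

namespace CfH7

open CfH1 (relIndex_pos' relIndex_anti')

universe u

variable {G : Type u} [Group G] [Finite G] {N U B L V X H T : Subgroup G}

/-- no quadratic 2F-offender -/
def NQ (V : Subgroup G) : Prop := ∀ B : Subgroup G, IsPGroup 2 B → B ≤ Nm(V) → ⁅⁅V, B⁆, B⁆ = ⊥ →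
  ¬ B ≤ Cz(V) → (Cz(V)).relIndex B ^ 2 < (Cz(B)).relIndex V

/-- there is a cubic 2F-offender -/
def CO (V : Subgroup G) : Prop := ∃ B : Subgroup G, IsElementaryAbelian 2 B ∧ B ≤ Nm(V) ∧
  ⁅⁅⁅V, B⁆, B⁆, B⁆ = ⊥ ∧ ¬ B ≤ Cz(V) ∧ (Cz(B)).relIndex V ≤ (Cz(V)).relIndex B ^ 2

theorem NQ.cj (h : NQ V) (g : G) : NQ (cj g V) := fun B h1 h2 h3 h4 => by
  obtain ⟨B, rfl⟩ : ∃ B', CfH9.cj g B' = B := ⟨_, cj_cj_inv g B⟩
  rw [← cj_normalizer, cj_le_cj_iff] at h2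
  rw [← cj_commutator, ← cj_commutator, cj_eq_bot_iff] at h3
  rw [← cj_centralizer, cj_le_cj_iff] at h4
  rw [← cj_centralizer, ← cj_centralizer, relIndex_cj, relIndex_cj]
  exact h B (isPGroup_cj_iff.1 h1) h2 h3 h4

theorem CO.cj (h : CO V) (g : G) : CO (cj g V) := by
  obtain ⟨B, h1, h2, h3, h4, h5⟩ := h
  refine ⟨CfH9.cj g B, elemAb_map h1 _, ?_, ?_, ?_, ?_⟩
  · rwa [← cj_normalizer, cj_le_cj_iff]
  · rwa [← cj_commutator, ← cj_commutator, ← cj_commutator, cj_eq_bot_iff]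
  · rwa [← cj_centralizer, cj_le_cj_iff]
  · rwa [← cj_centralizer, ← cj_centralizer, relIndex_cj, relIndex_cj]

theorem NQ.comm (h : NQ V) (h' : NQ X) (eV : IsElementaryAbelian 2 V)
    (eX : IsElementaryAbelian 2 X) (h1 : X ≤ Nm(V)) (h2 : V ≤ Nm(X)) : X ≤ Cz(V) := by
  by_contra n
  have a := h X (elemAb_isPGroup eX) h1
    (comm_eq_bot_left.2 ((comm_le_right h2).trans (elemAb_le_Cz eX))) n
  have b := h' V (elemAb_isPGroup eV) h2
    (comm_eq_bot_left.2 ((comm_le_right h1).trans (elemAb_le_Cz eV))) fun e => n (le_Cz_comm e)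
  have := relIndex_pos' (Cz(V)) X
  have := relIndex_pos' (Cz(X)) V
  nlinarith

theorem comm_cj_le (c : ⁅N, U⁆ ≤ B) {g : G} (hg : g ∈ Nm(N)) : ⁅N, cj g U⁆ ≤ cj g B := by
  rw [← cj_eq_of_mem_normalizer hg, ← cj_commutator]; exact cj_mono g c

theorem mem_of_comm (hN : L ≤ Nm(N)) (UL : U ≤ L) (ab : U ≤ Cz(U)) (BU : B ≤ U) (BN : B ≤ N)
    (c : ⁅N, U⁆ ≤ B) {y g : G} (hy : y ∈ U) (hg : g ∈ L) (e : L ≤ zpowers y ⊔ cj g U) {a : G}
    (ha : a ∈ nclo B L) (h : ⁅a, y⁆ ∈ Cz(L)) : a ∈ B := by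
  have DN : cj g B ≤ N := (cj_mono g BN).trans (cj_eq_of_mem_normalizer (hN hg)).le
  have AN := sup_le BN DN
  have k : nclo B L ≤ B ⊔ cj g B := nclo_le (e.trans (sup_le (zpowers_le.2 (le_Nm_of_comm_le_left
    (((commutator_mono AN le_rfl).trans c).trans le_sup_left) hy)) (le_Nm_of_comm_le_left
      (((commutator_mono AN le_rfl).trans (comm_cj_le c (hN hg))).trans le_sup_right)))) le_sup_left
  obtain ⟨b, hb, d, hd, rfl⟩ := (mem_sup_of_le_Nm'
    (le_Nm_of_comm_le_right ((commutator_mono DN BU).trans c))).1 (k ha)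
  have h1 : ⁅d, y⁆ ∈ B := c (commutator_mem_commutator (DN hd) hy)
  have h2 : ⁅d, y⁆ ∈ Cz(L) := by
    rwa [commutatorElement_mul_left_eq_conj_mul, conj_eq_of_mem_centralizer (ab (BU hb)) (BU h1),
      commutatorElement_eq_one_iff_mul_comm.2 (ab hy b (BU hb)), mul_one] at h
  have n : L ≤ Nm(B ⊓ Cz(L)) := (le_Cz_comm inf_le_right).trans (Cz_le_Nm _)
  have h3 : L ≤ secCz (zpowers d) (B ⊓ Cz(L)) := e.trans (sup_le (le_secCz (zpowers_le.2 (n (UL hy)))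
    (CfH8.commutator_zpowers_le (n (cj_le_iff_forall.2 (fun x hx =>
      mul_mem (mul_mem hg (UL (BU hx))) (inv_mem hg)) hd)) (n (UL hy)) (mi h1 h2)))
    (le_secCz (((cj_mono g UL).trans (cj_eq_of_mem hg).le).trans n) ((comm_eq_bot_left.2
      (zpowers_le.2 ((cj_mono g (BU.trans ab)).trans (cj_centralizer g U).le hd))).le.trans bot_le)))
  have h4 := ((h3 (inv_mem hg)).2 d (mem_zpowers d)).1
  refine mul_mem hb ?_
  simpa [commutatorElement_def, mul_assoc] using mul_mem h4 (mem_cj.1 hd)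

theorem exists_minL (hU : IsPGroup 2 U) (UH : U ≤ H) (n : ¬ U ≤ pCoreOf 2 H) :
    ∃ L, U ≤ L ∧ L ≤ H ∧ ¬ U ≤ pCoreOf 2 L ∧
      ∀ y ∈ U, y ∉ pCoreOf 2 L → ∃ g ∈ L, L ≤ zpowers y ⊔ cj g U := by
  obtain ⟨L, ⟨h1, h2⟩, h3, h4⟩ :=
    exists_minimal_le (fun L => U ≤ L ∧ ¬ U ≤ pCoreOf 2 L) (A := H) ⟨UH, n⟩
  refine ⟨L, h1, h3, h2, fun y hy ny => by_contra fun c => ny (zpowers_le.1
    (CfH1.baer_suzuki_le_pCoreOf (zpowers_le.2 (h1 hy)) fun g hg => ?_))⟩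
  have l : zpowers y ⊔ cj g U ≤ L :=
    sup_le (zpowers_le.2 (h1 hy)) ((cj_mono g h1).trans (cj_eq_of_mem hg).le)
  have k : cj g U ≤ pCoreOf 2 (zpowers y ⊔ cj g U) := by
    rw [cj_le_iff, cj_pCoreOf]
    refine by_contra fun e => c ⟨g, hg, ?_⟩
    rw [← cj_le_cj_iff (g := g⁻¹), cj_eq_of_mem (inv_mem hg)]
    exact (h4 _ ⟨cj_le_iff.1 le_sup_right, e⟩
      ((cj_mono _ l).trans (cj_eq_of_mem (inv_mem hg)).le)).ge
  exact (isPGroup_sup (hU.to_le (zpowers_le.2 hy)) (isPGroup_pCoreOf _)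
    (le_sup_left.trans (le_normalizer_pCoreOf _))).to_le
      (sup_le_sup_left ((cj_mono g (zpowers_le.2 hy)).trans k) _)

theorem co_of_pair (eU : IsElementaryAbelian 2 U) (UL : U ≤ L) (nU : pCoreOf 2 L ≤ Nm(U))
    (mn : ∀ y ∈ U, y ∉ pCoreOf 2 L → ∃ g ∈ L, L ≤ zpowers y ⊔ cj g U) (VU : V ≤ U)
    (nV : pCoreOf 2 L ≤ Nm(V)) (n : ¬ V ≤ pCoreOf 2 L) (nz : ¬ U ⊓ pCoreOf 2 L ≤ Cz(L)) : CO V := by
  obtain ⟨y, hy, ny⟩ := SetLike.not_le_iff_exists.1 n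
  obtain ⟨g, hg, e⟩ := mn y (VU hy) ny
  have nP := le_normalizer_pCoreOf (p := 2) L
  have PL := pCoreOf_le (p := 2) L
  generalize pCoreOf 2 L = P at *
  have ab := elemAb_le_Cz eU
  have ab' : cj g U ≤ Cz(cj g U) := (cj_mono g ab).trans (cj_centralizer g U).le
  have gP := cj_eq_of_mem_normalizer (nP hg)
  have gC := cj_eq_of_mem_normalizer (mem_Nm_Cz (le_normalizer hg))
  have c : ⁅P, U⁆ ≤ U ⊓ P := le_inf (comm_le_right nU) (comm_le_left (UL.trans nP))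
  have DP : cj g (U ⊓ P) ≤ P := (cj_mono g inf_le_right).trans gP.le
  have DX : cj g (U ⊓ P) ≤ cj g U := cj_mono g inf_le_left
  have k : ∀ d ∈ cj g U, d ∈ Cz(zpowers y) → d ∈ Cz(L) := fun d h1 h2 =>
    Cz_anti e (zpowers_le.1 (le_Cz_comm (sup_le (le_Cz_comm (zpowers_le.2 h2))
      (le_Cz_comm (zpowers_le.2 (ab' h1))))))
  have yC : Cz(U) ≤ Cz(zpowers y) := Cz_anti (zpowers_le.2 (VU hy))
  have nz' : ¬ cj g (U ⊓ P) ≤ Cz(L) := by rwa [← gC, cj_le_cj_iff]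
  have l : cj g (U ⊓ P) ⊓ Cz(V) ≤ Cz(L) := fun d hd =>
    k d (DX hd.1) (Cz_anti (zpowers_le.2 hy) hd.2)
  refine ⟨cj g (U ⊓ P), elemAb_of_le DX (elemAb_map eU _), DP.trans nV,
    comm_eq_bot_left.2 (le_trans (fun d hd => k d ?_ (yC (ab ?_))) (Cz_anti (DP.trans PL))),
    fun e => nz' ((le_inf le_rfl e).trans l), ?_⟩
  · refine comm_le_right (le_trans ?_ (gP.ge.trans ((cj_mono g nU).trans (cj_normalizer g U).le)))
      (commutator_mono le_rfl DX hd)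
    exact comm_le_right ((VU.trans UL).trans nP) |>.trans' (commutator_mono le_rfl DP)
  · exact comm_le_left nU (commutator_mono (((commutator_mono VU DP)).trans (comm_le_left nU)) DP hd)
  obtain ⟨d, hd, nd⟩ := SetLike.not_le_iff_exists.1 nz'
  obtain ⟨W, w1, w2, w3⟩ := CfH1.exists_pairing_one (V := U) (Z := U ⊓ P) (Z₀ := U ⊓ P ⊓ Cz(L))
    (q := d) (fun v hv => c (commutator_mem_commutator (DP hd) hv)) (ab.trans (Cz_anti inf_le_left))
    (Cz_le_Nm _ (le_Cz_comm inf_le_right (PL (DP hd))))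
  have w4 : W ≤ U ⊓ P := fun w hw => mi (w1 hw) (by_contra fun nw => by
    obtain ⟨g', hg', e'⟩ := mn w (w1 hw) nw
    refine nd (k d (DX hd) (yC (ab (mem_of_comm nP UL ab inf_le_left inf_le_right c (w1 hw) hg' e'
      (cj_le_nclo hg hd) ?_).1)))
    rw [← commutatorElement_inv]
    exact inv_mem (w3 (commutator_mem_commutator hw (mem_zpowers d))).2)
  rw [inf_relIndex_left] at w2
  have a1 := relIndex_anti' (Cz_anti (DP.trans PL)) V
  have a2 := relIndex_le_of_le_right VU (relIndex_pos' (Cz(L)) U).ne'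
  have a3 := CfH1.relIndex_le_mul (Cz(L)) _ _ (inf_le_left : U ⊓ P ≤ U)
  have a4 := relIndex_anti' l (cj g (U ⊓ P))
  rw [inf_relIndex_left, ← gC, relIndex_cj] at a4
  rw [pow_two]
  exact (a1.trans (a2.trans a3)).trans
    (Nat.mul_le_mul a4 (((relIndex_anti' w4 U).trans w2).trans a4))

theorem co_main (hH : Cz(pCoreOf 2 H) ≤ pCoreOf 2 H) (hT : SylIn 2 T H) (VT : V ≤ T)
    (nV : T ≤ Nm(V)) (nq : NQ V) (hn : ¬ V ≤ pCoreOf 2 H)
    (eU : IsElementaryAbelian 2 (nclo V (H ⊓ Nm(V ⊓ pCoreOf 2 H))))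
    (hc : H ⊓ Nm(V ⊓ pCoreOf 2 H) ≤ Nm(pCoreOf 2 H ⊓ Cz(V))) : CO V := by
  have nQ := le_normalizer_pCoreOf (p := 2) H
  have QT := sylIn_pCoreOf_le hT
  have pQ := isPGroup_pCoreOf (p := 2) H
  have VH := VT.trans hT.le
  set Q := pCoreOf 2 H
  set N := H ⊓ Nm(V ⊓ Q)
  have TN : T ≤ N := le_inf hT.le (le_normalizer_inf nV (hT.le.trans nQ))
  have sN := hT.mono TN inf_le_left
  have UN : nclo V N ≤ N := nclo_le_of_le (VT.trans TN)
  have nU := right_le_Nm_nclo V N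
  have c : ⁅Q, nclo V N⁆ ≤ V ⊓ Q := commutator_nclo_le (inf_le_left.trans nQ) inf_le_right
    ((VT.trans TN).trans inf_le_right)
    (le_inf (comm_le_right (QT.trans nV)) (comm_le_left (VH.trans nQ)))
  have c' : ∀ m ∈ N, Q ⊓ Cz(cj m V) ≤ Cz(nclo V N) := fun m hm => by
    rw [← cj_eq_of_mem_normalizer (nQ hm.1), ← cj_centralizer, ← cj_inf,
      cj_eq_of_mem_normalizer (hc hm)]
    exact le_Cz_nclo hc inf_le_right
  have VU : ∀ m ∈ N, cj m V ≤ nclo V N := fun m hm => cj_le_nclo hm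
  have BU : V ⊓ Q ≤ nclo V N := inf_le_left.trans (le_nclo _ _)
  have BV : ∀ m ∈ N, V ⊓ Q ≤ cj m V := fun m hm =>
    (cj_eq_of_mem_normalizer hm.2).ge.trans (cj_mono m inf_le_left)
  have sy : ∀ S : Subgroup G, IsPGroup 2 S → S ≤ N → ∃ m ∈ N, S ≤ Nm(cj m V) := fun S h1 h2 => by
    obtain ⟨m, hm, e⟩ := sN.exists_le_cj h1 h2
    exact ⟨m, hm, e.trans ((cj_mono m nV).trans (cj_normalizer m V).le)⟩
  obtain ⟨L, UL, LH, nL, mn⟩ := exists_minL (elemAb_isPGroup eU) (UN.trans inf_le_left)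
    fun e => hn ((le_nclo _ _).trans e)
  generalize nclo V N = U at *
  have ab := elemAb_le_Cz eU
  obtain ⟨y, hy, ny⟩ := SetLike.not_le_iff_exists.1 nL
  obtain ⟨g, hg, e⟩ := mn y hy ny
  have k : ∀ m ∈ N, ∀ x ∈ L, cj x (cj m V) ≤ Nm(cj m V) → cj m V ≤ Nm(cj x (cj m V)) → x ∈ N :=
    fun m hm x hx h1 h2 => mi (LH hx) (mem_normalizer_of_cj_le fun a ha => by
      have e1 := elemAb_of_le (VU m hm) eU
      have := c' m hm (mi ((cj_mono x inf_le_right).trans (cj_eq_of_mem_normalizer (nQ (LH hx))).le ha)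
        ((nq.cj m).comm ((nq.cj m).cj x) e1 (elemAb_map e1 _) h1 h2 (cj_mono x (BV m hm) ha)))
      refine mem_of_comm (LH.trans nQ) UL ab BU inf_le_right c hy hg e (cj_le_nclo hx ha) ?_
      rw [commutatorElement_eq_one_iff_mul_comm.2 (this y hy).symm]
      exact one_mem _)
  have nP := le_normalizer_pCoreOf (p := 2) L
  have pS := isPGroup_sup (elemAb_isPGroup eU) (isPGroup_pCoreOf L) (UL.trans nP)
  have SL := sup_le UL (pCoreOf_le (p := 2) L)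
  have SN : U ⊔ pCoreOf 2 L ≤ N := by_contra fun n => by
    obtain ⟨x, hx, nx⟩ := SetLike.exists_of_lt (lt_inf_Nm pS
      (lt_of_le_not_ge (inf_le_left (b := N)) fun e => n (e.trans inf_le_right)))
    obtain ⟨m, hm, e'⟩ := sy _ pS.to_inf_left inf_le_right
    have l := (VU m hm).trans (le_inf (le_sup_left (b := pCoreOf 2 L)) UN)
    have ex := cj_eq_of_mem_normalizer hx.2
    exact nx (mi hx.1 (k m hm x (SL hx.1) (((cj_mono x l).trans ex.le).trans e')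
      (l.trans (ex.ge.trans ((cj_mono x e').trans (cj_normalizer _ _).le)))))
  have nz : ¬ V ⊓ Q ≤ Cz(L) := fun z => by
    have n := (le_Cz_comm z).trans (Cz_le_Nm _)
    have s := le_secCz (UL.trans n) c
    have s' := e.trans (sup_le (zpowers_le.2 (s hy)) ((cj_mono g s).trans
      (cj_eq_of_mem_normalizer (le_Nm_secCz (LH.trans nQ) n hg)).le))
    exact nL (UL.trans (pCoreOf_eq_self_iff.2 (isPGroup_of_pResidualOf_le pQ
      ((pResidualOf_le_Cz_of_le' pQ (LH.trans nQ) (commutator_le_of_le_secCz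
        ((pResidualOf_le L).trans s')) ((pResidualOf_le L).trans (le_Cz_comm z))).trans hH))).ge)
  obtain ⟨m, hm, e'⟩ := sy _ pS SN
  rw [← cj_inv_cj m V]
  refine (co_of_pair eU UL ((le_sup_right.trans SN).trans nU) mn (VU m hm) (le_sup_right.trans e')
    (fun l => nz ?_) fun z => nz ((le_inf BU ((le_inf (BU.trans UL) inf_le_right).trans
      (inf_pCoreOf_le LH))).trans z)).cj _
  have gP := cj_eq_of_mem_normalizer (nP hg)
  have := k m hm g hg (((cj_mono g l).trans gP.le).trans (le_sup_right.trans e'))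
    (l.trans (gP.ge.trans ((cj_mono g (le_sup_right.trans e')).trans (cj_normalizer _ _).le)))
  exact (BU.trans ab).trans (Cz_anti (e.trans (sup_le (zpowers_le.2 hy)
    (cj_eq_of_mem_normalizer (nU this)).le)))

end CfH7
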