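import Cfsg.Agent.OD.Pre
import Cfsg.Agent.H7.QT4

/-! # Sections of minimal parabolic groups -/

set_option autoImplicit false
set_option linter.unusedSectionVars false

open Cfsg Subgroup CfH9 CfLp Equiv
open scoped commutatorElement MatrixGroups

namespace CfH7

open CfH1 (relIndex_pos' relIndex_anti')

universe u

section Lin

variable {P : Type*} [Group P] {W : Type*} [AddCommGroup W] [DistribMulAction P W]
  [Finite P] [Finite W] [FaithfulSMul P W] {T M A B D E Y : Subgroup P} {z : W}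

theorem fx_le_cm_sup (hp : ∀ w : W, 2 • w = 0) {S K : Subgroup P} (hS : SylIn 2 S K) :
    fx W S ≤ cm W K ⊔ fx W K := fun w hw => by
  classical
  let f : K ⧸ S.subgroupOf K → W := Quotient.lift (fun k : K => (k : P) • w) fun a b h => by
    have := hw _ ((QuotientGroup.leftRel_apply (s := S.subgroupOf K)).1 h)
    change (a : P) • w = (b : P) • w
    rw [← mul_inv_cancel_left (a : P) b, mul_smul]
    exact congrArg _ this.symm
  haveI := Fintype.ofFinite (K ⧸ S.subgroupOf K)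
  have h1 : ∑ q, f q ∈ fx W K := fun k hk => by
    rw [Finset.smul_sum, ← Equiv.sum_comp (MulAction.toPerm (⟨k, hk⟩ : K)) f]
    exact Finset.sum_congr rfl fun q _ => by
      induction q using QuotientGroup.induction_on with
      | H a => exact (mul_smul k (a : P) w).symm
  have h2 : ∑ q, (f q - w) ∈ cm W K := sum_mem fun q _ => by
    induction q using QuotientGroup.induction_on with
    | H a => exact sub_mem_cm a.2 w
  obtain ⟨n, hn⟩ : Odd (S.relIndex K) := Nat.not_even_iff_odd.1 fun e =>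
    hS.not_dvd_relIndex e.two_dvd
  rw [Finset.sum_sub_distrib, Finset.sum_const, Finset.card_univ, ← Nat.card_eq_fintype_card,
    show Nat.card (K ⧸ S.subgroupOf K) = 2 * n + 1 from hn, add_smul, mul_smul, hp, zero_add,
    one_smul] at h2
  simpa using sub_mem (AddSubgroup.mem_sup_right h1) (AddSubgroup.mem_sup_left h2)

theorem Dec.inf_res_le (d : Dec W 2 T E) (hT : SylIn 2 T ⊤) (nD : T ≤ Nm(D)) (h : T ⊓ E ≤ D) :
    T ⊓ pResidualOf 2 ⊤ ≤ D := by
  haveI := d.normal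
  obtain ⟨X, ⟨h1, h2⟩, -, h3⟩ := exists_maximal_ge (fun X : Subgroup P => X.IsSubnormal ∧ T ⊓ X ≤ D)
    (A := ⊥) ⟨Subgroup.Normal.isSubnormal inferInstance, inf_le_right.trans bot_le⟩
  refine (inf_le_inf_left T ((pResidualOf_le_of_le_sup hT.pgrp (le_Nm_normal _ _)
    (d.gen.ge.trans (sup_le le_sup_right ((le_nclo E T).trans le_sup_left)))).trans
      (nclo_le_iff'.2 fun t ht => ?_))).trans h2
  have s : (cj t E).IsSubnormal := d.subn.map (MulAut.conj t).surjective
  refine le_sup_right.trans (h3 _ ⟨CfH1.isSubnormal_sup h1 s, ?_⟩ le_sup_left).le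
  rw [inf_sup_subnormal hT h1 s]
  refine sup_le h2 ?_
  rw [← cj_eq_of_mem ht, ← cj_inf, ← cj_eq_of_mem_normalizer (nD ht)]
  exact cj_mono t h

theorem PM.inf_res_le (h : PM W 2 T M z) (hY : Off W 2 Y) (hne : Y ≠ ⊥) (YD : Y ≤ D) (DM : D ≤ M)
    (nD : M ≤ Nm(D)) : T ⊓ pResidualOf 2 ⊤ ≤ D := by
  obtain ⟨C, CY, rC⟩ := h.exists_rt hY hne
  obtain ⟨A, B, l⟩ := h.exists_pl rC
  obtain ⟨g, hg, rfl⟩ := l.exists_cj_M h rC ((CY.trans YD).trans DM)
  have AD : A ≤ D :=
    cj_le_cj_iff.1 ((CY.trans YD).trans (cj_eq_of_mem_normalizer (nD hg)).ge)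
  have rt : ∀ C, Rt W C → C ≤ M → C ≤ D := fun C h1 h2 => by
    obtain ⟨g, hg, rfl⟩ := l.exists_cj_M h h1 h2
    exact (cj_mono g AD).trans (cj_eq_of_mem_normalizer (nD hg)).le
  by_cases hq : 2 < Nat.card A
  · exact (l.dec_large h hq).inf_res_le h.syl (h.min.le.trans nD)
      ((((l.rd h).sylIn l.rA l.rB (l.not_comm h)).max _ h.syl.pgrp.to_inf_left inf_le_right
        (le_inf l.AT le_sup_left)).trans AD)
  obtain ⟨E, d, -, dis, k, ρ, ψ, pd, inj⟩ :=
    l.dec_two' h (le_antisymm (not_lt.1 hq) l.rA.one_lt_card)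
  refine d.inf_res_le h.syl (h.min.le.trans nD) fun t ht => ?_
  obtain ⟨x, hx, e⟩ : ρ ⟨t, ht.2⟩ ∈ (D.subgroupOf E).map ρ := mem_of_swaps fun i hi => by
    obtain ⟨s, hs⟩ := pd.surj (swap i (ρ ⟨t, ht.2⟩ i))
    have z1 := pd.eqv ⟨t, ht.2⟩ z (ρ ⟨t, ht.2⟩ i)
    rw [show ((⟨t, ht.2⟩ : E) : P) • z = z from h.zT t ht.1, Perm.coe_inv, symm_apply_apply] at z1
    generalize ρ ⟨t, ht.2⟩ i = j at *
    have fix : ∀ w, ψ w j = ψ w i → w ∈ fx W (zpowers (s : P)) := fun w hw => by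
      rw [mem_fx_zpowers, ← sub_eq_zero, ← AddSubgroup.mem_bot, ← dis]
      refine ⟨sub_mem_cm s.2 w, (pd.ker _).1 (funext fun a => ?_)⟩
      rw [map_sub, Pi.sub_apply, pd.eqv, hs, swap_inv, Pi.zero_apply, sub_eq_zero, swap_apply_def]
      split_ifs with h1 h2
      · rw [h1, hw]
      · rw [h2, hw]
      · rfl
    have o : orderOf (s : P) = 2 := by
      rw [orderOf_coe, ← orderOf_injective ρ inj, hs]
      exact orderOf_eq_prime (by rw [sq, swap_mul_self]) fun e => hi (swap_eq_one_iff.1 e).symm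
    have c2 : Nat.card (zpowers (s : P)) = 2 := (Nat.card_zpowers _).trans o
    let φ : W →+ ZMod 2 := (Pi.evalAddMonoidHom _ j).comp ψ - (Pi.evalAddMonoidHom _ i).comp ψ
    obtain ⟨C, h1, h2⟩ := h.exists_rt (h.rs.off_of_idx (Y := zpowers (s : P)) ⟨inferInstance, by
      rintro _ ⟨n, rfl⟩
      rw [← zpow_natCast, ← zpow_mul, mul_comm, zpow_mul, zpow_natCast, ← o, pow_orderOf_eq_one,
        one_zpow]⟩ ((add_index_anti (X := φ.ker) fun w hw => fix w (sub_eq_zero.1 hw)).trans (by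
          rw [AddSubgroup.index_ker, c2]
          exact (AddSubgroup.card_le_card_addGroup _).trans (Nat.card_zmod 2).le)))
      fun e => by rw [e, card_bot] at c2; omega
    obtain rfl := (eq_bot_or_eq_of_card_prime c2 h1).resolve_left h2.ne
    exact ⟨s, rt _ h2 (h.le_M (fix z z1)) (mem_zpowers _), hs⟩
  rw [inj e] at hx
  exact hx

end Lin

variable {G : Type u} [Group G] [Finite G] {T H Y X U W A : Subgroup G}

theorem card_im' {P : Type*} [Group P] {π : H →* P} {C : Subgroup G}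
    (ker : ∀ x : H, π x = 1 ↔ (x : G) ∈ C) (hA : A ≤ H) : Nat.card (im π A) = C.relIndex A := by
  have := (card_im ker hA).trans (card_mul_relIndex (inf_le_left (b := C))).symm
  rw [inf_relIndex_left, mul_comm] at this
  exact Nat.eq_of_mul_eq_mul_left Nat.card_pos this

theorem MD.idx {P Z : Type*} [Group P] [AddCommGroup Z] [DistribMulAction P Z] [Finite Z]
    (D : MD (⊤ : Subgroup P) (⊤ : AddSubgroup Z) H X W) (hA : A ≤ H) :
    (fx Z (CfH7.im D.ρ A)).index = (secCz A W).relIndex X := by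
  have h1 := D.card_pre (fx Z (CfH7.im D.ρ A))
  have h2 := D.card_U
  rw [D.pre_fx (rl_map D.ρ hA), inf_top_eq] at h1
  rw [← card_mul_relIndex (inf_le_left (b := secCz A W)), inf_relIndex_left, h1,
    AddSubgroup.card_top, ← (fx Z (CfH7.im D.ρ A)).card_mul_index, mul_right_comm] at h2
  exact (Nat.eq_of_mul_eq_mul_left Nat.card_pos (Nat.eq_of_mul_eq_mul_right Nat.card_pos h2)).symm

theorem exists_sec_pm (hT : SylIn 2 T H) (m : MinOver T H Y) (eX : IsElementaryAbelian 2 X)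
    (nX : H ≤ Nm(X)) (nW : H ≤ Nm(W)) (XW : X ≤ Nm(W)) (hK : ¬ X ≤ secCz (pResidualOf 2 H) W)
    (hQ : ⁅X, pCoreOf 2 H⁆ ≤ secCz (pResidualOf 2 H) W) :
    ∃ (P : Type u) (_ : Group P) (_ : Finite P) (Z : Type u) (_ : AddCommGroup Z)
      (_ : DistribMulAction P Z) (_ : Finite Z) (_ : FaithfulSMul P Z)
      (D : MD (⊤ : Subgroup P) (⊤ : AddSubgroup Z) H X (X ⊓ secCz (pResidualOf 2 H) W)) (z : Z),
      PM Z 2 (im D.ρ T) (im D.ρ Y) z ∧ fx Z (im D.ρ (pResidualOf 2 H)) = ⊥ ∧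
      (∀ x : H, D.ρ x = 1 ↔ (x : G) ∈ secCz X (X ⊓ secCz (pResidualOf 2 H) W)) ∧
      T ⊓ secCz X (X ⊓ secCz (pResidualOf 2 H) W) = pCoreOf 2 H := by
  have nK := le_normalizer_pResidualOf (p := 2) H
  have KH := pResidualOf_le (p := 2) H
  have n0 := le_normalizer_inf nX (le_Nm_secCz nK nW)
  have k : X ⊓ secCz (pResidualOf 2 H) (X ⊓ secCz (pResidualOf 2 H) W) ≤
      X ⊓ secCz (pResidualOf 2 H) W := le_inf inf_le_left (le_secCz (inf_le_left.trans XW) (by
    rw [commutator_comm, ← commutator_pResidualOf_idem (elemAb_isPGroup eX).to_inf_left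
      (le_normalizer_inf nX (le_Nm_secCz nK n0)), commutator_comm]
    exact commutator_le_of_le_secCz ((commutator_comm _ _).le.trans
      ((commutator_le_of_le_secCz inf_le_right).trans inf_le_right))))
  have QC : pCoreOf 2 H ≤ secCz X (X ⊓ secCz (pResidualOf 2 H) W) :=
    le_secCz ((pCoreOf_le H).trans n0) (le_inf (comm_le_left ((pCoreOf_le H).trans nX)) hQ)
  have ab := comm_eq_bot_left.2 (elemAb_le_Cz eX)
  have l0 : X ⊓ secCz (pResidualOf 2 H) W ≤ X := inf_le_left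
  replace hK : ¬ X ≤ X ⊓ secCz (pResidualOf 2 H) W := fun e => hK (e.trans inf_le_right)
  generalize X ⊓ secCz (pResidualOf 2 H) W = X₀ at *
  have nC := le_Nm_secCz nX n0
  have nH := le_normalizer_inf le_normalizer nC
  have CY : H ⊓ secCz X X₀ ≤ Y := (m.pResidualOf_le_or hT.pgrp inf_le_left nH).resolve_left fun e =>
    hK ((le_inf le_rfl (le_secCz (le_Nm_of_comm_le l0 (ab.le.trans bot_le)) ((commutator_comm _ _).le.trans
      (commutator_le_of_le_secCz (e.trans inf_le_right))))).trans k)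
  haveI := normal_subgroupOf_of_le_normalizer nC
  have sj := QuotientGroup.mk'_surjective ((secCz X X₀).subgroupOf H)
  obtain ⟨Z, _, _, D, hD⟩ := exists_md nX n0 l0 (ab.le.trans bot_le) _ sj
    fun x hx => (QuotientGroup.eq_one_iff x).1 hx
  have ker : ∀ x : H, D.ρ x = 1 ↔ (x : G) ∈ secCz X X₀ := fun x => hD ▸ QuotientGroup.eq_one_iff x
  haveI : Finite Z := Finite.of_surjective (fun u : X => D.c u) fun w => by
    obtain ⟨u, hu, e⟩ := D.c_surj w trivial
    exact ⟨⟨u, hu⟩, e⟩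
  have hp : ∀ w : Z, 2 • w = 0 := fun w => by
    obtain ⟨u, hu, rfl⟩ := D.c_surj w trivial
    rw [← D.c_pow hu, eX.2 u hu, D.c_one]
  have f0 : fx Z (im D.ρ (pResidualOf 2 H)) = ⊥ := eq_bot_iff.2 fun w hw => by
    obtain ⟨u, hu, rfl⟩ := D.c_surj w trivial
    exact (D.c_zero u hu).2 (k ((D.pre_fx (rl_map D.ρ KH)).le ⟨hu, hw⟩))
  obtain ⟨z, -, z0, z1⟩ := exists_fixed hp (isPGroup_im (π := D.ρ) hT.pgrp) (U := ⊤)
    (fun a _ => mem_st_top a) fun e => hK fun u hu => (D.c_zero u hu).1 (e.le trivial)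
  have m' : MinOver (T.subgroupOf H) ⊤ (Y.subgroupOf H) := by
    rwa [← minOver_map_iff H.subtype_injective, map_subgroupOf_eq_of_le hT.le,
      map_subgroupOf_eq_of_le m.lt.le, map_subtype_top]
  have CY' : (secCz X X₀).subgroupOf H ≤ Y.subgroupOf H := fun x hx => CY (mi x.2 hx)
  refine ⟨_, inferInstance, inferInstance, Z, inferInstance, inferInstance, inferInstance,
    ⟨fun {a b} h => ?_⟩, D, z, ⟨hp, hD ▸ hT.subgroupOf_top.map_surj sj, ?_,
      m'.pCore_quot hT.subgroupOf_top _ CY' fun x hx => QC ⟨x, hx, rfl⟩, z1,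
      fun e => z0 (f0.le (fx_anti le_top e))⟩, f0, ker, le_antisymm ((m.pCl_of_normal hT.pgrp CY nH _
        (inf_le_inf_right _ hT.le) hT.pgrp.to_inf_left).trans
          (subnIn_of_normal inf_le_left nH).pCoreOf_le) (le_inf (sylIn_pCoreOf_le hT) QC)⟩
  · obtain ⟨x, hx⟩ := D.ex (mem_top (a⁻¹ * b))
    rw [← inv_mul_eq_one, ← hx, ker, D.mem_sec_iff]
    exact fun y _ => by rw [hx, mul_smul, ← h, inv_smul_smul]
  · have := m'.map (QuotientGroup.mk' ((secCz X X₀).subgroupOf H))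
      (by rw [QuotientGroup.ker_mk']; exact inf_le_right.trans CY')
    rwa [map_top_of_surjective _ sj, ← hD] at this

theorem noo_sec (hT : SylIn 2 T H) (m : MinOver T H Y) (eU : IsElementaryAbelian 2 U)
    (nU : H ≤ Nm(U)) (WU : W ≤ U) (nW : H ≤ Nm(W)) (hK : ¬ ⁅U, pResidualOf 2 H⁆ ≤ W)
    (eA : IsElementaryAbelian 2 A) (AT : A ≤ T) :
    (pCoreOf 2 H).relIndex A ≤ (secCz A W).relIndex U := by
  obtain ⟨X, ⟨nX, hX⟩, XU, mn⟩ := exists_minimal_le
    (fun X => H ≤ Nm(X) ∧ ¬ X ≤ secCz (pResidualOf 2 H) W) (A := U)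
    ⟨nU, fun e => hK ((commutator_comm _ _).le.trans (commutator_le_of_le_secCz e))⟩
  have eX := elemAb_of_le XU eU
  have lt := commutator_lt_of_isPGroup (elemAb_isPGroup eX) (isPGroup_pCoreOf (p := 2) H)
    ((pCoreOf_le H).trans nX) fun e => hX (e.le.trans bot_le)
  have UW : U ≤ Nm(W) := (elemAb_le_Cz eU).trans ((Cz_anti WU).trans (Cz_le_Nm _))
  obtain ⟨P, _, _, Z, _, _, _, _, D, z, pm, -, ker, e⟩ := exists_sec_pm hT m eX nX nW (XU.trans UW) hX
    (by_contra fun e => lt.ne (mn _ ⟨le_normalizer_commutator nX (le_normalizer_pCoreOf H), e⟩ lt.le))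
  have AH := AT.trans hT.le
  have h1 := lm_le_card_iff.1 (pm.rs.noo _ (elemAb_im (π := D.ρ) eA))
  rw [card_im' ker AH, D.idx AH, ← inf_relIndex_right, ← inf_eq_right.2 AT, ← inf_assoc,
    inf_comm _ T, e, inf_eq_right.2 AT, inf_relIndex_right] at h1
  refine (h1.trans ?_).trans (relIndex_le_of_le_right XU (relIndex_pos' _ _).ne')
  rw [← inf_relIndex_right (secCz A W)]
  refine relIndex_anti' (le_secCz (inf_le_right.trans D.U_le_Nm) (le_inf
    ((commutator_mono le_rfl inf_le_right).trans (comm_le_right (AH.trans nX)))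
    ((commutator_le_of_le_secCz inf_le_left).trans (le_secCz le_normalizer
      (comm_le_right ((pResidualOf_le H).trans nW)))))) X

end CfH7
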