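import Cfsg.Agent.OD.Pre
import Cfsg.Agent.H7.QT5

/-! # The qrc-lemma: the abelian case -/

set_option autoImplicit false
set_option linter.unusedSectionVars false

open Cfsg Subgroup CfH9 CfLp Equiv
open scoped commutatorElement MatrixGroups

namespace CfH7

open CfH8 (JJ MaxEl)
open CfH1 (relIndex_pos' relIndex_anti')

universe u

variable {G : Type u} [Group G] [Finite G] {T H Y U V W A A₀ S Q D : Subgroup G}

theorem exists_quad_off (hA : MaxEl 2 A₀ S) (US : U ≤ S) (eU : IsElementaryAbelian 2 U)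
    (nU : S ≤ Nm(U)) (n : ¬ A₀ ≤ Cz(U)) : ∃ A, A ≤ A₀ ∧ ¬ A ≤ Cz(U) ∧ ⁅⁅U, A⁆, A⁆ = ⊥ ∧
      (Cz(A)).relIndex U ≤ (Cz(U)).relIndex A := by
  have b := hA.best US eU
  have c : ⁅A₀, A₀⁆ ≤ Cz(U) := (comm_eq_bot_left.2 (elemAb_le_Cz hA.el)).le.trans bot_le
  refine ⟨_, inf_le_left, b.timmesfeld_ne eU.1 (elemAb_isPGroup eU) (hA.le.trans nU) c
    ((pResidualOf_eq_bot_of_isPGroup (elemAb_isPGroup hA.el)).le.trans bot_le) n,
    comm_eq_bot_right.2 (inf_le_right.trans (Cz_anti (commutator_mono le_rfl inf_le_left))), ?_⟩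
  have k := b.timmesfeld_best eU.1 (hA.le.trans nU) c le_rfl
  generalize A₀ ⊓ Cz(⁅U, A₀⁆) = A at k
  have k := k (A ⊓ Cz(U)) inf_le_left
  rw [CfH8.ms_of_le_Cz inf_le_right, CfH8.ms, ← card_mul_relIndex (inf_le_left : A ⊓ Cz(U) ≤ A),
    ← card_mul_relIndex (inf_le_left : U ⊓ Cz(A) ≤ U), inf_relIndex_left, inf_relIndex_left,
    mul_assoc, mul_comm (relIndex _ _)] at k
  exact Nat.le_of_mul_le_mul_left (Nat.le_of_mul_le_mul_left k Nat.card_pos) Nat.card_pos

theorem nq_chain (nq : NQ V) (pQ : IsPGroup 2 Q) (nQ : H ≤ Nm(Q)) (QV : Q ≤ Nm(V)) (B : Subgroup G) :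
    B ≤ Q → ⁅⁅nclo V H, B⁆, B⁆ = ⊥ → ¬ B ≤ Cz(nclo V H) →
      (Cz(nclo V H)).relIndex B ^ 2 < (Cz(B)).relIndex (nclo V H) := by
  induction B using subgroup_induction with
  | h B ih =>
  intro hB hq hn
  obtain ⟨g, hg, h2⟩ : ∃ g ∈ H, ¬ B ≤ Cz(cj g V) := by
    by_contra! e
    exact hn (le_Cz_comm (nclo_le_iff'.2 fun k hk => le_Cz_comm (e k hk)))
  have h1 : cj g V ≤ nclo V H := cj_le_nclo hg
  have h3 := nq.cj g B (pQ.to_le hB) (hB.trans ((cj_eq_of_mem_normalizer (nQ hg)).ge.trans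
    ((cj_mono g QV).trans (cj_normalizer g V).le)))
    (eq_bot_iff.2 ((commutator_mono (commutator_mono h1 le_rfl) le_rfl).trans hq.le)) h2
  generalize cj g V = X at *
  generalize nclo V H = U at *
  have h4 : (Cz(U)).relIndex (Cz(X) ⊓ B) ^ 2 ≤ (Cz(Cz(X) ⊓ B)).relIndex U := by
    by_cases e : Cz(X) ⊓ B ≤ Cz(U)
    · rw [relIndex_eq_one.2 e, one_pow]; exact relIndex_pos' _ _
    · exact (ih _ (card_lt_of_lt (lt_of_le_not_ge inf_le_right fun e => h2 (e.trans inf_le_left)))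
        (inf_le_right.trans hB) (eq_bot_iff.2 ((commutator_mono (commutator_mono le_rfl inf_le_right)
          inf_le_right).trans hq.le)) e).le
  have e1 := relIndex_inf_mul_relIndex (Cz(U)) (Cz(X)) B
  have e2 := relIndex_inf_mul_relIndex (Cz(B)) (Cz(Cz(X) ⊓ B)) U
  rw [inf_of_le_left (Cz_anti h1)] at e1
  rw [inf_of_le_left (Cz_anti inf_le_right)] at e2
  have h5 : (Cz(B)).relIndex X ≤ (Cz(B)).relIndex (Cz(Cz(X) ⊓ B) ⊓ U) :=
    relIndex_le_of_le_right (le_inf (le_Cz_comm inf_le_left) h1) (relIndex_pos' _ _).ne'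
  rw [← e1, ← e2, mul_pow, mul_comm]
  exact Nat.mul_lt_mul_of_lt_of_le (h3.trans_le h5) h4 (relIndex_pos' _ _)

theorem relIndex_split (UW : U ≤ Nm(W)) (WU : W ≤ U) (AW : A ≤ Nm(W)) :
    (Cz(A)).relIndex W * (secCz A W).relIndex U ≤ (Cz(A)).relIndex U := by
  refine (Nat.mul_le_mul_right _ (relIndex_le_of_le_right
    (le_inf (le_secCz le_normalizer (comm_le_right AW)) WU) (relIndex_pos' _ _).ne')).trans ?_
  rw [relIndex_inf_mul_relIndex, ← inf_relIndex_right (Cz(A))]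
  exact relIndex_anti' (le_inf inf_le_left (le_secCz (inf_le_right.trans UW)
    ((comm_eq_bot_right.2 inf_le_left).le.trans bot_le))) U

theorem qrc_ab (hT : SylIn 2 T H) (m : MinOver T H Y) (VQ : V ≤ pCoreOf 2 H) (nV : T ≤ Nm(V))
    (nq : NQ V) (eU : IsElementaryAbelian 2 (nclo V H)) (nH : ¬ H ≤ Nm(V))
    (hA : MaxEl 2 A₀ (T ⊓ Cz(V))) (nA : ¬ A₀ ≤ pCoreOf 2 H) (DY : D ≤ Y) (nD : Y ≤ Nm(D))
    (TD : T ⊓ D = T ⊓ Cz(V)) : T ⊓ pResidualOf 2 H ≤ Cz(V) := by
  have nQ := le_normalizer_pCoreOf (p := 2) H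
  have nK := le_normalizer_pResidualOf (p := 2) H
  have KH := pResidualOf_le (p := 2) H
  have QT := sylIn_pCoreOf_le hT
  have pQ := isPGroup_pCoreOf (p := 2) H
  have TH := hT.le
  have QH := QT.trans TH
  have gen : ∀ X : Subgroup G, T ≤ Nm(X) → pResidualOf 2 H ≤ Nm(X) → H ≤ Nm(X) := fun X h1 h2 =>
    hT.sup_pResidualOf.ge.trans (sup_le h2 h1)
  have UQ : nclo V H ≤ pCoreOf 2 H := nclo_le nQ VQ
  have nU := right_le_Nm_nclo V H
  have VU := le_nclo V H
  have ch := nq_chain nq pQ nQ (QT.trans nV)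
  have UV : nclo V H ≤ V ⊔ ⁅nclo V H, pResidualOf 2 H⁆ :=
    ((SylIn.nclo_eq hT nV).trans (nclo_eq_sup _ _)).le.trans (sup_le_sup_left (commutator_mono VU le_rfl) _)
  have cU : ∀ X : Subgroup G, H ≤ Nm(X) → X ≤ Cz(V) → X ≤ Cz(nclo V H) := fun X => le_Cz_nclo
  have nVU : ¬ nclo V H ≤ V := fun e => nH (le_antisymm e VU ▸ nU)
  generalize nclo V H = U at *
  have ab := elemAb_le_Cz eU
  have pU := elemAb_isPGroup eU
  have nab : ∀ X : Subgroup G, X ≤ U → U ≤ Nm(X) := fun X h => ab.trans ((Cz_anti h).trans (Cz_le_Nm _))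
  have KU : ¬ pResidualOf 2 H ≤ Cz(U) := fun e =>
    nH (gen _ nV (e.trans ((Cz_anti VU).trans (Cz_le_Nm _))))
  have nC := le_normalizer_inf le_normalizer (le_normalizer_centralizer nU)
  have CQ : T ⊓ Cz(U) ≤ pCoreOf 2 H := (m.pCl_of_normal hT.pgrp ((m.pResidualOf_le_or hT.pgrp
    inf_le_left nC).resolve_left fun e => KU (e.trans inf_le_right)) nC _ (inf_le_inf_right _ TH)
      hT.pgrp.to_inf_left).trans (subnIn_of_normal inf_le_left nC).pCoreOf_le
  obtain ⟨A, A0, nA, qA, oA⟩ := exists_quad_off hA (le_inf (UQ.trans QT) (ab.trans (Cz_anti VU))) eU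
    ((inf_le_left.trans TH).trans nU) fun e => nA ((le_inf (hA.le.trans inf_le_left) e).trans CQ)
  have eA := elemAb_of_le A0 hA.el
  have AR := A0.trans hA.le
  have AT := AR.trans inf_le_left
  have AH := AT.trans TH
  have o2 := oA.trans (CfH1.relIndex_le_mul (Cz(U)) _ _ (inf_le_left : A ⊓ pCoreOf 2 H ≤ A))
  rw [inf_relIndex_left] at o2
  have a0 := relIndex_pos' (pCoreOf 2 H) A
  have lt : (Cz(A)).relIndex U < (pCoreOf 2 H).relIndex A * (pCoreOf 2 H).relIndex A := by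
    refine o2.trans_lt (Nat.mul_lt_mul_of_lt_of_le ?_ le_rfl a0)
    by_cases e : A ⊓ pCoreOf 2 H ≤ Cz(U)
    · rw [relIndex_eq_one.2 e]
      exact lt_of_le_of_ne a0 fun e' => nA ((le_inf le_rfl (relIndex_eq_one.1 e'.symm)).trans e)
    · have := (ch _ inf_le_right (eq_bot_iff.2 ((commutator_mono (commutator_mono le_rfl inf_le_left)
        inf_le_left).trans qA.le)) e).trans_le ((relIndex_anti' (Cz_anti inf_le_left) U).trans o2)
      rw [pow_two] at this
      exact lt_of_mul_lt_mul_left this (Nat.zero_le _)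
  have c1 : ∀ W : Subgroup G, W ≤ U → H ≤ Nm(W) →
      ⁅U, pResidualOf 2 H⁆ ≤ W ∨ W ≤ Cz(pResidualOf 2 H) := fun W h1 h2 => by
    by_contra! n
    have n2 := noo_sec hT m (elemAb_of_le h1 eU) h2 bot_le (le_Nm_normal _ _)
      (fun e => n.2 (comm_eq_bot_left.1 (le_bot_iff.1 e))) eA AT
    rw [secCz_bot] at n2
    exact lt.not_ge ((Nat.mul_le_mul n2 (noo_sec hT m eU nU h1 h2 n.1 eA AT)).trans
      (relIndex_split (nab W h1) h1 (AH.trans h2)))
  have l1 : ⁅U, pCoreOf 2 H⁆ ≤ U := comm_le_left (QH.trans nU)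
  have s1 : ⁅U, pCoreOf 2 H⁆ ≤ Cz(pResidualOf 2 H) :=
    (c1 _ l1 (le_normalizer_commutator nU nQ)).resolve_left fun e => nVU
      (le_of_le_sup_commutator pU pQ (QH.trans nU) (QT.trans nV) (nab V VU)
        (UV.trans (sup_le_sup_left e _)))
  have n0 := le_normalizer_inf nU (le_normalizer_centralizer nK)
  have l2 : ⁅pCoreOf 2 H, pResidualOf 2 H⁆ ≤ pCoreOf 2 H := comm_le_left (KH.trans nQ)
  have n1 := le_normalizer_commutator nQ nK
  have s2 : ⁅pCoreOf 2 H, pResidualOf 2 H⁆ ≤ Cz(U ⊓ Cz(pResidualOf 2 H)) :=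
    comm_eq_bot_left.1 (le_bot_iff.1 (three_subgroups_normal
      (by rw [comm_eq_bot_right.2 inf_le_right, commutator_bot_left])
      (comm_eq_bot_left.2 ((commutator_mono inf_le_left le_rfl).trans s1)).le))
  have s3 : ⁅pCoreOf 2 H, pResidualOf 2 H⁆ ≤ Cz(V) := by
    have id := commutator_pResidualOf_idem pQ nQ
    generalize ⁅pCoreOf 2 H, pResidualOf 2 H⁆ = Q₁ at *
    by_contra n
    have ZU : ⁅U, Q₁⁆ ≤ U := comm_le_left ((l2.trans QH).trans nU)
    have ZK := (commutator_mono le_rfl l2).trans s1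
    have nZ := le_normalizer_commutator nU n1
    obtain ⟨Z₀, z1, z2, z3⟩ := CfH1.exists_relIndex_prime_ge (pU.to_le ZU)
      (commutator_lt_of_isPGroup (pU.to_le ZU) hT.pgrp (TH.trans nZ)
        fun e => n ((comm_eq_bot_right.1 e).trans (Cz_anti VU)))
    have nZ₀ := gen _ (le_Nm_of_comm_le z2 z1) ((le_Cz_comm (z2.trans ZK)).trans (Cz_le_Nm _))
    have UZ := nab _ (z2.trans ZU)
    rcases c1 _ inf_le_left (le_normalizer_inf nU (le_Nm_secCz n1 nZ₀)) with e | e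
    · have := three_subgroups ((l2.trans QH).trans nZ₀) (KH.trans nZ₀) UZ
        ((commutator_comm _ _).le.trans (commutator_le_of_le_secCz
          ((commutator_comm _ _).le.trans (e.trans inf_le_right))))
        ((comm_eq_bot_left.2 ZK).le.trans bot_le)
      rw [id, commutator_comm, ← relIndex_eq_one, z3] at this
      omega
    · obtain ⟨W, w1, w2, w3⟩ := CfH1.exists_pairing ((VU.trans ab).trans (Cz_anti ZU)) z3.le Q₁
        ((commutator_comm _ _).le.trans (commutator_mono VU le_rfl)) ((l2.trans QH).trans nZ₀)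
      have w4 := le_inf (w1.trans VU) (le_secCz ((w1.trans VU).trans UZ)
        ((commutator_comm _ _).le.trans w3))
      have := (nq Q₁ (pQ.to_le l2) ((l2.trans QT).trans nV) (comm_eq_bot_right.2 (s2.trans (Cz_anti
        ((commutator_mono VU le_rfl).trans (le_inf ZU ZK))))) n).trans_le ((relIndex_anti'
          ((le_inf (w4.trans inf_le_left) (w4.trans e)).trans (le_Cz_comm s2)) V).trans w2)
      have := relIndex_pos' (Cz(V)) Q₁
      nlinarith
  have s4 := cU _ (gen (pCoreOf 2 H ⊓ Cz(V)) (le_normalizer_inf (TH.trans nQ)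
    (le_normalizer_centralizer nV)) (le_Nm_of_comm_le inf_le_left (le_inf l2 s3))) inf_le_right
  rw [relIndex_eq_one.2 ((le_inf inf_le_right (inf_le_left.trans (AR.trans inf_le_right))).trans s4),
    one_mul] at o2
  have := exists_sec_pm hT m eU nU (W := ⊥) (le_Nm_normal _ _) (le_Nm_normal _ _)
    (by rw [secCz_bot]; exact fun e => KU (le_Cz_comm e)) (by rwa [secCz_bot])
  rw [secCz_bot] at this
  obtain ⟨P, _, _, Z, _, _, _, _, E, z, pm, f0, ker, e⟩ := this
  have l0 : U ⊓ Cz(pResidualOf 2 H) ≤ U := inf_le_left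
  have k0 : U ⊓ Cz(pResidualOf 2 H) ≤ Cz(pResidualOf 2 H) := inf_le_right
  replace s1 := le_inf l1 s1
  generalize U ⊓ Cz(pResidualOf 2 H) = U₀ at *
  have cA := card_im' ker AH
  rw [← inf_relIndex_right, ← inf_eq_right.2 AT, ← inf_assoc, inf_comm _ T, e, inf_eq_right.2 AT,
    inf_relIndex_right] at cA
  have sp := (relIndex_split (nab _ l0) l0 (AH.trans n0)).trans o2
  have a1 := relIndex_pos' (Cz(A)) U₀
  have off := pm.rs.off_of_idx (elemAb_im (π := E.ρ) eA) (by rw [E.idx AH, cA]; nlinarith)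
  have oi := off.idx
  rw [E.idx AH, cA] at oi
  have AU : A ≤ Cz(U₀) := le_Cz_comm (relIndex_eq_one.1 (by rw [oi] at sp; nlinarith))
  have YH := m.lt.le
  have nD₁ := le_normalizer_inf nD (le_normalizer_centralizer (YH.trans n0))
  have nC := le_normalizer_inf le_normalizer (le_Nm_secCz nU n0)
  have CY : H ⊓ secCz U U₀ ≤ Y := (m.pResidualOf_le_or hT.pgrp inf_le_left nC).resolve_left fun e =>
    KU (pResidualOf_le_Cz_of_le' pU nU (commutator_le_of_le_secCz (e.trans inf_le_right))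
      (le_Cz_comm k0))
  have key := pm.inf_res_le off (fun e' => nA ((le_inf le_rfl ((le_inf AT
    ((im_eq_bot_iff ker AH).1 e')).trans e.le)).trans ((le_inf inf_le_right
      (inf_le_left.trans (AR.trans inf_le_right))).trans s4)))
    (im_mono (le_inf ((AR.trans TD.ge).trans inf_le_right) AU)) (im_mono (inf_le_left.trans DY))
    ((im_le_iff YH).2 fun y hy => mem_normalizer_iff_cj.2 (by
      rw [← im_cj]; exact congrArg _ (cj_eq_of_mem_normalizer (nD₁ hy))))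
  have iH : im E.ρ H = ⊤ := by rw [im, subgroupOf_self, ← MonoidHom.range_eq_map, E.range]
  rw [← (im_res (p := 2) le_rfl).trans (congrArg _ iH)] at key
  have t1 : T ⊓ pResidualOf 2 H ≤ (T ⊓ (D ⊓ Cz(U₀))) ⊔ pCoreOf 2 H := by
    refine (le_inf inf_le_left ((im_le_im_iff ker (inf_le_left.trans TH) ((inf_le_left.trans DY).trans
      YH)).1 ((le_inf (im_mono inf_le_left) (im_mono inf_le_right)).trans key))).trans ?_
    rw [inf_sup_subnIn (hT.mono m.le YH) (subnIn_of_normal (inf_le_left.trans DY) nD₁)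
      (subnIn_of_normal CY (YH.trans nC)), ← e]
    exact sup_le_sup_left (inf_le_inf_left _ inf_le_right) _
  have t2 : T ⊓ (D ⊓ Cz(U₀)) ≤ Cz(V) :=
    ((inf_le_inf_left _ inf_le_left).trans TD.le).trans inf_le_right
  have t3 : ⁅U, pResidualOf 2 H⁆ ≤ Cz(pCoreOf 2 H) :=
    comm_eq_bot_left.1 (le_bot_iff.1 (three_subgroups_normal
      (comm_eq_bot_left.2 ((commutator_comm _ _).le.trans ((le_inf l2 s3).trans s4))).le
      (comm_eq_bot_left.2 ((commutator_comm _ _).le.trans (s1.trans k0))).le))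
  refine le_Cz_comm fun v hv => ?_
  have t4 : v ∈ E.pre (fx Z (im E.ρ (T ⊓ pResidualOf 2 H))) :=
    (E.pre_fx (rl_map E.ρ (inf_le_left.trans TH))).ge (le_inf VU (le_secCz (VU.trans (nab _ l0))
      ((commutator_mono t1 le_rfl).trans (commutator_sup_left_le ((inf_le_left.trans TH).trans n0)
        (QH.trans n0) ((comm_eq_bot_left.2 t2).le.trans bot_le)
        ((commutator_comm _ _).le.trans ((commutator_mono VU le_rfl).trans s1))))) hv)
  have t5 := fx_le_cm_sup pm.hp (((sylIn_subgroupOf_iff (inf_le_left.trans TH) KH).2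
    (hT.inf_normal' nK KH)).map E.ρ) t4.2
  have l3 : ⁅U, pResidualOf 2 H⁆ ≤ U := comm_le_left (KH.trans nU)
  obtain ⟨x, hx, ex⟩ : E.c v ∈ E.im _ l3 := by
    refine (sup_le (cm_le_iff.2 ?_) (f0.le.trans bot_le)) t5
    rintro _ ⟨k, hk, rfl⟩ w
    obtain ⟨u, hu, rfl⟩ := E.c_surj w trivial
    exact ⟨_, (commutator_comm _ _).le (commutator_mem_commutator hk hu), E.c_comm k hu⟩
  have t6 := (E.c_eq_iff (l3 hx) (VU hv)).1 ex
  rw [← mul_inv_cancel_left x v]
  refine mul_mem (Cz_anti t1 (zpowers_le.1 (le_Cz_comm (sup_le (le_Cz_comm (zpowers_le.2 ?_))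
    (le_Cz_comm (zpowers_le.2 (t3 hx))))))) (Cz_anti inf_le_right (k0 t6))
  simpa using mul_mem (le_Cz_comm t2 hv)
    (inv_mem (le_Cz_comm (inf_le_right.trans inf_le_right : T ⊓ (D ⊓ Cz(U₀)) ≤ _) t6))

end CfH7
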