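import Cfsg.Agent.OD.Pre
import Cfsg.Agent.H7.QT6

/-! # The qrc-lemma -/

set_option autoImplicit false
set_option linter.unusedSectionVars false

open Cfsg Subgroup CfH9 CfLp Equiv
open scoped commutatorElement MatrixGroups

namespace CfH7

open CfH8 (JJ MaxEl)

universe u

variable {G : Type u} [Group G] [Finite G] {T H Y V M M₀ : Subgroup G}

theorem UMax.minOver (u : UMax T H Y) (hT : SylIn 2 T H) (n : ¬ T ≤ pCoreOf 2 H) :
    MinOver T H Y := ⟨u, by
  refine u.eq_of_not_le (le_nclo T H) (nclo_le_of_le hT.le) fun e => u.lt.not_ge ?_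
  rw [← (hT.mono (le_nclo T H) (nclo_le_of_le hT.le)).frattini_sup (right_le_Nm_nclo T H)
    (nclo_le_of_le hT.le)]
  exact sup_le e ((u.eq_or_le (le_inf hT.le le_normalizer) inf_le_left).resolve_left fun e' =>
    n (le_pCoreOf hT.le (e'.ge.trans inf_le_right) hT.pgrp))⟩

theorem inf_secCz_res (hT : SylIn 2 T M) :
    T ⊓ secCz (pResidualOf 2 M) (pCoreOf 2 (pResidualOf 2 M)) = pCoreOf 2 M := by
  have KM := pResidualOf_le (p := 2) M
  have nK := le_normalizer_pResidualOf (p := 2) M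
  have nO := nK.trans (normalizer_le_normalizer_pCoreOf (p := 2) _)
  refine le_antisymm (le_sup_left.trans (le_pCoreOf (sup_le (inf_le_left.trans hT.le)
    ((pCoreOf_le _).trans KM)) (hT.sup_pResidualOf.ge.trans (sup_le (le_Nm_sup_of_comm_le
      (le_normalizer_pCoreOf _) (((commutator_comm _ _).le.trans
        (commutator_le_of_le_secCz inf_le_right)).trans le_sup_right)) (le_normalizer_sup
          (le_normalizer_inf le_normalizer (le_Nm_secCz (hT.le.trans nK) (hT.le.trans nO)))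
          (hT.le.trans nO)))) (isPGroup_sup hT.pgrp.to_inf_left (isPGroup_pCoreOf _)
            ((inf_le_left.trans hT.le).trans nO)))) (le_inf (sylIn_pCoreOf_le hT)
    (le_secCz ((pCoreOf_le M).trans nO) ((le_inf (comm_le_left ((pCoreOf_le M).trans nK))
      (comm_le_right (KM.trans (le_normalizer_pCoreOf M)))).trans (inf_pCoreOf_le KM))))

theorem qrc (hT : SylIn 2 T ⊤)
    (par : ∀ L, T ≤ L → pCoreOf 2 L ≠ ⊥ → Cz(pCoreOf 2 L) ≤ pCoreOf 2 L) (TM : T ≤ M₀)
    (MM : M₀ ≤ M) (hM : pCoreOf 2 M ≠ ⊥) (u : UMax T H (H ⊓ M)) (hH : pCoreOf 2 H ≠ ⊥)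
    (eV : IsElementaryAbelian 2 V) (nV : M₀ ≤ Nm(V)) (hR : pCoreOf 2 M₀ = T ⊓ Cz(V))
    (hI : H ⊓ M ≤ Nm(pResidualOf 2 M₀) ∨ H ⊓ M ≤ Nm(V)) (nq : NQ V)
    (n : ∀ X, X ≠ ⊥ → X ≤ pCoreOf 2 M₀ → ¬ M₀ ⊔ H ≤ Nm(X)) : ¬ V ≤ pCoreOf 2 H ∧ CO V := by
  have sH := hT.mono u.le' le_top
  have TV := TM.trans nV
  have OM : pCoreOf 2 M ≤ pCoreOf 2 M₀ := (le_inf ((sylIn_pCoreOf_le
    (hT.mono (TM.trans MM) le_top)).trans TM) le_rfl).trans (inf_pCoreOf_le MM)
  have R0 := ne_bot_of_le OM hM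
  have VC := le_Cz_comm ((OM.trans hR.le).trans inf_le_right)
  have VO := VC.trans (par M (TM.trans MM) hM)
  have VT : V ≤ T := ((VO.trans OM).trans hR.le).trans inf_le_left
  have QT := sylIn_pCoreOf_le sH
  have nQ := le_normalizer_pCoreOf (p := 2) H
  have pQ := isPGroup_pCoreOf (p := 2) H
  have nR := le_normalizer_pCoreOf (p := 2) M₀
  have fin : ¬ T ⊓ pResidualOf 2 H ≤ Cz(V) := fun e => by
    have nK := le_normalizer_pResidualOf (p := 2) H
    have RT := hR.le.trans inf_le_left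
    have s := sH.inf_normal (N := pResidualOf 2 H ⊔ pCoreOf 2 M₀) (sH.sup_pResidualOf.ge.trans
      (sup_le (le_sup_left.trans le_normalizer) (le_normalizer_sup (sH.le.trans nK) (TM.trans nR))))
    rw [inf_eq_right.2 (sup_le (pResidualOf_le H) (RT.trans sH.le)), inf_comm, sup_comm,
      inf_sup_dedekind (Or.inl ((RT.trans sH.le).trans nK)) RT, sup_eq_left.2
        ((le_inf inf_le_right ((inf_comm _ _).le.trans e)).trans hR.ge), sup_comm] at s
    obtain ⟨X, h1, h2, h3⟩ := common_normal hT par TM u hH R0 RT s nR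
    exact n X h1 h2 h3
  have nH : ¬ H ≤ Nm(V) := fun e => by
    by_cases v : V = ⊥
    · exact fin (le_Cz_comm (v.le.trans bot_le))
    · exact n V v ((le_inf VT (elemAb_le_Cz eV)).trans hR.ge) (sup_le nV e)
  obtain ⟨D, DY, nD, TD⟩ : ∃ D, D ≤ H ⊓ M ∧ H ⊓ M ≤ Nm(D) ∧ T ⊓ D = T ⊓ Cz(V) := by
    rcases hI with h | h
    · refine ⟨_, inf_le_left, le_normalizer_inf le_normalizer
        (le_Nm_secCz h (h.trans (normalizer_le_normalizer_pCoreOf (p := 2) _))), ?_⟩
      rw [← inf_assoc, inf_eq_left.2 u.le, inf_secCz_res (hT.mono TM le_top), hR]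
    · exact ⟨_, inf_le_left, le_normalizer_inf le_normalizer (le_normalizer_centralizer h),
        by rw [← inf_assoc, inf_eq_left.2 u.le]⟩
  have hn : ¬ V ≤ pCoreOf 2 H := fun VQ => by
    by_cases j : JJ 2 (T ⊓ Cz(V)) ≤ pCoreOf 2 H
    · by_cases j' : JJ 2 (pCoreOf 2 H) ≤ Cz(V)
      · rw [← hR] at j
        refine n _ (CfH8.J_ne_bot (isPGroup_pCoreOf _) R0) (CfH8.J_le _)
          (sup_le (nR.trans (CfH8.Nm_le_Nm_J _)) ?_)
        rw [← CfH8.J_eq_of_J_le (le_inf (CfH8.J_le _) j) inf_le_left, CfH8.J_eq_of_J_le (le_inf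
          ((le_inf ((CfH8.J_le _).trans QT) j').trans hR.ge) (CfH8.J_le _)) inf_le_right]
        exact nQ.trans (CfH8.Nm_le_Nm_J _)
      · rw [CfH8.J_le_iff] at j'
        push Not at j'
        obtain ⟨A₀, h1, h2⟩ := j'
        obtain ⟨A, h3, h4, h5, h6⟩ := exists_quad_off h1 VQ eV (QT.trans TV) h2
        have := (nq A (pQ.to_le (h3.trans h1.le)) (((h3.trans h1.le).trans QT).trans TV) h5
          h4).trans_le h6
        have := CfH1.relIndex_pos' (Cz(V)) A
        nlinarith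
    · rw [CfH8.J_le_iff] at j
      push Not at j
      obtain ⟨A₀, h1, h2⟩ := j
      have k : ∀ g ∈ H, cj g V ≤ pCoreOf 2 H ∧ pCoreOf 2 H ≤ Nm(cj g V) := fun g hg =>
        ⟨(cj_mono g VQ).trans (cj_eq_of_mem_normalizer (nQ hg)).le, (cj_eq_of_mem_normalizer
          (nQ hg)).ge.trans ((cj_mono g (QT.trans TV)).trans (cj_normalizer g V).le)⟩
      exact fin (qrc_ab sH (u.minOver sH fun e => h2 ((h1.le.trans inf_le_left).trans e)) VQ TV nq
        (elemAb_iSup (fun g => (elemAb_map eV _).2) fun g g' => (nq.cj g').comm (nq.cj g)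
          (elemAb_map eV _) (elemAb_map eV _) ((k _ g.2).1.trans (k _ g'.2).2)
          ((k _ g'.2).1.trans (k _ g.2).2)) nH h1 h2 DY nD TD)
  have nB := le_normalizer_inf TV (sH.le.trans nQ)
  have NY : H ⊓ Nm(V ⊓ pCoreOf 2 H) ≤ H ⊓ M :=
    (u.eq_or_le (le_inf sH.le nB) inf_le_left).resolve_left fun e => by
      have n1 := e.ge.trans inf_le_right
      have n2 := le_normalizer_inf (le_normalizer_inf le_normalizer (le_normalizer_centralizer n1))
        (le_Nm_secCz nQ n1)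
      have l : H ⊓ Cz(V ⊓ pCoreOf 2 H) ⊓ secCz (pCoreOf 2 H) (V ⊓ pCoreOf 2 H) ≤ H :=
        inf_le_left.trans inf_le_left
      refine hn ((le_inf (le_inf (VT.trans sH.le) ((elemAb_le_Cz eV).trans (Cz_anti inf_le_left)))
        (le_secCz (VT.trans nB) (le_inf (comm_le_right (QT.trans TV))
          (comm_le_left ((VT.trans sH.le).trans nQ))))).trans (le_pCoreOf l n2 ?_))
      exact isPGroup_of_pResidualOf_le pQ ((pResidualOf_le_Cz_of_le' pQ (l.trans nQ)
        (commutator_le_of_le_secCz ((pResidualOf_le _).trans inf_le_right))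
        ((pResidualOf_le _).trans (inf_le_left.trans inf_le_right))).trans (par H sH.le hH))
  refine ⟨hn, co_main (par H sH.le hH) sH VT TV nq hn (elemAb_of_le (nclo_le
    ((NY.trans inf_le_right).trans (le_Nm_OZ_pCoreOf M)) (le_OZ eV VO VC)) (elemAb_OZ _)) ?_⟩
  have e : pCoreOf 2 H ⊓ Cz(V) = pCoreOf 2 H ⊓ D := by
    rw [← inf_eq_left.2 QT, inf_assoc, ← TD, inf_assoc]
  exact e ▸ le_normalizer_inf (inf_le_left.trans nQ) (NY.trans nD)

theorem nq_of_not (hT : SylIn 2 T ⊤) (TM : T ≤ M) (nV : T ≤ Nm(V)) (eV : IsElementaryAbelian 2 V)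
    (h : ¬ QuadParamLE M V 2) : NQ V := fun B h1 h2 h3 h4 => by
  obtain ⟨g, hg, e⟩ := (hT.mono nV le_top).exists_cj_le h1 h2
  have gV := cj_eq_of_mem_normalizer hg
  rw [← cj_eq_bot_iff (g := g), cj_commutator, cj_commutator, gV] at h3
  rw [← cj_le_cj_iff (g := g), cj_centralizer, gV] at h4
  rw [← relIndex_cj g, ← relIndex_cj g (Cz(B)), cj_centralizer, cj_centralizer, gV]
  generalize cj g B = B at *
  by_contra! c
  refine h ⟨B, e.trans TM, ⟨h4, fun b hb v hv => ?_, fun a ha b hb => comm_eq_bot_right.1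
    (eq_bot_iff.2 (commutator_commutator_self_le (le_Nm_normal _ _) (le_Nm_normal _ _) h3.le))
      (commutator_mem_commutator ha hb)⟩, h3, (inf_relIndex_left _ _).le.trans c⟩
  have k : ⁅v, b⁆ ∈ ⁅V, B⁆ := commutator_mem_commutator hv hb
  rw [← commutatorElement_eq_one_iff_mul_comm, pow_two, commutatorElement_mul_right_eq_mul_conj,
    mul_assoc, mul_assoc, ← mul_assoc b, conj_eq_of_mem_centralizer (comm_eq_bot_right.1 h3 hb) k,
    ← pow_two, eV.2 _ (comm_le_left (e.trans nV) k)]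

theorem CO.cubic (hT : SylIn 2 T ⊤) (TM : T ≤ M) (nV : T ≤ Nm(V)) (h : CO V) :
    CubicParamLE M V 2 := by
  obtain ⟨B, h1, h2, h3, h4, h5⟩ := h
  obtain ⟨g, hg, e⟩ := (hT.mono nV le_top).exists_cj_le (elemAb_isPGroup h1) h2
  have gV := cj_eq_of_mem_normalizer hg
  rw [← cj_eq_bot_iff (g := g), cj_commutator, cj_commutator, cj_commutator, gV] at h3
  rw [← cj_le_cj_iff (g := g), cj_centralizer, gV] at h4
  rw [← relIndex_cj g, ← relIndex_cj g (Cz(V)), cj_centralizer, cj_centralizer, gV] at h5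
  replace h1 : IsElementaryAbelian 2 (CfH9.cj g B) := elemAb_map h1 _
  exact ⟨_, e.trans TM, ⟨h4, fun b hb => h1.2 b hb ▸ one_mem _, fun a ha b hb => by
    rw [comm_iff.1 h1.1 a ha b hb]; simpa using one_mem _⟩, h3, (inf_relIndex_left _ _).le.trans h5⟩

end CfH7
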