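import Cfsg.Agent.OD.Pre
import Cfsg.Agent.H7.QT7
import Cfsg.Agent.H9.Yoshida

/-! A Sylow 2-subgroup normalizing the two elementary abelian factors of `B = Q R`. -/

set_option autoImplicit false
set_option linter.unusedSectionVars false

open Cfsg Subgroup CfH9 CfLp Equiv
open scoped commutatorElement MatrixGroups

namespace CfH7

open CfH8 (BB JJ MaxEl)

universe u

variable {G : Type u} [Group G] [Finite G] {q : ℕ} {T Q R A E O L X V D : Subgroup G}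
  {a b c d f g s t u v w x y : G}

theorem card_le_two (h : ∀ a ∈ A, ∀ b ∈ A, a ∉ E → b ∉ E → a * b ∈ E) :
    Nat.card A ≤ 2 * Nat.card (A ⊓ E : Subgroup G) := by
  by_cases e : A ≤ E
  · rw [inf_eq_left.2 e]; omega
  obtain ⟨a, ha, n⟩ := SetLike.not_le_iff_exists.1 e
  have : E.relIndex A = 2 := relIndex_eq_two_iff_exists_notMem_and.2
    ⟨a, ha, n, fun b hb => or_iff_not_imp_right.2 fun m => h b hb a ha m n⟩
  rw [← card_mul_relIndex (show A ⊓ E ≤ A from inf_le_left), inf_relIndex_left, this, mul_comm]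

theorem exists_three (h : 2 * Nat.card (A ⊓ E : Subgroup G) < Nat.card A) :
    ∃ a ∈ A, ∃ b ∈ A, a ∉ E ∧ b ∉ E ∧ a * b ∉ E := by
  by_contra! c
  exact h.not_ge (card_le_two c)

theorem idx_le (hV : V ≤ Cz(V)) (hf : f ∈ Nm(V)) (h1 : f ∈ Nm(D)) (h2 : V ≤ Nm(D))
    (hX : ∀ v ∈ V, ⁅f, v⁆ ∈ X) : (secCz (zpowers f) D).relIndex V ≤ D.relIndex X := by
  let φ : V →* G := MonoidHom.mk' (fun v => ⁅f, (v : G)⁆) fun a b => by
    change ⁅f, (a : G) * b⁆ = _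
    rw [← conj_eq_of_mem_centralizer (hV a.2) (commutator_mem_right b.2 hf)]
    group
  have e : (secCz (zpowers f) D).subgroupOf V = D.comap φ := Subgroup.ext fun v =>
    ⟨fun h => h.2 f (mem_zpowers f), fun h => mem_secCz_zpowers h1 (h2 v.2) h⟩
  rw [relIndex, e, index_comap]
  exact relIndex_le_of_le_right (by rintro _ ⟨v, rfl⟩; exact hX v v.2)
    FiniteIndex.index_ne_zero

theorem exists_sq_mem (hT : IsPGroup 2 T) (hs : s ∈ T) (n : s ∉ E) :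
    ∃ t ∈ zpowers s, t ∉ E ∧ t * t ∈ E := by
  obtain ⟨k, hk⟩ := isPGroup_iff_mem.1 hT s hs
  clear hs
  induction k generalizing s with
  | zero => exact (n (by rw [pow_zero, pow_one] at hk; exact hk ▸ one_mem _)).elim
  | succ k ih =>
    by_cases e : s * s ∈ E
    · exact ⟨s, mem_zpowers s, n, e⟩
    obtain ⟨t, h1, h2⟩ := ih e (by rw [← sq, ← pow_mul, ← pow_succ', hk])
    exact ⟨t, zpowers_le.2 (mul_mem (mem_zpowers s) (mem_zpowers s)) h1, h2⟩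

theorem el_sq (h : IsElementaryAbelian 2 A) (ha : a ∈ A) : a * a = 1 := by
  rw [← sq]; exact h.2 a ha

theorem el_inv (h : IsElementaryAbelian 2 A) (ha : a ∈ A) : a⁻¹ = a :=
  inv_eq_of_mul_eq_one_right (el_sq h ha)

theorem el_comm (h : IsElementaryAbelian 2 A) (ha : a ∈ A) (hb : b ∈ A) : a * b = b * a :=
  comm_iff.1 h.1 a ha b hb

theorem ChP.le_of_chain (h : ChP 2 L) (h1 : A ≤ L) (h2 : L ≤ Nm(E))
    (h3 : ⁅pCoreOf 2 L, A⁆ ≤ E) (h4 : A ≤ Cz(E)) : A ≤ pCoreOf 2 L := by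
  have k := nclo_le_of_le h1
  refine (le_nclo A L).trans (le_pCoreOf k (right_le_Nm_nclo A L) (h.isPGroup_of_pResidualOf_le k
    (pResidualOf_le_Cz_of_le (isPGroup_pCoreOf L) (k.trans (le_normalizer_pCoreOf L))
      (commutator_nclo_le (le_normalizer_pCoreOf L) h2 (h1.trans h2) h3) (nclo_le_Cz h2 h4))))

/-- `E` contains the commutators of an element outside the intersection -/
def Cov (Q R E : Subgroup G) : Prop := E ≤ Q ⊓ R ∧
  ((∃ v ∈ Q, v ∉ R ∧ ∀ w ∈ R, ⁅v, w⁆ ∈ E) ∨ ∃ w ∈ R, w ∉ Q ∧ ∀ v ∈ Q, ⁅w, v⁆ ∈ E)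

theorem Cov.symm (h : Cov Q R E) : Cov R Q E := ⟨inf_comm Q R ▸ h.1, h.2.symm⟩

/-- the configuration -/
structure QQ (q : ℕ) (T Q R : Subgroup G) : Prop where
  syl : SylIn 2 T ⊤
  loc : ∀ X : Subgroup G, IsPGroup 2 X → X ≠ ⊥ → ChP 2 Nm(X)
  QT : Q ≤ T
  RT : R ≤ T
  eQ : IsElementaryAbelian 2 Q
  eR : IsElementaryAbelian 2 R
  nQ : T ≤ Nm(Q)
  nR : T ≤ Nm(R)
  cQ : Nat.card Q = q * Nat.card (Q ⊓ R : Subgroup G)
  cR : Nat.card R = q * Nat.card (Q ⊓ R : Subgroup G)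
  q8 : 8 ≤ q
  nz : ∀ v ∈ Q, ∀ w ∈ R, v * w = w * v → v ∈ R ∨ w ∈ Q
  cm : ⁅T, T⁆ ≤ Q ⊔ R
  uq : ∀ s ∈ T, ∀ t ∈ T, s * s ∈ Q ⊔ R → t * t ∈ Q ⊔ R → s ∉ Q ⊔ R → t ∉ Q ⊔ R → s * t ∈ Q ⊔ R
  cnt : ∀ s ∈ T, s ∉ Q ⊔ R → s * s ∈ Q ⊔ R → ∃ k, k * k = q ∧
    Nat.card (Q ⊓ secCz (zpowers s) (Q ⊓ R) : Subgroup G) = k * Nat.card (Q ⊓ R : Subgroup G) ∧
    Nat.card (R ⊓ secCz (zpowers s) (Q ⊓ R) : Subgroup G) = k * Nat.card (Q ⊓ R : Subgroup G) ∧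
    ∀ E, Cov Q R E → k * Nat.card (E ⊓ Cx(s) : Subgroup G) ≤ Nat.card E

namespace QQ

variable (h : QQ q T Q R)
include h

theorem symm : QQ q T R Q where
  syl := h.syl
  loc := h.loc
  QT := h.RT
  RT := h.QT
  eQ := h.eR
  eR := h.eQ
  nQ := h.nR
  nR := h.nQ
  cQ := inf_comm Q R ▸ h.cR
  cR := inf_comm Q R ▸ h.cQ
  q8 := h.q8
  nz v hv w hw e := (h.nz w hw v hv e.symm).symm
  cm := sup_comm Q R ▸ h.cm
  uq := sup_comm Q R ▸ h.uq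
  cnt s hs h1 h2 := by
    obtain ⟨k, e1, e2, e3, e4⟩ := h.cnt s hs (sup_comm Q R ▸ h1) (sup_comm Q R ▸ h2)
    rw [inf_comm R Q]
    exact ⟨k, e1, e3, e2, fun E c => e4 E c.symm⟩

theorem BT : Q ⊔ R ≤ T := sup_le h.QT h.RT

theorem nB : T ≤ Nm(Q ⊔ R) := le_normalizer_sup h.nQ h.nR

theorem nD : T ≤ Nm(Q ⊓ R) := le_normalizer_inf h.nQ h.nR

theorem pB : IsPGroup 2 (Q ⊔ R : Subgroup G) := h.syl.pgrp.to_le h.BT

theorem dec (hb : b ∈ Q ⊔ R) : ∃ v ∈ Q, ∃ w ∈ R, v * w = b :=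
  (mem_sup_of_le_Nm (h.QT.trans h.nR)).1 hb

theorem cD (hv : v ∈ Q) (hw : w ∈ R) : ⁅v, w⁆ ∈ Q ⊓ R :=
  mi (commutator_mem_left hv (h.nQ (h.RT hw))) (commutator_mem_right hw (h.nR (h.QT hv)))

theorem BD : Q ⊔ R ≤ Cz(Q ⊓ R) := sup_le ((elemAb_le_Cz h.eQ).trans (Cz_anti inf_le_left))
  ((elemAb_le_Cz h.eR).trans (Cz_anti inf_le_right))

theorem cQB : ⁅Q, Q ⊔ R⁆ ≤ Q ⊓ R := commutator_sup_right_le (h.QT.trans h.nD) (h.RT.trans h.nD)
  ((comm_eq_bot_left.2 (elemAb_le_Cz h.eQ)).le.trans bot_le) (commutator_le.2 fun _ hv _ hw => h.cD hv hw)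

theorem cBB : ⁅Q ⊔ R, Q ⊔ R⁆ ≤ Q ⊓ R := commutator_sup_left_le (h.QT.trans h.nD) (h.RT.trans h.nD)
  h.cQB (by rw [sup_comm, inf_comm]; exact h.symm.cQB)

theorem sq (hb : b ∈ Q ⊔ R) : b * b ∈ Q ⊓ R := by
  obtain ⟨v, hv, w, hw, rfl⟩ := h.dec hb
  have := h.cD hv hw
  rwa [commutatorElement_def, el_inv h.eQ hv, el_inv h.eR hw, mul_assoc] at this

theorem inv (hb : b ∈ Q ⊔ R) (e : b * b = 1) : b ∈ Q ∨ b ∈ R := by
  obtain ⟨v, hv, w, hw, rfl⟩ := h.dec hb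
  have : v * w = w * v := by
    rw [← inv_eq_of_mul_eq_one_right e, mul_inv_rev, el_inv h.eQ hv, el_inv h.eR hw]
  exact (h.nz v hv w hw this).symm.imp (mul_mem hv) fun e => mul_mem e hw

theorem cz (hv : v ∈ Q) (n : v ∉ R) (hb : b ∈ Q ⊔ R) (e : b * v = v * b) : b ∈ Q := by
  obtain ⟨a, ha, w, hw, rfl⟩ := h.dec hb
  refine mul_mem ha ((h.nz v hv w hw ?_).resolve_left n)
  rw [mul_assoc, ← mul_assoc v, el_comm h.eQ hv ha, mul_assoc] at e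
  exact (mul_left_cancel e).symm

theorem el (hA : A ≤ Q ⊔ R) (e : IsElementaryAbelian 2 A) : A ≤ Q ∨ A ≤ R :=
  or_iff_not_imp_right.2 fun n => by
    obtain ⟨v, hv, n⟩ := SetLike.not_le_iff_exists.1 n
    exact fun a ha => h.cz ((h.inv (hA hv) (el_sq e hv)).resolve_right n) n (hA ha) (el_comm e ha hv)

theorem k3 {k : ℕ} (e : k * k = q) : 3 ≤ k := by
  have := h.q8
  by_contra! c
  interval_cases k <;> omega

theorem f1 (hs : s ∈ T) (e : ⁅Q, zpowers s⁆ ≤ Q ⊓ R) : s ∈ Q ⊔ R := by_contra fun n => by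
  obtain ⟨t, h1, h2, h3⟩ := exists_sq_mem h.syl.pgrp hs n
  have ht := zpowers_le.2 hs h1
  obtain ⟨k, e1, e2, -⟩ := h.cnt t ht h2 h3
  have := h.k3 e1
  rw [inf_eq_left.2 (le_secCz (h.QT.trans h.nD) ((commutator_comm _ _).le.trans
    ((commutator_mono le_rfl (zpowers_le.2 h1)).trans e))), h.cQ, ← e1] at e2
  have := Nat.eq_of_mul_eq_mul_right Nat.card_pos e2
  nlinarith

theorem f3 (c : Cov Q R E) (hs : s ∈ T) (e : s ∈ Cz(E)) : s ∈ Q ⊔ R := by_contra fun n => by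
  obtain ⟨t, h1, h2, h3⟩ := exists_sq_mem h.syl.pgrp hs n
  obtain ⟨k, e1, -, -, e2⟩ := h.cnt t (zpowers_le.2 hs h1) h2 h3
  have := h.k3 e1
  have e3 := e2 E c
  rw [inf_eq_left.2 (le_Cx_iff.2 (zpowers_le.2 e h1))] at e3
  have : 0 < Nat.card E := Nat.card_pos
  nlinarith

theorem nle : ¬ Q ≤ R := fun e => by
  have e1 := h.cQ
  have := h.q8
  have : 0 < Nat.card Q := Nat.card_pos
  rw [inf_eq_left.2 e] at e1
  nlinarith

theorem cov (hO : Q ⊔ R ≤ Nm(O)) (n : ¬ Q ⊓ O ≤ R) : Cov Q R (Q ⊓ R ⊓ O) := by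
  obtain ⟨v, hv, n⟩ := SetLike.not_le_iff_exists.1 n
  exact ⟨inf_le_left, Or.inl ⟨v, hv.1, n, fun w hw => mi (h.cD hv.1 hw)
    (commutator_mem_left hv.2 (hO (mem_sup_right hw)))⟩⟩

theorem covD : Cov Q R (Q ⊓ R) := by
  simpa using h.cov (O := ⊤) (le_Nm_normal _ _) (by simpa using h.nle)

theorem D_ne : Q ⊓ R ≠ ⊥ := fun e => by
  obtain ⟨v, hv, n⟩ := SetLike.not_le_iff_exists.1 h.nle
  obtain ⟨w, hw, m⟩ := SetLike.not_le_iff_exists.1 h.symm.nle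
  exact (h.nz v hv w hw (commutatorElement_eq_one_iff_mul_comm.1
    (mem_bot.1 (e.le (h.cD hv hw))))).elim n m

theorem small_aux (c : Cov Q R (Q ⊓ R ⊓ O)) (hf : f ∈ T) (n : f ∉ Q ⊔ R) (e : f * f = 1)
    (h1 : X ≤ Q) (h2 : X ≤ O) (h3 : X ≤ Cx(f)) :
    Nat.card X ≤ Nat.card (Q ⊓ R ⊓ O : Subgroup G) := by
  obtain ⟨k, -, e2, -, e3⟩ := h.cnt f hf n (e ▸ one_mem _)
  have k1 := card_mul_card_le (A := X) (B := Q ⊓ R) (H := Q ⊓ secCz (zpowers f) (Q ⊓ R))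
    (le_inf h1 fun x hx => mem_secCz_zpowers (h.nD hf) (h.nD (h.QT (h1 hx)))
      (commutatorElement_eq_one_iff_mul_comm.2 (mem_Cx.1 (h3 hx)).symm ▸ one_mem _))
    (le_inf inf_le_left fun x hx => mem_secCz_zpowers (h.nD hf) (le_normalizer hx)
      (commutator_mem_right hx (h.nD hf)))
  rw [e2, mul_right_comm] at k1
  exact (Nat.le_of_mul_le_mul_right k1 Nat.card_pos).trans ((Nat.mul_le_mul_left k (card_le_of_le
    (le_inf (le_inf inf_le_right (inf_le_left.trans h2)) (inf_le_left.trans h3)))).trans (e3 _ c))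

theorem small (c : Cov Q R (Q ⊓ R ⊓ O)) (h1 : A ≤ T) (h2 : A ≤ O) (e : IsElementaryAbelian 2 A)
    (n : ¬ A ≤ Q ⊔ R) : Nat.card A ≤ 2 * Nat.card (Q ⊓ R ⊓ O : Subgroup G) := by
  obtain ⟨f, hf, n⟩ := SetLike.not_le_iff_exists.1 n
  have l : A ⊓ (Q ⊔ R) ≤ Cx(f) := fun a ha => mem_Cx.2 (el_comm e ha.1 hf)
  refine (card_le_two (E := Q ⊔ R) fun a ha b hb => h.uq a (h1 ha) b (h1 hb)
    (el_sq e ha ▸ one_mem _) (el_sq e hb ▸ one_mem _)).trans (Nat.mul_le_mul_left 2 ?_)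
  rcases h.el inf_le_right (elemAb_of_le inf_le_left e) with k | k
  · exact h.small_aux c (h1 hf) n (el_sq e hf) k (inf_le_left.trans h2) l
  · rw [inf_comm Q R] at c ⊢
    exact h.symm.small_aux c.symm (h1 hf) (sup_comm Q R ▸ n) (el_sq e hf) k (inf_le_left.trans h2) l

theorem only (h1 : A ≤ T) (e : IsElementaryAbelian 2 A) (c : Nat.card Q ≤ Nat.card A) :
    A = Q ∨ A = R := by
  refine (h.el (by_contra fun n => ?_) e).imp (fun k => eq_of_le_of_card_ge k c)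
    fun k => eq_of_le_of_card_ge k (by rwa [h.cR, ← h.cQ])
  have k := c.trans (h.small (O := ⊤) (by simpa using h.covD) h1 le_top e n)
  rw [inf_top_eq, h.cQ] at k
  have := Nat.le_of_mul_le_mul_right k Nat.card_pos
  have := h.q8
  omega

theorem wk (e : cj g Q ≤ T) : cj g Q = Q ∨ cj g Q = R :=
  h.only e (elemAb_map h.eQ _) (card_cj g Q).ge

theorem wkB (e : cj g (Q ⊔ R) ≤ T) : g ∈ Nm(Q) ⊓ Nm(R) := by
  have k : ∀ g, cj g (Q ⊔ R) ≤ T → (cj g Q = Q ∧ cj g R = R) ∨ (cj g Q = R ∧ cj g R = Q) :=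
    fun g e => by
      have n : cj g Q ≠ cj g R := fun e => h.nle (cj_inj.1 e).le
      have := h.wk ((cj_mono g le_sup_left).trans e)
      have := h.symm.wk ((cj_mono g le_sup_right).trans e)
      grind
  have k' : ∀ g ∈ Nm(Q ⊔ R), _ := fun g hg => k g ((cj_eq_of_mem_normalizer hg).le.trans h.BT)
  have gB : g ∈ Nm(Q ⊔ R) := mem_normalizer_iff_cj.2 (by
    rw [cj_sup]; rcases k g e with ⟨a, b⟩ | ⟨a, b⟩ <;> rw [a, b]; exact sup_comm _ _)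
  have gQ : g ∈ Nm(Q) := by_contra fun n => (h.syl.mono h.nB le_top).not_dvd_relIndex_of_le h.nQ
    (by
      rw [relIndex_eq_two_iff_exists_notMem_and.2 ⟨g, gB, n, fun b hb => or_iff_not_imp_right.2
        fun m => mem_normalizer_iff_cj.2 (by
          rw [cj_mul, ((k' g gB).resolve_left fun e => n (mem_normalizer_iff_cj.2 e.1)).1,
            ((k' b hb).resolve_left fun e => m (mem_normalizer_iff_cj.2 e.1)).2])⟩])
  exact mi gQ (mem_normalizer_iff_cj.2 ((k g e).resolve_right fun e =>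
    h.nle ((cj_eq_of_mem_normalizer gQ).symm.trans e.1).le).2)

theorem cz2 (hO : Q ⊔ R ≤ Nm(O)) (n : ¬ Q ⊓ O ≤ R) : T ⊓ Cz(Q ⊓ O) ≤ Q := fun s hs => by
  obtain ⟨v, hv, m⟩ := SetLike.not_le_iff_exists.1 n
  exact h.cz hv.1 m (h.f3 (h.cov hO n) hs.1 (Cz_anti (inf_le_inf_right O inf_le_left) hs.2))
    (hs.2 v hv).symm

theorem lt_of (n : ¬ Q ⊓ O ≤ R) (e : Nat.card (Q ⊓ O : Subgroup G) ≤ Nat.card (R ⊓ O : Subgroup G)) :
    ¬ R ⊓ O ≤ Q := fun l => n (inf_le_left.trans' (eq_of_le_of_card_ge (le_inf l inf_le_right) e).ge)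

theorem core_aux (hL : ChP 2 L) (BL : Q ⊔ R ≤ L) (hS : SylIn 2 (T ⊓ L) L)
    (n : ¬ Q ⊓ pCoreOf 2 L ≤ R) (k : ∀ l ∈ L, cj l (Q ⊓ pCoreOf 2 L) = Q ⊓ pCoreOf 2 L ∨
      cj l (Q ⊓ pCoreOf 2 L) = R ⊓ pCoreOf 2 L) (hX : IsPGroup 2 X)
    (l : X ≤ L ⊓ Cz(Q ⊓ pCoreOf 2 L)) : X ≤ Q := by
  have nO := BL.trans (le_normalizer_pCoreOf (p := 2) L)
  have QC : Q ≤ L ⊓ Cz(Q ⊓ pCoreOf 2 L) :=
    le_inf (le_sup_left.trans BL) ((elemAb_le_Cz h.eQ).trans (Cz_anti inf_le_left))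
  obtain ⟨P, hP, QP⟩ := exists_sylIn_ge (elemAb_isPGroup h.eQ) QC
  obtain ⟨g, hg, e⟩ := hS.exists_cj_le hP.pgrp (hP.le.trans inf_le_left)
  have c : cj g P ≤ T ⊓ Cz(cj g (Q ⊓ pCoreOf 2 L)) := le_inf (e.trans inf_le_left)
    (cj_centralizer g _ ▸ cj_mono g (hP.le.trans inf_le_right))
  obtain rfl : Q = P := eq_of_le_of_card_ge QP (by
    rw [← card_cj g P]
    rcases k g hg with e | e <;> rw [e] at c
    · exact card_le_of_le (c.trans (h.cz2 nO n))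
    · rw [h.cQ, ← h.cR]
      exact card_le_of_le (c.trans (h.symm.cz2 (sup_comm Q R ▸ nO) (h.lt_of n
        (by rw [← e, card_cj])))))
  have hC := hL.inf_Cz (P := Q ⊓ pCoreOf 2 L) (elemAb_isPGroup h.eQ).to_inf_left
    (inf_le_right.trans (pCoreOf_le L))
  have e := le_antisymm (sylIn_pCoreOf_le hP) ((le_inf QC ((elemAb_le_Cz h.eQ).trans
    (Cz_anti (sylIn_pCoreOf_le hP)))).trans (chP_iff.1 hC))
  exact hP.le_of_le_Nm' hX l (l.trans ((le_normalizer_pCoreOf (p := 2) _).trans (by rw [e])))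

theorem core_big (hL : ChP 2 L) (BL : Q ⊔ R ≤ L) (hS : SylIn 2 (T ⊓ L) L)
    (n : ¬ Q ⊓ pCoreOf 2 L ≤ R) (c : Nat.card (R ⊓ pCoreOf 2 L : Subgroup G) ≤
      Nat.card (Q ⊓ pCoreOf 2 L : Subgroup G)) : Q ≤ pCoreOf 2 L := by
  have nO := le_normalizer_pCoreOf (p := 2) L
  have OT := (sylIn_pCoreOf_le hS).trans inf_le_left
  have k : ∀ l ∈ L, cj l (Q ⊓ pCoreOf 2 L) = Q ⊓ pCoreOf 2 L ∨
      cj l (Q ⊓ pCoreOf 2 L) = R ⊓ pCoreOf 2 L := fun l hl => by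
    have lO : cj l (Q ⊓ pCoreOf 2 L) ≤ pCoreOf 2 L :=
      (cj_mono l inf_le_right).trans (cj_eq_of_mem_normalizer (nO hl)).le
    have el : IsElementaryAbelian 2 (cj l (Q ⊓ pCoreOf 2 L)) :=
      elemAb_map (elemAb_of_le inf_le_left h.eQ) _
    refine (h.el (by_contra fun m => ?_) el).imp
      (fun e => eq_of_le_of_card_ge (le_inf e lO) (card_cj _ _).ge)
      fun e => eq_of_le_of_card_ge (le_inf e lO) (c.trans (card_cj _ _).ge)
    have k1 := h.small (h.cov (BL.trans nO) n) (lO.trans OT) lO el m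
    obtain ⟨f, hf, m⟩ := SetLike.not_le_iff_exists.1 m
    have fT := OT (lO hf)
    obtain ⟨k, e1, e2, -⟩ := h.cnt f fT m (el_sq el hf ▸ one_mem _)
    have k2 := idx_le (D := Q ⊓ R) (X := Q ⊓ pCoreOf 2 L) (elemAb_le_Cz h.eQ) (h.nQ fT) (h.nD fT)
      (h.QT.trans h.nD) fun v hv => mi (commutator_mem_right hv (h.nQ fT))
        (commutator_mem_left (lO hf) (nO (BL (mem_sup_left hv))))
    have k3 := card_mul_relIndex (show Q ⊓ secCz (zpowers f) (Q ⊓ R) ≤ Q from inf_le_left)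
    have k4 := card_mul_relIndex (show Q ⊓ pCoreOf 2 L ⊓ (Q ⊓ R) ≤ Q ⊓ pCoreOf 2 L from inf_le_left)
    rw [inf_relIndex_left] at k3 k4
    rw [e2, h.cQ, ← e1, mul_right_comm] at k3
    have := h.k3 e1
    have k5 := Nat.eq_of_mul_eq_mul_left (by omega) (Nat.eq_of_mul_eq_mul_right Nat.card_pos k3)
    rw [show Q ⊓ pCoreOf 2 L ⊓ (Q ⊓ R) = Q ⊓ R ⊓ pCoreOf 2 L by
      rw [inf_right_comm, ← inf_assoc, inf_idem]] at k4
    rw [card_cj, ← k4, mul_comm] at k1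
    have := Nat.le_of_mul_le_mul_right k1 Nat.card_pos
    omega
  refine (le_nclo Q L).trans (le_pCoreOf (nclo_le_of_le (le_sup_left.trans BL))
    (right_le_Nm_nclo Q L) (h.pB.to_le (nclo_le_iff'.2 fun l hl => ?_)))
  have p1 : IsPGroup 2 (cj l Q) := isPGroup_cj (elemAb_isPGroup h.eQ) l
  have c1 : cj l Q ≤ L ⊓ Cz(cj l (Q ⊓ pCoreOf 2 L)) := le_inf (cj_le_of_mem (le_sup_left.trans BL) hl)
    (cj_centralizer l _ ▸ cj_mono l ((elemAb_le_Cz h.eQ).trans (Cz_anti inf_le_left)))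
  rcases k l hl with e | e <;> rw [e] at c1
  · exact (h.core_aux hL BL hS n k p1 c1).trans le_sup_left
  · exact (h.symm.core_aux hL (sup_comm Q R ▸ BL) hS (h.lt_of n (by rw [← e, card_cj]))
      (fun l' hl' => by rw [← e, ← cj_mul, e]; exact (k _ (mul_mem hl' hl)).symm) p1 c1).trans
      le_sup_right

theorem core_syl (hL : ChP 2 L) (BL : Q ⊔ R ≤ L) (hS : SylIn 2 (T ⊓ L) L) :
    Q ≤ pCoreOf 2 L ∨ R ≤ pCoreOf 2 L := by
  by_cases n : Q ⊓ pCoreOf 2 L ≤ R ∧ R ⊓ pCoreOf 2 L ≤ Q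
  · have nO := le_normalizer_pCoreOf (p := 2) L
    have OT := (sylIn_pCoreOf_le hS).trans inf_le_left
    have OB : pCoreOf 2 L ≤ Q ⊔ R := fun s hs => h.f1 (OT hs) (le_inf
      (comm_le_left (zpowers_le.2 (h.nQ (OT hs)))) ((le_inf (comm_le_left (zpowers_le.2 (h.nQ (OT hs))))
        ((commutator_mono le_rfl (zpowers_le.2 hs)).trans
          (comm_le_right ((le_sup_left.trans BL).trans nO)))).trans n.1))
    refine Or.inl (le_sup_left.trans (hL.le_of_chain BL (nO.trans (Nm_le_Nm_omegaOne (p := 2) _))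
      (commutator_le.2 fun a ha b hb => mem_omegaOne (commutator_mem_left ha (nO (BL hb)))
        (h.eQ.2 _ (h.cBB (commutator_mem_commutator (OB ha) hb)).1))
      (h.BD.trans (Cz_anti (omegaOne_le_iff.2 fun x hx e => ?_)))))
    exact (h.inv (OB hx) (by rwa [← pow_two])).elim (fun k => mi k (n.1 (mi k hx)))
      fun k => mi (n.2 (mi k hx)) k
  rcases le_total (Nat.card (R ⊓ pCoreOf 2 L : Subgroup G))
    (Nat.card (Q ⊓ pCoreOf 2 L : Subgroup G)) with c | c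
  · exact Or.inl (h.core_big hL BL hS (fun e => n ⟨e, by_contra fun m => h.symm.lt_of m c e⟩) c)
  · exact Or.inr (h.symm.core_big hL (sup_comm Q R ▸ BL) hS
      (fun e => n ⟨by_contra fun m => h.lt_of m c e, e⟩) c)

theorem exists_syl (BL : Q ⊔ R ≤ L) :
    ∃ g ∈ Nm(Q) ⊓ Nm(R), SylIn 2 (T ⊓ cj g L) (cj g L) := by
  obtain ⟨S, hS, l⟩ := exists_sylIn_ge h.pB BL
  obtain ⟨g, -, e⟩ := h.syl.exists_cj_le hS.pgrp le_top
  refine ⟨g, h.wkB ((cj_mono g l).trans e), ?_⟩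
  rw [(hS.cj g).eq_of_le h.syl.pgrp.to_inf_left inf_le_right (le_inf e (hS.cj g).le)]
  exact hS.cj g

theorem core (hL : ChP 2 L) (BL : Q ⊔ R ≤ L) : Q ≤ pCoreOf 2 L ∨ R ≤ pCoreOf 2 L := by
  obtain ⟨g, hg, hS⟩ := h.exists_syl BL
  have := h.core_syl (hL.cj g) ((cj_eq_of_mem_normalizer (mem_Nm_sup hg.1 hg.2)).ge.trans
    (cj_mono g BL)) hS
  rw [← cj_pCoreOf] at this
  exact this.imp (fun e => cj_le_cj_iff.1 ((cj_eq_of_mem_normalizer hg.1).le.trans e))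
    fun e => cj_le_cj_iff.1 ((cj_eq_of_mem_normalizer hg.2).le.trans e)

theorem le_Nm_of_core (BL : Q ⊔ R ≤ L) (e : Q ≤ pCoreOf 2 L) : L ≤ Nm(Q) := by
  obtain ⟨g, hg, hS⟩ := h.exists_syl BL
  have nO := le_normalizer_pCoreOf (p := 2) L
  have OT : cj g (pCoreOf 2 L) ≤ T := cj_pCoreOf g L ▸ (sylIn_pCoreOf_le hS).trans inf_le_left
  have k : ∀ {X : Subgroup G} {l : G}, l ∈ L → X ≤ pCoreOf 2 L → cj (g * l) X ≤ T := fun hl e => by
    rw [cj_mul]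
    exact (cj_mono g ((cj_mono _ e).trans (cj_eq_of_mem_normalizer (nO hl)).le)).trans OT
  intro l hl
  refine (mul_mem_cancel_left (mi1 hg)).1 ((h.wk (k hl e)).elim mem_normalizer_iff_cj.2
    fun e' => mi1 (h.wkB (k hl (sup_le e ?_))))
  rw [← cj_le_cj_iff (g := g), cj_eq_of_mem_normalizer hg.2, ← e', cj_mul]
  exact cj_mono g ((cj_mono _ e).trans (cj_eq_of_mem_normalizer (nO hl)).le)

theorem chCx (hd : d ∈ T) (n : d ≠ 1) : ChP 2 Cx(d) := Cz_zpowers d ▸ chP_Cz_of_chP_Nm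
  (h.loc _ (h.syl.pgrp.to_le (zpowers_le.2 hd)) (zpowers_ne_bot' n))

theorem Cx_le (hd : d ∈ Q ⊓ R) (n : d ≠ 1) : Cx(d) ≤ Nm(Q) ∨ Cx(d) ≤ Nm(R) :=
  have l := h.BD.trans (Cz_le_Cx hd)
  (h.core (h.chCx (h.QT hd.1) n) l).imp (h.le_Nm_of_core l)
    (h.symm.le_Nm_of_core (sup_comm Q R ▸ l))

end QQ

end CfH7
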