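import Cfsg.Agent.OD.Pre
import Cfsg.Agent.H7.GC1

/-! Fusion and transfer in the configuration `QQ`. -/

set_option autoImplicit false
set_option linter.unusedSectionVars false

open Cfsg Subgroup CfH9 CfLp Equiv
open scoped commutatorElement MatrixGroups

namespace CfH7

open CfH8 (BB JJ MaxEl)

universe u

variable {G : Type u} [Group G] [Finite G] {q : ℕ} {T Q R A B E O L X V D : Subgroup G}
  {a b c d f g s t u v w x y : G}

theorem gen_thompson (hT : SylIn 2 T ⊤) (hO : pResidual 2 G = ⊤) (nB : T ≤ Nm(B))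
    (cm : ⁅T, T⁆ ≤ B) (hu : u ∈ T) (n : u ∉ B) (uu : u * u ∈ B)
    (low : ∀ y ∈ T, orderOf y < orderOf u → y ∈ B) :
    ∃ g, g⁻¹ * u * g ∈ T ∧ g⁻¹ * u * g * u ∉ B := by
  classical
  haveI : (B.subgroupOf T).Normal := normal_subgroupOf_of_le_normalizer nB
  letI : CommGroup (T ⧸ B.subgroupOf T) :=
    { QuotientGroup.Quotient.group _ with
      mul_comm := fun a b => by
        obtain ⟨a, rfl⟩ := QuotientGroup.mk_surjective a
        obtain ⟨b, rfl⟩ := QuotientGroup.mk_surjective b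
        rw [← commutatorElement_eq_one_iff_mul_comm]
        exact (map_commutatorElement (QuotientGroup.mk' _) a b).symm.trans
          ((QuotientGroup.eq_one_iff _).2 (cm (commutator_mem_commutator a.2 b.2))) }
  let ℓ : G → Additive (T ⧸ B.subgroupOf T) := fun g =>
    if h : g ∈ T then Additive.ofMul (QuotientGroup.mk ⟨g, h⟩) else 0
  have hℓ : AddOn T ℓ := fun a ha b hb => by
    simp only [ℓ, dif_pos ha, dif_pos hb, dif_pos (mul_mem ha hb)]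
    rfl
  have z : ∀ s ∈ T, ℓ s = 0 ↔ s ∈ B := fun s hs => by
    simp only [ℓ, dif_pos hs]
    exact QuotientGroup.eq_one_iff (N := B.subgroupOf T) _
  have := Fintype.ofFinite (G ⧸ T)
  have hc := hℓ.cocyc
  have hinv : ∀ g : G, InvBy g (Finset.univ : Finset (G ⧸ T)) := fun _ _ _ => Finset.mem_univ _
  have ha := hc.addOn (H := ⊤) fun g _ => hinv g
  obtain ⟨k, hk⟩ := isPGroup_iff_mem.1 hT.pgrp u hu
  have h1 : ∑ a : G ⧸ T, trc T ℓ u a = 0 := by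
    refine ((hO.ge.trans (pResidual_le_iff.2 fun g hg => ha.mem_ker.2 ⟨trivial, ?_⟩)) trivial).2
    obtain ⟨j, hj⟩ := hT.pgrp.to_quotient (B.subgroupOf T) (∑ a : G ⧸ T, trc T ℓ g a).toMul
    have e1 : orderOf g • ∑ a : G ⧸ T, trc T ℓ g a = 0 :=
      (ha.pow trivial _).symm.trans (by rw [pow_orderOf_eq_one]; exact ha.one)
    exact AddMonoid.addOrderOf_eq_one_iff.1 (Nat.eq_one_of_dvd_coprimes (hg.pow_right j)
      (addOrderOf_dvd_of_nsmul_eq_zero e1) (addOrderOf_dvd_of_nsmul_eq_zero hj))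
  by_contra! c
  have w2 : ℓ u + ℓ u = 0 := (hℓ u hu u hu).symm.trans ((z _ (mul_mem hu hu)).2 uu)
  rw [← Finset.sum_filter_add_sum_filter_not _ (fun x => u • x = x),
    hc.sum_eq_zero (p := 2) (n := orderOf u) (fun y x h1 _ h2 => by
      rw [trc_of_fixed ℓ h2]
      exact (z _ (mem_of_fixed h2)).2 (low _ (mem_of_fixed h2) (by rwa [orderOf_conj'']))) _ u rfl
      le_rfl ⟨k, hk⟩ (Finset.univ.filter fun x => ¬ u • x = x)
      (fun x hx => by simpa using hx) (fun x hx e => ((Finset.mem_filter.1 hx).2 e).elim), add_zero,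
    Finset.sum_congr rfl (g := fun _ => ℓ u) (fun x hx => by
      have h2 := (Finset.mem_filter.1 hx).2
      rw [trc_of_fixed ℓ h2]
      exact add_right_cancel ((hℓ _ (mem_of_fixed h2) _ hu).symm.trans (((z _ (mul_mem
        (mem_of_fixed h2) hu)).2 (c _ (mem_of_fixed h2))).trans w2.symm))), Finset.sum_const] at h1
  have m := (isPGroup_zpowers hk).card_modEq_card_fixedPoints (G ⧸ T)
  have e : Nat.card (MulAction.fixedPoints (zpowers u) (G ⧸ T)) =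
      (Finset.univ.filter fun x : G ⧸ T => u • x = x).card := by
    rw [← Fintype.card_subtype, ← Nat.card_eq_fintype_card]
    exact Nat.card_congr (Equiv.subtypeEquivRight fun x => ⟨fun h => h ⟨u, mem_zpowers u⟩,
      fun h g => (zpowers_le (H := MulAction.stabilizer G x)).2 h g.2⟩)
  obtain ⟨j, hj⟩ : Odd (Finset.univ.filter fun x : G ⧸ T => u • x = x).card := by
    have := (sylIn_top_iff.1 hT).2
    rw [← e, Nat.odd_iff, ← m]
    rw [index] at this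
    omega
  rw [hj, succ_nsmul, mul_nsmul, two_nsmul, w2, nsmul_zero, zero_add] at h1
  exact n ((z u hu).1 h1)

theorem card_fix_sq (e : IsElementaryAbelian 2 D) (hu : u ∈ Nm(D)) (uu : u * u = 1) :
    Nat.card D ≤ Nat.card (D ⊓ Cx(u) : Subgroup G) * Nat.card (D ⊓ Cx(u) : Subgroup G) := by
  have k := idx_le (D := ⊥) (X := D ⊓ Cx(u)) (elemAb_le_Cz e) hu (mem_Nm_of_normal _ _)
    (le_Nm_normal _ _) fun v hv => mi (commutator_mem_right hv hu) (mem_Cx.2 (by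
      have e1 := el_comm e hv (conj_mem_of_mem_normalizer hu hv)
      calc ⁅u, v⁆ * u = u * (v * (u * v * u⁻¹)) := by
            rw [commutatorElement_def, el_inv e hv, inv_eq_of_mul_eq_one_right uu]
            simp only [mul_assoc]
        _ = _ := by rw [e1, commutatorElement_def, el_inv e hv]))
  rw [secCz_bot, Cz_zpowers, relIndex_bot_left] at k
  rw [← card_mul_relIndex (show D ⊓ Cx(u) ≤ D from inf_le_left), inf_relIndex_left]
  exact Nat.mul_le_mul_left _ k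

theorem mul_conj (g a b : G) : g * a * g⁻¹ * (g * b * g⁻¹) = g * (a * b) * g⁻¹ := by group

namespace QQ

variable (h : QQ q T Q R)
include h

theorem pick (ha : g * a * g⁻¹ ∈ T) (hb : g * b * g⁻¹ ∈ T) (a2 : a * a = 1) (b2 : b * b = 1) :
    ∃ c, (c = a ∨ c = b ∨ c = a * b) ∧ g * c * g⁻¹ ∈ Q ⊔ R := by
  by_contra! k
  exact k _ (Or.inr (Or.inr rfl)) (mul_conj g a b ▸ h.uq _ ha _ hb
    (by rw [mul_conj, a2, mul_one, mul_inv_cancel]; exact one_mem _)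
    (by rw [mul_conj, b2, mul_one, mul_inv_cancel]; exact one_mem _) (k _ (Or.inl rfl))
    (k _ (Or.inr (Or.inl rfl))))

theorem cxR (hv : v ∈ Q) (n : v ∉ R) : R ⊓ Cx(v) = Q ⊓ R := le_antisymm
  (fun w hw => mi ((h.nz v hv w hw.1 (mem_Cx.1 hw.2).symm).resolve_left n) hw.1)
  (le_inf inf_le_right fun _ hw => mem_Cx.2 (el_comm h.eQ hw.1 hv))

theorem lq (hx : x ∈ Nm(R)) (hu : u ∈ T) (uu : u * u = 1) (e : x * u * x⁻¹ ∈ Q ⊔ R) :
    u ∈ Q ⊔ R := by_contra fun n => by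
  have uR : x * u * x⁻¹ ∉ R := fun e => n (mem_sup_right ((mem_normalizer_iff.1 hx u).2 e))
  have uQ := (h.inv e (by rw [mul_conj, uu, mul_one, mul_inv_cancel])).resolve_right uR
  have e1 : cj x (R ⊓ Cx(u)) = Q ⊓ R := by
    rw [cj_inf, cj_Cx, cj_eq_of_mem_normalizer hx, h.cxR uQ uR]
  obtain ⟨k, k1, k2, -⟩ := h.cnt u hu n (uu ▸ one_mem _)
  have := h.k3 k1
  have l : Q ⊓ R ≤ Q ⊓ secCz (zpowers u) (Q ⊓ R) := le_inf inf_le_left fun x hx =>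
    mem_secCz_zpowers (h.nD hu) (le_normalizer hx) (commutator_mem_right hx (h.nD hu))
  obtain ⟨a, ha, b, hb, n1, n2, n3⟩ := exists_three (A := Q ⊓ secCz (zpowers u) (Q ⊓ R))
    (E := Q ⊓ R) (by
      rw [inf_eq_right.2 l, k2]; exact Nat.mul_lt_mul_of_pos_right (by omega) Nat.card_pos)
  have m : ∀ a ∈ Q ⊓ secCz (zpowers u) (Q ⊓ R), a ∈ T ⊓ Nm(R ⊓ Cx(u)) := fun a ha =>
    mi (h.QT ha.1) (mem_normalizer_of_conj_mem fun w hw => by
      refine mi (conj_mem_of_mem_normalizer (h.nR (h.QT ha.1)) hw.1) (mem_Cx.2 ?_)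
      have e4 : a⁻¹ * u * a = u * ⁅u, a⁆ := by
        rw [commutatorElement_def, el_inv h.eQ ha.1, inv_eq_of_mul_eq_one_right uu, ← mul_assoc,
          ← mul_assoc, ← mul_assoc, uu, one_mul]
      have e5 : w * (a⁻¹ * u * a) = a⁻¹ * u * a * w := by
        rw [e4, ← mul_assoc, mem_Cx.1 hw.2, mul_assoc,
          el_comm h.eR hw.1 (ha.2.2 u (mem_zpowers u)).2, mul_assoc]
      calc a * w * a⁻¹ * u = a * (w * (a⁻¹ * u * a)) * a⁻¹ := by group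
        _ = _ := by rw [e5]; group)
  obtain ⟨y, hy, e2⟩ := (h.syl.mono (le_inf h.nR h.nD) le_top).exists_cj_le
    (isPGroup_cj (h.syl.pgrp.to_inf_left (K := Nm(R ⊓ Cx(u)))) x) (le_inf
      ((cj_mono x (inf_le_left.trans h.nR)).trans (by
        rw [cj_normalizer, cj_eq_of_mem_normalizer hx]))
      ((cj_mono x inf_le_right).trans (by rw [cj_normalizer, e1])))
  rw [← cj_mul] at e2
  obtain ⟨c, hc, e3⟩ := h.pick (e2 (conj_mem_cj _ (m a ha))) (e2 (conj_mem_cj _ (m b hb)))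
    (el_sq h.eQ ha.1) (el_sq h.eQ hb.1)
  have c1 : c ∈ Q ∧ c ∉ Q ⊓ R := by
    rcases hc with rfl | rfl | rfl
    exacts [⟨ha.1, n1⟩, ⟨hb.1, n2⟩, ⟨mul_mem ha.1 hb.1, n3⟩]
  have e4 : cj (y * x) (R ⊓ Cx(u)) = Q ⊓ R := by rw [cj_mul, e1, cj_eq_of_mem_normalizer hy.2]
  have e5 := h.BD e3
  rw [← e4, ← cj_centralizer, conj_mem_cj_iff] at e5
  have e6 := eq_of_le_of_card_ge ((le_inf inf_le_left (le_Cx_iff.2 e5)).trans
    (h.cxR c1.1 fun e => c1.2 (mi c1.1 e)).le) (by rw [← e4, card_cj])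
  exact n (h.f3 h.covD hu (le_Cx_iff.1 (e6.ge.trans inf_le_right)))

theorem lq' (hX : IsPGroup 2 X) (h1 : X ≤ Nm(Q) ∨ X ≤ Nm(R)) (h2 : ∀ g, cj g X ≤ T → cj g X ≤ Q ⊔ R) :
    ∃ y, (y ∈ Nm(Q) ∨ y ∈ Nm(R)) ∧ cj y X ≤ Q ⊔ R := by
  rcases h1 with h1 | h1
  · obtain ⟨y, hy, e⟩ := (h.syl.mono h.nQ le_top).exists_cj_le hX h1
    exact ⟨y, Or.inl hy, h2 y e⟩
  · obtain ⟨y, hy, e⟩ := (h.syl.mono h.nR le_top).exists_cj_le hX h1
    exact ⟨y, Or.inr hy, h2 y e⟩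

theorem lq2 (hx : x ∈ Nm(Q) ∨ x ∈ Nm(R)) (hu : u ∈ T) (uu : u * u = 1)
    (e : x * u * x⁻¹ ∈ Q ⊔ R) : u ∈ Q ⊔ R :=
  hx.elim (fun hx => sup_comm R Q ▸ h.symm.lq hx hu uu (sup_comm Q R ▸ e)) fun hx => h.lq hx hu uu e

theorem card_D : q ≤ Nat.card (Q ⊓ R : Subgroup G) := by
  obtain ⟨v, hv, n⟩ := SetLike.not_le_iff_exists.1 h.nle
  have k := idx_le (D := ⊥) (X := Q ⊓ R) (elemAb_le_Cz h.eR) (h.nR (h.QT hv))
    (mem_Nm_of_normal _ _) (le_Nm_normal _ _) fun w hw => h.cD hv hw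
  have k1 := card_mul_relIndex (show R ⊓ Cx(v) ≤ R from inf_le_left)
  rw [secCz_bot, Cz_zpowers, relIndex_bot_left] at k
  rw [inf_relIndex_left, h.cxR hv n, h.cR, mul_comm] at k1
  exact Nat.eq_of_mul_eq_mul_right Nat.card_pos k1 ▸ k

theorem nf_aux (hu : u ∈ T) (uu : u * u = 1) (e : g * u * g⁻¹ ∈ Q) (hd : d ∈ Q ⊓ R) (n : d ≠ 1)
    (e' : g * d * g⁻¹ ∈ Q) : u ∈ Q ⊔ R := by
  have l : cj g⁻¹ Q ≤ Cx(d) := by
    rw [cj_le_iff, inv_inv, cj_Cx]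
    exact (elemAb_le_Cz h.eQ).trans (Cz_le_Cx e')
  obtain ⟨y, hy, k⟩ := h.lq' (isPGroup_cj (elemAb_isPGroup h.eQ) g⁻¹)
    ((h.Cx_le hd n).imp l.trans l.trans) fun y e => by
      rw [← cj_mul] at e ⊢
      exact (h.wk e).elim (fun e => e.le.trans le_sup_left) fun e => e.le.trans le_sup_right
  exact h.lq2 hy hu uu (k (conj_mem_cj y (mem_cj_inv.2 e)))

theorem nf (hu : u ∈ T) (uu : u * u = 1) (e : g * u * g⁻¹ ∈ Q ⊓ R) : u ∈ Q ⊔ R := by
  obtain ⟨S, hS, l⟩ := exists_sylIn_ge (h.syl.pgrp.to_inf_left (K := Cx(u))) inf_le_right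
  obtain ⟨c, hc, e1⟩ := hS.exists_cj_le (isPGroup_cj h.pB g⁻¹) (by
    rw [cj_le_iff, inv_inv, cj_Cx]
    exact h.BD.trans (Cz_le_Cx e))
  obtain ⟨y, -, e2⟩ := h.syl.exists_cj_le hS.pgrp le_top
  have k := h.wkB (g := y * (c * g⁻¹)) (by rw [cj_mul, cj_mul]; exact (cj_mono y e1).trans e2)
  have e3 : y * u * y⁻¹ ∈ Q ⊓ R := by
    have := conj_mem_of_mem_normalizer (mem_Nm_inf k.1 k.2) e
    rwa [show y * (c * g⁻¹) * (g * u * g⁻¹) * (y * (c * g⁻¹))⁻¹ = y * (c * u * c⁻¹) * y⁻¹ by group,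
      mem_Cx'.1 hc] at this
  have eD : IsElementaryAbelian 2 (Q ⊓ R : Subgroup G) := elemAb_of_le inf_le_left h.eQ
  have c1 := (h.q8.trans h.card_D).trans (card_fix_sq eD (h.nD hu) uu)
  obtain ⟨a, ha, b, hb, n1, n2, n3⟩ := exists_three (A := Q ⊓ R ⊓ Cx(u)) (E := ⊥) (by
    rw [inf_bot_eq, card_bot]
    by_contra! c
    have := Nat.mul_le_mul c c
    omega)
  have m : ∀ a ∈ Q ⊓ R ⊓ Cx(u), y * a * y⁻¹ ∈ T := fun a ha =>
    e2 (conj_mem_cj y (l (mi (h.QT ha.1.1) ha.2)))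
  obtain ⟨d, hd, e4⟩ := h.pick (m a ha) (m b hb) (el_sq eD ha.1) (el_sq eD hb.1)
  have d1 : d ∈ Q ⊓ R ∧ d ∉ (⊥ : Subgroup G) := by
    rcases hd with rfl | rfl | rfl
    exacts [⟨ha.1, n1⟩, ⟨hb.1, n2⟩, ⟨mul_mem ha.1 hb.1, n3⟩]
  have d2 : d ≠ 1 := fun e => d1.2 (mem_bot.2 e)
  rcases h.inv e4 (by rw [mul_conj, el_sq eD d1.1, mul_one, mul_inv_cancel]) with e5 | e5
  · exact h.nf_aux hu uu e3.1 d1.1 d2 e5
  · exact sup_comm R Q ▸ h.symm.nf_aux hu uu e3.2 (inf_comm Q R ▸ d1.1) d2 e5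

theorem free (hs : s ∈ T) (n : s ∉ Q ⊔ R) (ss : s * s ∈ Q ⊔ R) (hv : v ∈ Q)
    (e : ⁅s, v⁆ ∈ Q ⊓ R) : ∃ a ∈ Q, ⁅a, s⁆ * v ∈ Q ⊓ R := by
  obtain ⟨k, k1, k2, -⟩ := h.cnt s hs n ss
  have nQ := h.nQ hs
  let X := cmS (elemAb_le_Cz h.eQ) nQ
  have XQ : X ≤ Q := by
    rintro _ ⟨v, hv, rfl⟩; exact commutator_mem_left hv nQ
  have l : X ⊔ Q ⊓ R ≤ Q ⊓ secCz (zpowers s) (Q ⊓ R) := sup_le (by
    rintro _ ⟨a, ha, rfl⟩
    refine mi (commutator_mem_left ha nQ) (mem_secCz_zpowers (h.nD hs)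
      (h.nD (h.QT (commutator_mem_left ha nQ))) ?_)
    have e1 := el_comm h.eQ ha (conj_mem_of_mem_normalizer nQ ha)
    have e2 := h.cQB (commutator_mem_commutator ha ss)
    have e3 := el_comm h.eQ (conj_mem_of_mem_normalizer nQ ha)
      (conj_mem_of_mem_normalizer nQ (conj_mem_of_mem_normalizer nQ ha))
    have i := el_inv h.eQ ha
    have j := el_sq h.eQ (conj_mem_of_mem_normalizer nQ ha)
    have : ⁅s, ⁅a, s⁆⁆ = ⁅a, s * s⁆⁻¹ := by
      calc ⁅s, ⁅a, s⁆⁆ = s * a * s⁻¹ * (s * (s * a⁻¹ * s⁻¹) * s⁻¹) * (s * a * s⁻¹) * a⁻¹ := by group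
        _ = s * (s * a * s⁻¹) * s⁻¹ * a⁻¹ := by
          rw [i, e3, mul_assoc (s * (s * a * s⁻¹) * s⁻¹) (s * a * s⁻¹), j, mul_one]
        _ = _ := by simp only [commutatorElement_def, mul_inv_rev, inv_inv, mul_assoc]
    exact this ▸ inv_mem e2) (le_inf inf_le_left fun x hx =>
    mem_secCz_zpowers (h.nD hs) (le_normalizer hx) (commutator_mem_right hx (h.nD hs)))
  have k3 := idx_le (D := Q ⊓ R) (X := X ⊔ Q ⊓ R) (elemAb_le_Cz h.eQ) nQ (h.nD hs)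
    (h.QT.trans h.nD) fun v hv => mem_sup_left (by
      rw [← commutatorElement_inv]; exact inv_mem ⟨v, hv, rfl⟩)
  have k4 := card_mul_relIndex (show Q ⊓ secCz (zpowers s) (Q ⊓ R) ≤ Q from inf_le_left)
  have k5 := card_mul_relIndex (show Q ⊓ R ≤ X ⊔ Q ⊓ R from le_sup_right)
  have := h.k3 k1
  rw [inf_relIndex_left, k2, h.cQ, ← k1, mul_right_comm] at k4
  rw [Nat.eq_of_mul_eq_mul_left (by omega) (Nat.eq_of_mul_eq_mul_right Nat.card_pos k4)] at k3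
  have k6 := eq_of_le_of_card_ge l (by rw [k2, ← k5, mul_comm]; exact Nat.mul_le_mul_left _ k3)
  obtain ⟨_, ⟨a, ha, rfl⟩, d, hd, rfl⟩ := (mem_sup_of_le_Nm (XQ.trans (h.QT.trans h.nD))).1
    (k6.ge (mi hv (mem_secCz_zpowers (h.nD hs) (h.nD (h.QT hv)) e)))
  exact ⟨a, ha, by rw [← mul_assoc, el_sq h.eQ (commutator_mem_left ha nQ), one_mul]; exact hd⟩

theorem half (hs : s ∈ T) (n : s ∉ Q ⊔ R) (ss : s * s ∈ Q ⊔ R) :
    ∃ a ∈ Q, a * s * (a * s) ∈ R ∧ (s * s ∈ Q → a * s * (a * s) ∈ Q) := by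
  obtain ⟨v, hv, w, hw, e⟩ := h.dec ss
  have nQ := h.nQ hs
  have nR := h.nR hs
  obtain ⟨a, ha, k⟩ := h.free hs n ss hv (mi (commutator_mem_right hv nQ) (by
    have : ⁅s, v⁆ = v * (w * (s * w⁻¹ * s⁻¹)) * v⁻¹ := by
      rw [commutatorElement_def, ← mul_assoc v w, e, eq_mul_inv_of_mul_eq e]; group
    exact this ▸ conj_mem_of_mem_normalizer (h.nR (h.QT hv))
      (mul_mem hw (conj_mem_of_mem_normalizer nR (inv_mem hw)))))
  have e1 : a * s * (a * s) = ⁅a, s⁆ * (s * s) := by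
    rw [commutatorElement_def, el_inv h.eQ ha]; group
  exact ⟨a, ha, by rw [e1, ← e, ← mul_assoc]; exact mul_mem k.2 hw,
    fun m => e1 ▸ mul_mem (commutator_mem_left ha nQ) m⟩

theorem eq_B (hO : pResidual 2 G = ⊤) (cQ : ∀ v ∈ Q, ∃ g, g * v * g⁻¹ ∈ Q ⊓ R)
    (cR : ∀ v ∈ R, ∃ g, g * v * g⁻¹ ∈ Q ⊓ R) : T = Q ⊔ R := by
  refine le_antisymm (fun s hs => by_contra fun n => ?_) h.BT
  have tr : ∀ u ∈ T, u ∉ Q ⊔ R → u * u ∈ Q ⊔ R → (∀ y ∈ T, orderOf y < orderOf u → y ∈ Q ⊔ R) →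
      (∀ g, g * (u * u) * g⁻¹ ∈ T → g * (u * u) * g⁻¹ ∈ Q ⊔ R) → ∃ g, g * u * g⁻¹ ∈ Q ⊔ R :=
    fun u hu n uu low k => by
      obtain ⟨g, e1, e2⟩ := gen_thompson h.syl hO h.nB h.cm hu n uu low
      have e3 := mul_mem e1 e1
      refine ⟨g⁻¹, by_contra fun m => e2 (h.uq _ e1 _ hu ?_ uu (by simpa using m) n)⟩
      have := k g⁻¹
      rw [← mul_conj, inv_inv] at this
      exact this e3
  by_cases c : ∃ u ∈ T, u ∉ Q ⊔ R ∧ u * u = 1
  · obtain ⟨u, hu, n, uu⟩ := c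
    obtain ⟨g, e⟩ := tr u hu n (uu ▸ one_mem _) (fun y _ o => by
      have := (orderOf_le_of_pow_eq_one two_pos (by rwa [pow_two]) : orderOf u ≤ 2)
      have := orderOf_pos y
      exact orderOf_eq_one_iff.1 (show orderOf y = 1 by omega) ▸ one_mem _) fun g _ => by
        rw [uu, mul_one, mul_inv_cancel]; exact one_mem _
    obtain ⟨y, e⟩ := (h.inv e (by rw [mul_conj, uu, mul_one, mul_inv_cancel])).elim (cQ _) (cR _)
    exact n (h.nf (g := y * g) hu uu (by simpa [mul_assoc] using e))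
  push Not at c
  replace c : ∀ u ∈ T, u * u = 1 → u ∈ Q ⊔ R := fun u hu uu => by_contra fun n => c u hu n uu
  obtain ⟨t, h1, n, tt⟩ := exists_sq_mem h.syl.pgrp hs n
  have ht := zpowers_le.2 hs h1
  obtain ⟨a, ha, k1, -⟩ := h.half ht n tt
  have n1 : a * t ∉ R ⊔ Q := fun e => n ((mul_mem_cancel_left (mem_sup_left ha)).1 (sup_comm R Q ▸ e))
  obtain ⟨b, hb, k2, k3⟩ := h.symm.half (mul_mem (h.QT ha) ht) n1 (mem_sup_left k1)
  have hu := mul_mem (h.RT hb) (mul_mem (h.QT ha) ht)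
  have n2 : b * (a * t) ∉ Q ⊔ R := fun e =>
    n1 ((mul_mem_cancel_left (mem_sup_left hb)).1 (sup_comm Q R ▸ e))
  have uD := mi k2 (k3 k1)
  generalize b * (a * t) = u at hu n2 uD
  have u4 := el_sq h.eQ uD.1
  obtain ⟨g, e⟩ := tr u hu n2 (mem_sup_left uD.1) (fun y hy o => c y hy (by
    have o4 : orderOf u ≤ 4 := orderOf_le_of_pow_eq_one (by norm_num) (by
      rw [← u4, ← pow_two, ← pow_two, ← pow_mul])
    obtain ⟨j, hj⟩ := isPGroup_iff_mem.1 h.syl.pgrp y hy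
    obtain ⟨i, -, hi⟩ := (Nat.dvd_prime_pow Nat.prime_two).1 (orderOf_dvd_of_pow_eq_one hj)
    have : i ≤ 1 := by
      by_contra! k
      have := Nat.pow_le_pow_right two_pos k
      omega
    rw [← pow_two, ← orderOf_dvd_iff_pow_eq_one, hi]
    exact pow_dvd_pow 2 this)) fun g m => c _ m (by rw [mul_conj, u4, mul_one, mul_inv_cancel])
  have l : cj g⁻¹ (Q ⊔ R) ≤ Cx(u * u) := by
    rw [cj_le_iff, inv_inv, cj_Cx]
    exact h.BD.trans (Cz_le_Cx (mul_conj g u u ▸ h.sq e))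
  have fin : ∀ {Q R : Subgroup G}, QQ q T Q R → u ∉ Q ⊔ R → g * u * g⁻¹ ∈ Q ⊔ R →
      (∀ u ∈ T, u * u = 1 → u ∈ Q ⊔ R) → cj g⁻¹ (Q ⊔ R) ≤ Nm(Q) → False := fun {Q R} h n e c l => by
    obtain ⟨y, hy, e1⟩ := (h.syl.mono h.nQ le_top).exists_cj_le (isPGroup_cj h.pB g⁻¹) l
    have e2 := e1 (conj_mem_cj y (mem_cj_inv.2 e))
    rw [← cj_mul] at e1
    have e3 := conj_mem_of_mem_normalizer (mem_Nm_sup (h.wkB e1).1 (h.wkB e1).2) e
    obtain ⟨v, hv, w, hw, e4⟩ := h.dec e3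
    have v1 := conj_mem_of_mem_normalizer' hy hv
    have e5 : u = y⁻¹ * v * y * (y⁻¹ * w * y) := by
      rw [show y⁻¹ * v * y * (y⁻¹ * w * y) = y⁻¹ * (v * w) * y by group, e4]; group
    refine n (e5 ▸ mul_mem (mem_sup_left v1) (c _ ((mul_mem_cancel_left (h.QT v1)).1 (e5 ▸ hu)) ?_))
    rw [show y⁻¹ * w * y * (y⁻¹ * w * y) = y⁻¹ * (w * w) * y by group, el_sq h.eR hw]; group
  rcases h.Cx_le uD fun e => n2 (c u hu e) with k | k
  · exact fin h n2 e c (l.trans k)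
  · rw [sup_comm] at n2 e c l
    exact fin h.symm n2 e c (l.trans k)

end QQ

end CfH7
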