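import Cfsg.Agent.OD.Pre
import Cfsg.Agent.H7.GC1b

/-! Linear Baumann blocks in characteristic two: coordinates. -/

set_option autoImplicit false
set_option linter.unusedSectionVars false

open Cfsg Subgroup CfH9 CfLp Equiv
open scoped commutatorElement MatrixGroups

namespace CfH7

open CfH8 (BB JJ MaxEl)

universe u

variable {G : Type u} [Group G] [Finite G] {q : ℕ} {T B F S A X Y W D : Subgroup G}
  {a b c d f g s t u v w x y : G}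

section
variable {K : Type} [Field K] [Fintype K]

theorem ringAut_cyclic {n : ℕ} (hK : Fintype.card K = 2 ^ n) : IsCyclic (RingAut K) := by
  haveI : CharP K 2 := charP_of_card_eq_prime_pow hK
  letI := ZMod.algebra K 2
  exact isCyclic_of_surjective (MulSemiringAction.toRingAut Gal(K/ZMod 2) K) fun φ =>
    ⟨AlgEquiv.ofRingEquiv (f := φ) fun x => RingHom.congr_fun (RingHom.ext_zmod
      (φ.toRingHom.comp (algebraMap (ZMod 2) K)) (algebraMap (ZMod 2) K)) x, rfl⟩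

instance finRingAut : Finite (RingAut K) :=
  Finite.of_injective _ (DFunLike.coe_injective (F := K ≃+* K))

theorem two_pow_le (Γ : Subgroup (RingAut K)) : 2 ^ Nat.card Γ ≤ Nat.card K := by
  rw [LM.card_fix Γ]
  exact Nat.pow_le_pow_left Finite.one_lt_card _

/-- fixed points of a semilinear map -/
def fixS (μ : K) (a : RingAut K) : AddSubgroup K where
  carrier := {t | μ * a t = t}
  zero_mem' := by simp
  add_mem' {x y} h h' := by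
    change μ * a (x + y) = x + y
    rw [map_add, mul_add, show μ * a x = x from h, show μ * a y = y from h']
  neg_mem' {x} h := by
    change μ * a (-x) = -x
    rw [map_neg, mul_neg, show μ * a x = x from h]

theorem index_fixS {n : ℕ} (hK : Fintype.card K = 2 ^ n) {μ : K} {a : RingAut K}
    (h : ∀ t, μ * a (μ * a t) = t) :
    (fixS μ a).index = (fixS 1 a).index ∧
      (orderOf a = 2 → (fixS 1 a).index * (fixS 1 a).index = Nat.card K) := by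
  haveI : CharP K 2 := charP_of_card_eq_prime_pow hK
  constructor
  · obtain ⟨t, h0, ht⟩ : ∃ t, t ≠ 0 ∧ μ * a t = t := by
      by_cases e : μ * a 1 = 1
      · exact ⟨1, one_ne_zero, e⟩
      · exact ⟨1 + μ * a 1, fun e' => e (CharTwo.add_eq_zero.1 e').symm, by
          rw [map_add, mul_add, h, add_comm]⟩
    rw [← (fixS μ a).index_comap_of_surjective (f := AddMonoidHom.mulLeft t)
      (mul_left_surjective₀ h0)]
    refine congrArg _ (AddSubgroup.ext fun x => ?_)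
    change μ * a (t * x) = t * x ↔ 1 * a x = x
    rw [map_mul, ← mul_assoc, ht, one_mul, mul_right_inj' h0]
  · intro o
    have e1 := LM.card_fix (zpowers a)
    have e2 : Nat.card (FixedPoints.subfield (zpowers a) K) = Nat.card (fixS 1 a) :=
      Nat.card_congr (Equiv.subtypeEquivRight fun x => ⟨fun h => (one_mul _).trans (h ⟨a, mem_zpowers a⟩),
        fun h g => (zpowers_le (H := MulAction.stabilizer (RingAut K) x)).2 ((one_mul _).symm.trans h) g.2⟩)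
    have e3 := (fixS 1 a).card_mul_index
    rw [Nat.card_zpowers, o, e2, pow_two] at e1
    rw [e1] at e3 ⊢
    rw [Nat.eq_of_mul_eq_mul_left Nat.card_pos e3]

/-- a coordinate on the section `X / D` -/
structure Cr (φ : G → K) (X D : Subgroup G) : Prop where
  add : AddOn X φ
  sur : ∀ t, ∃ x ∈ X, φ x = t
  zero : ∀ x ∈ X, φ x = 0 ↔ x ∈ D

variable {φ : G → K}

theorem idx_of (h : AddOn X φ) (sur : ∀ t, ∃ x ∈ X, φ x = t) (Y : AddSubgroup K)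
    (e : ∀ x ∈ X, x ∈ W ↔ φ x ∈ Y) : W.relIndex X = Y.index := by
  rw [relIndex, show W.subgroupOf X = Y.toSubgroup.comap h.hom from Subgroup.ext fun x => e x x.2,
    index_comap_of_surjective _ fun t => by
      obtain ⟨x, hx, e⟩ := sur t.toAdd
      exact ⟨⟨x, hx⟩, e⟩, AddSubgroup.index_toSubgroup]

theorem Cr.idx (h : Cr φ X D) : D.relIndex X = Nat.card K :=
  (idx_of h.add h.sur ⊥ fun x hx => (h.zero x hx).symm).trans AddSubgroup.index_bot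

theorem Cr.card (h : Cr φ X D) : Nat.card X = Nat.card K * Nat.card (X ⊓ D : Subgroup G) := by
  rw [← card_mul_relIndex (show X ⊓ D ≤ X from inf_le_left), inf_relIndex_left, h.idx, mul_comm]

theorem Cr.sur' (h : Cr φ X D) (l : Y ≤ X) (e : X ≤ Y ⊔ (X ⊓ D)) (n : X ≤ Nm(D)) (t : K) :
    ∃ y ∈ Y, φ y = t := by
  obtain ⟨x, hx, rfl⟩ := h.sur t
  obtain ⟨y, hy, d, hd, rfl⟩ := (mem_sup_of_le_Nm (l.trans (le_normalizer_inf le_normalizer n))).1 (e hx)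
  exact ⟨y, hy, by rw [h.add _ (l hy) _ hd.1, (h.zero d hd.1).2 hd.2, add_zero]⟩

theorem Cr.sec (h : Cr φ X D) (l : Y ≤ X) (sur : ∀ t, ∃ y ∈ Y, φ y = t) (h1 : s ∈ Nm(X))
    (h2 : s ∈ Nm(W)) (h3 : Y ≤ Nm(W)) (h4 : ∀ y ∈ Y, ⁅s, y⁆ ∈ D ↔ ⁅s, y⁆ ∈ W) {μ : K} {a : RingAut K}
    (e : ∀ x ∈ X, φ (s * x * s⁻¹) = μ * a (φ x)) :
    (secCz (zpowers s) W).relIndex Y = (fixS μ a).index := by
  refine idx_of (h.add.mono l) sur _ fun y hy => ?_
  have k : ⁅s, y⁆ ∈ W ↔ φ y ∈ fixS μ a := by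
    rw [← h4 y hy, ← h.zero _ (commutator_mem_right (l hy) h1), commutatorElement_def,
      h.add _ (conj_mem_of_mem_normalizer h1 (l hy)) _ (inv_mem (l hy)), h.add.inv (l hy),
      e y (l hy), add_neg_eq_zero]
    rfl
  exact ⟨fun m => k.1 (m.2 s (mem_zpowers s)), fun m => mem_secCz_zpowers h2 (h3 hy) (k.2 m)⟩

theorem Cr.inv (h : Cr φ X D) (h1 : s ∈ Nm(X)) {μ : K} {a : RingAut K}
    (e : ∀ x ∈ X, φ (s * x * s⁻¹) = μ * a (φ x)) (h2 : ∀ x ∈ X, ⁅s * s, x⁆ ∈ D) (t : K) :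
    μ * a (μ * a t) = t := by
  obtain ⟨x, hx, rfl⟩ := h.sur t
  have m := conj_mem_of_mem_normalizer (mul_mem h1 h1) hx
  have k := (h.zero _ (commutator_mem_right hx (mul_mem h1 h1))).2 (h2 x hx)
  rw [commutatorElement_def, h.add _ m _ (inv_mem hx), h.add.inv hx, add_neg_eq_zero] at k
  rw [← e x hx, ← e _ (conj_mem_of_mem_normalizer h1 hx), ← k]
  congr 1
  group

end

/-- change of coordinates -/
def MD.tw {P Z : Type*} [Group P] [AddCommGroup Z] [DistribMulAction P Z] {R : Subgroup P}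
    {E U U₀ : Subgroup G} (D : MD R (⊤ : AddSubgroup Z) E U U₀) (g : P) :
    MD (cj g R) (⊤ : AddSubgroup Z) E U U₀ where
  ρ := (MulAut.conj g).toMonoidHom.comp D.ρ
  c u := g • D.c u
  n := D.n
  le := D.le
  range := by rw [MonoidHom.range_comp, D.range]; rfl
  c_mul u hu v hv := by rw [D.c_mul u hu v hv, smul_add]
  c_mem _ _ := trivial
  c_surj y _ := by
    obtain ⟨u, hu, e⟩ := D.c_surj (g⁻¹ • y) trivial
    exact ⟨u, hu, by rw [e, smul_inv_smul]⟩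
  c_zero u hu := (smul_eq_zero_iff_eq g).trans (D.c_zero u hu)
  act x u hu := by simp [D.act x u hu, mul_smul]

theorem MD.im_tw {P Z : Type*} [Group P] [AddCommGroup Z] [DistribMulAction P Z] {R : Subgroup P}
    {E U U₀ : Subgroup G} (D : MD R (⊤ : AddSubgroup Z) E U U₀) (g : P) (A : Subgroup G) :
    CfH7.im (D.tw g).ρ A = cj g (CfH7.im D.ρ A) := (Subgroup.map_map _ _ _).symm

/-- a linear block for a group which is its own Baumann subgroup -/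
structure Pc (B F : Subgroup G) : Prop where
  pg : IsPGroup 2 B
  eB : BB 2 B = B
  blk : IsBaumannBlock 2 B F
  ln : Ln 2 F
  VB : bV 2 F ≤ B

namespace Pc

variable (h : Pc B F)
include h

theorem bk : BK 2 B F := bk_of h.blk

theorem nF : B ≤ Nm(F) := h.eB.ge.trans h.bk.B_le_Nm

theorem nV : B ≤ Nm(bV 2 F) := h.nF.trans (Nm_le_Nm_bV F)

theorem cm (h1 : X ≤ Nm(F)) (h2 : X ≤ Cz(bV 2 F)) : ⁅X, F⁆ ≤ bV 2 F :=
  (h.bk.comm_le_Q h1 h2).trans h.bk.Q_two.le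

theorem VJ : bV 2 F ≤ JJ 2 B := blk_V_le_J h.blk h.VB

theorem nC : ¬ B ≤ Cz(bV 2 F) := fun e => h.bk.not_le_Q (h.bk.com.ge.trans
  ((commutator_comm _ _).le.trans (h.eB.symm ▸ h.bk.comm_le_Q h.nF e)))

theorem nJ : ¬ JJ 2 B ≤ Cz(bV 2 F) := fun e => h.nC (h.eB.ge.trans ((CfH8.B_le_Cz B).trans
  (Cz_anti (le_OZ (elemAb_bV F) h.VJ (le_Cz_comm e)))))

theorem CzJ : B ≤ Cz(bV 2 F ⊓ Cz(JJ 2 B)) := h.eB.ge.trans (B_le_Cz_inf (elemAb_bV F) h.VB)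

theorem cj (g : G) : Pc (CfH9.cj g B) (CfH9.cj g F) :=
  ⟨isPGroup_cj h.pg g, by rw [← CfH8.cj_B, h.eB], blk_cj h.blk g, by
    obtain ⟨K, _, _, l⟩ := h.ln
    obtain ⟨D⟩ := l.md
    refine ln_of_md (blk_cj h.blk g) l.card ?_
    rw [← cj_bV, cj_def g F, ← map_bV0 (p := 2) (MulAut.conj g).injective]
    exact D.map (MulAut.conj g).injective, cj_bV (p := 2) g F ▸ cj_mono g h.VB⟩

end Pc

/-- coordinates in which `B` acts as the upper unitriangular group -/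
structure CD (B F : Subgroup G) {K : Type} [Field K] [Fintype K] {R : Subgroup (NS K)}
    (D : MD R (⊤ : AddSubgroup (Fin 2 → K)) Nm(F) (bV 2 F) (bV0 2 F)) : Prop extends Pc B F where
  card : ∃ n, Fintype.card K = 2 ^ n
  bd : BD 2 D F ((commutator SL(2, K)).map (slN K)) (slN K).range
  imB : im D.ρ B = LM.U (slN K)

theorem Pc.exists_cd (h : Pc B F) : ∃ (K : Type) (_ : Field K) (_ : Fintype K) (R : Subgroup (NS K))
    (D : MD R (⊤ : AddSubgroup (Fin 2 → K)) Nm(F) (bV 2 F) (bV0 2 F)), CD B F D := by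
  obtain ⟨K, _, _, l⟩ := h.ln
  obtain ⟨n, hK⟩ := l.card
  obtain ⟨R, D, b⟩ := l.bd h.bk (X := Nm(F)) le_normalizer (Nm_le_Nm_bV F) (Or.inl le_rfl)
  have nN := (CfH8.J_le (p := 2) B).trans h.nF
  have o := b.off_J h.pg h.VB nN
  obtain ⟨s, hs⟩ := (lm_slN.off hK o.el o.eq.ge).resolve_left fun e =>
    h.nJ ((im_eq_bot_iff b.ker nN).1 e)
  have e : im D.ρ B = im D.ρ (JJ 2 B) := le_antisymm ((im_le_im_iff b.ker h.nF nN).2
    fun x hx => b.fix h.pg h.VB nN (h.nF hx) (h.pg.to_le (zpowers_le.2 hx)) (h.CzJ hx))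
    (im_mono (CfH8.J_le B))
  haveI := b.mdl.nS'
  exact ⟨K, _, _, _, D.tw (slN K s)⁻¹, h, l.card, ⟨b.mdl, b.le, by rw [D.im_tw, b.im, cj_normal],
    fun x => (map_eq_one_iff _ (MulAut.conj _).injective).trans (b.ker x), b.el⟩,
    by rw [D.im_tw, e, hs, cj_inv_cj]⟩

namespace CD

variable {K : Type} [Field K] [Fintype K] {R : Subgroup (NS K)}
  {D : MD R (⊤ : AddSubgroup (Fin 2 → K)) Nm(F) (bV 2 F) (bV0 2 F)}

open Classical in
/-- the coordinate on `B` -/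
noncomputable def ψ (D : MD R (⊤ : AddSubgroup (Fin 2 → K)) Nm(F) (bV 2 F) (bV0 2 F)) (b : G) : K :=
  if h : b ∈ Nm(F) then (D.ρ ⟨b, h⟩ • ![(0 : K), 1]) 0 else 0

/-- the field automorphism -/
noncomputable def θ (D : MD R (⊤ : AddSubgroup (Fin 2 → K)) Nm(F) (bV 2 F) (bV0 2 F)) :
    Nm(F) →* RingAut K := lm_slN.θ.comp D.ρ

variable (h : CD B F D)
include h

theorem ψ_eq (hb : b ∈ Nm(F)) {t : K} (e : D.ρ ⟨b, hb⟩ = slN K (uu t)) : ψ D b = t := by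
  rw [ψ, dif_pos hb, e, lm_slN.eq, uu_smul]; simp

theorem ρ_eq (hb : b ∈ B) : D.ρ ⟨b, h.nF hb⟩ = slN K (uu (ψ D b)) := by
  obtain ⟨t, e⟩ := LM.mem_U.1 (h.imB.le (mem_im (x := ⟨b, h.nF hb⟩) hb))
  rw [h.ψ_eq _ e.symm, e]

theorem crB : Cr (ψ D) B Cz(bV 2 F) where
  add a ha b hb := h.ψ_eq (h.nF (mul_mem ha hb)) (by
    rw [← uu_mul, map_mul, ← h.ρ_eq ha, ← h.ρ_eq hb, ← map_mul]; rfl)
  sur t := by
    obtain ⟨b, hb, e⟩ := h.imB.ge (LM.mem_U.2 ⟨t, rfl⟩)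
    exact ⟨b, hb, h.ψ_eq b.2 e⟩
  zero b hb := by
    rw [← h.bd.ker ⟨b, h.nF hb⟩]
    exact ⟨fun e => by rw [h.ρ_eq hb, e, CfLp.uu_zero, map_one],
      fun e => h.ψ_eq _ (by rw [e, CfLp.uu_zero, map_one])⟩

theorem c_comm (hb : b ∈ B) (hv : v ∈ bV 2 F) : D.c ⁅b, v⁆ = ![ψ D b * D.c v 1, 0] := by
  rw [D.c_comm ⟨b, h.nF hb⟩ hv, h.ρ_eq hb, lm_slN.eq, uu_smul]
  exact vec_ext (by simp) (by simp)

theorem mem_Z (hv : v ∈ bV 2 F) : v ∈ Cz(F) ↔ D.c v = 0 :=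
  ⟨fun e => (D.c_zero v hv).2 (mi hv e), fun e => ((D.c_zero v hv).1 e).2⟩

theorem mem_U (hv : v ∈ bV 2 F) : v ∈ Cz(B) ↔ D.c v 1 = 0 := by
  refine ⟨fun e => ?_, fun e => le_Cz_comm h.CzJ ((h.bd.tight h.VB ((CfH8.J_le B).trans h.nF)).le
    (mi hv ⟨Nm_le_Nm_bV0 F (h.nF (h.VB hv)), fun b hb => ?_⟩))⟩
  · obtain ⟨b, hb, k⟩ := h.crB.sur 1
    have := congrFun (h.c_comm hb hv) 0
    rw [commutatorElement_eq_one_iff_mul_comm.2 (e b hb), D.c_one, k] at this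
    simpa using this.symm
  · rw [← D.c_zero _ (commutator_mem_right hv (h.nV (CfH8.J_le B hb))), h.c_comm (CfH8.J_le B hb) hv, e]
    exact vec_ext (by simp) rfl

theorem crV : Cr (fun v => D.c v 1) (bV 2 F) Cz(B) where
  add a ha b hb := congrFun (D.c_mul a ha b hb) 1
  sur t := by
    obtain ⟨v, hv, e⟩ := D.c_surj ![0, t] trivial
    exact ⟨v, hv, by rw [e]; rfl⟩
  zero v hv := (h.mem_U hv).symm

theorem crU : Cr (fun v => D.c v 0) (bV 2 F ⊓ Cz(B)) Cz(F) where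
  add a ha b hb := congrFun (D.c_mul a ha.1 b hb.1) 0
  sur t := by
    obtain ⟨v, hv, e⟩ := D.c_surj ![t, 0] trivial
    exact ⟨v, mi hv ((h.mem_U hv).2 (by rw [e]; rfl)), by rw [e]; rfl⟩
  zero v hv := ⟨fun e => (h.mem_Z hv.1).2 (vec_ext e ((h.mem_U hv.1).1 hv.2)),
    fun e => congrFun ((h.mem_Z hv.1).1 e) 0⟩

theorem semi (h1 : s ∈ Nm(F)) (h2 : s ∈ Nm(B)) : ∃ μ ν : K, ν ≠ 0 ∧
    D.ρ ⟨s, h1⟩ • ![(1 : K), 0] = μ • ![1, 0] ∧
    (∀ v ∈ bV 2 F, D.c (s * v * s⁻¹) 1 = ν * θ D ⟨s, h1⟩ (D.c v 1)) ∧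
    (∀ v ∈ bV 2 F ⊓ Cz(B), D.c (s * v * s⁻¹) 0 = μ * θ D ⟨s, h1⟩ (D.c v 0)) ∧
    ∀ b ∈ B, ψ D (s * b * s⁻¹) = μ * ν⁻¹ * θ D ⟨s, h1⟩ (ψ D b) := by
  obtain ⟨u, hu, eu⟩ := D.c_surj ![1, 0] trivial
  obtain ⟨w, hw, ew⟩ := D.c_surj ![0, 1] trivial
  have nV := Nm_le_Nm_bV (p := 2) F h1
  have k : ∀ v ∈ bV 2 F, s * v * s⁻¹ ∈ Cz(B) ↔ v ∈ Cz(B) := fun v _ =>
    (mem_normalizer_iff.1 (mem_Nm_Cz h2) v).symm
  have e1 : D.ρ ⟨s, h1⟩ • ![(1 : K), 0] = (D.ρ ⟨s, h1⟩ • ![(1 : K), 0]) 0 • ![1, 0] := by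
    have := (h.mem_U (conj_mem_of_mem_normalizer nV hu)).1 ((k u hu).2 ((h.mem_U hu).2 (by rw [eu]; rfl)))
    rw [D.act ⟨s, h1⟩ u hu, eu] at this
    exact vec_ext (by simp) (by simpa using this)
  generalize (D.ρ ⟨s, h1⟩ • ![(1 : K), 0]) 0 = μ at e1
  have e2 : ∀ z : Fin 2 → K, D.ρ ⟨s, h1⟩ • z = θ D ⟨s, h1⟩ (z 0) • μ • ![1, 0] +
      θ D ⟨s, h1⟩ (z 1) • D.ρ ⟨s, h1⟩ • ![(0 : K), 1] := fun z => by
    conv_lhs => rw [vec_dec z, smul_add, lm_slN.semi', lm_slN.semi', e1]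
    rfl
  have e3 : ∀ v ∈ bV 2 F, D.c (s * v * s⁻¹) 1 =
      (D.ρ ⟨s, h1⟩ • ![(0 : K), 1]) 1 * θ D ⟨s, h1⟩ (D.c v 1) := fun v hv => by
    rw [D.act ⟨s, h1⟩ v hv, e2]; simp [mul_comm]
  have e4 : ∀ v ∈ bV 2 F ⊓ Cz(B), D.c (s * v * s⁻¹) 0 = μ * θ D ⟨s, h1⟩ (D.c v 0) := fun v hv => by
    rw [D.act ⟨s, h1⟩ v hv.1, e2, (h.mem_U hv.1).1 hv.2]; simp [mul_comm]
  have n : (D.ρ ⟨s, h1⟩ • ![(0 : K), 1]) 1 ≠ 0 := fun e => by
    have := (h.mem_U hw).1 ((k w hw).1 ((h.mem_U (conj_mem_of_mem_normalizer nV hw)).2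
      (by rw [e3 w hw, e, zero_mul])))
    rw [ew] at this
    exact one_ne_zero this
  refine ⟨μ, _, n, e1, e3, e4, fun b hb => ?_⟩
  have m : ⁅b, w⁆ ∈ bV 2 F := commutator_mem_right hw (h.nV hb)
  have e5 := e4 _ (mi m ((h.mem_U m).2 (by rw [h.c_comm hb hw]; rfl)))
  rw [conjugate_commutatorElement, h.c_comm (conj_mem_of_mem_normalizer h2 hb)
    (conj_mem_of_mem_normalizer nV hw), e3 w hw, h.c_comm hb hw, ew] at e5
  simp only [Matrix.cons_val_zero, Matrix.cons_val_one, map_one, mul_one] at e5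
  rw [mul_right_comm, ← e5, mul_inv_cancel_right₀ n]

theorem θ_B (hb : b ∈ B ⊔ bC 2 F) (h1 : b ∈ Nm(F)) : θ D ⟨b, h1⟩ = 1 := by
  have : B ⊔ bC 2 F ≤ (θ D).ker.map Nm(F).subtype := sup_le
    (fun b hb => ⟨⟨b, h.nF hb⟩, (congrArg lm_slN.θ (h.ρ_eq hb)).trans (lm_slN.θ_σ _), rfl⟩)
    fun b hb => ⟨⟨b, hb.1⟩, (congrArg lm_slN.θ ((h.bd.ker ⟨b, hb.1⟩).2 hb.2)).trans (map_one _), rfl⟩
  obtain ⟨_, e, rfl⟩ := this hb
  exact e

theorem ker_θ (h1 : s ∈ Nm(F)) (h2 : s ∈ Nm(B)) {j : ℕ} (hj : s ^ 2 ^ j = 1)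
    (e : θ D ⟨s, h1⟩ = 1) : s ∈ B ⊔ bC 2 F := by
  obtain ⟨n, hK⟩ := h.card
  have l : zpowers s ⊔ B ≤ Nm(F) := sup_le (zpowers_le.2 h1) h.nF
  obtain ⟨t, ht⟩ := lm_slN.le_root hK (isPGroup_im (π := D.ρ) (isPGroup_sup (isPGroup_zpowers hj) h.pg
    (zpowers_le.2 h2))) (by
      rw [im_sup (zpowers_le.2 h1) h.nF]
      exact sup_le ((im_le_iff (zpowers_le.2 h1)).2 fun a ha => (zpowers_le (H := (θ D).ker.map
        Nm(F).subtype)).2 ⟨⟨s, h1⟩, e, rfl⟩ ha |>.elim fun _ k => k.2 ▸ k.1)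
        ((im_le_iff h.nF).2 fun a ha => h.θ_B (mem_sup_left ha) _))
  exact mem_sup_of_mem_im h.bd.ker (x := ⟨s, h1⟩) ((eq_of_le_of_card_ge (im_mono le_sup_right)
    ((card_le_of_le ht).trans (by rw [card_cj, h.imB]))).ge (mem_im (mem_sup_left (mem_zpowers s))))

end CD

end CfH7
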