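import Cfsg.Agent.OD.Pre
import Cfsg.Agent.H7.GC3

/-! Linear Baumann blocks in characteristic two: coordinate free facts. -/

set_option autoImplicit false
set_option linter.unusedSectionVars false

open Cfsg Subgroup CfH9 CfLp Equiv
open scoped commutatorElement MatrixGroups

namespace CfH7

open CfH8 (BB JJ MaxEl)

universe u

variable {G : Type u} [Group G] [Finite G] {q : ℕ} {T B F S A X Y W D J : Subgroup G}
  {a b c d f g s t u v w x y : G}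

theorem uH_sup_cj {K : Type} [Field K] {w : SL(2, K)} (h : w • ![(1 : K), 0] = ![0, 1]) :
    (uH K).range ⊔ cj w (uH K).range = ⊤ := by
  refine sl_eq_top (fun t => mem_sup_left ⟨t, rfl⟩) fun t => mem_sup_right (mem_cj.2 ?_)
  have e : (w⁻¹ * ll t * w) • ![(1 : K), 0] = ![1, 0] := by
    rw [mul_smul, mul_smul, h, ll_smul, inv_smul_eq_iff, h]; exact vec_ext rfl (by simp)
  generalize w⁻¹ * ll t * w = g at e
  rw [sl_smul] at e
  have e0 : g 0 0 = 1 := by simpa using congrFun e 0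
  have e1 : g 1 0 = 0 := by simpa using congrFun e 1
  have e2 := g.2
  rw [Matrix.det_fin_two] at e2
  refine ⟨g 0 1, Subtype.ext (Matrix.ext fun i j => ?_)⟩
  change uu (g 0 1) i j = g i j
  change g 0 0 * g 1 1 - g 0 1 * g 1 0 = 1 at e2
  rw [e0, e1, one_mul, mul_zero, sub_zero] at e2
  fin_cases i <;> fin_cases j <;> simp [uu_coe, e0, e1, e2]

/-- field automorphisms induced by a 2-group `S` -/
structure FA (q : ℕ) (B F S : Subgroup G) : Prop where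
  cm : ⁅S, S⁆ ≤ B ⊔ bC 2 F
  uq : ∀ s ∈ S, ∀ t ∈ S, s * s ∈ B ⊔ bC 2 F → t * t ∈ B ⊔ bC 2 F → s ∉ B ⊔ bC 2 F →
    t ∉ B ⊔ bC 2 F → s * t ∈ B ⊔ bC 2 F
  idx : 2 ^ (B ⊔ bC 2 F).relIndex S ≤ q
  cnt : ∀ s ∈ S, s ∉ B ⊔ bC 2 F → s * s ∈ B ⊔ bC 2 F → ∃ k, k * k = q ∧
    (∀ D, s ∈ Nm(D) → bV 2 F ≤ Nm(D) → bV 2 F ⊓ D = bV 2 F ⊓ Cz(B) →
      (secCz (zpowers s) D).relIndex (bV 2 F) = k) ∧
    (∀ X D, X ≤ B → B ≤ X ⊔ (B ⊓ Cz(bV 2 F)) → s ∈ Nm(X) → s ∈ Nm(D) → X ≤ Nm(D) →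
      X ⊓ D = X ⊓ Cz(bV 2 F) → (secCz (zpowers s) D).relIndex X = k) ∧
    ∀ X, X ≤ bV 2 F ⊓ Cz(B) → bV 2 F ⊓ Cz(B) ≤ X ⊔ bV0 2 F →
      (secCz (zpowers s) Cz(F)).relIndex X = k

/-- a piece with field order `q` -/
structure PX (q : ℕ) (B F : Subgroup G) : Prop extends Pc B F where
  pw : ∃ n, 1 ≤ n ∧ q = 2 ^ n
  cB : Nat.card B = q * Nat.card (B ⊓ Cz(bV 2 F) : Subgroup G)
  cV : Nat.card (bV 2 F) = q * Nat.card (bV 2 F ⊓ Cz(B) : Subgroup G)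
  cU : Nat.card (bV 2 F ⊓ Cz(B) : Subgroup G) = q * Nat.card (bV0 2 F)
  ti : ∀ x ∈ B, ∀ v ∈ bV 2 F, ⁅x, v⁆ ∈ Cz(F) → x ∈ Cz(bV 2 F) ∨ v ∈ Cz(B)
  quad : ∀ b ∈ B, ∀ v ∈ bV 2 F, ⁅b, v⁆ ∈ Cz(B)
  cv1 : ∀ v ∈ bV 2 F, v ∉ Cz(B) → ∀ u ∈ bV 2 F ⊓ Cz(B), ∃ b ∈ B, ⁅b, v⁆⁻¹ * u ∈ bV0 2 F
  cv2 : ∀ b ∈ B, b ∉ Cz(bV 2 F) → ∀ u ∈ bV 2 F ⊓ Cz(B), ∃ v ∈ bV 2 F, ⁅b, v⁆⁻¹ * u ∈ bV0 2 F
  cjD : ∀ v ∈ bV 2 F, ∃ f ∈ F, f * v * f⁻¹ ∈ Cz(B)
  sqB : ∀ b ∈ B, b * b ∈ Cz(bV 2 F)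
  cmB : ⁅B, B⁆ ≤ Cz(bV 2 F)
  gen : ∃ f ∈ F, ∀ A, A ≤ B → B ≤ A ⊔ (B ⊓ Cz(bV 2 F)) → F ≤ (A ⊔ cj f A) ⊔ bV 2 F
  two : PCl 2 F ↔ q = 2
  sl : 2 < q → ∃ (K : Type) (_ : Field K) (_ : Fintype K), Fintype.card K = q ∧
    Nonempty (F ⧸ pCore 2 F ≃* SL(2, K))
  fa : ∀ S : Subgroup G, IsPGroup 2 S → S ≤ Nm(F) → S ≤ Nm(B) → FA q B F S

namespace CD

variable {K : Type} [Field K] [Fintype K] {R : Subgroup (NS K)}
  {D : MD R (⊤ : AddSubgroup (Fin 2 → K)) Nm(F) (bV 2 F) (bV0 2 F)} (h : CD B F D)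
include h

theorem quad (hb : b ∈ B) (hv : v ∈ bV 2 F) : ⁅b, v⁆ ∈ Cz(B) :=
  (h.mem_U (commutator_mem_right hv (h.nV hb))).2 (by rw [h.c_comm hb hv]; rfl)

theorem fa (hS : IsPGroup 2 S) (h1 : S ≤ Nm(F)) (h2 : S ≤ Nm(B)) : FA (Nat.card K) B F S := by
  obtain ⟨n, hK⟩ := h.card
  haveI := ringAut_cyclic hK
  haveI : CharP K 2 := charP_of_card_eq_prime_pow hK
  let τ := (θ D).comp (inclusion h1)
  have k : ∀ s : S, τ s = 1 ↔ (s : G) ∈ B ⊔ bC 2 F := fun s =>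
    ⟨fun e => (hS s).elim fun j hj => h.ker_θ (h1 s.2) (h2 s.2) (congrArg Subtype.val hj) e,
      fun e => h.θ_B e _⟩
  have o : ∀ s : S, (s : G) ∉ B ⊔ bC 2 F → (s : G) * s ∈ B ⊔ bC 2 F → orderOf (τ s) = 2 :=
    fun s n e => orderOf_eq_prime (by rw [← map_pow, pow_two]; exact (k (s * s)).2 e)
      fun e => n ((k s).1 e)
  refine ⟨commutator_le.2 fun a ha b hb => (k ⁅(⟨a, ha⟩ : S), ⟨b, hb⟩⁆).1 (by
    rw [map_commutatorElement, commutatorElement_eq_one_iff_mul_comm]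
    exact IsCyclic.commutative.is_comm.comm _ _), fun s hs t ht e1 e2 n1 n2 => (k (⟨s, hs⟩ * ⟨t, ht⟩)).1 ?_,
    ?_, fun s hs n e => ?_⟩
  · have o1 := o ⟨s, hs⟩ n1 e1
    have o2 := o ⟨t, ht⟩ n2 e2
    have m : τ ⟨t, ht⟩ ∈ zpowers (τ ⟨s, hs⟩) := mem_of_isCyclic (C := ⊤) inferInstance le_top trivial
      (by rw [Nat.card_zpowers, o1, ← o2, pow_orderOf_eq_one])
    rcases zp_two (by rw [← o1, pow_orderOf_eq_one]) m with e | e
    · exact (n2 ((k _).1 e)).elim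
    · rw [map_mul, e, ← pow_two, ← o1, pow_orderOf_eq_one]
  · rw [relIndex, show (B ⊔ bC 2 F).subgroupOf S = τ.ker from Subgroup.ext fun s => (k s).symm,
      index_ker]
    exact two_pow_le _
  obtain ⟨μ, ν, -, -, e1, e2, e3⟩ := h.semi (h1 hs) (h2 hs)
  have nV := Nm_le_Nm_bV (p := 2) F (h1 hs)
  have nC := mem_Nm_Cz (h2 hs)
  obtain ⟨b, hb, c, hc, ebc⟩ := (mem_sup_of_le_Nm (h.nF.trans (Nm_le_Nm_bC F))).1 e
  have i1 := h.crV.inv nV e1 fun v hv => by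
    rw [← ebc, comm_mul_left, comm_eq_one hc.2 hv, mul_one, mul_inv_cancel, one_mul]
    exact h.quad hb hv
  have i2 := h.crU.inv (mem_Nm_inf nV nC) e2 fun v hv => by
    rw [← ebc, comm_mul_left, comm_eq_one hc.2 hv.1, comm_eq_one' hv.2 hb]; simp
  have i3 := h.crB.inv (h2 hs) e3 fun x hx => by
    have m : c ∈ Nm(B) := (mul_mem_cancel_left (le_normalizer hb)).1 (ebc ▸ mul_mem (h2 hs) (h2 hs))
    rw [← ebc, comm_mul_left]
    refine mul_mem (conj_mem_of_mem_normalizer (mem_Nm_Cz (h.nV hb))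
      (commutator_mem_left hc.2 (mem_Nm_Cz (h.nV hx)))) ((h.crB.zero _ (commutator_mem_left hb
        (le_normalizer hx))).1 (h.crB.add.commutator_le_ker (commutator_mem_commutator hb hx)).2)
  refine ⟨_, (index_fixS hK i1).2 (o ⟨s, hs⟩ n e), fun W w1 w2 w3 => ?_,
    fun X W l1 l2 w0 w1 w2 w3 => ?_, fun X l1 l2 => ?_⟩
  · rw [← (index_fixS hK i1).1]
    exact h.crV.sec le_rfl h.crV.sur nV w1 w2 (fun y hy =>
      ⟨fun m => (w3.ge (mi (commutator_mem_right hy nV) m)).2,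
        fun m => (w3.le (mi (commutator_mem_right hy nV) m)).2⟩) e1
  · rw [← (index_fixS hK i3).1]
    exact h.crB.sec l1 (h.crB.sur' l1 l2 (h.nV.trans (Nm_le_Nm_Cz _))) (h2 hs) w1 w2 (fun y hy =>
      ⟨fun m => (w3.ge (mi (commutator_mem_right hy w0) m)).2,
        fun m => (w3.le (mi (commutator_mem_right hy w0) m)).2⟩) e3
  · have n0 : bV 2 F ⊓ Cz(B) ≤ Nm(Cz(F)) :=
      inf_le_left.trans ((bV_le' F).trans (le_normalizer.trans (Nm_le_Nm_Cz F)))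
    rw [← (index_fixS hK i2).1]
    exact h.crU.sec l1 (h.crU.sur' l1 (l2.trans (sup_le_sup_left (fun z hz => mi (mi hz.1
      ((h.mem_U hz.1).2 (congrFun ((h.mem_Z hz.1).1 hz.2) 1))) hz.2) _)) n0) (mem_Nm_inf nV nC)
      (mem_Nm_Cz (h1 hs)) (l1.trans n0) (fun _ _ => Iff.rfl) e2

theorem lift {g : SL(2, K)} (hg : g ∈ commutator SL(2, K)) :
    ∃ x : Nm(F), (x : G) ∈ F ∧ D.ρ x = slN K g := h.bd.im.ge ⟨g, hg, rfl⟩

theorem px : PX (Nat.card K) B F := by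
  obtain ⟨n, hK⟩ := h.card
  haveI : CharP K 2 := charP_of_card_eq_prime_pow hK
  have cK : Nat.card K = 2 ^ n := Nat.card_eq_fintype_card.trans hK
  have fin : ∀ b ∈ B, ∀ v ∈ bV 2 F, ∀ u ∈ bV 2 F ⊓ Cz(B), ψ D b * D.c v 1 = D.c u 0 →
      ⁅b, v⁆⁻¹ * u ∈ bV0 2 F := fun b hb v hv u hu e => by
    rw [← D.c_eq_iff (commutator_mem_right hv (h.nV hb)) hu.1, h.c_comm hb hv]
    exact vec_ext e ((h.mem_U hu.1).1 hu.2).symm
  let E := D.resE (le_normalizer (H := F))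
  have kE : ∀ x : F, E.ρ x = 1 ↔ (x : G) ∈ pCoreOf 2 F := fun x => (h.bd.ker _).trans
    ⟨h.bk.mem_Q x.2, fun e => Q_le_Cz_bV F e⟩
  have pc : PCl 2 F ↔ SF K := ⟨fun e => by_contra fun e' => not_pcl_of_hom E.ρ kE (r := slN K (uu 1))
    (by rw [E.range, h.bd.im, comm_top_of_not_sf e']; exact ⟨_, trivial, rfl⟩)
    (fun e => uu_one_ne (lm_slN.inj (e.trans (map_one _).symm)))
    (by rw [← map_pow, uu_pow_char hK 1, map_one]) e, fun e => pcl_of_hom E.ρ kE fun x => by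
      obtain ⟨g, hg, k⟩ := h.bd.im.le (E.mem_R x)
      rw [← k, ← map_pow, e.pow_eq hK hg, map_one]⟩
  have sf : SF K ↔ Nat.card K = 2 := ⟨fun e => Nat.card_eq_fintype_card.trans (e.card_eq hK).1,
    fun e => sf_of_card (by rw [← Nat.card_eq_fintype_card, e]; decide)⟩
  refine ⟨h.toPc, ⟨n, ?_, cK⟩, h.crB.card, h.crV.card, h.crU.card.trans (congrArg _ (congrArg _
    (congrArg _ (le_antisymm (inf_le_inf_right _ inf_le_left) fun z hz => mi (mi hz.1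
      ((h.mem_U hz.1).2 (congrFun ((h.mem_Z hz.1).1 hz.2) 1))) hz.2)))), fun x hx v hv e => ?_,
    fun b hb v hv => h.quad hb hv, fun v hv m u hu => ?_, fun b hb m u hu => ?_, fun v hv => ?_,
    fun b hb => (h.crB.zero _ (mul_mem hb hb)).1 (by
      rw [h.crB.add b hb b hb, CharTwo.add_self_eq_zero]),
    fun x hx => (h.crB.zero _ (h.crB.add.commutator_le_ker hx).1).1
      (h.crB.add.commutator_le_ker hx).2, ?_, pc.trans sf, fun e => ⟨K, inferInstance, inferInstance,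
      Nat.card_eq_fintype_card.symm, ?_⟩, fun S => h.fa⟩
  · have : 1 < Nat.card K := Finite.one_lt_card
    by_contra! c
    interval_cases n
    omega
  · have := congrFun ((h.mem_Z (commutator_mem_right hv (h.nV hx))).1 e) 0
    rw [h.c_comm hx hv] at this
    exact (mul_eq_zero.1 this).imp (h.crB.zero x hx).1 (h.mem_U hv).2
  · obtain ⟨b, hb, e⟩ := h.crB.sur (D.c u 0 / D.c v 1)
    exact ⟨b, hb, fin b hb v hv u hu (by
      rw [e, div_mul_cancel₀ _ fun e => m ((h.mem_U hv).2 e)])⟩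
  · obtain ⟨v, hv, e⟩ := h.crV.sur (D.c u 0 / ψ D b)
    exact ⟨v, hv, fin b hb v hv u hu (by
      rw [show D.c v 1 = _ from e, mul_div_cancel₀ _ fun e => m ((h.crB.zero b hb).1 e)])⟩
  · by_cases e : D.c v = 0
    · exact ⟨1, one_mem _, by simpa using (h.mem_U hv).2 (congrFun e 1)⟩
    obtain ⟨g, hg, k⟩ := sl_trans e e0_ne
    obtain ⟨x, hx, k'⟩ := h.lift hg
    exact ⟨x, hx, (h.mem_U (conj_mem_of_mem_normalizer (D.n x.2) hv)).2 (by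
      rw [D.act x v hv, k', lm_slN.eq, k]; rfl)⟩
  · obtain ⟨g, hg, k⟩ := sl_trans (F := K) e0_ne (w := ![0, 1]) fun e => by simpa using congrFun e 1
    obtain ⟨x, hx, k'⟩ := h.lift hg
    refine ⟨x, hx, fun A l1 l2 f hf => ?_⟩
    have nA := l1.trans h.nF
    have nA' : A ⊔ CfH9.cj (x : G) A ≤ Nm(F) := sup_le nA (cj_le_of_mem nA x.2)
    have e1 : im D.ρ A = LM.U (slN K) := (le_antisymm (im_mono l1) ((im_le_im_iff h.bd.ker h.nF nA).2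
      (l2.trans (sup_le_sup_left (inf_le_inf_right _ h.nF) _)))).trans h.imB
    have e2 : im D.ρ (pResidualOf 2 (A ⊔ CfH9.cj (x : G) A)) = im D.ρ F := by
      rw [im_res nA', im_sup nA (cj_le_of_mem nA x.2), im_cj, e1, k', ← map_cj, ← Subgroup.map_sup,
        uH_sup_cj k, ← map_pResidualOf, res_sl hK, h.bd.im]
    have l3 : pResidualOf 2 (A ⊔ CfH9.cj (x : G) A) ≤ F := pResidualOf_le_of_le_sup h.pg h.nF
      (sup_le (l1.trans le_sup_right) (cj_le_of_mem (l1.trans le_sup_right) (mem_sup_left hx)))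
    obtain ⟨y, hy, e⟩ := e2.ge (mem_im (x := ⟨f, le_normalizer hf⟩) hf)
    rw [← mul_inv_cancel_left (y : G) f]
    exact mul_mem_sup (pResidualOf_le _ hy) (h.bk.Q_two.le (h.bk.mem_Q (mul_mem (inv_mem (l3 hy)) hf)
      ((h.bd.ker (y⁻¹ * ⟨f, le_normalizer hf⟩)).1 (by rw [map_mul, map_inv, e, inv_mul_cancel]))))
  · obtain ⟨e'⟩ := quot_of_hom E.ρ kE (E.range.trans (h.bd.im.trans (by
      rw [comm_top_of_not_sf fun k => e.ne' (sf.1 k), ← MonoidHom.range_eq_map])))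
    exact ⟨e'.trans (MonoidHom.ofInjective lm_slN.inj).symm⟩

end CD

theorem Pc.px (h : Pc B F) : ∃ q, PX q B F := by
  obtain ⟨K, _, _, R, D, c⟩ := h.exists_cd
  exact ⟨_, c.px⟩

end CfH7
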