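import Cfsg.Agent.OD.Pre
import Cfsg.Agent.H7.GC4

/-! Consequences of the piece axioms; pieces of order twelve. -/

set_option autoImplicit false
set_option linter.unusedSectionVars false

open Cfsg Subgroup CfH9 CfLp Equiv
open scoped commutatorElement MatrixGroups

namespace CfH7

open CfH8 (BB JJ MaxEl)

universe u

variable {G : Type u} [Group G] [Finite G] {q : ℕ} {T B F S A X Y W D J V R : Subgroup G}
  {a b c d f g s t u v w x y : G}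

theorem mul_mem_of_two (h : D.relIndex V = 2) (ha : a ∈ V) (hb : b ∈ V) (n : a ∉ D) (m : b ∉ D) :
    a * b ∈ D := ((D.subgroupOf V).mul_mem_iff_of_index_two h (a := ⟨a, ha⟩) (b := ⟨b, hb⟩)).2
  (iff_of_false n m)

theorem comm_of_two (h : D.relIndex V = 2) (h1 : x ∈ Nm(V)) (h2 : x ∈ Nm(D)) (hv : v ∈ V) :
    ⁅x, v⁆ ∈ D := by
  by_cases e : v ∈ D
  · exact commutator_mem_right e h2
  · exact mul_mem_of_two h (conj_mem_of_mem_normalizer h1 hv) (inv_mem hv)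
      (fun k => e ((mem_normalizer_iff.1 h2 v).2 k)) (mt inv_mem_iff.1 e)

theorem relIndex_of_card {n : ℕ} (l : A ≤ V) (e : Nat.card V = n * Nat.card A) : A.relIndex V = n :=
  Nat.eq_of_mul_eq_mul_left Nat.card_pos ((card_mul_relIndex l).trans (e.trans (mul_comm _ _)))

theorem card_zp_two (h : u * u = 1) (n : u ≠ 1) : Nat.card (zpowers u) = 2 := by
  rw [Nat.card_zpowers]; exact orderOf_eq_prime (by rwa [pow_two]) n

theorem four_fpf (eV : IsElementaryAbelian 2 V) (c : Nat.card V = 4) (x3 : x ^ 3 = 1)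
    (h1 : x ∈ Nm(V)) (n : x ∉ Cz(V)) (hu : u ∈ V) (e : x * u = u * x) : u = 1 := by_contra fun m => by
  have c1 : x ∈ Cz(zpowers u) := Cz_zpowers u ▸ mem_Cx.2 e
  have i := relIndex_of_card (n := 2) (zpowers_le.2 hu) (by rw [c, card_zp_two (el_sq eV hu) m])
  refine n (mem_Cz_of_coprime (elemAb_isPGroup eV) h1 ((show Nat.Coprime 3 2 by decide).of_dvd_left
    (orderOf_dvd_of_pow_eq_one x3)) (commutator_le.2 fun v hv y hy => comm_mem_symm ?_) c1)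
  exact comm_of_two i (zpowers_le.2 h1 hy) (zpowers_le.2 (Cz_le_Nm _ c1) hy) hv

theorem four_comm (eV : IsElementaryAbelian 2 V) (c : Nat.card V = 4) (x3 : x ^ 3 = 1)
    (h1 : x ∈ Nm(V)) (n : x ∉ Cz(V)) : ⁅V, zpowers x⁆ = V := by
  haveI : Fact (Nat.Prime 3) := ⟨Nat.prime_three⟩
  have := CfH8.commutator_sup_centralizer_eq (zpowers_le.2 h1) (by
    rw [Nat.card_zpowers, orderOf_eq_prime x3 fun e => n (e ▸ one_mem _), c]; decide)
    (Or.inl inferInstance)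
  rwa [show V ⊓ Cz(zpowers x) = ⊥ from eq_bot_iff.2 fun u hu =>
    four_fpf eV c x3 h1 n hu.1 (hu.2 x (mem_zpowers x)), sup_bot_eq] at this

theorem md_four (eV : IsElementaryAbelian 2 V) (c : Nat.card V = 4) (hX : X ≤ Nm(V)) :
    ∃ R : Subgroup SL(2, ZMod 2), Nonempty (MD R (⊤ : AddSubgroup (Fin 2 → ZMod 2)) X V ⊥) := by
  obtain ⟨u, hu, v, hv, n1, n2, n3⟩ := exists_three (A := V) (E := ⊥) (by
    rw [inf_bot_eq, card_bot, c]; decide)
  rw [mem_bot] at n1 n2 n3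
  obtain ⟨l₁, a1, z1⟩ := exists_addOn_of_relIndex_two (relIndex_of_card (n := 2) (zpowers_le.2 hu)
    (by rw [c, card_zp_two (el_sq eV hu) n1]))
  obtain ⟨l₂, a2, z2⟩ := exists_addOn_of_relIndex_two (relIndex_of_card (n := 2) (zpowers_le.2 hv)
    (by rw [c, card_zp_two (el_sq eV hv) n2]))
  have z : ∀ g ∈ V, ![l₁ g, l₂ g] = 0 ↔ g ∈ (⊥ : Subgroup G) := fun g _ => ⟨fun e => by
    rcases zp_two (eV.2 u hu) ((z1 g).1 (congrFun e 0)) with k | k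
    · exact k
    rcases zp_two (eV.2 v hv) ((z2 g).1 (congrFun e 1)) with k' | k'
    · exact k'
    exact (n3 (by rw [← k, ← k', el_sq eV (k ▸ hu)])).elim, fun e => by
      rw [mem_bot.1 e, a1.one, a2.one]; exact vec_ext rfl rfl⟩
  have ad : AddOn V fun g => ![l₁ g, l₂ g] :=
    fun a ha b hb => vec_ext (a1 a ha b hb) (a2 a ha b hb)
  let D₀ : MD (⊥ : Subgroup SL(2, ZMod 2)) (⊤ : AddSubgroup (Fin 2 → ZMod 2)) ⊥ V ⊥ :=
    ⟨1, fun g => ![l₁ g, l₂ g], bot_le, bot_le, MonoidHom.range_one, ad, fun _ _ => trivial,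
      fun y _ => by
        obtain ⟨g, e⟩ := ((Nat.bijective_iff_injective_and_card (AddOn.hom ad)).2
          ⟨(injective_iff_map_eq_one _).2 fun a e => Subtype.ext ((z a a.2).1 e), by
            rw [c]; simp⟩).2 (.ofAdd y)
        exact ⟨g, g.2, e⟩, z, fun g u _ => by rw [mem_bot.1 g.2]; simp⟩
  obtain ⟨R, D, -⟩ := D₀.extend (H' := SL(2, ZMod 2)) hX (fun g h => sl_faith ⊤ g trivial h)
    fun x hx => by
      obtain ⟨φ, k1, -, k2, k3⟩ := D₀.exists_phi (hX hx) (mem_Nm_of_normal _ _)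
      obtain ⟨d, hd⟩ := exists_det (slAut_smul (F := ZMod 2)) (sf_of_card (by simp)).lin
      obtain ⟨g, e⟩ := hd.le (show LinearEquiv.ofBijective
        (AddMonoidHom.mk' φ fun v w => k2 v trivial w trivial).toIntLinearMap
        (Finite.injective_iff_bijective.1 fun v w => k3 v trivial w trivial) ∈ d.ker from
          Subsingleton.elim _ _)
      exact ⟨g, fun u hu => by rw [← k1 u hu, ← slAut_smul, e]; rfl⟩
  exact ⟨R, ⟨D⟩⟩

theorem pc_four (pg : IsPGroup 2 B) (eB : BB 2 B = B) (eV : IsElementaryAbelian 2 V)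
    (c : Nat.card V = 4) (x3 : x ^ 3 = 1) (h1 : x ∈ Nm(V)) (n : x ∉ Cz(V)) (VB : V ≤ B)
    (nV : B ≤ Nm(V)) (nF : B ≤ Nm(V ⊔ zpowers x)) (nC : ¬ B ≤ Cz(V)) :
    Pc B (V ⊔ zpowers x) ∧ bV 2 (V ⊔ zpowers x) = V := by
  haveI : Fact (Nat.Prime 3) := ⟨Nat.prime_three⟩
  have pV := elemAb_isPGroup eV
  have o : orderOf x = 3 := orderOf_eq_prime x3 fun e => n (e ▸ one_mem _)
  have co : (orderOf x).Coprime 2 := by rw [o]; decide
  have FV : V ⊔ zpowers x ≤ Nm(V) := sup_le le_normalizer (zpowers_le.2 h1)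
  have xF : x ∈ V ⊔ zpowers x := mem_sup_right (mem_zpowers x)
  have i : V.relIndex (V ⊔ zpowers x) = 3 := by
    have k := card_sup_mul_card_inf (zpowers_le.2 h1)
    rw [(eq_bot_or_eq_of_card_prime (p := 3) ((Nat.card_zpowers x).trans o) inf_le_left).resolve_right
      (fun e => n (elemAb_le_Cz eV (e.ge (mem_zpowers x)).2)), card_bot, mul_one, Nat.card_zpowers, o,
      sup_comm] at k
    exact relIndex_of_card le_sup_left k
  have eO : pCoreOf 2 (V ⊔ zpowers x) = V := (eq_or_eq_of_relIndex_prime i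
    (le_pCoreOf le_sup_left FV pV) (pCoreOf_le _)).resolve_right fun e =>
      n (eq_one_of_mem_of_coprime (isPGroup_pCoreOf _) (e.ge xF) co ▸ one_mem _)
  have eW : bW 2 (V ⊔ zpowers x) = V := by
    rw [bW, eO]; exact le_antisymm (OZ_le _) (le_OZ eV le_rfl (elemAb_le_Cz eV))
  have z' : V ⊓ Cz(V ⊔ zpowers x) = ⊥ := eq_bot_iff.2 fun u hu =>
    four_fpf eV c x3 h1 n hu.1 (hu.2 x xF)
  have cx := four_comm eV c x3 h1 n
  have cF : ⁅V, V ⊔ zpowers x⁆ = V := le_antisymm (comm_le_left FV)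
    (cx.ge.trans (commutator_mono le_rfl le_sup_right))
  have eV' : bV 2 (V ⊔ zpowers x) = V := by rw [bV, eW, cF]
  have xr : zpowers x ≤ pResidualOf 2 (V ⊔ zpowers x) := zpowers_le.2 (mem_pResidualOf xF co)
  have res : pResidualOf 2 (V ⊔ zpowers x) = V ⊔ zpowers x := le_antisymm (pResidualOf_le _)
    (sup_le (cx.ge.trans ((commutator_mono le_rfl xr).trans
      (comm_le_right (le_sup_left.trans (le_normalizer_pResidualOf _))))) xr)
  obtain ⟨R, ⟨D⟩⟩ := md_four eV c FV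
  have kD : ∀ y, D.ρ y = 1 ↔ (y : G) ∈ pCoreOf 2 (V ⊔ zpowers x) := fun y => by
    rw [D.ρ_eq_one (sl_faith _), secCz_bot, eO]
    refine ⟨fun e => ((eq_or_eq_of_relIndex_prime i (B := (V ⊔ zpowers x) ⊓ Cz(V))
      (le_inf le_sup_left (elemAb_le_Cz eV)) inf_le_left).resolve_right fun e =>
        n (e.ge xF).2).le (mi y.2 e), fun e => elemAb_le_Cz eV e⟩
  have hK : Fintype.card (ZMod 2) = 2 ^ 1 := by simp
  obtain rfl : R = commutator SL(2, ZMod 2) := by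
    refine (eq_bot_or_eq_of_card_prime (card_comm_two (by simp)) ?_).resolve_left fun e =>
      n (elemAb_le_Cz eV (eO.le ((kD ⟨x, xF⟩).1 (mem_bot.1 (e.le (D.mem_R _))))))
    rw [← res_sl hK, ← D.range, MonoidHom.range_eq_map, ← subgroupOf_self]
    exact (im_mono res.ge).trans ((im_res le_rfl).le.trans (pResidualOf_mono le_top))
  obtain ⟨t, ht, tn⟩ := SetLike.not_le_iff_exists.1 nC
  obtain ⟨u, hu, ou, uB⟩ := exists_central_orderOf_prime pg pV nV fun e => by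
    rw [e, card_bot] at c; omega
  have u1 := ne_one_of_orderOf_eq_prime ou
  have blk : IsBaumannBlock 2 B (V ⊔ zpowers x) := by
    refine ⟨res, ?_, by rw [eO, cF], fun e => u1 (four_fpf eV c x3 h1 n hu
      (commutatorElement_eq_one_iff_mul_comm.1 (mem_bot.1 (e.le (commutator_mem_commutator xF
        (mem_OZ.2 ⟨⟨VB hu, uB⟩, eV.2 u hu⟩)))))), Or.inl ⟨ZMod 2, inferInstance, inferInstance, 1, hK,
      quot_of_hom D.ρ kD D.range, ?_, Or.inl (eO.trans eW.symm)⟩⟩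
    · change ⁅V ⊔ zpowers x, BB 2 B⁆ = _
      rw [eB]
      refine le_antisymm (comm_le_left nF) (res.ge.trans (pResidualOf_le_of_le_sup pV
        (le_sup_left.trans (left_le_Nm_comm _ _)) ((eq_or_eq_of_relIndex_prime i le_sup_right
          (sup_le (comm_le_left nF) le_sup_left)).resolve_left fun e => tn fun v hv => ?_).ge))
      have k := elemAb_le_Cz eV (e.le (mem_sup_left (commutator_mem_commutator (inv_mem xF) ht)))
      have i2 := relIndex_of_card (n := 2) (zpowers_le.2 hu) (by rw [c, Nat.card_zpowers, ou])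
      have xu := conj_mem_of_mem_normalizer h1 hu
      refine (mem_Cx.1 (((eq_or_eq_of_relIndex_prime i2 (B := V ⊓ Cx(t)) (le_inf (zpowers_le.2 hu)
        (zpowers_le.2 (mem_Cx.2 (uB t ht).symm))) inf_le_left).resolve_left fun e' => ?_).ge hv).2)
      have m : x * u * x⁻¹ ∈ V ⊓ Cx(t) := mi xu (mem_Cx.2 (by
        rw [show t = x * (⁅x⁻¹, t⁆ * t) * x⁻¹ by group, mul_conj, mul_conj, ← mul_assoc u, k u hu,
          mul_assoc _ u t, ← uB t ht, mul_assoc _ t u]))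
      rcases zp_two (eV.2 u hu) (e'.le m) with k' | k'
      · exact u1 (by simpa using k')
      · exact u1 (four_fpf eV c x3 h1 n hu (mul_inv_eq_iff_eq_mul.1 k'))
    · change ActsAsSL2OnSection _ _ _ (bW 2 _) (bZ 2 _)
      rw [bZ, eW, z']
      exact D.sl
  exact ⟨⟨pg, eB, blk, ln_of_md blk ⟨1, hK⟩ (by rw [bV0, eV', z']; exact D), eV'.le.trans VB⟩, eV'⟩

theorem card_le_mul {n : ℕ} (l : A ≤ X) (e : Nat.card X ≤ n * Nat.card (X ⊓ Y : Subgroup G)) :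
    Nat.card A ≤ n * Nat.card (A ⊓ Y : Subgroup G) := by
  rw [← card_mul_relIndex (show A ⊓ Y ≤ A from inf_le_left), inf_relIndex_left, mul_comm]
  rw [← card_mul_relIndex (show X ⊓ Y ≤ X from inf_le_left), inf_relIndex_left, mul_comm] at e
  exact Nat.mul_le_mul_right _ ((relIndex_le_of_le_right l FiniteIndex.index_ne_zero).trans
    (Nat.le_of_mul_le_mul_right e Nat.card_pos))

theorem le_sup_of_card {n : ℕ} (l : A ≤ X) (nm : A ≤ Nm(X ⊓ Y))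
    (e : Nat.card X ≤ n * Nat.card (X ⊓ Y : Subgroup G))
    (e' : n * Nat.card (A ⊓ Y : Subgroup G) ≤ Nat.card A) : X ≤ A ⊔ (X ⊓ Y) := by
  have c := card_sup_mul_card_inf nm
  rw [← inf_assoc, inf_eq_left.2 l] at c
  exact (eq_of_le_of_card_ge (sup_le l inf_le_left) (Nat.le_of_mul_le_mul_right
    (((Nat.mul_le_mul_right _ e).trans ((mul_right_comm _ _ _).le.trans
      (Nat.mul_le_mul_right _ e'))).trans c.ge) Nat.card_pos)).ge

theorem idx_of_card {n : ℕ} (e : Nat.card X = n * Nat.card (X ⊓ Y : Subgroup G)) :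
    Y.relIndex X = n := by
  rw [← inf_relIndex_left]; exact relIndex_of_card inf_le_left e

theorem card_of_idx {n : ℕ} (e : Y.relIndex X = n) :
    Nat.card X = n * Nat.card (X ⊓ Y : Subgroup G) := by
  rw [← card_mul_relIndex (show X ⊓ Y ≤ X from inf_le_left), inf_relIndex_left, e, mul_comm]

namespace Pc

variable (h : Pc B F)
include h

theorem VF : bV 2 F ≤ F := bV_le' F

theorem VV : bV 2 F ≤ Cz(bV 2 F) := elemAb_le_Cz (elemAb_bV F)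

theorem nQ : B ≤ Nm(B ⊓ Cz(bV 2 F)) := le_normalizer_inf le_normalizer (h.nV.trans (Nm_le_Nm_Cz _))

theorem le_Nm (h1 : bV 2 F ≤ X) (h2 : X ≤ Nm(F)) (h3 : X ≤ Cz(bV 2 F)) : F ≤ Nm(X) :=
  le_Nm_of_comm_le_left ((h.cm h2 h3).trans h1)

theorem FQ : F ≤ Nm(B ⊓ Cz(bV 2 F)) :=
  h.le_Nm (le_inf h.VB h.VV) (inf_le_left.trans h.nF) inf_le_right

theorem sq (h1 : y ∈ Nm(F)) (c : y ∈ Cz(bV 2 F)) : y * y ∈ Cz(F) := fun f hf => by
  have u := h.cm (zpowers_le.2 h1) (zpowers_le.2 c) (commutator_mem_commutator (mem_zpowers y) hf)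
  have k : y * f = ⁅y, f⁆ * (f * y) := by group
  rw [mul_assoc, k, ← mul_assoc y, ← c _ u, mul_assoc, ← mul_assoc y, k,
    ← mul_assoc ⁅_, _⁆, ← mul_assoc ⁅_, _⁆, el_sq (elemAb_bV F) u, one_mul, mul_assoc]

theorem pgc (h1 : IsPGroup 2 X) (h2 : F ≤ Nm(X)) : X ⊓ B ≤ Cz(bV 2 F) :=
  (inf_le_inf_left X h.nF).trans (h.bk.le_Cz_of_pgrp h1.to_inf_left inf_le_right
    (le_normalizer_inf h2 (le_normalizer.trans le_normalizer)))

theorem map {G' : Type u} [Group G'] [Finite G'] {φ : G →* G'} (hf : Function.Injective φ) :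
    Pc (B.map φ) (F.map φ) :=
  ⟨h.pg.map φ, by rw [← map_B_inj hf, h.eB], (blk_map_iff hf).2 h.blk, by
    obtain ⟨K, _, _, l⟩ := h.ln
    obtain ⟨D⟩ := l.md
    refine ln_of_md ((blk_map_iff hf).2 h.blk) l.card ?_
    rw [← map_bV hf, ← map_bV0 (p := 2) hf]
    exact D.map hf, map_bV (p := 2) hf F ▸ map_mono h.VB⟩

theorem rel {L : Subgroup G} (h1 : B ≤ L) (h2 : F ≤ L) : Pc (B.subgroupOf L) (F.subgroupOf L) := by
  have hf := L.subtype_injective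
  have e := map_subgroupOf_eq_of_le h2
  have e' := map_subgroupOf_eq_of_le h1
  have b := (blk_rel h1 h2).2 h.blk
  refine ⟨h.pg.comap_of_injective _ hf, ?_, b, ?_, ?_⟩
  · rw [← (Subgroup.map_injective hf).eq_iff, map_B_inj hf, e', h.eB]
  · obtain ⟨K, _, _, l⟩ := h.ln
    obtain ⟨D⟩ := l.md
    rw [← e, ← map_bV0 hf, ← map_bV hf] at D
    exact ln_of_md b l.card (D.comap hf)
  · rw [← map_le_map_iff_of_injective hf, map_bV hf, e, e']; exact h.VB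

end Pc

namespace PX

variable (h : PX q B F)
include h

theorem q2 : 2 ≤ q := by
  obtain ⟨n, h1, rfl⟩ := h.pw
  exact Nat.pow_le_pow_right (n := 2) (by decide) h1

theorem ti' (h1 : x ∈ B) (h2 : x ∉ Cz(bV 2 F)) (h3 : v ∈ bV 2 F) (e : x * v = v * x) : v ∈ Cz(B) :=
  (h.ti x h1 v h3 (commutatorElement_eq_one_iff_mul_comm.2 e ▸ one_mem _)).resolve_left h2

theorem ZB : bV0 2 F ≤ Cz(B) := fun v hv => by
  obtain ⟨x, h1, h2⟩ := SetLike.not_le_iff_exists.1 h.nC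
  exact (h.ti x h1 v hv.1 (commutator_mem_right hv.2 (mem_Nm_Cz (h.nF h1)))).resolve_left h2

theorem tiA (h1 : A ≤ B) (h2 : ¬ A ≤ Cz(bV 2 F)) : bV 2 F ⊓ Cz(A) ≤ bV 2 F ⊓ Cz(B) := fun v hv => by
  obtain ⟨x, k1, k2⟩ := SetLike.not_le_iff_exists.1 h2
  exact mi hv.1 (h.ti' (h1 k1) k2 hv.1 (hv.2 x k1))

theorem card_le (h1 : A ≤ B) : Nat.card A ≤ q * Nat.card (A ⊓ Cz(bV 2 F) : Subgroup G) :=
  card_le_mul h1 h.cB.le

theorem cover (h1 : A ≤ B) (e : q * Nat.card (A ⊓ Cz(bV 2 F) : Subgroup G) ≤ Nat.card A) :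
    B ≤ A ⊔ (B ⊓ Cz(bV 2 F)) := le_sup_of_card h1 (h1.trans h.nQ) h.cB.le e

theorem dec (h1 : A ≤ B) (e : B ≤ A ⊔ (B ⊓ Cz(bV 2 F))) (hb : b ∈ B) :
    ∃ a ∈ A, ∃ c ∈ B ⊓ Cz(bV 2 F), a * c = b := (mem_sup_of_le_Nm (h1.trans h.nQ)).1 (e hb)

theorem off (hA : MaxEl 2 A B) (n : ¬ A ≤ Cz(bV 2 F)) :
    B ≤ A ⊔ (B ⊓ Cz(bV 2 F)) ∧ MaxEl 2 ((A ⊓ Cz(bV 2 F)) ⊔ bV 2 F) B := by
  have e := elemAb_sup (elemAb_of_le inf_le_left hA.el) (elemAb_bV (p := 2) F) inf_le_right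
  have l : (A ⊓ Cz(bV 2 F)) ⊔ bV 2 F ≤ B := sup_le (inf_le_left.trans hA.le) h.VB
  have c := card_sup_mul_card_inf (A := A ⊓ Cz(bV 2 F)) (B := bV 2 F) (inf_le_right.trans (Cz_le_Nm _))
  have k : q * Nat.card (A ⊓ Cz(bV 2 F) : Subgroup G) ≤
      Nat.card ((A ⊓ Cz(bV 2 F)) ⊔ bV 2 F : Subgroup G) := by
    refine Nat.le_of_mul_le_mul_right ?_ (Nat.card_pos (α := (bV 2 F ⊓ Cz(B) : Subgroup G)))
    rw [mul_right_comm, ← h.cV, mul_comm, ← c]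
    exact Nat.mul_le_mul_left _ (card_le_of_le ((le_inf inf_le_right ((inf_le_left.trans
      inf_le_left).trans (elemAb_le_Cz hA.el))).trans (h.tiA hA.le n)))
  exact ⟨h.cover hA.le (k.trans (hA.max _ l e)), hA.of_card_le l e ((h.card_le hA.le).trans k)⟩

theorem exists_off : ∃ A, MaxEl 2 A B ∧ ¬ A ≤ Cz(bV 2 F) := by
  by_contra! c
  exact h.nJ (CfH8.J_le_iff.2 c)

theorem maxQ (e : IsElementaryAbelian 2 (B ⊓ Cz(bV 2 F) : Subgroup G)) :
    MaxEl 2 (B ⊓ Cz(bV 2 F)) B := by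
  obtain ⟨A, h1, h2⟩ := h.exists_off
  exact (h.off h1 h2).2.of_card_le inf_le_left e (card_le_of_le
    (sup_le (inf_le_inf_right _ h1.le) (le_inf h.VB h.VV)))

theorem ld (h1 : bV 2 F ≤ J) (h2 : J ≤ B) (n : ¬ J ≤ Cz(bV 2 F)) : LD q J (bV 2 F) F where
  le := h1
  el := elemAb_bV F
  nm := h2.trans h.nV
  cm c k1 k2 e k3 := h.cm (zpowers_le.2 (h.nF (h2 k1))) (zpowers_le.2 k2)
    (commutator_mem_commutator (mem_zpowers _) k3)
  c1 := (Nat.mul_le_mul_left _ (card_le_of_le (h.tiA h2 n))).trans h.cV.ge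
  c2 := h.card_le h2
  ti x k1 v k2 e := (h.ti x (h2 k1) v k2 e).imp_right fun e => Cz_anti h2 e
  pg Q k1 k2 := (inf_le_inf_left Q h2).trans (h.pgc k1 k2)

theorem ga (hd : d ∈ OZ 2 B) : ∃ u ∈ bV 2 F ⊓ Cz(B), u⁻¹ * d ∈ Cz(F) := by
  obtain ⟨f, hf, e⟩ := h.gen
  have zc : OZ 2 B ≤ Cz(B) := le_Cz_comm (le_Cz_OZ B)
  have cV : bV 2 F ⊔ OZ 2 B ≤ Cz(bV 2 F) := sup_le h.VV (zc.trans (Cz_anti h.VB))
  have XB : bV 2 F ⊔ OZ 2 B ≤ B := sup_le h.VB (OZ_le B)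
  have nX := h.le_Nm le_sup_left (XB.trans h.nF) cV
  set X := bV 2 F ⊔ OZ 2 B
  have c1 : Nat.card X ≤ q * Nat.card (X ⊓ Cz(B) : Subgroup G) := by
    have c := card_sup_mul_card_inf (A := bV 2 F) (B := X ⊓ Cz(B))
      ((le_Cz_comm (inf_le_left.trans cV)).trans (Cz_le_Nm _))
    rw [← inf_assoc, inf_eq_left.2 (le_sup_left : bV 2 F ≤ X), h.cV, mul_right_comm] at c
    exact (card_le_of_le (sup_le_sup_left (le_inf le_sup_right zc) _)).trans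
      (Nat.eq_of_mul_eq_mul_right Nat.card_pos c).le
  have c2 : Nat.card X ≤ q * Nat.card (X ⊓ Cz(CfH9.cj f B) : Subgroup G) := by
    rwa [← cj_centralizer, ← cj_eq_of_mem_normalizer (nX hf), ← cj_inf, card_cj, card_cj]
  have c3 : Nat.card X ≤ q * q * Nat.card (X ⊓ Cz(F) : Subgroup G) := by
    rw [mul_assoc]
    refine c1.trans (Nat.mul_le_mul_left _ ((card_le_mul inf_le_left c2).trans
      (Nat.mul_le_mul_left _ (card_le_of_le (le_inf (inf_le_left.trans inf_le_left) (le_Cz_comm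
        ((e B le_rfl le_sup_left).trans (sup_le (sup_le ?_ ?_) ?_))))))))
    exacts [le_Cz_comm (inf_le_left.trans inf_le_right), le_Cz_comm inf_le_right,
      le_Cz_comm ((inf_le_left.trans inf_le_left).trans cV)]
  have n : bV 2 F ≤ Nm(X ⊓ Cz(F)) := (le_Cz_comm (inf_le_left.trans cV)).trans (Cz_le_Nm _)
  obtain ⟨v, hv, y, hy, rfl⟩ := (mem_sup_of_le_Nm n).1 (le_sup_of_card le_sup_left n c3
    (by rw [h.cV, h.cU, mul_assoc]) (mem_sup_right hd))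
  obtain ⟨b, h1, h2⟩ := SetLike.not_le_iff_exists.1 h.nC
  refine ⟨v, mi hv ((h.ti b h1 v hv ?_).resolve_left h2), by simpa using hy.2⟩
  have k := comm_eq_one' (zc hd) h1
  have m := commutator_mem_right hy.2 (mem_Nm_Cz (h.nF h1))
  rw [comm_mul_right, conj_eq_self (m v (h.VF hv)), mul_eq_one_iff_eq_inv] at k
  exact k ▸ inv_mem m

theorem t0 (hS : IsPGroup 2 S) (h1 : S ≤ Nm(F)) (h2 : S ≤ Nm(B)) (hs : s ∈ S) (n : s ∉ B ⊔ bC 2 F) :
    ∃ t ∈ zpowers s, ∃ k, k ≠ 1 ∧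
    (∀ D, t ∈ Nm(D) → bV 2 F ≤ Nm(D) → bV 2 F ⊓ D = bV 2 F ⊓ Cz(B) →
      (secCz (zpowers t) D).relIndex (bV 2 F) = k) ∧
    ∀ X, X ≤ bV 2 F ⊓ Cz(B) → bV 2 F ⊓ Cz(B) ≤ X ⊔ bV0 2 F →
      (secCz (zpowers t) Cz(F)).relIndex X = k := by
  obtain ⟨t, k1, k2, k3⟩ := exists_sq_mem hS hs n
  obtain ⟨k, e1, e2, -, e3⟩ := (h.fa S hS h1 h2).cnt t (zpowers_le.2 hs k1) k2 k3
  exact ⟨t, k1, k, fun e => by have := h.q2; rw [e] at e1; omega, e2, e3⟩

theorem t1 (hS : IsPGroup 2 S) (h1 : S ≤ Nm(F)) (h2 : S ≤ Nm(B)) (hs : s ∈ S)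
    (e : ∀ v ∈ bV 2 F, ⁅s, v⁆ ∈ Cz(B)) : s ∈ B ⊔ bC 2 F := by_contra fun n => by
  obtain ⟨t, k1, k, k2, k3, -⟩ := h.t0 hS h1 h2 hs n
  have m := h.VB.trans (le_normalizer.trans (Nm_le_Nm_Cz B))
  exact k2 ((k3 _ (mem_Nm_Cz (h2 (zpowers_le.2 hs k1))) m rfl).symm.trans (relIndex_eq_one.2 fun v hv =>
    ⟨m hv, fun a ha => (mem_secCz_zpowers (mem_Nm_Cz (h2 hs)) (m hv) (e v hv)).2 a
      (zpowers_le.2 k1 ha)⟩))

theorem t2 (hS : IsPGroup 2 S) (h1 : S ≤ Nm(F)) (h2 : S ≤ Nm(B)) (hs : s ∈ S)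
    (l1 : X ≤ bV 2 F ⊓ Cz(B)) (l2 : bV 2 F ⊓ Cz(B) ≤ X ⊔ bV0 2 F)
    (e : ∀ v ∈ X, ⁅s, v⁆ ∈ Cz(F)) : s ∈ B ⊔ bC 2 F := by_contra fun n => by
  obtain ⟨t, k1, k, k2, -, k3⟩ := h.t0 hS h1 h2 hs n
  have m := (l1.trans (inf_le_left.trans h.VF)).trans (le_normalizer.trans (Nm_le_Nm_Cz F))
  exact k2 ((k3 _ l1 l2).symm.trans (relIndex_eq_one.2 fun v hv =>
    ⟨m hv, fun a ha => (mem_secCz_zpowers (mem_Nm_Cz (h1 hs)) (m hv) (e v hv)).2 a
      (zpowers_le.2 k1 ha)⟩))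

theorem dec' (hs : s ∈ B ⊔ bC 2 F) : ∃ b ∈ B, ∃ c ∈ Cz(bV 2 F), b * c = s := by
  obtain ⟨b, hb, c, hc, e⟩ := (mem_sup_of_le_Nm (h.nF.trans (Nm_le_Nm_bC F))).1 hs
  exact ⟨b, hb, c, hc.2, e⟩

theorem inB (h1 : B ≤ S) (h2 : S ⊓ Cz(bV 2 F) ≤ B) (hs : s ∈ S) (e : s ∈ B ⊔ bC 2 F) : s ∈ B := by
  obtain ⟨b, hb, c, hc, rfl⟩ := h.dec' e
  exact mul_mem hb (h2 (mi ((mul_mem_cancel_left (h1 hb)).1 hs) hc))

theorem card_S (hS : IsPGroup 2 S) (h1 : S ≤ Nm(F)) (h2 : S ≤ Nm(B)) (h3 : B ≤ S)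
    (h4 : S ⊓ Cz(bV 2 F) ≤ B) : ∃ i, 2 ^ i ≤ q ∧ Nat.card S = i * Nat.card B :=
  ⟨_, (h.fa S hS h1 h2).idx, (card_of_idx rfl).trans (by
    rw [le_antisymm (fun s hs => h.inB h3 h4 hs.1 hs.2) (le_inf h3 le_sup_left)])⟩

end PX

end CfH7
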