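import Cfsg.Agent.OD.Pre
import Cfsg.Agent.H7.GC5

/-! Pieces for a group generated by two elementary abelian subgroups. -/

set_option autoImplicit false
set_option linter.unusedSectionVars false
set_option maxHeartbeats 400000

open Cfsg Subgroup CfH9 CfLp Equiv
open scoped commutatorElement MatrixGroups

namespace CfH7

open CfH8 (BB JJ MaxEl)

universe u

variable {G : Type u} [Group G] [Finite G] {q : ℕ} {T B F S A X Y W D J V Q R C E : Subgroup G}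
  {a b c d f g s t u v w x y : G}

theorem el_of_sq (h : ∀ a ∈ A, a * a = 1) : IsElementaryAbelian 2 A :=
  ⟨comm_iff.2 fun a ha b hb => by
    rw [← inv_eq_of_mul_eq_one_right (h _ (mul_mem ha hb)), mul_inv_rev,
      inv_eq_of_mul_eq_one_right (h a ha), inv_eq_of_mul_eq_one_right (h b hb)],
    fun a ha => by rw [pow_two, h a ha]⟩

/-- the subgroup generated by the squares -/
def sqs (X : Subgroup G) : Subgroup G := closure {y | ∃ x ∈ X, x * x = y}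

theorem sqs_le_iff : sqs X ≤ Y ↔ ∀ x ∈ X, x * x ∈ Y :=
  ⟨fun h x hx => h (subset_closure ⟨x, hx, rfl⟩),
    fun h => (closure_le _).2 (by rintro _ ⟨x, hx, rfl⟩; exact h x hx)⟩

theorem sqs_le : sqs X ≤ X := sqs_le_iff.2 fun _ h => mul_mem h h

theorem Nm_le_Nm_sqs : Nm(X) ≤ Nm(sqs X) := fun g hg =>
  mem_normalizer_of_cj_le (cj_le_iff.2 (sqs_le_iff.2 fun x hx => mem_cj.2 (by
    rw [inv_inv, ← mul_conj]
    exact sqs_le_iff.1 le_rfl _ (conj_mem_of_mem_normalizer hg hx))))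

theorem sqs_sup (e : IsElementaryAbelian 2 V) (h : C ≤ Cz(V)) : sqs (V ⊔ C) = sqs C :=
  le_antisymm (sqs_le_iff.2 fun x hx => by
    obtain ⟨v, hv, c, hc, rfl⟩ := (mem_sup_of_le_Nm ((le_Cz_comm h).trans (Cz_le_Nm _))).1 hx
    rw [mul_assoc, ← mul_assoc c, ← h hc v hv, mul_assoc, ← mul_assoc v, el_sq e hv, one_mul]
    exact sqs_le_iff.1 le_rfl c hc) (sqs_le_iff.2 fun x hx => sqs_le_iff.1 le_rfl x (mem_sup_right hx))

theorem el_of_sqs (h : sqs A = ⊥) : IsElementaryAbelian 2 A := el_of_sq (sqs_le_iff.1 h.le)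

theorem relIndex_le_of_cover (h : ∀ x ∈ X, ∃ v ∈ V, v⁻¹ * x ∈ Y) : Y.relIndex X ≤ Y.relIndex V := by
  choose f h1 h2 using h
  refine card_le_relIndex_mul (fun c : X ⧸ Y.subgroupOf X => f c.out c.out.2) (fun _ => h1 _ _)
    fun a b e => ?_
  rw [← a.out_eq', ← b.out_eq', QuotientGroup.eq]
  have := mul_mem (mul_mem (inv_mem (h2 _ a.out.2)) e) (h2 _ b.out.2)
  simpa [mul_assoc, mem_subgroupOf] using this

/-- a piece such that `B` is the product of `C_B(V)` and a second elementary abelian group -/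
structure TW (q : ℕ) (B F R : Subgroup G) : Prop extends PX q B F where
  eQ : IsElementaryAbelian 2 (B ⊓ Cz(bV 2 F) : Subgroup G)
  mx : MaxEl 2 R B
  nR : ¬ R ≤ Cz(bV 2 F)

namespace TW

variable (h : TW q B F R)
include h

theorem B_eq : (B ⊓ Cz(bV 2 F)) ⊔ R = B :=
  le_antisymm (sup_le inf_le_left h.mx.le) ((h.off h.mx h.nR).1.trans (sup_comm _ _).le)

theorem VQ : bV 2 F ≤ B ⊓ Cz(bV 2 F) := le_inf h.VB h.VV

theorem mQ : MaxEl 2 (B ⊓ Cz(bV 2 F)) B := h.maxQ h.eQ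

theorem dQ (hx : x ∈ B ⊓ Cz(bV 2 F)) : ∃ v ∈ bV 2 F, ∃ d ∈ B ⊓ Cz(bV 2 F) ⊓ R, v * d = x := by
  obtain ⟨d, hd, v, hv, rfl⟩ := (mem_sup_of_le_Nm (inf_le_right.trans (Cz_le_Nm _))).1
    ((h.off h.mx h.nR).2.le_of_le_Cz inf_le_left h.eQ ((elemAb_le_Cz h.eQ).trans
      (Cz_anti (sup_le (inf_le_inf_right _ h.mx.le) h.VQ))) hx)
  exact ⟨v, hv, d, mi (mi (h.mx.le hd.1) hd.2) hd.1, hd.2 v hv⟩

theorem cR : Nat.card R = q * Nat.card (B ⊓ Cz(bV 2 F) ⊓ R : Subgroup G) := by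
  have c := card_sup_mul_card_inf (h.mx.le.trans h.nQ)
  rw [sup_comm, h.B_eq, h.cB, mul_right_comm, inf_comm R] at c
  exact (Nat.eq_of_mul_eq_mul_right Nat.card_pos c).symm

theorem cQ : Nat.card (B ⊓ Cz(bV 2 F) : Subgroup G) =
    q * Nat.card (B ⊓ Cz(bV 2 F) ⊓ R : Subgroup G) := (h.mQ.card_eq h.mx).trans h.cR

theorem cB' : Nat.card B = q * q * Nat.card (B ⊓ Cz(bV 2 F) ⊓ R : Subgroup G) := by
  rw [h.cB, h.cQ, mul_assoc]

theorem DZ : B ⊓ Cz(bV 2 F) ⊓ R ≤ Cz(B) := le_Cz_comm (h.B_eq.ge.trans (sup_le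
  ((elemAb_le_Cz h.eQ).trans (Cz_anti inf_le_left)) ((elemAb_le_Cz h.mx.el).trans (Cz_anti inf_le_right))))

theorem OZ_eq : OZ 2 B = B ⊓ Cz(bV 2 F) ⊓ R := le_antisymm (le_inf h.mQ.OZ_le h.mx.OZ_le)
  (le_OZ (elemAb_of_le inf_le_left h.eQ) (inf_le_left.trans inf_le_left) h.DZ)

theorem UD : bV 2 F ⊓ Cz(B) ≤ B ⊓ Cz(bV 2 F) ⊓ R := h.OZ_eq ▸
  le_OZ (elemAb_of_le inf_le_left (elemAb_bV F)) (inf_le_left.trans h.VB) inf_le_right

theorem nz (hv : v ∈ B ⊓ Cz(bV 2 F)) (hw : w ∈ R) (e : v * w = w * v) :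
    v ∈ R ∨ w ∈ B ⊓ Cz(bV 2 F) := or_iff_not_imp_right.2 fun n => by
  obtain ⟨a, ha, d, hd, rfl⟩ := h.dQ hv
  refine mul_mem (h.UD (mi ha (h.ti' (h.mx.le hw) (fun e => n (mi (h.mx.le hw) e)) ha ?_))).2 hd.2
  rw [mul_assoc, el_comm h.mx.el hd.2 hw, ← mul_assoc, ← mul_assoc] at e
  exact (mul_right_cancel e).symm

theorem decB (hb : b ∈ B) : ∃ w ∈ R, ∃ v ∈ B ⊓ Cz(bV 2 F), w * v = b :=
  h.dec h.mx.le (h.off h.mx h.nR).1 hb

theorem inv (hb : b ∈ B) (e : b * b = 1) : b ∈ B ⊓ Cz(bV 2 F) ∨ b ∈ R := by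
  obtain ⟨w, hw, v, hv, rfl⟩ := h.decB hb
  have : w * v = v * w := by
    rw [← inv_eq_of_mul_eq_one_right e, mul_inv_rev, el_inv h.eQ hv, el_inv h.mx.el hw]
  exact (h.nz hv hw this.symm).symm.imp (fun e => mul_mem e hv) (mul_mem hw)

theorem el (hA : A ≤ B) (e : IsElementaryAbelian 2 A) : A ≤ B ⊓ Cz(bV 2 F) ∨ A ≤ R :=
  or_iff_not_imp_right.2 fun n a ha => by
    obtain ⟨v, hv, n⟩ := SetLike.not_le_iff_exists.1 n
    exact (h.inv (hA ha) (el_sq e ha)).elim id fun k => (h.nz ((h.inv (hA hv)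
      (el_sq e hv)).resolve_right n) k (el_comm e hv ha)).resolve_left n

theorem only (hA : MaxEl 2 A B) : A = B ⊓ Cz(bV 2 F) ∨ A = R :=
  (h.el hA.le hA.el).imp (fun k => eq_of_le_of_card_ge k (h.mQ.card_eq hA).le)
    fun k => eq_of_le_of_card_ge k (h.mx.card_eq hA).le

theorem J_eq : JJ 2 B = B := le_antisymm (CfH8.J_le B) (h.B_eq.ge.trans (sup_le h.mQ.le_J h.mx.le_J))

theorem cjR (h1 : t ∈ Nm(B)) : CfH9.cj t R = B ⊓ Cz(bV 2 F) ∨ CfH9.cj t R = R :=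
  h.only (cj_eq_of_mem_normalizer h1 ▸ h.mx.cj t)

theorem cjQ (h1 : t ∈ Nm(B)) :
    CfH9.cj t (B ⊓ Cz(bV 2 F)) = B ⊓ Cz(bV 2 F) ∨ CfH9.cj t (B ⊓ Cz(bV 2 F)) = R :=
  h.only (by simpa only [cj_eq_of_mem_normalizer h1] using h.mQ.cj t)

theorem mem_NR (h1 : t ∈ Nm(B)) (h2 : t ∈ Nm(B ⊓ Cz(bV 2 F))) : t ∈ Nm(R) :=
  mem_normalizer_iff_cj.2 ((h.cjR h1).resolve_left fun e => h.nR
    ((cj_inj.1 (e.trans (cj_eq_of_mem_normalizer h2).symm)).le.trans inf_le_right))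

theorem nRB : B ≤ Nm(R) := fun _ hb => h.mem_NR (le_normalizer hb) (h.nQ hb)

theorem cmD : ⁅B, B⁆ ≤ B ⊓ Cz(bV 2 F) ⊓ R := by
  have n : B ≤ Nm(B ⊓ Cz(bV 2 F) ⊓ R) := le_normalizer_inf h.nQ h.nRB
  have k : ⁅B ⊓ Cz(bV 2 F), R⁆ ≤ B ⊓ Cz(bV 2 F) ⊓ R :=
    le_inf (comm_le_left (h.mx.le.trans h.nQ)) (comm_le_right (inf_le_left.trans h.nRB))
  refine (commutator_mono h.B_eq.ge h.B_eq.ge).trans (commutator_sup_left_le (inf_le_left.trans n)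
    (h.mx.le.trans n) ?_ ?_) <;>
    refine commutator_sup_right_le (inf_le_left.trans n) (h.mx.le.trans n) ?_ ?_
  exacts [(comm_eq_bot_left.2 (elemAb_le_Cz h.eQ)).le.trans bot_le, k, (commutator_comm _ _).le.trans k,
    (comm_eq_bot_left.2 (elemAb_le_Cz h.mx.el)).le.trans bot_le]

theorem cD : Nat.card (B ⊓ Cz(bV 2 F) ⊓ R : Subgroup G) =
    q * Nat.card (B ⊓ Cz(bV 2 F) ⊓ R ⊓ Cz(F) : Subgroup G) := by
  have n : bV 2 F ⊓ Cz(B) ≤ Nm(B ⊓ Cz(bV 2 F) ⊓ R ⊓ Cz(F)) := (inf_le_right.trans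
    (Cz_anti (inf_le_left.trans (inf_le_left.trans inf_le_left)))).trans (Cz_le_Nm _)
  have c := card_sup_mul_card_inf n
  rw [le_antisymm (sup_le h.UD inf_le_left) fun d hd => by
      obtain ⟨u, hu, e⟩ := h.ga (h.OZ_eq.ge hd)
      rw [← mul_inv_cancel_left u d]
      exact mul_mem_sup hu (mi (mul_mem (inv_mem (h.UD hu)) hd) e),
    show bV 2 F ⊓ Cz(B) ⊓ (B ⊓ Cz(bV 2 F) ⊓ R ⊓ Cz(F)) = bV0 2 F from le_antisymm
      (inf_le_inf inf_le_left inf_le_right) fun z hz =>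
        mi (mi hz.1 (h.ZB hz)) (mi (h.UD (mi hz.1 (h.ZB hz))) hz.2), h.cU, mul_right_comm] at c
  exact Nat.eq_of_mul_eq_mul_right Nat.card_pos c

theorem cov (c : Cov (B ⊓ Cz(bV 2 F)) R E) : bV 2 F ⊓ Cz(B) ≤ (E ⊓ (bV 2 F ⊓ Cz(B))) ⊔ bV0 2 F :=
  fun u hu => by
    have k : ∀ b ∈ B, ∀ v ∈ bV 2 F, ⁅b, v⁆ ∈ E → ⁅b, v⁆⁻¹ * u ∈ bV0 2 F →
        u ∈ (E ⊓ (bV 2 F ⊓ Cz(B))) ⊔ bV0 2 F := fun b hb v hv e1 e2 => by
      rw [← mul_inv_cancel_left ⁅b, v⁆ u]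
      exact mul_mem_sup (mi e1 (mi (commutator_mem_right hv (h.nV hb)) (h.quad b hb v hv))) e2
    rcases c.2 with ⟨v, hv, n, e⟩ | ⟨w, hw, n, e⟩
    · obtain ⟨a, ha, d, hd, rfl⟩ := h.dQ hv
      obtain ⟨b, hb, e'⟩ := h.cv1 a ha (fun e => n (mul_mem (h.UD (mi ha e)).2 hd.2)) u hu
      refine k b hb a ha ?_ e'
      obtain ⟨w, hw, c, hc, rfl⟩ := h.decB hb
      have := e w hw
      rw [comm_mul_left, comm_eq_one (h.DZ hd) (h.mx.le hw), mul_one, mul_inv_cancel, one_mul] at this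
      rw [comm_mul_left, comm_eq_one hc.2 ha, mul_one, mul_inv_cancel, one_mul]
      exact comm_mem_symm this
    · obtain ⟨v, hv, e'⟩ := h.cv2 w (h.mx.le hw) (fun e => n (mi (h.mx.le hw) e)) u hu
      exact k w (h.mx.le hw) v hv (e v (h.VQ hv)) e'

theorem qq (hT : SylIn 2 T ⊤) (loc : ∀ X : Subgroup G, IsPGroup 2 X → X ≠ ⊥ → ChP 2 Nm(X))
    (BT : B ≤ T) (h1 : T ≤ Nm(F)) (h2 : T ≤ Nm(B)) (h3 : T ⊓ Cz(bV 2 F) ≤ B) (q8 : 8 ≤ q) :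
    QQ q T (B ⊓ Cz(bV 2 F)) R := by
  have fa := h.fa T hT.pgrp h1 h2
  have nQ : T ≤ Nm(B ⊓ Cz(bV 2 F)) :=
    le_normalizer_inf h2 ((h1.trans (Nm_le_Nm_bV F)).trans (Nm_le_Nm_Cz _))
  have nR : T ≤ Nm(R) := fun t ht => h.mem_NR (h2 ht) (nQ ht)
  have nD := le_normalizer_inf nQ nR
  have k : ∀ s ∈ T, s ∈ B ⊔ bC 2 F ↔ s ∈ (B ⊓ Cz(bV 2 F)) ⊔ R := fun s hs =>
    ⟨fun e => h.B_eq.ge (h.inB BT h3 hs e), fun e => mem_sup_left (h.B_eq.le e)⟩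
  refine ⟨hT, loc, inf_le_left.trans BT, h.mx.le.trans BT, h.eQ, h.mx.el, nQ, nR, h.cQ, h.cR, q8,
    fun v hv w hw => h.nz hv hw, fun s hs => (k s (commutator_le_self T hs)).1 (fa.cm hs),
    fun s hs t ht e1 e2 n1 n2 => (k _ (mul_mem hs ht)).1 (fa.uq s hs t ht ((k _ (mul_mem hs hs)).2 e1)
      ((k _ (mul_mem ht ht)).2 e2) (mt (k s hs).1 n1) (mt (k t ht).1 n2)), fun s hs n e => ?_⟩
  obtain ⟨k, e1, e2, e3, e4⟩ := fa.cnt s hs (mt (k s hs).1 n) ((k _ (mul_mem hs hs)).2 e)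
  have fin : ∀ X : Subgroup G, Nat.card X = q * Nat.card (B ⊓ Cz(bV 2 F) ⊓ R : Subgroup G) →
      (secCz (zpowers s) (B ⊓ Cz(bV 2 F) ⊓ R)).relIndex X = k →
      Nat.card (X ⊓ secCz (zpowers s) (B ⊓ Cz(bV 2 F) ⊓ R) : Subgroup G) =
        k * Nat.card (B ⊓ Cz(bV 2 F) ⊓ R : Subgroup G) := fun X c i => by
    have := card_of_idx i
    rw [c, ← e1, mul_assoc] at this
    exact (Nat.eq_of_mul_eq_mul_left (Nat.pos_of_ne_zero (by
      rintro rfl; have := h.q2; omega)) this).symm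
  refine ⟨k, e1, fin _ h.cQ ?_, fin _ h.cR (e3 R _ h.mx.le (h.off h.mx h.nR).1 (nR hs) (nD hs)
    ((h.mx.le.trans BT).trans nD) (le_antisymm (inf_le_inf_left _ (inf_le_left.trans inf_le_right))
      fun x hx => mi hx.1 (mi (mi (h.mx.le hx.1) hx.2) hx.1))), fun E c => ?_⟩
  · rw [← e2 _ (nD hs) ((h.VB.trans BT).trans nD) (le_antisymm (inf_le_inf_left _ h.DZ)
      (le_inf inf_le_left h.UD))]
    refine le_antisymm (relIndex_le_of_cover fun x hx => ?_)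
      (relIndex_le_of_le_right h.VQ FiniteIndex.index_ne_zero)
    obtain ⟨v, hv, d, hd, rfl⟩ := h.dQ hx
    exact ⟨v, hv, (inv_mul_cancel_left v d).symm ▸ mem_secCz_zpowers (nD hs) (le_normalizer hd)
      (commutator_mem_right hd (nD hs))⟩
  · rw [← e4 _ inf_le_right (h.cov c), card_of_idx (X := E) (Y := Cx(s)) rfl]
    refine Nat.mul_le_mul_right _ ((relIndex_le_of_le_right inf_le_left FiniteIndex.index_ne_zero).trans ?_)
    rw [← inf_relIndex_right Cx(s)]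
    refine relIndex_le_of_le_left (fun x hx => mem_secCz_zpowers (mem_Nm_Cz (h1 hs))
      (mem_Nm_Cz (h.nF (c.1 hx.2).1.1)) ?_) FiniteIndex.index_ne_zero
    exact commutatorElement_eq_one_iff_mul_comm.2 (mem_Cx.1 hx.1).symm ▸ one_mem _

end TW

end CfH7
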