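import Cfsg.Agent.OD.Pre
import Cfsg.Agent.H7.GC6

/-! Pieces inside symmetric blocks. -/

set_option autoImplicit false
set_option linter.unusedSectionVars false
set_option maxHeartbeats 400000

open Cfsg Subgroup CfH9 CfLp Equiv
open scoped commutatorElement MatrixGroups

namespace CfH7

open CfH8 (BB JJ MaxEl)
open MulAction (stabilizer)

universe u

section
variable {n : ℕ} {a b c d w : Fin n} {v : PV n}

theorem tri3_w (ab : a ≠ b) (aw : a ≠ w) (bw : b ≠ w) (hv : v ∈ tri3 a b w) (he : v ∈ evn n) :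
    v w = v a + v b := by
  have h3 : ∑ i ∈ {a, b, w}, v i = ∑ i, v i := Finset.sum_subset (Finset.subset_univ _)
    fun i _ hi => by
      simp only [Finset.mem_insert, Finset.mem_singleton, not_or] at hi
      exact hv i hi.1 hi.2.1 hi.2.2
  rw [mem_evn.1 he, Finset.sum_insert (by simp [ab, aw]), Finset.sum_pair bw, ← add_assoc] at h3
  exact (CharTwo.add_eq_zero.1 h3).symm

theorem pe_tri3 (hc : c = a ∨ c = b ∨ c = w) (hd : d = a ∨ d = b ∨ d = w) : pe c d ∈ tri3 a b w :=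
  fun i h1 h2 h3 => by
    rw [pe_apply, if_neg (by grind), if_neg (by grind), add_zero]

theorem card_tri3 (ab : a ≠ b) (aw : a ≠ w) (bw : b ≠ w) :
    Nat.card (tri3 a b w ⊓ evn n : AddSubgroup (PV n)) = 4 := by
  refine (Nat.card_eq_of_bijective (β := ZMod 2 × ZMod 2) (fun v => (v.1 a, v.1 b))
    ⟨fun v v' e => Subtype.ext (funext fun i => ?_), fun s => ?_⟩).trans (by simp)
  · obtain ⟨e1, e2⟩ := Prod.mk.inj e
    by_cases h1 : i = a
    · rwa [h1]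
    by_cases h2 : i = b
    · rwa [h2]
    by_cases h3 : i = w
    · rw [h3, tri3_w ab aw bw v.2.1 v.2.2, tri3_w ab aw bw v'.2.1 v'.2.2, e1, e2]
    rw [v.2.1 i h1 h2 h3, v'.2.1 i h1 h2 h3]
  · refine ⟨⟨s.1.val • pe a w + s.2.val • pe b w, add_mem (nsmul_mem (AddSubgroup.mem_inf.2
      ⟨pe_tri3 (by simp) (by simp), pe_mem _ _⟩) _) (nsmul_mem (AddSubgroup.mem_inf.2
      ⟨pe_tri3 (by simp) (by simp), pe_mem _ _⟩) _)⟩, ?_⟩
    obtain ⟨s, t⟩ := s
    simp only [pv_add, Pi.smul_apply, pe_apply, ab, aw, bw, ab.symm, if_true, if_false]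
    revert s t
    decide

end

variable {G : Type u} [Group G] [Finite G] {q : ℕ} {T B F F' S A X Y W J V E M : Subgroup G}
  {m : ℕ} {R : Subgroup (Perm (Fin (2 * m + 1)))} {a b c d w : Fin (2 * m + 1)}

/-- the pieces outside `M` -/
def PS (B M : Subgroup G) : Set (Subgroup G) := {F | Pc B F ∧ ¬ F ≤ M}

theorem PS.cj (h : F ∈ PS B M) {g : G} (h1 : g ∈ Nm(B)) (h2 : g ∈ M) : cj g F ∈ PS B M :=
  ⟨cj_eq_of_mem_normalizer h1 ▸ h.1.cj g,
    fun e => h.2 ((cj_le_iff.1 e).trans (cj_eq_of_mem (inv_mem h2)).le)⟩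

theorem BLK.VB (h : BLK 2 T E) : bV 2 E ≤ BB 2 T := (blk_V_le_J h.blk h.V_le_T).trans (CfH8.J_le_B T)

theorem B_B (T : Subgroup G) : BB 2 (BB 2 T) = BB 2 T := CfH8.B_eq_of_B_le le_rfl (CfH8.B_le T)

namespace SD

variable {D : MD R (evn (2 * m + 1)) Nm(E) (bV 2 E) (bV0 2 E)} (h : SD T E D w)
include h

theorem nB : BB 2 T ≤ Nm(E) := h.bk.B_le_Nm

theorem kQ (x : Nm(E)) (h1 : (x : G) ∈ E) (h2 : D.ρ x = 1) : (x : G) ∈ bV 2 E :=
  h.bk.Q_two.le (h.bk.mem_Q h1 ((h.bd.ker x).1 h2))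

theorem card_tri (ab : a ≠ b) (hs : swap a b ∈ im D.ρ (BB 2 T)) :
    Nat.card (D.pre (tri3 a b w)) = 4 := by
  rw [D.card_pre, card_tri3 ab (h.ne_w ab hs) (h.ne_w ab.symm (swap_comm a b ▸ hs)), h.sp, card_bot]

theorem orb (ab : a ≠ b) (hs : swap a b ∈ im D.ρ (BB 2 T)) {s : Perm (Fin (2 * m + 1))}
    (h1 : s ∈ im D.ρ (BB 2 T)) : (s a = a ∧ s b = b) ∨ (s a = b ∧ s b = a) := by
  have e1 := h.off.orb hs (i := a) (by simpa using ab.symm) h1
  have e2 := h.off.orb hs (i := b) (by simpa using ab) h1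
  rw [swap_apply_left] at e1
  rw [swap_apply_right] at e2
  have := s.injective.ne ab
  grind

theorem str (p : PX q (BB 2 T) F) (bF : BLK 2 T F) (FE : F ≤ E) : q = 2 ∧ ∃ a b, a ≠ b ∧
    swap a b ∈ im D.ρ (BB 2 T) ∧ (∃ z ∈ ⁅bV 2 F, BB 2 T⁆, D.c z = pe a b) ∧
    bV 2 F = D.pre (tri3 a b w) := by
  have VV : bV 2 F ≤ bV 2 E := p.bk.V_idem.ge.trans ((commutator_mono le_rfl FE).trans
    (bF.comm_V_le h.toBLK))
  obtain ⟨a, b, ab, t, ht, et, tn⟩ : ∃ a b, a ≠ b ∧ ∃ t : Nm(E), (t : G) ∈ BB 2 T ∧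
      D.ρ t = swap a b ∧ (t : G) ∉ Cz(bV 2 F) := by
    by_contra! c
    refine p.nC fun y hy v hv => ((h.comm_iff ⟨y, h.nB hy⟩ (VV hv)).2
      (mem_of_swaps (K := stabilizer _ (D.c v)) fun i hi => ?_)).symm
    obtain ⟨t, ht, et⟩ := h.off.swap_mem (mem_im (x := ⟨y, h.nB hy⟩) hy) hi
    exact et ▸ (h.comm_iff t (VV hv)).1 (c _ _ hi.symm t ht et v hv).symm
  have hs : swap a b ∈ im D.ρ (BB 2 T) := ⟨t, ht, et⟩
  have cc : ∀ {c d} (s : Nm(E)), D.ρ s = swap c d → ∀ v ∈ bV 2 E, ⁅(s : G), v⁆ = 1 ∨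
      D.c ⁅(s : G), v⁆ = pe c d := fun {c d} s es v hv => by
    have := D.c_comm s hv
    rw [es, swap_smul_sub] at this
    refine (zmod2_cases (D.c v c + D.c v d)).imp (fun e => h.inj (commutator_mem_right hv (D.n s.2))
      (one_mem _) ?_) fun e => by rw [this, e, one_smul]
    rw [this, e, zero_smul, D.c_one]
  obtain ⟨v₀, h0, n0⟩ : ∃ v ∈ bV 2 F, ⁅(t : G), v⁆ ≠ 1 := by
    by_contra! c
    exact tn (mem_Cz_of_comm c)
  have ez := (cc t et v₀ (VV h0)).resolve_left n0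
  have zU : ⁅(t : G), v₀⁆ ∈ bV 2 F ⊓ Cz(BB 2 T) :=
    mi (commutator_mem_right h0 (p.nV ht)) (p.quad _ ht _ h0)
  have zc : ⁅(t : G), v₀⁆ ∈ ⁅bV 2 F, BB 2 T⁆ := comm_mem_symm (commutator_mem_commutator h0 ht)
  generalize ⁅(t : G), v₀⁆ = z at n0 ez zU zc
  have k : ∀ u ∈ bV 2 F ⊓ Cz(BB 2 T), u ∉ bV0 2 F → z⁻¹ * u ∈ bV0 2 F := fun u hu n => by
    obtain ⟨v, hv, e⟩ := p.cv2 t ht tn u hu
    rcases cc t et v (VV hv) with e' | e'
    · exact (n (by simpa [e'] using e)).elim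
    · rwa [h.inj (VV (commutator_mem_right hv (p.nV ht))) (VV zU.1) (e'.trans ez.symm)] at e
  have q2 : q = 2 := by
    have c := (card_le_two (A := bV 2 F ⊓ Cz(BB 2 T)) (E := bV0 2 F) fun a ha b hb n n' => by
      have := mul_mem (inv_mem (k a ha n)) (k b hb n')
      rwa [mul_inv_rev, inv_inv, mul_assoc, mul_inv_cancel_left, el_inv (elemAb_bV F) ha.1] at this).trans
        (Nat.mul_le_mul_left 2 (card_le_of_le inf_le_right))
    rw [p.cU] at c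
    exact le_antisymm (Nat.le_of_mul_le_mul_right c Nat.card_pos) p.q2
  subst q2
  have z0 := p.bk.V0_eq_bot (p.two.2 rfl)
  have Uz : ∀ u ∈ bV 2 F ⊓ Cz(BB 2 T), u = 1 ∨ u = z := fun u hu => or_iff_not_imp_left.2 fun n =>
    (inv_mul_eq_one.1 (mem_bot.1 (z0.le (k u hu (z0 ▸ n))))).symm
  obtain ⟨f, hf, nf⟩ : ∃ f ∈ F, f * z * f⁻¹ ≠ z := by
    by_contra! c
    exact n0 (mem_bot.1 (z0.le (mi zU.1 fun f hf => mul_inv_eq_iff_eq_mul.1 (c f hf))))
  have y1 := conj_mem_of_mem_normalizer (Nm_le_Nm_bV (p := 2) F (le_normalizer hf)) zU.1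
  have y2 := D.act ⟨f, le_normalizer (FE hf)⟩ z (VV zU.1)
  have y3 : f * z * f⁻¹ ∉ Cz(BB 2 T) := fun e => (Uz _ (mi y1 e)).elim (by simpa using n0) nf
  rw [ez, smul_pe] at y2
  have cd := (D.ρ ⟨f, le_normalizer (FE hf)⟩).injective.ne ab
  change D.c (f * z * f⁻¹) = _ at y2
  generalize f * z * f⁻¹ = y at y1 y2 y3
  generalize D.ρ ⟨f, le_normalizer (FE hf)⟩ a = c at y2 cd
  generalize D.ρ ⟨f, le_normalizer (FE hf)⟩ b = d at y2 cd
  have key : ∀ c d, c ≠ d → D.c y = pe c d → c = a ∨ c = b ∨ c = w := fun c d cd e => by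
    by_contra! n
    obtain ⟨c', cc', s, hs', es⟩ := h.pr c n.2.2
    replace hs' : (s : G) ∈ BB 2 T := hs'
    by_cases dc : d = c'
    · subst dc
      have a1 : a ≠ d := fun e => n.2.1 (h.off.pair hs (e ▸ swap_comm c d ▸ ⟨s, hs', es⟩) ab n.1.symm)
      have a2 : b ≠ d := fun e => n.1 (h.off.pair (swap_comm a b ▸ hs)
        (e ▸ swap_comm c d ▸ ⟨s, hs', es⟩) ab.symm n.2.1.symm)
      refine y3 (p.ti' ht tn y1 ((h.comm_iff t (VV y1)).2 ?_))
      rw [et, swap_smul_eq_iff, e]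
      simp [pe_apply, a1, a2, n.1.symm, n.2.1.symm]
    · have := congrFun (D.c_comm s (VV y1)) c
      rw [es, swap_smul_sub, e] at this
      rcases Uz _ (mi (commutator_mem_right y1 (p.nV hs')) (p.quad _ hs' _ y1)) with e' | e' <;>
        rw [e'] at this
      · simp [D.c_one, pe_apply, cd, cc', cc'.symm, Ne.symm dc, pv_zero] at this
      · simp [ez, pe_apply, cd, cc', cc'.symm, Ne.symm dc, n.1, n.2.1] at this
  have yV : y ∈ D.pre (tri3 a b w) :=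
    ⟨VV y1, y2 ▸ pe_tri3 (key c d cd y2) (key d c cd.symm (y2.trans (pe_comm c d)))⟩
  have UV : bV 2 F ⊓ Cz(BB 2 T) ≤ D.pre (tri3 a b w) := fun u hu => by
    rcases Uz u hu with rfl | rfl
    exacts [one_mem _, ⟨VV zU.1, ez ▸ pe_tri3 (by simp) (by simp)⟩]
  refine ⟨rfl, a, b, ab, hs, ⟨z, zc, ez⟩, eq_of_le_of_card_ge (fun v hv => ?_)
    (by rw [h.card_tri ab hs, p.cV, p.cU, z0, card_bot])⟩
  by_cases e : v ∈ Cz(BB 2 T)
  · exact UV (mi hv e)
  · exact (mul_mem_cancel_right yV).1 (UV (mi (mul_mem hv y1)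
      (mul_mem_of_two (idx_of_card p.cV) hv y1 e y3)))

theorem mkP (ab : a ≠ b) (hs : swap a b ∈ im D.ρ (BB 2 T)) : ∃ x : Nm(E), (x : G) ∈ E ∧
    D.ρ x = swap a b * swap a w ∧ Pc (BB 2 T) (D.pre (tri3 a b w) ⊔ zpowers (x : G)) ∧
    bV 2 (D.pre (tri3 a b w) ⊔ zpowers (x : G)) = D.pre (tri3 a b w) := by
  have aw := h.ne_w ab hs
  have bw := h.ne_w ab.symm (swap_comm a b ▸ hs)
  have t := Perm.isThreeCycle_swap_mul_swap_same ab aw bw
  obtain ⟨x, xE, x3, ex⟩ : ∃ x : Nm(E), (x : G) ∈ E ∧ (x : G) ^ 3 = 1 ∧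
      D.ρ x = swap a b * swap a w := by
    obtain ⟨x, hx, ex⟩ := h.bd.im.ge t.mem_alternatingGroup
    replace hx : (x : G) ∈ E := hx
    have e3 : D.ρ (x ^ 3) = 1 := by rw [map_pow, ex, ← t.orderOf, pow_orderOf_eq_one]
    have e6 : ((x : G) ^ 3) ^ 2 = 1 := (elemAb_bV E).2 _ (h.kQ (x ^ 3) (pow_mem hx 3) e3)
    exact ⟨x ^ 4, pow_mem hx 4, by
      rw [Subgroup.coe_pow, ← pow_mul, show 4 * 3 = 3 * 2 * 2 from rfl, pow_mul, pow_mul, e6, one_pow],
      by rw [pow_succ, map_mul, e3, one_mul, ex]⟩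
  have cx : ∀ v ∈ bV 2 E, ⁅(x : G), v⁆ ∈ D.pre (tri3 a b w) := fun v hv =>
    ⟨commutator_mem_right hv (D.n x.2), fun i h1 h2 h3 => by
      rw [D.c_comm x hv, ex, pv_sub, mul_smul, pv_smul, swap_inv, swap_apply_of_ne_of_ne h1 h2, pv_smul,
        swap_inv, swap_apply_of_ne_of_ne h1 h3, sub_self]⟩
  have eV := elemAb_of_le (D.pre_le (tri3 a b w)) (elemAb_bV (p := 2) E)
  have nV : bV 2 E ≤ Nm(D.pre (tri3 a b w)) :=
    ((elemAb_le_Cz (elemAb_bV E)).trans (Cz_anti (D.pre_le _))).trans (Cz_le_Nm _)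
  have xV : (x : G) ∈ Nm(D.pre (tri3 a b w)) := mem_normalizer_of_conj_mem fun v hv => by
    rw [conj_eq_comm_mul]; exact mul_mem (cx v hv.1) hv
  obtain ⟨z, hz, ez⟩ := D.c_surj _ (pe_mem a w)
  have zV : z ∈ D.pre (tri3 a b w) := ⟨hz, ez ▸ pe_tri3 (by simp) (by simp)⟩
  have nc : ∀ y : Nm(E), D.ρ y a ≠ a → D.ρ y w ≠ a → (y : G) ∉ Cz(D.pre (tri3 a b w)) :=
    fun y e1 e2 e => by
      have := congrFun ((h.comm_iff y hz).1 (e z zV).symm) a
      rw [ez, smul_pe] at this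
      simp [pe_apply, aw, e1.symm, e2.symm] at this
  have xn := nc x (by rw [ex]; simp [swap_apply_def, aw, aw.symm, bw.symm])
    (by rw [ex]; simp [ab.symm])
  have c4 := h.card_tri ab hs
  have res : pResidualOf 2 (bV 2 E ⊔ zpowers (x : G)) = D.pre (tri3 a b w) ⊔ zpowers (x : G) := by
    have xr : zpowers (x : G) ≤ pResidualOf 2 (bV 2 E ⊔ zpowers (x : G)) := zpowers_le.2
      (mem_pResidualOf (mem_sup_right (mem_zpowers _)) ((show Nat.Coprime 3 2 by decide).of_dvd_left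
        (orderOf_dvd_of_pow_eq_one x3)))
    refine le_antisymm (pResidualOf_le_of_le_sup (isPGroup_bV (p := 2) E) (fun v hv => ?_)
      (sup_le le_sup_right (le_sup_right.trans le_sup_left)))
      (sup_le ((four_comm eV c4 x3 xV xn).ge.trans ((commutator_mono le_rfl xr).trans (comm_le_right
        (((D.pre_le _).trans le_sup_left).trans (le_normalizer_pResidualOf _))))) xr)
    refine mem_normalizer_of_cj_le (cj_le_iff.2 (sup_le
      ((cj_eq_of_mem_normalizer (inv_mem (nV hv))).ge.trans (cj_mono _ le_sup_left))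
      (zpowers_le.2 (mem_cj.2 ?_))))
    rw [inv_inv, conj_eq_comm_mul]
    exact mul_mem_sup (comm_mem_symm (cx v hv)) (mem_zpowers _)
  obtain ⟨s, hs', es⟩ := hs
  refine ⟨x, xE, ex, pc_four (isPGroup_B h.syl.pgrp) (B_B T) eV c4 x3 xV xn ((D.pre_le _).trans h.VB)
    (fun y hy => mem_normalizer_of_conj_mem fun v hv => ⟨conj_mem_of_mem_normalizer (D.n (h.nB hy)) hv.1,
      D.act ⟨y, h.nB hy⟩ v hv.1 ▸ tri3_smul hv.2 (h.orb ab ⟨s, hs', es⟩ (mem_im hy))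
        (h.fix _ (mem_im hy))⟩) (fun y hy => ?_) fun e => nc s (by rw [es]; simp [ab.symm])
        (by rw [es, swap_apply_of_ne_of_ne aw.symm bw.symm]; exact aw.symm) (e hs')⟩
  rw [← res]
  refine normalizer_le_normalizer_pResidualOf _ (mem_normalizer_of_cj_le (cj_le_iff.2 (sup_le
    ((cj_eq_of_mem_normalizer (inv_mem (D.n (h.nB hy)))).ge.trans (cj_mono _ le_sup_left))
    (zpowers_le.2 (mem_cj.2 ?_)))))
  obtain ⟨y, rfl⟩ : ∃ y' : Nm(E), y' = y := ⟨⟨y, h.nB hy⟩, rfl⟩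
  have cs : D.ρ (y * x * y⁻¹) = swap (D.ρ y a) (D.ρ y b) * swap (D.ρ y a) w := by
    conv_rhs => rw [← h.fix _ (mem_im hy)]
    rw [swap_apply_apply, swap_apply_apply, map_mul, map_mul, map_inv, ex]; group
  have yE : ((y * x * y⁻¹ : Nm(E)) : G) ∈ E := conj_mem_of_mem_normalizer y.2 xE
  rw [inv_inv]
  rcases h.orb ab ⟨s, hs', es⟩ (mem_im hy) with e | e <;> rw [e.1, e.2] at cs
  · rw [← inv_mul_cancel_right ((y : G) * x * (y : G)⁻¹) (x : G)]
    exact mul_mem_sup (h.kQ (y * x * y⁻¹ * x⁻¹) (mul_mem yE (inv_mem xE))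
      (by rw [map_mul, map_inv, cs, ex, mul_inv_cancel])) (mem_zpowers _)
  · rw [← mul_inv_cancel_right ((y : G) * x * (y : G)⁻¹) (x : G)]
    exact mul_mem_sup (h.kQ (y * x * y⁻¹ * x) (mul_mem yE xE) (by
      rw [map_mul, cs, ex, swap_comm b a, ← swap_mul_swap_mul_swap (x := w) (y := b) (z := a) bw.symm aw.symm,
        swap_comm b a, swap_comm w b]
      simp only [mul_assoc, swap_mul_self_mul, swap_mul_self])) (inv_mem (mem_zpowers _))

theorem le_sup (hM : cStarOf 2 T ≤ M) (nM : ¬ E ≤ M) : bV 2 E ≤ ⨆ F ∈ PS (BB 2 T) M, bV 2 F := by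
  have BM := B_le_cs.trans hM
  obtain ⟨a, b, ab, hs, F, hF, e⟩ : ∃ a b, a ≠ b ∧ swap a b ∈ im D.ρ (BB 2 T) ∧
      ∃ F ∈ PS (BB 2 T) M, bV 2 F = D.pre (tri3 a b w) := by
    by_contra! c
    have l1 : M ⊓ E ≤ Nm(E) := inf_le_right.trans le_normalizer
    have t : im D.ρ ((M ⊓ E) ⊔ BB 2 T) = ⊤ := top_of_hub (w := w) fun i => by
      by_cases iw : i = w
      · rw [iw, swap_self]; exact one_mem _
      obtain ⟨j, ij, hs⟩ := h.pr i iw
      obtain ⟨x, xE, ex, p, e⟩ := h.mkP ij hs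
      exact (mul_mem_cancel_left (im_mono le_sup_right hs)).1 (ex ▸ mem_im (mem_sup_left (mi
        (not_not.1 (fun n => c i j ij hs _ ⟨p, n⟩ e) (mem_sup_right (mem_zpowers _))) xE)))
    have k1 : im D.ρ E ≤ im D.ρ (M ⊓ E) := by
      refine (im_mono h.bk.res.ge).trans ?_
      rw [im_res le_normalizer]
      refine (pResidualOf_mono (le_top.trans t.ge)).trans ?_
      rw [← im_res (sup_le l1 h.nB)]
      exact im_mono (pResidualOf_le_of_le_sup (isPGroup_B h.syl.pgrp) (le_normalizer_inf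
        (BM.trans le_normalizer) h.nB) le_rfl)
    refine nM fun f hf => ?_
    obtain ⟨y, hy, e⟩ := k1 (mem_im (x := ⟨f, le_normalizer hf⟩) hf)
    rw [← mul_inv_cancel_left (y : G) f]
    exact mul_mem hy.1 (BM (h.VB (h.kQ (y⁻¹ * ⟨f, le_normalizer hf⟩) (mul_mem (inv_mem hy.2) hf)
      (by rw [map_mul, map_inv, e, inv_mul_cancel]))))
  set W := ⨆ F ∈ PS (BB 2 T) M, bV 2 F
  have l : ∀ F ∈ PS (BB 2 T) M, bV 2 F ≤ W := fun F hF => le_iSup₂_of_le F hF le_rfl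
  have k : ∀ c, pe c w ∈ D.im (W ⊓ bV 2 E) inf_le_right := fun c => by
    by_cases cc : c = a ∨ c = b ∨ c = w
    · obtain ⟨y, hy, ey⟩ := D.c_surj _ (pe_mem c w)
      exact ⟨y, mi (l F hF (e.ge ⟨hy, ey ▸ pe_tri3 cc (by simp)⟩)) hy, ey⟩
    push Not at cc
    obtain ⟨d, cd, hd⟩ := h.pr c cc.2.2
    have da : d ≠ a := fun e => cc.2.1 (h.off.pair hs (e ▸ swap_comm c d ▸ hd) ab cc.1.symm)
    have db : d ≠ b := fun e => cc.1 (h.off.pair (swap_comm a b ▸ hs) (e ▸ swap_comm c d ▸ hd)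
      ab.symm cc.2.1.symm)
    obtain ⟨g, hg, eg⟩ := h.bd.im.ge (dbl_mem_alt cc.1.symm db.symm)
    have b' := h.bd.resE h.bk.nH le_sup_left
    have e1 : im (D.resE h.bk.nH).ρ (BB 2 T) = im D.ρ (BB 2 T) := im_incl _ le_sup_right
    have gB := CfH8.Nm_le_Nm_B (p := 2) _ (mem_Nm_prim (π := (D.resE h.bk.nH).ρ)
      (L := im (D.resE h.bk.nH).ρ (BB 2 T)) (x := ⟨g, mem_sup_left hg⟩) (by
        rw [e1]
        refine mem_normalizer_of_cj_le (le_trans (le_of_eq (congrArg (cj · _) eg))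
          ((h.off.cj_dbl hs ab cd cc.1 cc.2.1 da db (fun j h1 h2 => h.off.pair hd h2 cd h1)
            fun j h1 h2 => h.off.pair (swap_comm c d ▸ hd) h2 cd.symm h1).trans
            (sup_le le_rfl (zpowers_le.2 hd))))))
    rw [B_eq_of_B_le h.syl (isPGroup_prim b'.ker (h.bk.kp h.syl.pgrp)
      (isPGroup_im (isPGroup_B h.syl.pgrp))) (le_prim le_sup_right le_rfl)] at gB
    obtain ⟨y, hy, ey⟩ := D.c_surj _ (pe_mem a w)
    refine ⟨g * y * (g : G)⁻¹, mi (l _ (PS.cj hF gB (hM (NmB_le_cs h.bk.B_ne gB))) ?_)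
      (conj_mem_of_mem_normalizer (D.n g.2) hy), ?_⟩
    · rw [← cj_bV]
      exact conj_mem_cj _ (e.ge ⟨hy, ey ▸ pe_tri3 (by simp) (by simp)⟩)
    · rw [D.act g y hy, ey, smul_pe, eg, (dbl_apply ab cd cc.1 cc.2.1 da db).1, Perm.mul_apply,
        swap_apply_of_ne_of_ne (h.ne_w ab.symm (swap_comm a b ▸ hs)).symm
          (h.ne_w cd.symm (swap_comm c d ▸ hd)).symm,
        swap_apply_of_ne_of_ne (h.ne_w ab hs).symm cc.2.2.symm]
  intro v hv
  obtain ⟨y, hy, e⟩ := evn_le (X := D.im (W ⊓ bV 2 E) inf_le_right) (fun c d => by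
    convert add_mem (k c) (k d) using 1
    funext i
    simp only [pe_apply, pv_add]
    split_ifs <;> decide) (D.c_mem v hv)
  exact h.inj hy.2 hv e ▸ hy.1

end SD

end CfH7
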