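import Cfsg.Agent.OD.Pre
import Cfsg.Agent.H7.GC7

/-! Pieces in a 2-local subgroup; the global configuration. -/

set_option autoImplicit false
set_option linter.unusedSectionVars false
set_option maxHeartbeats 400000

open Cfsg Subgroup CfH9 CfLp Equiv
open scoped commutatorElement MatrixGroups

namespace CfH7

open CfH8 (BB JJ MaxEl)

universe u

variable {G : Type u} [Group G] [Finite G] {q : ℕ} {T B F F' S A X Y W J V E M L C : Subgroup G}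
  {g : G}

theorem BLK.pc (h : BLK 2 T E) (l : Ln 2 E) : Pc (BB 2 T) E :=
  ⟨isPGroup_B h.syl.pgrp, B_B T, blk_of_B_eq h.blk (B_B T) fun e => h.bk.ne (le_bot_iff.1
    ((commutator_mono le_rfl (OZ_le_OZ (CfH8.B_le T) ((CfH8.OZ_le_OZ_J T).trans
      ((OZ_le _).trans (CfH8.J_le_B T))))).trans e.le)), l, h.VB⟩

theorem PX.not_comm_le (p : PX q B F) : ¬ ⁅bV 2 F, B⁆ ≤ Cz(F) := fun e => by
  obtain ⟨x, h1, h2⟩ := SetLike.not_le_iff_exists.1 p.nC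
  exact p.nC (le_Cz_comm fun v hv => (p.ti x h1 v hv
    (comm_mem_symm (e (commutator_mem_commutator hv h1)))).resolve_left h2)

/-- the ambient group has characteristic two -/
structure LC (T M : Subgroup G) : Prop where
  syl : SylIn 2 T ⊤
  chp : Cz(pCore 2 G) ≤ pCore 2 G
  cs : cStarOf 2 T ≤ M

namespace LC

variable (h : LC T M)
include h

theorem ch : ChP 2 (⊤ : Subgroup G) := chp_rel h.chp le_top

theorem blk (hF : F ∈ PS (BB 2 T) M) : BLK 2 T F :=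
  ⟨h.syl, h.chp, blk_of_B_eq hF.1.blk (B_B T).symm fun e =>
    hF.2 ((comm_eq_bot_left.1 e).trans (Cz_le_cs.trans h.cs))⟩

theorem gb (hF : F ∈ PS (BB 2 T) M) : ∃ E, GB 2 T ⊤ E ∧ F ≤ E :=
  (core_full G).2 T F h.syl h.chp (h.blk hF).blk fun e => hF.2 (e.trans h.cs)

theorem kind (hE : GB 2 T ⊤ E) : Ln 2 E ∨ ∃ (m : ℕ) (R : Subgroup (Perm (Fin (2 * m + 1))))
    (D : MD R (evn (2 * m + 1)) Nm(E) (bV 2 E) (bV0 2 E)) (w : Fin (2 * m + 1)), SD T E D w :=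
  hE.sp.elim (fun e => (blk_kind hE.blk).imp id fun ⟨_, m, l⟩ =>
    ⟨m, l.sd ⟨h.syl, h.chp, hE.blk⟩ e⟩) Or.inl

theorem eq_ln (hF : F ∈ PS (BB 2 T) M) (hE : IsBaumannBlock 2 T E) (l : Ln 2 E) (e : F ≤ E) : F = E :=
  (h.blk hF).eq_of_le ⟨h.syl, h.chp, hE⟩ l e fun e => hF.2 (e.trans h.cs)

theorem le_of_V (hF : F ∈ PS (BB 2 T) M) (hF' : F' ∈ PS (BB 2 T) M) (e : bV 2 F' = bV 2 F)
    (c : PCl 2 F) : F' ≤ Nm(F) :=
  (blk_small (h.blk hF).blk c ((h.blk hF').bk.com.ge.trans (e ▸ commutator_mono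
    (right_le_Nm_comm _ _) ((h.blk hF').bk.B_le_Nm.trans (Nm_le_Nm_bV F')))) (h.blk hF').bk.res).trans
    (sup_le le_normalizer (h.blk hF).Cz_le)

theorem f4 (hF : F ∈ PS (BB 2 T) M) (hF' : F' ∈ PS (BB 2 T) M) (e : ⁅bV 2 F, BB 2 T⁆ ≤ bV 2 F') :
    F = F' := by
  obtain ⟨E, h1, h2⟩ := h.gb hF
  obtain ⟨q, p⟩ := hF.1.px
  obtain ⟨q', p'⟩ := hF'.1.px
  have h3 := (h1.le_or_comm h.syl h.ch (h.blk hF').blk le_top).resolve_right fun e' =>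
    p.not_comm_le (e.trans (p'.VF.trans (e'.trans (Cz_anti h2))))
  rcases h.kind h1 with l | ⟨m, R, D, w, s⟩
  · exact (h.eq_ln hF h1.blk l h2).trans (h.eq_ln hF' h1.blk l h3).symm
  obtain ⟨rfl, a, b, ab, hs, ⟨z, hz, ez⟩, e1⟩ := s.str p (h.blk hF) h2
  obtain ⟨rfl, a', b', ab', hs', -, e2⟩ := s.str p' (h.blk hF') h3
  have k := (e2.le (e hz)).2
  have e3 : bV 2 F = bV 2 F' := by
    rw [e1, e2]
    refine eq_of_le_of_card_ge (fun v hv => D.mem_pre.2 ⟨hv.1, fun i h1 h2 h3 =>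
      hv.2 i ?_ ?_ h3⟩) (by rw [s.card_tri ab hs, s.card_tri ab' hs']) <;> rintro rfl <;>
      simpa [ez, pe_apply, ab, ab.symm] using k i h1 h2 h3
  have n1 := h.le_of_V hF hF' e3.symm (p.two.2 rfl)
  have n2 := h.le_of_V hF' hF e3 (p'.two.2 rfl)
  exact le_antisymm ((h.blk hF').small_le (h.blk hF) n2 n1 e3 (p'.two.2 rfl))
    ((h.blk hF).small_le (h.blk hF') n1 n2 e3.symm (p.two.2 rfl))

theorem pp (hF : F ∈ PS (BB 2 T) M) (p : PX q (BB 2 T) F) (hq : q ≠ 2) : GB 2 T ⊤ F := by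
  obtain ⟨E, h1, h2⟩ := h.gb hF
  rcases h.kind h1 with l | ⟨m, R, D, w, s⟩
  · exact h.eq_ln hF h1.blk l h2 ▸ h1
  · exact (hq (s.str p (h.blk hF) h2).1).elim

theorem pp1 (hF : F ∈ PS (BB 2 T) M) (p : PX q (BB 2 T) F) (hq : q ≠ 2) (hF' : F' ∈ PS (BB 2 T) M) :
    F' = F ∨ F' ≤ Cz(F) :=
  ((h.pp hF p hq).le_or_comm h.syl h.ch (h.blk hF').blk le_top).imp_left
    (h.eq_ln hF' (h.blk hF).blk hF.1.ln)

theorem V_le (hE : E ∈ KK 2 T ⊤ M) : bV 2 E ≤ ⨆ F ∈ PS (BB 2 T) M, bV 2 F := by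
  rcases h.kind hE.1 with l | ⟨m, R, D, w, s⟩
  · exact le_iSup₂_of_le E ⟨BLK.pc ⟨h.syl, h.chp, hE.1.blk⟩ l, hE.2⟩ le_rfl
  · exact s.le_sup h.cs hE.2

theorem cj_le (hF : F ∈ PS (BB 2 T) M) (g : G) : cj g (bV 2 F) ≤ ⨆ F ∈ PS (BB 2 T) M, bV 2 F := by
  obtain ⟨E, h1, h2⟩ := h.gb hF
  have h3 := h1.cj h.syl h.ch (mem_top g)
  have h4 : cj g E ≤ sSup (KK 2 T ⊤ M) := (cj_mono g (le_sSup
    (show E ∈ KK 2 T ⊤ M from ⟨h1, fun e => hF.2 (h2.trans e)⟩))).trans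
    (cj_eq_of_mem_normalizer ((core_full _).1.le_Nm h.syl h.ch h.cs (mem_top g))).le
  refine (cj_mono g (hF.1.bk.V_idem.ge.trans ((commutator_mono le_rfl h2).trans
    ((h.blk hF).comm_V_le ⟨h.syl, h.chp, h1.blk⟩)))).trans ((cj_bV g E).le.trans (h.V_le ⟨h3, fun e => ?_⟩))
  exact h3.bk.not_le_Cz (h4.trans (sSup_le fun E' h5 => (h3.eq_or_comm h.syl h.ch h5.1).resolve_left
    fun e' => h5.2 (e'.le.trans e)))

theorem ex (hM : M ≠ ⊤) : ∃ F, F ∈ PS (BB 2 T) M := by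
  obtain ⟨E, h1, h2⟩ := (core_full G).1 T M h.syl h.chp h.cs hM
  by_contra! c
  exact h1.bk.V_not_le ((h.V_le ⟨h1, h2⟩).trans (iSup₂_le fun F hF => (c F hF).elim))

end LC

/-- `L` has characteristic two and `B` is the Baumann subgroup of a Sylow subgroup -/
structure RL (B L M S : Subgroup G) : Prop where
  syl : SylIn 2 S L
  ch : ChP 2 L
  cs : cStarOf 2 S ≤ M
  eB : BB 2 S = B

theorem map_sub (h : X ≤ L) : (X.subgroupOf L).map L.subtype = X := map_subgroupOf_eq_of_le h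

namespace RL

variable (h : RL B L M S)
include h

theorem lc : LC (S.subgroupOf L) (M.subgroupOf L) :=
  ⟨h.syl.subgroupOf_top, h.ch, map_le_iff_le_comap.1 ((cs_rel h.syl.le).trans (inf_le_right.trans h.cs))⟩

theorem BL : B ≤ L := h.eB.ge.trans ((CfH8.B_le S).trans h.syl.le)

theorem eB' : BB 2 (S.subgroupOf L) = B.subgroupOf L := Subgroup.map_injective L.subtype_injective (by
  rw [map_B_inj L.subtype_injective, map_sub h.syl.le, map_sub h.BL, h.eB])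

theorem toL (hF : F ∈ PS B M) (l : F ≤ L) :
    F.subgroupOf L ∈ PS (BB 2 (S.subgroupOf L)) (M.subgroupOf L) :=
  ⟨h.eB' ▸ hF.1.rel h.BL l, fun e => hF.2 fun x hx => e (show (⟨x, l hx⟩ : L) ∈ F.subgroupOf L from hx)⟩

theorem of {F : Subgroup L} (hF : F ∈ PS (BB 2 (S.subgroupOf L)) (M.subgroupOf L)) :
    F.map L.subtype ∈ PS B M :=
  ⟨by simpa only [h.eB', map_sub h.BL] using hF.1.map L.subtype_injective,
    fun e => hF.2 (map_le_iff_le_comap.1 e)⟩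

theorem bV' (l : F ≤ L) : (bV 2 (F.subgroupOf L)).map L.subtype = bV 2 F := by
  rw [map_bV L.subtype_injective, map_sub l]

theorem gp (hF : F ∈ PS B M) (l : F ≤ L) : bV 2 F ≤ OZ 2 (pCoreOf 2 L) := by
  rw [← h.bV' l, pCoreOf_def, ← map_OZ_inj L.subtype_injective]
  exact map_mono ((h.lc.blk (h.toL hF l)).bk.V_le h.lc.syl h.lc.chp)

theorem f4 (hF : F ∈ PS B M) (l : F ≤ L) (hF' : F' ∈ PS B M) (l' : F' ≤ L)
    (e : ⁅bV 2 F, B⁆ ≤ bV 2 F') : F = F' := by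
  rw [← map_sub l, ← map_sub l', h.lc.f4 (h.toL hF l) (h.toL hF' l') (by
    rwa [← map_le_map_iff_of_injective L.subtype_injective, map_commutator, h.bV' l, h.bV' l', h.eB',
      map_sub h.BL])]

theorem pp (hF : F ∈ PS B M) (l : F ≤ L) (p : PX q B F) (hq : q ≠ 2) : GB 2 S L F := by
  obtain ⟨q', p'⟩ := (h.toL hF l).1.px
  have := (h.lc.pp (h.toL hF l) p' fun e => hq (p.two.1 (by
    have := (p'.two.2 e).map L.subtype
    rwa [map_sub l] at this))).of_rel h.syl.le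
  rwa [map_sub l] at this

theorem pp1 (hF : F ∈ PS B M) (l : F ≤ L) (p : PX q B F) (hq : q ≠ 2) (hF' : F' ∈ PS B M)
    (l' : F' ≤ L) : F' = F ∨ F' ≤ Cz(F) := by
  have b := (blk_rel h.syl.le l').1 (h.lc.blk (h.toL hF' l')).blk
  refine ((h.pp hF l p hq).le_or_comm h.syl h.ch b l').imp_left fun e => ?_
  rw [← map_sub l, ← map_sub l', h.lc.eq_ln (h.toL hF' l') (h.lc.blk (h.toL hF l)).blk (h.toL hF l).1.ln
    (comap_mono e)]

theorem nW : L ≤ Nm(⨆ F ∈ {F | F ∈ PS B M ∧ F ≤ L}, bV 2 F) := fun g hg =>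
  mem_normalizer_of_cj_le (cj_le_iff.2 (iSup₂_le fun F hF => cj_le_iff.1 (by
    have := map_mono (f := L.subtype) (h.lc.cj_le (h.toL hF.1 hF.2) ⟨g, hg⟩)
    rw [map_cj, h.bV' hF.2] at this
    refine this.trans (map_le_iff_le_comap.2 (iSup₂_le fun F' hF' => map_le_iff_le_comap.1 ?_))
    rw [map_bV L.subtype_injective]
    exact le_iSup₂_of_le (F'.map L.subtype) ⟨h.of hF', map_subtype_le _⟩ le_rfl)))

theorem ex (n : ¬ L ≤ M) : ∃ F ∈ PS B M, F ≤ L := by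
  obtain ⟨F, hF⟩ := h.lc.ex fun e => n (subgroupOf_eq_top.1 e)
  exact ⟨_, h.of hF, map_subtype_le _⟩

end RL

/-- `S` lies in `M` and in a 2-local subgroup not contained in `M` -/
def Bad (M S : Subgroup G) : Prop := IsPGroup 2 S ∧ S ≤ M ∧
  ∃ X : Subgroup G, IsPGroup 2 X ∧ X ≠ ⊥ ∧ S ≤ Nm(X) ∧ ¬ Nm(X) ≤ M

theorem Bad.cj (h : Bad M S) (hg : g ∈ M) : Bad M (cj g S) := by
  obtain ⟨h1, h2, X, h3, h4, h5, h6⟩ := h
  exact ⟨isPGroup_cj h1 g, cj_le_of_mem h2 hg, _, isPGroup_cj h3 g, cj_ne_bot h4,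
    cj_normalizer g X ▸ cj_mono g h5, fun e => h6 ((cj_le_iff.1 (cj_normalizer g X ▸ e)).trans
      (cj_eq_of_mem (inv_mem hg)).le)⟩

theorem B_le_B (hA : MaxEl 2 A S) (h1 : A ≤ B) (h2 : B ≤ S) (e : BB 2 B = B) : B ≤ BB 2 S :=
  le_inf h2 (e.ge.trans ((CfH8.B_le_Cz B).trans (Cz_anti (CfH8.le_OZ_J (hA.OZ_J_le.trans h1)
    (elemAb_OZ _) ((OZ_le_Cz _).trans (Cz_anti (CfH8.J_le_J_of_maxEl_le hA h1 h2)))))))

/-- the global configuration -/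
structure GS (M B T : Subgroup G) : Prop where
  loc : ∀ X : Subgroup G, IsPGroup 2 X → X ≠ ⊥ → ChP 2 Nm(X)
  syl : SylIn 2 T ⊤
  cs : cStarOf 2 T ≤ M
  BT : B ≤ T
  eB : BB 2 B = B
  ne : B ≠ ⊥
  a1 : ∀ S, Bad M S → B ≤ S → BB 2 S = B
  bad : Bad M B

theorem exists_gs (loc : ∀ X : Subgroup G, IsPGroup 2 X → X ≠ ⊥ → ChP 2 Nm(X)) (hT : SylIn 2 T ⊤)
    (hne : T ≠ ⊥) (cs : cStarOf 2 T ≤ M) (hM : M ≠ ⊤) :
    IsStronglyEmbedded M ∨ ∃ B, GS M B T := by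
  have TM := T_le_cs.trans cs
  by_cases k : ∀ Q, Q ≤ T → Q ≠ ⊥ → ⊤ ⊓ Nm(Q) ≤ M
  · have s := spe_of_sylIn hT hne le_top hM k
    exact Or.inl ⟨hM, even_iff_two_dvd.2 s.dvd, fun g hg => Nat.odd_iff.2 (Nat.two_dvd_ne_zero.1
      (s.not_dvd_inf (mem_top g) hg))⟩
  push Not at k
  obtain ⟨Q, q1, q2, q3⟩ := k
  have bQ : Bad M Q := ⟨hT.pgrp.to_le q1, q1.trans TM, Q, hT.pgrp.to_le q1, q2, le_normalizer,
    by simpa using q3⟩
  obtain ⟨z, hz, z1, z2⟩ := exists_mem_OZ bQ.1 le_rfl le_normalizer q2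
  obtain ⟨⟨S₀, A₀⟩, h0, m0⟩ := Set.exists_max_image {p : Subgroup G × Subgroup G | Bad M p.1 ∧
    p.2 ≤ p.1 ∧ IsElementaryAbelian 2 p.2} (fun p => Nat.card p.2) (Set.toFinite _)
    ⟨(Q, ⊥), bQ, bot_le, elemAb_bot⟩
  obtain ⟨S₁, ⟨h1, A₁, a1, a2, a3⟩, m1⟩ := Set.exists_max_image {S | Bad M S ∧ ∃ A ≤ S,
    IsElementaryAbelian 2 A ∧ Nat.card A₀ ≤ Nat.card A} (fun S => Nat.card (BB 2 S)) (Set.toFinite _)
    ⟨S₀, h0.1, A₀, h0.2.1, h0.2.2, le_rfl⟩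
  obtain ⟨g, hg, e⟩ := (hT.mono TM le_top).exists_cj_le h1.1 h1.2.1
  have mx : ∀ S, Bad M S → cj g A₁ ≤ S → MaxEl 2 (cj g A₁) S := fun S hS l =>
    ⟨l, elemAb_map a2 _, fun A k1 k2 => (m0 (S, A) ⟨hS, k1, k2⟩).trans (a3.trans (card_cj g A₁).ge)⟩
  have b := h1.cj hg
  have l := (mx _ b (cj_mono g a1)).le_J.trans (CfH8.J_le_B _)
  refine Or.inr ⟨BB 2 (cj g S₁), loc, hT, cs, (CfH8.B_le _).trans e, B_B _, fun e' => z1 ?_,
    fun S hS k => (eq_of_le_of_card_ge (B_le_B (mx S hS (l.trans k)) l k (B_B _)) ?_).symm,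
    b.1.to_le (CfH8.B_le _), (CfH8.B_le _).trans b.2.1,
    b.2.2.imp fun X k => ⟨k.1, k.2.1, (CfH8.B_le _).trans k.2.2.1, k.2.2.2⟩⟩
  · have := (m0 (Q, zpowers z) ⟨bQ, zpowers_le.2 hz, CfH8.elemAb_zpowers (mem_OZ.1 z2).2⟩).trans
      (a3.trans ((card_cj g A₁).ge.trans (card_le_of_le (l.trans e'.le))))
    rw [card_bot] at this
    exact zpowers_eq_bot.1 (eq_bot_of_card_le _ this)
  · rw [← CfH8.cj_B, card_cj]
    exact m1 S ⟨hS, _, l.trans k, elemAb_map a2 _, a3.trans (card_cj g A₁).ge⟩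

namespace GS

variable (h : GS M B T)
include h

theorem TM : T ≤ M := T_le_cs.trans h.cs

theorem pB : IsPGroup 2 B := h.bad.1

theorem eqB (hX : IsPGroup 2 X) (h0 : X ≠ ⊥) (n : ¬ Nm(X) ≤ M) (l : T ⊓ Nm(B) ≤ Nm(X)) :
    BB 2 T = B := by
  have e := h.a1 (T ⊓ Nm(B)) ⟨h.syl.pgrp.to_inf_left, inf_le_left.trans h.TM, X, hX, h0, l, n⟩
    (le_inf h.BT le_normalizer)
  rwa [show T ⊓ Nm(B) = T from by_contra fun c => (lt_inf_Nm h.syl.pgrp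
    (lt_of_le_of_ne inf_le_left c)).not_ge (inf_le_inf_left T
      ((CfH8.Nm_le_Nm_B (p := 2) _).trans (by rw [e])))] at e

theorem nC (h1 : C ≤ B) (h2 : C ≠ ⊥) (h3 : (C.subgroupOf B).Characteristic) : Nm(C) ≤ M :=
  by_contra fun n => by
    have e := h.eqB (h.pB.to_le h1) h2 n (inf_le_right.trans (by
      simpa only [map_sub h1] using Nm_le_Nm_char _ (hK := h3)))
    subst e
    exact n ((Nm_le_cs h1 h2 h3).trans h.cs)

theorem nB : Nm(B) ≤ M := h.nC le_rfl h.ne (by rw [subgroupOf_self]; infer_instance)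

theorem rl (hX : IsPGroup 2 X) (h0 : X ≠ ⊥) (l : B ≤ Nm(X)) (n : ¬ Nm(X) ≤ M) :
    ∃ S, RL B Nm(X) M S := by
  obtain ⟨S, hS, BS⟩ := exists_sylIn_ge h.pB (le_inf l h.bad.2.1)
  have e := h.a1 S ⟨hS.pgrp, hS.le.trans inf_le_right, X, hX, h0, hS.le.trans inf_le_left, n⟩ BS
  have s := hS.of_Nm_le inf_le_left (inf_le_inf_left _ ((CfH8.Nm_le_Nm_B (p := 2) S).trans (e ▸ h.nB)))
  refine ⟨S, s, h.loc X hX h0, cs_le ?_ fun C h1 h2 h3 => h.nC (e ▸ h1) h2 (e ▸ h3), e⟩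
  obtain ⟨g, hg, k⟩ := (h.syl.mono h.TM le_top).exists_le_cj hS.pgrp (hS.le.trans inf_le_right)
  have O := sylIn_pCoreOf_le s
  have z := (OZ_le_Cz (p := 2) (cj g T)).trans (Cz_anti (O.trans k))
  refine (Cz_anti (OZ_le_OZ k (((le_inf ((z.trans (Cz_anti (le_pCoreOf le_normalizer le_rfl hX))).trans
    (Cz_le_Nm X)) z).trans (chP_iff.1 (h.loc X hX h0))).trans O))).trans ?_
  rw [← cj_OZ, ← cj_centralizer]
  exact cj_le_of_mem (Cz_le_cs.trans h.cs) hg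

theorem rl' (hF : F ∈ PS B M) (hX : IsPGroup 2 X) (h0 : X ≠ ⊥) (l : B ≤ Nm(X)) (l' : F ≤ Nm(X)) :
    ∃ S, RL B Nm(X) M S := h.rl hX h0 l fun e => hF.2 (l'.trans e)

theorem ex : ∃ F, F ∈ PS B M := by
  obtain ⟨-, -, X, h1, h2, h3, h4⟩ := h.bad
  obtain ⟨S, r⟩ := h.rl h1 h2 h3 h4
  exact (r.ex h4).imp fun _ k => k.1

theorem gp (hF : F ∈ PS B M) (hX : IsPGroup 2 X) (h0 : X ≠ ⊥) (l : B ≤ Nm(X)) (l' : F ≤ Nm(X)) :
    bV 2 F ≤ pCoreOf 2 Nm(X) :=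
  (h.rl' hF hX h0 l l').elim fun _ r => (r.gp hF l').trans (OZ_le _)

theorem f4 (hF : F ∈ PS B M) (hF' : F' ∈ PS B M) (hX : IsPGroup 2 X) (h0 : X ≠ ⊥) (l : B ≤ Nm(X))
    (l1 : F ≤ Nm(X)) (l2 : F' ≤ Nm(X)) (e : ⁅bV 2 F, B⁆ ≤ bV 2 F') : F = F' :=
  (h.rl' hF hX h0 l l1).elim fun _ r => r.f4 hF l1 hF' l2 e

theorem cj (hF : F ∈ PS B M) (hg : g ∈ Nm(B)) : cj g F ∈ PS B M := PS.cj hF hg (h.nB hg)

end GS

end CfH7
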