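import Cfsg.Agent.OD.Pre
import Cfsg.Agent.H7.GC8
import Cfsg.Agent.L.DT
import Cfsg.Agent.H1.Suz4

/-! The global configuration with two pieces whose modules do not commute. -/

set_option autoImplicit false
set_option linter.unusedSectionVars false
set_option maxHeartbeats 400000

open Cfsg Subgroup CfH9 CfLp Equiv
open scoped commutatorElement MatrixGroups

namespace CfH7

open CfH8 (BB JJ MaxEl)

universe u

variable {G : Type u} [Group G] [Finite G] {q q' : ℕ}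
  {T B F F' S A X Y W J V E M L C R : Subgroup G} {g t x : G}

/-- the conclusion -/
def Res (T : Subgroup G) : Prop := ((∃ m, Nonempty (T ≃* DihedralGroup m)) ∨ IsQuasiDihedral T) ∨
  Nat.card T ≤ 2 ^ 10 ∨ ∃ q F R, 8 ≤ q ∧ TW q T F R ∧ ¬ F ≤ cStarOf 2 T

theorem Cz_le_B (hA : MaxEl 2 A S) : S ⊓ Cz(A) ≤ BB 2 S := inf_le_inf_left _ (Cz_anti hA.OZ_J_le)

theorem maxEl_up (e : BB 2 S = B) : MaxEl 2 A B ↔ MaxEl 2 A S :=
  e ▸ CfH8.maxEl_iff_of_J_le (CfH8.J_le_B S) (CfH8.B_le S)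

theorem card_le_of_sect (h : SectionalPRankLE 2 4 G) (e : IsElementaryAbelian 2 A) :
    Nat.card A ≤ 2 ^ 4 := by
  have := h A ⊥ ⊤ (comm_iff.2 fun a _ b _ => by
    obtain ⟨a, rfl⟩ := QuotientGroup.mk_surjective a
    obtain ⟨b, rfl⟩ := QuotientGroup.mk_surjective b
    rw [← QuotientGroup.mk_mul, ← QuotientGroup.mk_mul,
      show a * b = b * a from Subtype.ext (el_comm e a.2 b.2)]) fun a _ => by
    obtain ⟨a, rfl⟩ := QuotientGroup.mk_surjective a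
    rw [pow_two, ← QuotientGroup.mk_mul, show a * a = 1 from Subtype.ext (el_sq e a.2)]
    rfl
  rwa [card_top, Nat.card_congr QuotientGroup.quotientBot.toEquiv] at this

theorem PX.cases (p : PX q B F) : q = 2 ∨ q = 4 ∨ 8 ≤ q := by
  obtain ⟨n, h, rfl⟩ := p.pw
  rcases n with _ | _ | _ | n
  · omega
  · simp
  · simp
  · have := Nat.one_le_two_pow (n := n)
    omega

theorem Pc.V_ne (p : Pc B F) : bV 2 F ≠ ⊥ := fun e => p.bk.V_not_le (e.le.trans bot_le)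

theorem Pc.Q_ne (p : Pc B F) : B ⊓ Cz(bV 2 F) ≠ ⊥ := fun e =>
  p.V_ne (le_bot_iff.1 ((le_inf p.VB p.VV).trans e.le))

namespace TW

variable (h : TW q B F R)
include h

theorem cmV (l : A ≤ B ⊓ Cz(bV 2 F)) : ⁅A, B⁆ ≤ bV 2 F := commutator_le.2 fun a ha b hb => by
  obtain ⟨v, hv, d, hd, rfl⟩ := h.dQ (l ha)
  rw [comm_mul_left, comm_eq_one (h.DZ hd) hb, mul_one, mul_inv_cancel, one_mul]
  exact commutator_mem_left hv (h.nV hb)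

theorem dQ' (hx : x ∈ B ⊓ Cz(bV 2 F)) :
    ∃ v ∈ bV 2 F, ∃ y ∈ B ⊓ Cz(bV 2 F) ⊓ R ⊓ Cz(F), v * y = x := by
  obtain ⟨v, hv, d, hd, rfl⟩ := h.dQ hx
  obtain ⟨u, hu, e⟩ := h.ga (h.OZ_eq.ge hd)
  exact ⟨v * u, mul_mem hv hu.1, u⁻¹ * d, mi (mul_mem (inv_mem (h.UD hu)) hd) e, by group⟩

theorem cjD' (hx : x ∈ B ⊓ Cz(bV 2 F)) : ∃ g, g * x * g⁻¹ ∈ B ⊓ Cz(bV 2 F) ⊓ R := by
  obtain ⟨v, hv, y, hy, rfl⟩ := h.dQ' hx
  obtain ⟨f, hf, e⟩ := h.cjD v hv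
  refine ⟨f, ?_⟩
  rw [← mul_conj, show f * y * f⁻¹ = y by rw [hy.2 f hf]; group]
  exact mul_mem (h.UD (mi (conj_mem_of_mem_normalizer (Nm_le_Nm_bV F (le_normalizer hf)) hv) e)) hy.1

theorem CF : B ⊓ Cz(F) ≤ Cz(B) := fun x hx => by
  obtain ⟨v, hv, y, hy, rfl⟩ := h.dQ' (mi hx.1 (Cz_anti h.VF hx.2))
  exact mul_mem (h.ZB (mi hv ((mul_mem_cancel_right (mi2 hy)).1 (mi2 hx)))) (h.DZ hy.1)

theorem q_le : q ≤ Nat.card (B ⊓ Cz(bV 2 F) ⊓ R : Subgroup G) :=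
  h.cD ▸ Nat.le_mul_of_pos_right _ Nat.card_pos

theorem small (c : Nat.card (B ⊓ Cz(bV 2 F) ⊓ R : Subgroup G) ≤ q * q) (hS : IsPGroup 2 S)
    (h1 : S ≤ Nm(F)) (h2 : S ≤ Nm(B)) (h3 : B ≤ S) (h4 : S ⊓ Cz(bV 2 F) ≤ B) (hq : ¬ 8 ≤ q) :
    Nat.card S ≤ 2 ^ 9 := by
  obtain ⟨i, a, b⟩ := h.card_S hS h1 h2 h3 h4
  have k : i ≤ 2 := by_contra fun n => hq ((Nat.pow_le_pow_right two_pos (not_le.1 n)).trans a)
  have k' : q ≤ 4 := by have := h.cases; omega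
  rw [b, h.cB']
  calc _ ≤ 2 * (4 * 4 * (4 * 4)) := by gcongr; exact c.trans (Nat.mul_le_mul k' k')
    _ = _ := by norm_num

end TW

namespace GS

variable (h : GS M B T)
include h

theorem eq_of_le (hF : F ∈ PS B M) (hF' : F' ∈ PS B M) (w : TW q B F R)
    (l1 : F' ≤ Nm(B ⊓ Cz(bV 2 F))) (l2 : bV 2 F' ≤ B ⊓ Cz(bV 2 F)) : F' = F :=
  h.f4 hF' hF h.pB.to_inf_left w.Q_ne w.nQ l1 w.FQ (w.cmV l2)

theorem cj_eq (hF : F ∈ PS B M) (hF' : F' ∈ PS B M) (w : TW q B F' R) (h1 : t ∈ Nm(B))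
    (e : CfH9.cj t (B ⊓ Cz(bV 2 F)) = B ⊓ Cz(bV 2 F')) : CfH9.cj t F = F' :=
  h.eq_of_le hF' (h.cj hF h1) w (by rw [← e, ← cj_normalizer]; exact cj_mono t hF.1.FQ)
    (by rw [← e, ← cj_bV]; exact cj_mono t (le_inf hF.1.VB hF.1.VV))

theorem nF (hF : F ∈ PS B M) (w : TW q B F R) (h1 : t ∈ Nm(B)) (h2 : t ∈ Nm(B ⊓ Cz(bV 2 F))) :
    t ∈ Nm(F) := mem_normalizer_iff_cj.2 (h.cj_eq hF hF w h1 (cj_eq_of_mem_normalizer h2))

theorem a2 (hF : F ∈ PS B M) (h1 : S ≤ T) (h2 : B ≤ S) (hX : IsPGroup 2 X) (h0 : X ≠ ⊥)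
    (l : S ≤ Nm(X)) (l' : F ≤ Nm(X)) : BB 2 S = B :=
  h.a1 S ⟨h.syl.pgrp.to_le h1, h1.trans h.TM, X, hX, h0, l, fun e => hF.2 (l'.trans e)⟩ h2

/-- the end of the argument when `T` normalizes the piece -/
theorem fin (hO : pResidual 2 G = ⊤) (hF : F ∈ PS B M) (w : TW q B F R) (h1 : T ≤ Nm(F))
    (h2 : T ≤ Nm(B)) (h3 : T ⊓ Cz(bV 2 F) ≤ B) (q8 : 8 ≤ q)
    (cR : ∀ v ∈ R, ∃ g, g * v * g⁻¹ ∈ B ⊓ Cz(bV 2 F) ⊓ R) : Res T := by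
  obtain rfl := ((w.qq h.syl h.loc h.BT h1 h2 h3 q8).eq_B hO (fun _ => w.cjD') cR).trans w.B_eq
  exact Or.inr (Or.inr ⟨q, F, R, q8, w, fun e => hF.2 (e.trans h.cs)⟩)

theorem K (hF : F ∈ PS B M) (hF' : F' ∈ PS B M) (n : ¬ bV 2 F ≤ Cz(bV 2 F')) (hX : IsPGroup 2 X)
    (l : B ≤ Nm(X)) (l1 : F ≤ Nm(X)) (l2 : F' ≤ Nm(X)) : X = ⊥ := by_contra fun h0 =>
  n ((le_inf (h.gp hF hX h0 l l1) hF.1.VB).trans
    (hF'.1.pgc (isPGroup_pCoreOf _) (l2.trans (le_normalizer_pCoreOf _))))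

theorem le_NF (hF : F ∈ PS B M) (w : TW q B F R) (hq : q ≠ 2) (hX : IsPGroup 2 X) (h0 : X ≠ ⊥)
    (l : B ≤ Nm(X)) (l1 : F ≤ Nm(X)) : Nm(X) ≤ Nm(F) := fun g hg => by
  obtain ⟨S, r⟩ := h.rl' hF hX h0 l l1
  have k := r.nW hg
  rw [show ⨆ E ∈ {E | E ∈ PS B M ∧ E ≤ Nm(X)}, bV 2 E = bV 2 F from le_antisymm
    (iSup₂_le fun E hE => ((r.pp1 hF l1 w.toPX hq hE.1 hE.2).resolve_right fun e => hE.1.1.nC
      (le_Cz_comm ((le_inf hE.1.1.VB (hE.1.1.VF.trans e)).trans w.CF))) ▸ le_rfl)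
    (le_iSup₂ (f := fun E (_ : E ∈ {E | E ∈ PS B M ∧ E ≤ Nm(X)}) => bV 2 E) F ⟨hF, l1⟩)] at k
  refine ((r.pp hF l1 w.toPX hq).cj_or r.syl r.ch hg).resolve_right fun e => w.bk.V_not_le ?_
  rw [← cj_eq_of_mem_normalizer k]
  exact (cj_mono g w.VF).trans e

theorem dt (hF : F ∈ PS B M) (w : TW q B F R) (q8 : 8 ≤ q) (hS : SylIn 2 S Nm(F)) (BS : B ≤ S)
    (h3 : S ⊓ Cz(bV 2 F) ≤ B) : Nm(S) ≤ Nm(F) := by
  have e : oddGenerated (F ⊔ S) = F := by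
    rw [oddGenerated_eq, pResidualOf_sup_of_isPGroup hS.pgrp hS.le, w.bk.res]
  have hq : q ≠ 2 := by omega
  have s := hS.mono (le_sup_right (a := F)) (sup_le le_normalizer hS.le)
  have nV := Nm_le_Nm_bV (p := 2) F
  have k := fun (X : Subgroup G) h1 h2 (l : F ⊔ S ≤ Nm(X)) => h.le_NF hF w hq h1 h2
    (BS.trans (le_sup_right.trans l)) (le_sup_left.trans l)
  have eN : Nm(F) = Nm(bV 2 F) := le_antisymm nV (k _ (isPGroup_bV F) w.V_ne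
    ((sup_le le_normalizer hS.le).trans nV))
  have := CfLu.s3090 ⟨even_iff_two_dvd.2 (card_top (G := G) ▸ h.syl.ne_bot_iff.1 fun e =>
    h.ne (le_bot_iff.1 (h.BT.trans e.le))), h.loc⟩ (F ⊔ S) s.toSylow
  rw [e, s.map_toSylow] at this
  refine (this (Or.inr ?_) (fun X h1 h2 h4 h5 => ?_) ?_).resolve_right fun c => ?_
  · obtain ⟨K, _, _, c, ⟨φ⟩⟩ := w.sl (by omega)
    obtain ⟨n, hn, rfl⟩ := w.pw
    haveI := Fintype.ofFinite (GaloisField 2 n)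
    exact ⟨n, hn, ⟨φ.trans (slEquiv (FiniteField.ringEquivOfCardEq (by
      rw [c, ← Nat.card_eq_fintype_card, GaloisField.card 2 n (by omega)])))⟩⟩
  · have nQ : S ≤ Nm(B ⊓ Cz(bV 2 F)) := by
      rw [← show S ⊓ Cz(bV 2 F) = B ⊓ Cz(bV 2 F) from
        le_antisymm (le_inf h3 inf_le_right) (inf_le_inf_right _ BS)]
      exact le_normalizer_inf le_normalizer ((hS.le.trans nV).trans (Nm_le_Nm_Cz _))
    have QO := le_pCoreOf (inf_le_left.trans (BS.trans le_sup_right)) (sup_le w.FQ nQ)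
      h.pB.to_inf_left
    have c : X ≤ Cz(bV 2 F) := le_sup_left.trans (w.bk.le_Cz_of_pgrp
      (isPGroup_sup_of_le_normalizer h1 (isPGroup_bV F) (h4.trans nV))
      (sup_le h4 (w.VF.trans le_normalizer)) (le_Nm_sup_of_comm_le (le_normalizer.trans nV)
        (commutator_le.2 fun a ha b hb => mem_sup_right (w.bk.Q_two.le (h5 a ha b hb)))))
    refine (eq_of_le_of_card_ge h2 ?_).symm
    exact ((hS.inf_normal (nV.trans (Nm_le_Nm_Cz _))).card_le h1 (le_inf h4 c)).trans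
      (card_le_of_le ((le_inf h3 inf_le_right).trans QO))
  · have m : ∀ N, IsTwoLocal N → F ⊔ S ≤ N → N ≤ Nm(F) := by
      rintro _ ⟨X, h1, h2, rfl⟩ l
      exact k X h1 h2 l
    have tl : IsTwoLocal Nm(F) := ⟨_, isPGroup_bV F, w.V_ne, eN⟩
    have l0 : F ⊔ S ≤ Nm(F) := sup_le le_normalizer hS.le
    exact Set.eq_singleton_iff_unique_mem.2 ⟨⟨⟨tl, fun N a b => le_antisymm (m N a (l0.trans b)) b⟩,
      l0⟩, fun N hN => (hN.1.2 _ tl (m N hN.1.1 hN.2)).symm⟩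
  · have := card_le_of_sect c w.eQ
    have := w.q_le
    rw [w.cQ] at *
    nlinarith

end GS

end CfH7
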