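import Cfsg.Agent.OD.Pre
import Cfsg.Agent.H7.GC9

/-! The global configuration with two pieces whose modules do not commute. -/

set_option autoImplicit false
set_option linter.unusedSectionVars false
set_option maxHeartbeats 400000

open Cfsg Subgroup CfH9 CfLp Equiv
open scoped commutatorElement MatrixGroups

namespace CfH7

open CfH8 (BB JJ MaxEl)

universe u

variable {G : Type u} [Group G] [Finite G] {q q' : ℕ}
  {T B F F' S A X Y W J V E M L C R : Subgroup G} {g s t x : G}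

theorem PX.q_le (p : PX q B F) (p' : PX q' B F') (n : ¬ bV 2 F ≤ Cz(bV 2 F')) :
    q' ≤ q ∧ (q ≤ q' → B ≤ bV 2 F' ⊔ (B ⊓ Cz(bV 2 F))) := by
  have c := p'.cV
  rw [← le_antisymm (p'.tiA p.VB n) (inf_le_inf_left _ (Cz_anti p.VB))] at c
  exact ⟨Nat.le_of_mul_le_mul_right (c.ge.trans (p.card_le p'.VB)) Nat.card_pos,
    fun e => p.cover p'.VB ((Nat.mul_le_mul_right _ e).trans c.ge)⟩

theorem PX.el_of (p : PX q B F) (h1 : bV 2 F ≤ B) (h2 : bV 2 F ≤ Nm(B ⊓ X)) (l : B ≤ bV 2 F ⊔ (B ⊓ X))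
    (e : IsElementaryAbelian 2 (B ⊓ Cz(bV 2 F) ⊓ X : Subgroup G)) :
    IsElementaryAbelian 2 (B ⊓ Cz(bV 2 F) : Subgroup G) :=
  elemAb_of_le (fun x hx => by
    obtain ⟨v, hv, c, hc, rfl⟩ := (mem_sup_of_le_Nm h2).1 (l hx.1)
    exact mul_mem_sup hv (mi (mi hc.1 ((mul_mem_cancel_left (p.VV hv)).1 (mi2 hx))) hc.2))
    (elemAb_sup (elemAb_bV F) e (le_Cz_comm (inf_le_left.trans inf_le_right)))

namespace TW

variable (h : TW q B F R)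
include h

theorem QR : B ⊓ Cz(bV 2 F) ≠ R := fun e => h.nR (e.ge.trans inf_le_right)

theorem mem_NQ (h1 : t ∈ Nm(B)) (h2 : t ∈ Nm(R)) : t ∈ Nm(B ⊓ Cz(bV 2 F)) :=
  mem_normalizer_iff_cj.2 ((h.cjQ h1).resolve_right fun e =>
    h.QR (cj_inj.1 (e.trans (cj_eq_of_mem_normalizer h2).symm)))

theorem NQ (h1 : g ∈ Nm(B)) : Nm(B) ⊓ Nm(CfH9.cj g (B ⊓ Cz(bV 2 F))) ≤ Nm(B ⊓ Cz(bV 2 F)) :=
  (h.cjQ h1).elim (fun e => e.symm ▸ inf_le_right) fun e => e.symm ▸ fun _ k => h.mem_NQ k.1 k.2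

theorem sw (h1 : t ∈ Nm(B)) (n : t ∉ Nm(B ⊓ Cz(bV 2 F))) :
    CfH9.cj t (B ⊓ Cz(bV 2 F)) = R ∧ CfH9.cj t R = B ⊓ Cz(bV 2 F) :=
  ⟨(h.cjQ h1).resolve_left (mt mem_normalizer_iff_cj.2 n),
    (h.cjR h1).resolve_right fun e => n (h.mem_NQ h1 (mem_normalizer_iff_cj.2 e))⟩

theorem two' (l : A ≤ Nm(B)) : Nat.card A ≤ 2 * Nat.card (A ⊓ Nm(B ⊓ Cz(bV 2 F)) : Subgroup G) :=
  card_le_two fun a ha b hb n m => mem_normalizer_iff_cj.2 (by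
    rw [cj_mul, (h.sw (l hb) m).1, (h.sw (l ha) n).2])

end TW

theorem GS.elC (h : GS M B T) (hF : F ∈ PS B M) (hF' : F' ∈ PS B M) (n : ¬ bV 2 F ≤ Cz(bV 2 F'))
    (hS : IsPGroup 2 S) (BS : B ≤ S) (h1 : S ≤ Nm(F)) (h2 : S ≤ Nm(F')) :
    IsElementaryAbelian 2 (S ⊓ Cz(bV 2 F) ⊓ Cz(bV 2 F') : Subgroup G) := by
  have k : ∀ E, Pc B E → ∀ C, C ≤ Nm(E) → C ≤ Cz(bV 2 E) → E ≤ Nm(sqs C) := fun E p C a b =>
    sqs_sup (elemAb_bV E) b ▸ (p.le_Nm le_sup_left (sup_le (p.VF.trans le_normalizer) a)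
      (sup_le p.VV b)).trans Nm_le_Nm_sqs
  have l : S ⊓ Cz(bV 2 F) ⊓ Cz(bV 2 F') ≤ S := inf_le_left.trans inf_le_left
  exact el_of_sqs (h.K hF hF' n (hS.to_le (sqs_le.trans l)) ((le_normalizer_inf (le_normalizer_inf
    (BS.trans le_normalizer) (hF.1.nV.trans (Nm_le_Nm_Cz _))) (hF'.1.nV.trans (Nm_le_Nm_Cz _))).trans
      Nm_le_Nm_sqs) (k F hF.1 _ (l.trans h1) (inf_le_left.trans inf_le_right))
        (k F' hF'.1 _ (l.trans h2) inf_le_right))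

/-- two pieces with non-commuting modules -/
structure NN (q : ℕ) (M B T F F' : Subgroup G) : Prop extends GS M B T where
  hF : F ∈ PS B M
  hF' : F' ∈ PS B M
  nc : ¬ bV 2 F ≤ Cz(bV 2 F')
  w : TW q B F (B ⊓ Cz(bV 2 F'))
  w' : TW q B F' (B ⊓ Cz(bV 2 F))

theorem GS.exists_nn (h : GS M B T) (hF : F ∈ PS B M) (hF' : F' ∈ PS B M)
    (n : ¬ bV 2 F ≤ Cz(bV 2 F')) : ∃ q, NN q M B T F F' := by
  obtain ⟨q, p⟩ := hF.1.px
  obtain ⟨q', p'⟩ := hF'.1.px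
  have n' := mt le_Cz_comm n
  have a := p.q_le p' n
  have b := p'.q_le p n'
  obtain rfl := le_antisymm a.1 b.1
  have e := p.el_of p.VB (p.VB.trans p'.nQ) (b.2 le_rfl) (h.elC hF hF' n h.pB le_rfl p.nF p'.nF)
  have e' := p'.el_of p'.VB (p'.VB.trans p.nQ) (a.2 le_rfl) (h.elC hF' hF n' h.pB le_rfl p'.nF p.nF)
  exact ⟨_, h, hF, hF', n, ⟨p, e, p'.maxQ e', fun k => n' ((le_inf p'.VB p'.VV).trans k)⟩,
    ⟨p', e', p.maxQ e, fun k => n ((le_inf p.VB p.VV).trans k)⟩⟩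

namespace NN

variable (h : NN q M B T F F')
include h

theorem Y0 : B ⊓ Cz(bV 2 F) ⊓ (B ⊓ Cz(bV 2 F')) ⊓ Cz(F) ⊓ Cz(F') = ⊥ :=
  h.K h.hF h.hF' h.nc (h.pB.to_le (inf_le_left.trans (inf_le_left.trans (inf_le_left.trans inf_le_left))))
    (le_Nm_of_le_Cz (inf_le_left.trans (inf_le_left.trans h.w.DZ)))
    (le_Nm_of_le_Cz (inf_le_left.trans inf_le_right)) (le_Nm_of_le_Cz inf_le_right)

theorem cD : Nat.card (B ⊓ Cz(bV 2 F) ⊓ (B ⊓ Cz(bV 2 F')) : Subgroup G) ≤ q * q := by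
  have := card_le_mul (inf_le_left.trans (inf_comm _ _).le) h.w'.cD.le
    (A := B ⊓ Cz(bV 2 F) ⊓ (B ⊓ Cz(bV 2 F')) ⊓ Cz(F))
  rw [h.Y0, card_bot, mul_one] at this
  exact h.w.cD.le.trans (Nat.mul_le_mul_left _ this)

theorem cz (h1 : S ≤ T) (h2 : B ≤ S) (h3 : S ≤ Nm(B)) (h4 : S ≤ Nm(B ⊓ Cz(bV 2 F))) :
    S ≤ Nm(F) ∧ BB 2 S = B ∧ S ⊓ Cz(bV 2 F) ≤ B := by
  have pS := h.syl.pgrp.to_le h1
  have nF : S ≤ Nm(F) := fun s hs => h.nF h.hF h.w (h3 hs) (h4 hs)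
  have nF' : S ≤ Nm(F') := fun s hs => h.nF h.hF' h.w' (h3 hs) (h.w.mem_NR (h3 hs) (h4 hs))
  have eB := h.a2 h.hF h1 h2 h.pB.to_inf_left h.w.Q_ne h4 h.w.FQ
  refine ⟨nF, eB, fun c hc => ?_⟩
  obtain ⟨b, hb, n⟩ := SetLike.not_le_iff_exists.1 h.nc
  obtain ⟨b, hb, c', hc', rfl⟩ := h.w'.dec' (h.w'.t2 pS nF' h3 hc.1 (X := bV 2 F ⊓ (bV 2 F' ⊓ Cz(B)))
    inf_le_right (fun u hu => by
      obtain ⟨v, hv, e⟩ := h.w'.cv2 b (h.w.VB hb) n u hu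
      rw [← mul_inv_cancel_left ⁅b, v⁆ u]
      exact mul_mem_sup (mi (commutator_mem_left hb (h.w.nV (h.w'.VB hv))) (mi (commutator_mem_right hv
        (h.w'.nV (h.w.VB hb))) (h.w'.quad b (h.w.VB hb) v hv))) e)
    fun x hx => comm_eq_one hc.2 hx.1 ▸ one_mem _)
  obtain ⟨w, hw, v, hv, rfl⟩ := h.w'.decB hb
  have e := h.elC h.hF h.hF' h.nc pS h2 nF nF'
  rw [mul_assoc] at hc ⊢
  refine mul_mem hw.1 (((maxEl_up eB).1 h.w.mQ).le_of_le_Cz (inf_le_left.trans inf_le_left) e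
    (le_Cz_comm fun x hx => ?_) (mi (mi ((mul_mem_cancel_left (h2 hw.1)).1 (mi1 hc))
      ((mul_mem_cancel_left (mi2 hw)).1 (mi2 hc))) (mul_mem hv.2 hc'))).1
  obtain ⟨a, ha, d, hd, rfl⟩ := h.w.dQ hx
  exact mul_mem (le_Cz_comm (inf_le_left.trans inf_le_right) ha)
    (elemAb_le_Cz e (mi (mi (h2 hd.1.1) hd.1.2) hd.2.2))

theorem le_B (hA : MaxEl 2 A (T ⊓ Nm(B)))
    (c : ¬ (q = 2 ∧ Nat.card (B ⊓ Cz(bV 2 F) ⊓ (B ⊓ Cz(bV 2 F')) : Subgroup G) = 2)) : A ≤ B := by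
  have BS : B ≤ T ⊓ Nm(B) ⊓ Nm(B ⊓ Cz(bV 2 F)) := le_inf (le_inf h.BT le_normalizer) h.w.nQ
  have h3 : T ⊓ Nm(B) ⊓ Nm(B ⊓ Cz(bV 2 F)) ≤ Nm(B) := inf_le_left.trans inf_le_right
  obtain ⟨nF, eB, cz⟩ := h.cz (inf_le_left.trans inf_le_left) BS h3 inf_le_right
  have pS : IsPGroup 2 (T ⊓ Nm(B) ⊓ Nm(B ⊓ Cz(bV 2 F)) : Subgroup G) :=
    h.syl.pgrp.to_inf_left.to_inf_left
  by_cases n : A ≤ Nm(B ⊓ Cz(bV 2 F))
  · exact ((maxEl_up eB).2 (hA.mono (le_inf hA.le n) inf_le_left)).le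
  obtain ⟨a, ha, n⟩ := SetLike.not_le_iff_exists.1 n
  have aB := (hA.le ha).2
  have sw := h.w.sw aB n
  have fa := h.w.fa _ pS nF h3
  have fx : ∀ x ∈ A, ∀ X : Subgroup G, x ∈ X → x ∈ CfH9.cj a X := fun x hx X e => by
    have := conj_mem_cj a e
    rwa [el_comm hA.el ha hx, mul_inv_cancel_right] at this
  have AS := inf_le_inf_right Nm(B ⊓ Cz(bV 2 F)) hA.le
  have c1 := h.w.two' (hA.le.trans inf_le_right)
  have c2 := hA.max _ (inf_le_left.trans (BS.trans inf_le_left)) h.w.eQ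
  have ED : A ⊓ Nm(B ⊓ Cz(bV 2 F)) ⊓ B ≤ B ⊓ Cz(bV 2 F) ⊓ (B ⊓ Cz(bV 2 F')) :=
    (h.w.el inf_le_right (elemAb_of_le (inf_le_left.trans inf_le_left) hA.el)).elim
      (fun e x hx => mi (e hx) (sw.1.le (fx x hx.1.1 _ (e hx))))
      fun e x hx => mi (sw.2.le (fx x hx.1.1 _ (e hx))) (e hx)
  have c3 := card_le_mul ED h.w.cD.le
  rw [show A ⊓ Nm(B ⊓ Cz(bV 2 F)) ⊓ B ⊓ Cz(F) = ⊥ from le_bot_iff.1 (le_trans (fun x hx =>
    mi (mi (ED hx.1) hx.2) (by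
      rw [← h.cj_eq h.hF h.hF' h.w' aB sw.1, ← cj_centralizer]
      exact fx x hx.1.1.1 _ hx.2)) h.Y0.le), card_bot, mul_one] at c3
  have c4 := h.w.q_le
  have c5 := h.w.q2
  rw [h.w.cQ] at c2
  by_cases m : A ⊓ Nm(B ⊓ Cz(bV 2 F)) ≤ B
  · rw [inf_eq_left.2 m] at c3
    have := Nat.le_of_mul_le_mul_left (c2.trans (c1.trans ((Nat.mul_le_mul_left 2 c3).trans
      (mul_comm _ _).le))) (by omega)
    exact absurd ⟨by omega, by omega⟩ c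
  obtain ⟨s, hs, m⟩ := SetLike.not_le_iff_exists.1 m
  have o : ∀ s ∈ A ⊓ Nm(B ⊓ Cz(bV 2 F)), s * s ∈ B ⊔ bC 2 F := fun s hs =>
    el_sq hA.el hs.1 ▸ one_mem _
  obtain ⟨k, e, -⟩ := fa.cnt s (AS hs) (mt (h.w.inB BS cz (AS hs)) m) (o s hs)
  have c6 := card_le_two (A := A ⊓ Nm(B ⊓ Cz(bV 2 F))) (E := B) fun s hs t ht n1 n2 =>
    h.w.inB BS cz (AS (mul_mem hs ht)) (fa.uq s (AS hs) t (AS ht) (o s hs) (o t ht)
      (mt (h.w.inB BS cz (AS hs)) n1) (mt (h.w.inB BS cz (AS ht)) n2))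
  have k2 : 2 ≤ k := by_contra fun n => by
    have : k * k ≤ 1 * 1 := Nat.mul_le_mul (by omega) (by omega)
    omega
  have q4 := Nat.mul_le_mul_right (Nat.card (B ⊓ Cz(bV 2 F) ⊓ (B ⊓ Cz(bV 2 F')) : Subgroup G))
    ((Nat.mul_le_mul k2 k2).trans e.le)
  have eD := eq_of_le_of_card_ge ED (by omega)
  exact absurd (h.w.inB BS cz (AS hs) (h.w.t2 pS nF h3 (AS hs) le_rfl le_sup_left fun v hv =>
    comm_eq_one (elemAb_le_Cz hA.el hs.1) (eD.ge (h.w.UD hv)).1.1 ▸ one_mem _)) m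

theorem res (hO : pResidual 2 G = ⊤) : Res T := by
  have BS : B ≤ T ⊓ Nm(B ⊓ Cz(bV 2 F)) := le_inf h.BT h.w.nQ
  by_cases c : q = 2 ∧ Nat.card (B ⊓ Cz(bV 2 F) ⊓ (B ⊓ Cz(bV 2 F')) : Subgroup G) = 2
  · have eB := h.a2 h.hF inf_le_left BS h.pB.to_inf_left h.w.Q_ne inf_le_right h.w.FQ
    exact or_assoc.2 (CfH1.suz_four h.syl.pgrp (inf_le_left.trans h.BT) h.w.eQ (by rw [h.w.cQ, c.2, c.1])
      (le_inf ((le_inf (inf_le_inf_left T (Cz_le_Nm _)) inf_le_right).trans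
        ((Cz_le_B ((maxEl_up eB).1 h.w.mQ)).trans eB.le)) (inf_le_right.trans (Cz_anti h.w.VQ)))) |>.imp_right
          Or.inl
  have eJ := (CfH8.J_eq_of_J_le (CfH8.J_le_iff.2 fun A hA => h.le_B hA c)
    (le_inf h.BT le_normalizer)).symm.trans h.w.J_eq
  have nB : T ≤ Nm(B) := inf_eq_left.1 (by_contra fun c => (lt_inf_Nm h.syl.pgrp
    (lt_of_le_of_ne inf_le_left c)).not_ge (inf_le_inf_left T
      ((CfH8.Nm_le_Nm_J (p := 2) _).trans (by rw [eJ]))))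
  have h3 : T ⊓ Nm(B ⊓ Cz(bV 2 F)) ≤ Nm(B) := inf_le_left.trans nB
  obtain ⟨nF, eB, cz⟩ := h.cz inf_le_left BS h3 inf_le_right
  by_cases q8 : 8 ≤ q
  swap
  · have := h.w.small h.cD h.syl.pgrp.to_inf_left nF h3 BS cz q8
    have := h.w.two' nB
    exact Or.inr (Or.inl (by omega))
  by_cases n : T ≤ Nm(B ⊓ Cz(bV 2 F))
  · rw [inf_eq_left.2 n] at nF cz
    exact h.fin hO h.hF h.w nF nB cz q8 fun v hv => (h.w'.cjD' hv).imp fun _ e => mi e.2 e.1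
  have s : SylIn 2 (T ⊓ Nm(B ⊓ Cz(bV 2 F))) (Nm(B) ⊓ Nm(B ⊓ Cz(bV 2 F))) := by
    obtain ⟨S, hS⟩ := exists_sylIn 2 (Nm(B) ⊓ Nm(B ⊓ Cz(bV 2 F)))
    obtain ⟨g, hg, e⟩ := (h.syl.mono nB le_top).exists_cj_le hS.pgrp (hS.le.trans inf_le_left)
    refine hS.of_card_le h.syl.pgrp.to_inf_left (inf_le_inf_right _ nB) ((card_cj g S).ge.trans
      (card_le_of_le (le_inf e ((le_inf (e.trans nB) ?_).trans (h.w.NQ hg)))))
    exact cj_normalizer g _ ▸ cj_mono g (hS.le.trans inf_le_right)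
  refine absurd (le_normalizer_inf nB (le_trans (fun t ht => h.dt h.hF h.w q8 ((s.mono
    (le_inf nF s.le) inf_le_right).of_Nm_le inf_le_left ?_) BS cz (mem_normalizer_of_cj_le ?_))
      ((Nm_le_Nm_bV F).trans (Nm_le_Nm_Cz _)))) n
  · have k : Nm(F) ⊓ Nm(T ⊓ Nm(B ⊓ Cz(bV 2 F))) ≤ Nm(B) :=
      inf_le_right.trans ((CfH8.Nm_le_Nm_B (p := 2) _).trans (by rw [eB]))
    exact le_inf inf_le_left (le_inf k (le_normalizer_inf k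
      (inf_le_left.trans ((Nm_le_Nm_bV F).trans (Nm_le_Nm_Cz _)))))
  · rw [cj_inf, cj_eq_of_mem ht, cj_normalizer]
    exact le_inf inf_le_left ((inf_le_inf_right _ nB).trans (h.w.NQ (nB ht)))

end NN

theorem GS.caseN (h : GS M B T) (hO : pResidual 2 G = ⊤) (hF : F ∈ PS B M) (hF' : F' ∈ PS B M)
    (n : ¬ bV 2 F ≤ Cz(bV 2 F')) : Res T := (h.exists_nn hF hF' n).elim fun _ k => k.res hO

end CfH7
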