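import Cfsg.Agent.OD.Pre
import Cfsg.Agent.H7.GC10

/-! The global configuration when the modules of all pieces commute. -/

set_option autoImplicit false
set_option linter.unusedSectionVars false
set_option maxHeartbeats 400000

open Cfsg Subgroup CfH9 CfLp Equiv
open scoped commutatorElement MatrixGroups

namespace CfH7

open CfH8 (BB JJ MaxEl)

universe u

variable {G : Type u} [Group G] [Finite G] {q q' : ℕ}
  {T B F F' S A X Y W J V E M L C R P : Subgroup G} {g s t x : G}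

theorem cj_B_eq (e : cj g (BB 2 T) ≤ T) : cj g (BB 2 T) = BB 2 T := by
  refine eq_of_le_of_card_ge (le_inf e (?_ : _ ≤ Cz(OZ 2 (JJ 2 T)))) (card_cj _ _).ge
  rw [← CfH8.cj_J_eq_of_le ((cj_mono g (CfH8.J_le_B T)).trans e), ← cj_OZ, ← cj_centralizer]
  exact cj_mono g (CfH8.B_le_Cz T)

theorem cj_le_Cz : cj g A ≤ Cz(X) ↔ A ≤ Cz(cj g⁻¹ X) := by rw [cj_le_iff, cj_centralizer]

theorem PX.q_le' (p : PX q B F) (p' : PX q' B F') (h1 : cj g (bV 2 F') ≤ B) (h2 : cj g⁻¹ (bV 2 F) ≤ B)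
    (n : ¬ cj g (bV 2 F') ≤ Cz(bV 2 F)) : q' ≤ q := by
  have c := p.card_le h1
  rw [← cj_cj_inv g Cz(bV 2 F), ← cj_inf, card_cj, card_cj, cj_centralizer, p'.cV] at c
  exact Nat.le_of_mul_le_mul_right (c.trans (Nat.mul_le_mul_left _ (card_le_of_le
    (p'.tiA h2 fun e => n (cj_le_Cz.2 (le_Cz_comm e)))))) Nat.card_pos

/-- the join of the modules of the pieces -/
def PW (B M : Subgroup G) : Subgroup G := ⨆ F ∈ PS B M, bV 2 F

theorem le_PW (hF : F ∈ PS B M) : bV 2 F ≤ PW B M :=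
  le_iSup₂ (f := fun E (_ : E ∈ PS B M) => bV 2 E) F hF

theorem PW_le : PW B M ≤ X ↔ ∀ F ∈ PS B M, bV 2 F ≤ X := iSup₂_le_iff

theorem PW_J : PW B M ≤ JJ 2 B := PW_le.2 fun _ hF => hF.1.VJ

theorem PW_B : PW B M ≤ B := PW_J.trans (CfH8.J_le B)

/-- all modules commute -/
structure CC (M B T : Subgroup G) : Prop extends GS M B T where
  cc : ∀ F ∈ PS B M, ∀ F' ∈ PS B M, bV 2 F ≤ Cz(bV 2 F')

namespace CC

variable (h : CC M B T)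
include h

theorem WV (hF : F ∈ PS B M) : PW B M ≤ Cz(bV 2 F) := PW_le.2 fun _ k => h.cc _ k _ hF

theorem PW' : PW B M ≤ Cz(PW B M) := PW_le.2 fun _ k => le_Cz_comm (h.WV k)

theorem pW : IsPGroup 2 (PW B M) := h.pB.to_le PW_B

theorem W0 : PW B M ≠ ⊥ := fun e => h.ex.elim fun _ k => k.1.V_ne (le_bot_iff.1 ((le_PW k).trans e.le))

theorem elW : IsElementaryAbelian 2 (PW B M) := by
  refine elemAb_of_le (PW_le.2 fun F hF => le_OZ (elemAb_bV F) (le_PW hF) (le_Cz_comm (h.WV hF)))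
    (elemAb_OZ (PW B M))

theorem NBW : Nm(B) ≤ Nm(PW B M) := fun g hg => mem_normalizer_of_cj_le (cj_le_iff.2
  (PW_le.2 fun F hF => cj_le_iff.1 ((cj_bV g F).le.trans (le_PW (h.cj hF hg)))))

theorem BW : B ≤ Nm(PW B M) := le_normalizer.trans h.NBW

theorem FW (hF : F ∈ PS B M) : F ≤ Nm(PW B M) := hF.1.le_Nm (le_PW hF) (PW_B.trans hF.1.nF) (h.WV hF)

theorem eT : BB 2 T = B := h.ex.elim fun _ k =>
  h.eqB h.pW h.W0 (fun e => k.2 ((h.FW k).trans e)) (inf_le_right.trans h.NBW)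

theorem NTB : Nm(T) ≤ Nm(B) := (CfH8.Nm_le_Nm_B (p := 2) T).trans (by rw [h.eT])

theorem TB : T ≤ Nm(B) := le_normalizer.trans h.NTB

theorem TH : T ≤ Nm(PW B M) := h.TB.trans h.NBW

theorem f4' (hF : F ∈ PS B M) (hF' : F' ∈ PS B M) (e : ⁅bV 2 F, B⁆ ≤ bV 2 F') : F = F' :=
  h.f4 hF hF' h.pW h.W0 h.BW (h.FW hF) (h.FW hF') e

theorem U (hX : IsPGroup 2 X) (h0 : X ≠ ⊥) (l : B ≤ Nm(X)) (l' : ∀ F ∈ PS B M, F ≤ Nm(X)) :
    Nm(X) ≤ Nm(PW B M) := by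
  obtain ⟨F, hF⟩ := h.ex
  obtain ⟨S, r⟩ := h.rl' hF hX h0 l (l' F hF)
  have := r.nW
  rwa [show {F | F ∈ PS B M ∧ F ≤ Nm(X)} = PS B M from
    Set.ext fun E => ⟨fun k => k.1, fun k => ⟨k, l' E k⟩⟩] at this

theorem cjB (e : CfH9.cj g B ≤ T) : CfH9.cj g B = B := by
  have := cj_B_eq (T := T) (g := g)
  rw [h.eT] at this
  exact this e

theorem sl (l : B ≤ L) (e : ∀ g ∈ L, CfH9.cj g (PW B M) ≤ B) : L ≤ Nm(PW B M) := by
  have JB := nclo_le_iff'.2 e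
  have nJ := right_le_Nm_nclo (PW B M) L
  have VJ := fun F (hF : F ∈ PS B M) => (le_PW hF).trans (le_nclo _ L)
  have cJ := fun F (hF : F ∈ PS B M) g (hg : g ∈ L) => (cj_mono g (le_PW hF)).trans (cj_le_nclo hg)
  by_cases c : ∀ F ∈ PS B M, nclo (PW B M) L ≤ Cz(bV 2 F)
  · exact nJ.trans (h.U (h.pB.to_le JB) (ne_bot_of_le (le_nclo _ L) h.W0) (l.trans nJ)
      fun F hF => hF.1.le_Nm (VJ F hF) (JB.trans hF.1.nF) (c F hF))
  exfalso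
  push Not at c
  obtain ⟨F, hF, c⟩ := c
  obtain ⟨g, hg, F', hF', n⟩ : ∃ g ∈ L, ∃ F' ∈ PS B M, ¬ CfH9.cj g (bV 2 F') ≤ Cz(bV 2 F) := by
    by_contra k
    push Not at k
    exact c (nclo_le_iff'.2 fun g hg => cj_le_iff.2 (PW_le.2 fun F' hF' => cj_le_iff.1 (k g hg F' hF')))
  obtain ⟨q, p⟩ := hF.1.px
  obtain ⟨q', p'⟩ := hF'.1.px
  have n' : ¬ CfH9.cj g⁻¹ (bV 2 F) ≤ Cz(bV 2 F') := fun e => n (cj_le_Cz.2 (le_Cz_comm e))
  have a := (cJ F' hF' g hg).trans JB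
  have b := (cJ F hF _ (inv_mem hg)).trans JB
  obtain rfl := le_antisymm (p.q_le' p' a b n) (p'.q_le' p b (by rwa [inv_inv]) n')
  have d := p.ld (VJ F hF) JB c
  have d' := (p'.ld (VJ F' hF') JB fun e => n' ((cJ F hF _ (inv_mem hg)).trans e)).cj (nJ hg)
  generalize hX : CfH9.cj g (bV 2 F') = X at *
  have m : ¬ bV 2 F ≤ Cz(X) := mt le_Cz_comm n
  have tr : ∀ (a : G) (A Y : Subgroup G), ¬ A ≤ Cz(Y) → ¬ CfH9.cj a A ≤ Cz(CfH9.cj a Y) :=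
    fun a A Y k e => k (by rwa [← cj_centralizer, cj_le_cj_iff] at e)
  let N : Subgroup G :=
    { carrier := {a | a ∈ L ∧ ¬ CfH9.cj a (bV 2 F) ≤ Cz(X) ∧ ¬ CfH9.cj a X ≤ Cz(bV 2 F)}
      one_mem' := ⟨one_mem _, by rwa [cj_one], by rwa [cj_one]⟩
      mul_mem' := fun {a b} ha hb => ⟨mul_mem ha.1 hb.1,
        cj_mul a b _ ▸ (d'.cj (nJ ha.1)).path d' d ((d.cj (nJ hb.1)).cj (nJ ha.1)) (tr a _ _ hb.2.1)
          ha.2.2 m,
        cj_mul a b _ ▸ (d.cj (nJ ha.1)).path d d' ((d'.cj (nJ hb.1)).cj (nJ ha.1)) (tr a _ _ hb.2.2)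
          ha.2.1 n⟩
      inv_mem' := fun {a} ha => ⟨inv_mem ha.1, fun e => ha.2.2 (cj_le_Cz.2 (le_Cz_comm e)),
        fun e => ha.2.1 (cj_le_Cz.2 (le_Cz_comm e))⟩ }
  have b1 : B ≤ N := fun a ha => ⟨l ha, by rwa [cj_eq_of_mem_normalizer (p.nV ha)],
    by rwa [cj_le_Cz, cj_eq_of_mem_normalizer (p.nV (inv_mem ha))]⟩
  have nX : CfH9.cj g B ≤ Nm(X) := by rw [← hX, ← cj_normalizer]; exact cj_mono g p'.nV
  have b2 : CfH9.cj g B ≤ N := fun a ha => ⟨cj_le_of_mem l hg ha,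
    by rwa [cj_le_Cz, cj_eq_of_mem_normalizer (nX (inv_mem ha))],
    by rwa [cj_eq_of_mem_normalizer (nX ha)]⟩
  obtain ⟨S, hS, BS⟩ := exists_sylIn_ge h.pB b1
  obtain ⟨k, hk, e1⟩ := hS.exists_cj_le (isPGroup_cj h.pB g) b2
  obtain ⟨y, -, e2⟩ := h.syl.exists_cj_le hS.pgrp le_top
  have e3 := (cj_mono y e1).trans e2
  rw [← cj_mul k, ← cj_mul] at e3
  have e4 := (h.cjB e3).trans (h.cjB ((cj_mono y BS).trans e2)).symm
  rw [cj_mul, cj_inj] at e4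
  refine hk.2.2 ?_
  rw [← hX, ← cj_mul, cj_bV]
  exact h.cc _ (h.cj hF' (mem_normalizer_iff_cj.2 e4)) _ hF

theorem sl' (l : B ≤ L) (h1 : PW B M ≤ X) (h2 : X ≤ B) (h3 : L ≤ Nm(X)) : L ≤ Nm(PW B M) :=
  h.sl l fun _ hg => (cj_le_of_mem_Nm h1 (h3 hg)).trans h2

theorem NJ : Nm(JJ 2 T) ≤ Nm(PW B M) := by
  rw [← CfH8.J_B, h.eT]
  exact h.sl' (CfH8.le_Nm_J B) PW_J (CfH8.J_le B) le_rfl

theorem ZB : OZ 2 T ≤ OZ 2 B := OZ_le_OZ h.BT (h.eT ▸ (CfH8.OZ_le_OZ_J T).trans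
  ((OZ_le _).trans (CfH8.J_le_B T)))

end CC

/-- a minimal parabolic subgroup outside `N(W)` -/
structure PP (M B T P : Subgroup G) : Prop extends CC M B T where
  ch : ChP 2 P
  mo : MinOver T P (P ⊓ Nm(PW B M))

theorem CC.exists_pp (h : CC M B T) (hX : IsPGroup 2 X) (h0 : X ≠ ⊥) (h1 : T ≤ L) (h2 : L ≤ Nm(X))
    (n : ¬ L ≤ Nm(PW B M)) : ∃ P ≤ L, PP M B T P := by
  obtain ⟨P, k1, k2, u⟩ := exists_umax h1 h.TH n
  have s := h.syl.mono u.le' le_top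
  refine ⟨P, k1, h, (h.loc X hX h0).of_inf_Cz_le (k1.trans h2) (inf_le_left.trans
    ((sylIn_pCoreOf_le (h.syl.mono (h1.trans h2) le_top)).trans u.le')), u.minOver s fun e => k2 ?_⟩
  exact (le_antisymm e (sylIn_pCoreOf_le s) ▸ le_normalizer_pCoreOf P).trans (h.NTB.trans h.NBW)

namespace PP

variable (h : PP M B T P)
include h

theorem TP : T ≤ P := h.mo.le'

theorem sP : SylIn 2 T P := h.syl.mono h.TP le_top

theorem nH : ¬ P ≤ Nm(PW B M) := fun e => h.mo.lt.ne (inf_eq_left.2 e)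

theorem le_H (h1 : T ≤ X) (h2 : ¬ P ≤ X) : P ⊓ X ≤ Nm(PW B M) :=
  ((h.mo.eq_or_le (le_inf h.TP h1) inf_le_left).resolve_left fun e => h2 (inf_eq_left.1 e)).trans
    inf_le_right

end PP

end CfH7
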