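import Cfsg.Agent.OD.Pre
import Cfsg.Agent.H7.GC11

/-! The commuting case when the centralizer of `Ω₁Z(T)` normalizes `W`. -/

set_option autoImplicit false
set_option linter.unusedSectionVars false
set_option maxHeartbeats 400000

open Cfsg Subgroup CfH9 CfLp Equiv
open scoped commutatorElement MatrixGroups

namespace CfH7

open CfH8 (BB JJ MaxEl)

universe u

variable {G : Type u} [Group G] [Finite G] {q q' : ℕ}
  {T B F F' S A X Y W J V E M L C R P : Subgroup G} {g s t x : G}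

theorem Pc.nsq (p : Pc B F) (a : C ≤ Nm(F)) (b : C ≤ Cz(bV 2 F)) : F ≤ Nm(sqs C) :=
  sqs_sup (elemAb_bV F) b ▸ (p.le_Nm le_sup_left (sup_le (p.VF.trans le_normalizer) a)
    (sup_le p.VV b)).trans Nm_le_Nm_sqs

/-- a rank one subgroup over `B` in the minimal parabolic -/
structure PB (q : ℕ) (M B T P L : Subgroup G) : Prop extends PP M B T P where
  z : Cz(OZ 2 T) ≤ Nm(PW B M)
  pu : PU 2 q L B (pCoreOf 2 L) (L ⊓ Nm(PW B M))
  LP : L ≤ P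
  n1 : P ≤ Nm(B ⊓ pCoreOf 2 P)
  c1 : P ⊓ Cz(B ⊓ pCoreOf 2 P) ≤ B ⊓ pCoreOf 2 P

theorem PP.exists_pb (h : PP M B T P) (z : Cz(OZ 2 T) ≤ Nm(PW B M)) : ∃ q L, PB q M B T P L := by
  have hf := P.subtype_injective
  have b : BS 2 (T.subgroupOf P) ((P ⊓ Nm(PW B M)).subgroupOf P) :=
    ⟨h.sP.subgroupOf_top, (minOver_map_iff hf).1 (by
      rw [map_sub h.TP, map_subtype_top, map_sub inf_le_left]; exact h.mo), h.ch, fun n => by
      have := le_normalizer_map_subtype (OZ 2 (T.subgroupOf P))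
      rw [map_OZ_inj hf, map_sub h.TP] at this
      exact h.nH ((h.mo.le_of_le_Nm (le_Cz_OZ T) (this.trans (Nm_le_Nm_Cz _))).trans z), fun n => by
      have := le_normalizer_map_subtype (JJ 2 (T.subgroupOf P))
      rw [CfH8.map_J_of_injective _ hf, map_sub h.TP] at this
      exact h.nH (this.trans h.NJ)⟩
  obtain ⟨q, L, k1, k2, k3⟩ := b.exists_pu
  have e : (BB 2 (T.subgroupOf P)).map P.subtype = B := by rw [map_B_inj hf, map_sub h.TP, h.eT]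
  have e' : (BB 2 (T.subgroupOf P) ⊓ pCore 2 P).map P.subtype = B ⊓ pCoreOf 2 P := by
    rw [Subgroup.map_inf _ _ _ hf, e]; rfl
  have k := k1.map hf
  rw [e, map_pCoreOf_of_injective _ hf, Subgroup.map_inf _ _ _ hf, map_sub inf_le_left, ← inf_assoc,
    inf_eq_left.2 (map_subtype_le L)] at k
  refine ⟨q, _, h, z, k, map_subtype_le L, e' ▸ le_normalizer_map_subtype _, fun x hx => ?_⟩
  rw [← e'] at hx ⊢
  exact ⟨⟨x, hx.1⟩, k3 fun y hy => Subtype.ext (hx.2 y ⟨y, hy, rfl⟩), rfl⟩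

namespace PB

variable (h : PB q M B T P L)
include h

theorem nL : ¬ L ≤ Nm(PW B M) := fun e => h.pu.ex.elim fun _ k => k.2 (mi k.1 (e k.1))

theorem nc : ¬ OZ 2 T ≤ Cz(L) := fun e => h.nL ((le_Cz_comm e).trans h.z)

theorem ZZ : OZ 2 T ≤ Zc(B) := h.ZB.trans (le_inf (OZ_le B) (OZ_le_Cz B))

theorem ZQ : OZ 2 B ≤ OZ 2 (pCoreOf 2 L) :=
  OZ_le_OZ h.pu.TS ((le_inf (OZ_le B) (OZ_le_Cz B)).trans h.pu.ZS_le_T)

theorem nZ : L ≤ Nm(OZ 2 (pCoreOf 2 L)) := h.pu.nT.trans (Nm_le_Nm_OZ _)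

theorem czQ (hs : s ∈ B) (e : s ∈ Cz(OZ 2 (pCoreOf 2 L))) : s ∈ pCoreOf 2 L :=
  h.pu.mem_T_of_normal (h.pu.nCz h.nZ)
    (inf_le_inf_left L ((Cz_anti (h.ZB.trans h.ZQ)).trans h.z)) hs e

theorem exF : ∃ F ∈ PS B M, ¬ bV 2 F ≤ pCoreOf 2 L := by
  by_contra k
  push Not at k
  exact h.nL (h.sl' h.pu.SG (PW_le.2 k) h.pu.TS h.pu.nT)

theorem K0 (hF : F ∈ PS B M) (n : ¬ bV 2 F ≤ pCoreOf 2 L) (hX : IsPGroup 2 X) (l1 : F ≤ Nm(X))
    (l2 : L ≤ Nm(X)) : X = ⊥ := by_contra fun h0 =>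
  n ((le_inf (hF.1.VB.trans h.pu.SG) (h.gp hF hX h0 (h.pu.SG.trans l2) l1)).trans (inf_pCoreOf_le l2))

theorem exz : ∃ g ∈ L, g ∉ L ⊓ Nm(PW B M) ∧ ∃ z ∈ OZ 2 T, z ∉ Cz(L) ∧ g * z * g⁻¹ ∉ Zc(L) := by
  obtain ⟨g, hg, hM⟩ := h.pu.ex
  obtain ⟨z, hz, n⟩ := SetLike.not_le_iff_exists.1 h.nc
  refine ⟨g, hg, hM, z, hz, n, fun e => n ?_⟩
  simpa [mul_assoc] using conj_mem_of_mem_normalizer' (h.pu.nCz le_normalizer hg) e.2

theorem quad (hF : F ∈ PS B M) (n : ¬ bV 2 F ≤ pCoreOf 2 L) (hs : s ∈ B)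
    (hx : x ∈ OZ 2 (pCoreOf 2 L)) : ⁅x, s⁆ ∈ OZ 2 B := by
  obtain ⟨q', p⟩ := hF.1.px
  have nB : B ≤ Nm(OZ 2 B) := le_normalizer.trans (Nm_le_Nm_OZ B)
  have VB := (OZ_le (p := 2) _).trans h.pu.TS
  refine (((h.pu.irr (B ⊓ secCz (OZ 2 (pCoreOf 2 L)) (OZ 2 B)) (le_inf h.pu.TS (le_secCz
    (h.pu.TS.trans nB) ((comm_eq_bot_left.2 (OZ_le_Cz _)).le.trans bot_le))) inf_le_left
    (le_normalizer_inf inf_le_right (le_Nm_secCz (inf_le_left.trans h.nZ)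
      (inf_le_right.trans (Nm_le_Nm_OZ B))))).resolve_left fun e => n (le_trans (le_inf p.VB
        (le_secCz (p.VB.trans nB) (commutator_le.2 fun a ha v hv => ?_))) e.le)).ge hs).2.2 x hx
  exact le_OZ (elemAb_of_le inf_le_left (elemAb_bV F)) (inf_le_left.trans p.VB) inf_le_right
    (mi (commutator_mem_right hv (p.nV (VB ha))) (p.quad a (VB ha) v hv))

theorem tw (hF : F ∈ PS B M) (n : ¬ bV 2 F ≤ pCoreOf 2 L) :
    TW q B F (pCoreOf 2 L) ∧ bV 2 F ⊔ pCoreOf 2 L = B := by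
  obtain ⟨q', p⟩ := hF.1.px
  obtain ⟨g, hg, hM, z, hz, -, m⟩ := h.exz
  obtain ⟨v, hv, n'⟩ := SetLike.not_le_iff_exists.1 n
  have u := h.pu
  have AQ := cj_le_of_mem_Nm h.ZQ (h.nZ hg)
  have AZ : CfH9.cj g (OZ 2 B) ≤ Zc(CfH9.cj g B) := by
    rw [← cj_Zc]; exact cj_mono g (le_inf (OZ_le B) (OZ_le_Cz B))
  have AB := AQ.trans ((OZ_le _).trans u.TS)
  have eA : IsElementaryAbelian 2 (CfH9.cj g (OZ 2 B)) := elemAb_map (elemAb_OZ B) _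
  have zA := conj_mem_cj g (h.ZB hz)
  have c1 := card_le_of_fibers (S := B) (T := pCoreOf 2 L) (C := OZ 2 B ⊓ Cz(L))
    (fun s => ⁅s, g * z * g⁻¹⁆) (fun s hs => comm_mem_symm (h.quad hF n hs (AQ zA))) inf_le_left
    fun a ha b hb e => by_contra fun k => m (u.mem_Zg_of_comm hg hM (AZ zA)
      (mul_mem (inv_mem ha) hb) k (by
        rw [show ⁅a⁻¹ * b, g * z * g⁻¹⁆ = a⁻¹ * ⁅a, g * z * g⁻¹⁆ * (⁅a, g * z * g⁻¹⁆⁻¹ *
          ⁅b, g * z * g⁻¹⁆) * (a⁻¹ * ⁅a, g * z * g⁻¹⁆)⁻¹ by group]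
        exact conj_mem_of_mem_normalizer (u.nZg (u.SG (mul_mem (inv_mem ha)
          (commutator_mem_left ha (le_normalizer (AB zA)))))) (mi (u.SG (OZ_le B e.1)) e.2)))
  rw [inf_eq_right.2 u.TS, u.card, mul_comm q, mul_assoc] at c1
  replace c1 := Nat.le_of_mul_le_mul_left c1 Nat.card_pos
  have c2 := p.card_le AB
  have l2 : CfH9.cj g (OZ 2 B) ⊓ Cz(bV 2 F) ≤ Cz(L) := fun x hx => (u.mem_Zg_of_comm hg hM (AZ hx.1)
    (p.VB hv) n' (comm_eq_one' hx.2 hv ▸ one_mem _)).2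
  have c3 := card_le_of_le (le_inf (le_OZ (elemAb_of_le inf_le_left eA) (inf_le_left.trans AB)
    (l2.trans (Cz_anti u.SG))) l2)
  have c4 := u.card_sup_le p.VB
  have nA : ¬ OZ 2 (pCoreOf 2 L) ≤ Cz(bV 2 F) := fun e => n' (h.czQ (p.VB hv) (le_Cz_comm e hv))
  have c5 := card_le_of_le ((inf_le_inf_left (bV 2 F) (le_Cz_OZ _)).trans
    (p.tiA ((OZ_le _).trans u.TS) nA))
  rw [card_cj] at c2
  obtain rfl : q = q' := le_antisymm
    (Nat.le_of_mul_le_mul_right (c1.trans (c2.trans (Nat.mul_le_mul_left _ c3))) Nat.card_pos)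
    (Nat.le_of_mul_le_mul_right (p.cV.ge.trans (c4.trans (Nat.mul_le_mul_left _ c5))) Nat.card_pos)
  have e1 := u.sup_eq_of_card p.VB ((Nat.mul_le_mul_left _ c5).trans p.cV.ge)
  have e2 := p.cover AB ((Nat.mul_le_mul_left _ c3).trans (c1.trans (card_cj _ _).ge))
  have e3 : CfH9.cj g (OZ 2 B) ⊔ (B ⊓ Cz(bV 2 F) ⊓ pCoreOf 2 L) = pCoreOf 2 L :=
    le_antisymm (sup_le (AQ.trans (OZ_le _)) inf_le_right) fun x hx => by
      obtain ⟨a, ha, c, hc, rfl⟩ := p.dec AB e2 (u.TS hx)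
      exact mul_mem_sup ha (mi hc ((mul_mem_cancel_left (OZ_le _ (AQ ha))).1 hx))
  have cA : B ⊓ Cz(bV 2 F) ⊓ pCoreOf 2 L ≤ Cz(CfH9.cj g (OZ 2 B)) :=
    inf_le_right.trans ((le_Cz_OZ _).trans (Cz_anti AQ))
  have eC := el_of_sqs (h.K0 hF n (h.pB.to_le (sqs_le.trans (inf_le_left.trans inf_le_left)))
    (p.nsq (inf_le_left.trans (inf_le_left.trans p.nF)) (inf_le_left.trans inf_le_right))
    (by rw [← sqs_sup eA cA, e3]; exact u.nT.trans Nm_le_Nm_sqs))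
  have eQ := p.el_of p.VB (by rw [inf_eq_right.2 u.TS]; exact p.VB.trans u.SnT)
    (by rw [inf_eq_right.2 u.TS, e1]) eC
  exact ⟨⟨p, eQ, (p.maxQ eQ).of_card_le u.TS (e3 ▸ elemAb_sup eA eC (le_Cz_comm cA))
    (Nat.le_of_mul_le_mul_left (p.cB.symm.trans u.card).le u.q_pos),
    fun e => nA ((OZ_le _).trans e)⟩, e1⟩

theorem ff (w : TW q B F (pCoreOf 2 L)) : FF 2 q L B (pCoreOf 2 L) (L ⊓ Nm(PW B M)) := by
  refine ⟨h.pu, fun e => h.nc (h.ZZ.trans e), ?_⟩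
  obtain ⟨A, hA⟩ := exists_maxEA 0 B
  by_cases e : A ≤ pCoreOf 2 L
  · exact ⟨_, hA.of_card_le inf_le_left (elemAb_zero_iff.2 w.eQ.1)
      ((card_le_of_le e).trans (w.mx.card_eq w.mQ).le),
      fun k => w.QR (eq_of_le_of_card_ge k (w.mx.card_eq w.mQ).le)⟩
  · exact ⟨A, hA, e⟩

theorem res (hO : pResidual 2 G = ⊤) : Res T := by
  obtain ⟨F, hF, n⟩ := h.exF
  obtain ⟨w, e1⟩ := h.tw hF n
  have f := h.ff w
  have u := h.pu
  have k : ∀ F' ∈ PS B M, F' = F := fun F' k => h.f4' k hF (w.cmV (le_inf k.1.VB (h.cc _ k _ hF)))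
  have eW : PW B M = bV 2 F := le_antisymm (PW_le.2 fun E a => k E a ▸ le_rfl) (le_PW hF)
  have nF : T ≤ Nm(F) := fun t ht => mem_normalizer_iff_cj.2 (k _ (h.cj hF (h.TB ht)))
  have QQ := elemAb_le_Cz w.mx.el
  have eQ : B ⊓ pCoreOf 2 P = pCoreOf 2 L := by
    have := (inf_le_inf_right _ u.SG).trans (inf_pCoreOf_le (p := 2) h.LP)
    exact le_antisymm this ((le_inf (u.TG.trans h.LP) (QQ.trans (Cz_anti this))).trans h.c1)
  have nQ : P ≤ Nm(pCoreOf 2 L) := eQ ▸ h.n1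
  have ZD : Zc(B) ≤ B ⊓ Cz(bV 2 F) ⊓ pCoreOf 2 L :=
    le_inf (inf_le_inf_left B (Cz_anti w.VB)) u.ZS_le_T
  have DZ : B ⊓ Cz(bV 2 F) ⊓ pCoreOf 2 L ≤ Zc(B) := le_inf (inf_le_left.trans inf_le_left) w.DZ
  obtain ⟨g, hg, hM, z, hz, m, m'⟩ := h.exz
  have zA : g * z * g⁻¹ ∈ Zc(CfH9.cj g B) := cj_Zc g B ▸ conj_mem_cj g (h.ZZ hz)
  have zQ := u.ZS_cj_le_Z hg zA
  have zB : g * z * g⁻¹ ∉ Zc(B) := fun e => m' ((u.inf_ZS_cj hg hM).le (mi e zA))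
  have nL : T ≤ Nm(L) := fun t ht => by
    have f' := f.conj t
    rw [cj_eq_of_mem_normalizer (h.TB ht), cj_eq_of_mem_normalizer (nQ (h.TP ht))] at f'
    obtain ⟨y, hy, m1, m2⟩ := f'.exists_mem_cj zQ zB
    have yP := mul_mem (inv_mem (h.LP hg)) (cj_le_of_mem h.LP (h.TP ht) hy)
    have BP := cj_le_of_mem (h.BT.trans h.TP) yP
    have l : CfH9.cj (g⁻¹ * y) B ≤ Nm(B) := by
      have := le_normalizer_sup (((le_inf BP (?_ : _ ≤ Cx(z))).trans (h.le_H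
        ((le_Cz_OZ T).trans (Cz_le_Cx hz)) fun e => m fun a ha => mem_Cx.1 (e (h.LP ha)))).trans
          (congrArg (fun X : Subgroup G => Nm(X)) eW).le) (BP.trans nQ)
      · rwa [e1] at this
      rw [cj_mul, cj_le_iff, inv_inv, cj_Cx]
      exact (le_Cz_comm (zpowers_le.2 m2.2)).trans (Cz_zpowers _).le
    obtain ⟨a, ha, e⟩ := (h.syl.mono h.TB le_top).exists_cj_le (isPGroup_cj h.pB _) l
    rw [← cj_mul] at e
    have e' := h.cjB e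
    rw [cj_mul, cj_eq_iff, cj_eq_of_mem_normalizer (inv_mem ha), cj_mul, cj_eq_iff, inv_inv] at e'
    rw [mem_normalizer_iff_cj, ← f'.sup_cj_sup (sup_eq_left.2 u.TS) hy m1, e',
      u.sup_cj_sup (sup_eq_left.2 u.TS) hg hM]
  have Y0 : Zc(L) ⊓ Cz(F) = ⊥ := h.K0 hF n (h.pB.to_le (inf_le_left.trans (u.Zg_le_ZS.trans inf_le_left)))
    (le_Nm_of_le_Cz inf_le_right) (le_Nm_of_le_Cz (inf_le_left.trans inf_le_right))
  have cD : Nat.card (B ⊓ Cz(bV 2 F) ⊓ pCoreOf 2 L : Subgroup G) ≤ q * q := by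
    have := card_le_mul (u.Zg_le_ZS.trans ZD) w.cD.le
    rw [Y0, card_bot, mul_one] at this
    exact (card_le_of_le DZ).trans (f.card_ZS.le.trans (Nat.mul_le_mul_left _ this))
  have cz : T ⊓ Cz(bV 2 F) ≤ B := fun c hc => h.eT.le (mi hc.1 (by
    refine Cz_anti (?_ : OZ 2 (JJ 2 T) ≤ _) (mem_Cz_of_comm (X := Zc(B)) fun d hd => ?_)
    · rw [← CfH8.J_B, h.eT, w.J_eq]; exact le_inf (OZ_le B) (OZ_le_Cz B)
    refine mem_bot.1 (Y0.le (mi ?_ ?_))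
    · obtain ⟨s, hs, y, hy, rfl⟩ := f.surj zQ zB hd
      obtain ⟨v, hv, a, ha, rfl⟩ := u.mem_of_sup_eq e1 hs
      rw [comm_mul_left, comm_eq_one (QQ ha) zQ.1, mul_one, mul_inv_cancel, one_mul, comm_mul_right,
        comm_eq_one hc.2 (commutator_mem_left hv (w.nV (u.TS zQ.1))), one_mul]
      exact conj_mem_of_mem_normalizer (u.nZg (u.SG (commutator_mem_left (w.VB hv)
        (le_normalizer (u.TS zQ.1))))) (commutator_mem_right hy (Nm_le_Nm_Zc L (nL hc.1)))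
    · obtain ⟨v, hv, y, hy, rfl⟩ := w.dQ' (ZD hd).1
      rw [comm_mul_right, comm_eq_one hc.2 hv, one_mul]
      exact conj_mem_of_mem_normalizer (mem_Nm_Cz (le_normalizer (w.VF hv)))
        (commutator_mem_right hy.2 (mem_Nm_Cz (nF hc.1)))))
  by_cases q8 : 8 ≤ q
  · refine h.fin hO hF w nF h.TB cz q8 fun v hv => ?_
    by_cases e : v ∈ Zc(B)
    · exact ⟨1, by simpa using ZD e⟩
    obtain ⟨y, -, -, e⟩ := f.exists_mem_cj (mi hv (QQ hv)) e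
    rw [← cj_Zc, mem_cj] at e
    exact ⟨y⁻¹, by simpa using ZD e⟩
  · have := w.small cD h.syl.pgrp nF h.TB h.BT cz q8
    exact Or.inr (Or.inl (by omega))

end PB

end CfH7
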