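import Cfsg.Agent.OD.Pre
import Cfsg.Agent.H7.GC12

/-! The commuting case when the minimal parabolic centralizes `Ω₁Z(T)`: the structure of `B`. -/

set_option autoImplicit false
set_option linter.unusedSectionVars false
set_option maxHeartbeats 400000

open Cfsg Subgroup CfH9 CfLp Equiv
open scoped commutatorElement MatrixGroups

namespace CfH7

open CfH8 (BB JJ MaxEl)

universe u

variable {G : Type u} [Group G] [Finite G] {q q' : ℕ}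
  {T B F F' S A X Y W J V E M L C R P U K N : Subgroup G} {g s t x : G}

theorem mf_top [U.Normal] (hT : SylIn 2 T ⊤) (h : MinOver T ⊤ M) (hU : IsElementaryAbelian 2 U)
    (hO : pCore 2 G ≤ Cz(U)) (hC : Cz(U) ≤ M) (hA : IsElementaryAbelian 2 A) (n : ¬ A ≤ Cz(U))
    (c : Nat.card U * Nat.card (A ⊓ Cz(U) : Subgroup G) ≤
      Nat.card A * Nat.card (U ⊓ Cz(A) : Subgroup G)) : ¬ U ⊓ Cz(T) ≤ Cz((⊤ : Subgroup G)) := by
  obtain ⟨W, _, _, _, _, ι, b, hw⟩ := exists_br_quot hU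
  have r := rl_mk Cz(U) A
  rw [← b.card_mul r, b.card_fx r, b.card_eq, mul_right_comm] at c
  have s := hT.map_surj (QuotientGroup.mk'_surjective Cz(U))
  have m := h.map (QuotientGroup.mk' Cz(U)) (by
    rw [QuotientGroup.ker_mk']; exact inf_le_right.trans hC)
  have r' := rl_mk Cz(U) ⊤
  rw [map_top_of_surjective _ (QuotientGroup.mk'_surjective Cz(U))] at m r'
  refine fun e => moves_fixed hw s m (h.pCore_quot hT _ hC hO) (b.elemAb r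
    ((comm_eq_bot_left.2 (elemAb_le_Cz hA)).le.trans bot_le) fun a ha => hA.2 a ha ▸ one_mem _)
    (fun e' => n (by rwa [Subgroup.map_eq_bot_iff, QuotientGroup.ker_mk'] at e'))
    (Nat.le_of_mul_le_mul_right c Nat.card_pos) (b.am_le_iff.1 ?_)
  rw [b.am_fx r', b.am_fx (rl_mk Cz(U) T)]
  exact le_inf inf_le_left e

theorem mf (hT : SylIn 2 T P) (m : MinOver T P M) (UP : U ≤ P) (nU : P ≤ Nm(U))
    (hU : IsElementaryAbelian 2 U) (hO : pCoreOf 2 P ≤ Cz(U)) (hC : P ⊓ Cz(U) ≤ M) (AP : A ≤ P)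
    (hA : IsElementaryAbelian 2 A) (n : ¬ A ≤ Cz(U))
    (c : Nat.card U * Nat.card (A ⊓ Cz(U) : Subgroup G) ≤
      Nat.card A * Nat.card (U ⊓ Cz(A) : Subgroup G)) : ¬ U ⊓ Cz(T) ≤ Cz(P) := by
  have i := P.subtype_injective
  obtain ⟨A, rfl⟩ : ∃ A' : Subgroup P, A'.map P.subtype = A := ⟨_, map_sub AP⟩
  obtain ⟨U, rfl⟩ : ∃ A' : Subgroup P, A'.map P.subtype = U := ⟨_, map_sub UP⟩
  haveI : U.Normal := normal_of_top_le_normalizer ((map_Nm_of_injective i).1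
    (by rwa [map_subtype_top]))
  rw [← map_inf_Cz i, ← map_inf_Cz i, card_map_subtype, card_map_subtype, card_map_subtype,
    card_map_subtype] at c
  refine fun e => mf_top hT.subgroupOf_top ((minOver_map_iff (M := M.subgroupOf P) i).1 (by
    rwa [map_subtype_top, map_sub hT.le, map_sub m.lt.le])) ((elemAb_map_iff i).1 hU)
    ((map_Cz_of_injective i).1 hO) (map_le_iff_le_comap.1 ((map_subtype_Cz U).le.trans hC))
    ((elemAb_map_iff i).1 hA) (mt (map_Cz_of_injective i).2 n) c ((map_Cz_of_injective i).1 ?_)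
  rwa [map_inf_Cz i, map_sub hT.le, map_subtype_top]

theorem improve (I : Set (Subgroup G)) (Y : Subgroup G → Subgroup G)
    (h : ∀ x ∈ I, ∀ k ∈ K, ∃ a ∈ N ⊓ K, a⁻¹ * k ∈ Y x ∧ ∀ y ∈ I, y ≠ x → a ∈ Y y) (hs : s ∈ K) :
    ∃ n ∈ N ⊓ K, ∀ x ∈ I, n⁻¹ * s ∈ Y x := by
  classical
  have : ∀ D : Finset (Subgroup G), ↑D ⊆ I → ∃ n ∈ N ⊓ K, ∀ x ∈ D, n⁻¹ * s ∈ Y x := fun D => by
    induction D using Finset.induction_on with
    | empty => exact fun _ => ⟨1, one_mem _, by simp⟩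
    | insert x D hx ih =>
      intro l
      rw [Finset.coe_insert, Set.insert_subset_iff] at l
      obtain ⟨n, hn, e⟩ := ih l.2
      obtain ⟨a, ha, e1, e2⟩ := h x l.1 _ (mul_mem (inv_mem hn.2) hs)
      refine ⟨n * a, mul_mem hn ha, fun y hy => ?_⟩
      rw [mul_inv_rev, mul_assoc]
      rcases Finset.mem_insert.1 hy with rfl | hy
      · exact e1
      · exact mul_mem (inv_mem (e2 y (l.2 hy) fun k => hx (k ▸ hy))) (e y hy)
  obtain ⟨n, hn, e⟩ := this (Set.toFinite I).toFinset (by simp)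
  exact ⟨n, hn, fun x hx => e x (by simpa using hx)⟩

theorem Pc.comm (p : Pc B F) {a b : G} (h1 : a ∈ Nm(F) ⊓ Cz(bV 2 F)) (h2 : b ∈ Nm(F) ⊓ Cz(bV 2 F)) :
    ⁅a, b⁆ ∈ Cz(F) := by
  have h3 := mul_mem (inv_mem h1) h2
  rw [show ⁅a, b⁆ = a * a * (a⁻¹ * b * (a⁻¹ * b)) * (b * b)⁻¹ by group]
  exact mul_mem (mul_mem (p.sq h1.1 h1.2) (p.sq h3.1 h3.2)) (inv_mem (p.sq h2.1 h2.2))

namespace CC

variable (h : CC M B T)
include h

theorem nF (hF : F ∈ PS B M) (h1 : t ∈ Nm(B)) (h2 : t ∈ Nm(bV 2 F)) : t ∈ Nm(F) :=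
  mem_normalizer_iff_cj.2 (h.f4' (h.cj hF h1) hF (by
    rw [← cj_bV, cj_eq_of_mem_normalizer h2]; exact comm_le_left hF.1.nV))

theorem more (hF : F ∈ PS B M) (hA : MaxEl 2 A B) (n : ¬ A ≤ Cz(bV 2 F)) :
    Nat.card (A ⊓ PW B M : Subgroup G) <
      Nat.card (((A ⊓ Cz(bV 2 F)) ⊔ bV 2 F) ⊓ PW B M : Subgroup G) :=
  lt_of_le_of_ne (card_le_of_le (le_inf ((inf_le_inf_left A (h.WV hF)).trans le_sup_left) inf_le_right))
    fun e => n (le_Cz_comm (((le_inf le_sup_right (le_PW hF)).trans (eq_of_le_of_card_ge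
      (le_inf ((inf_le_inf_left A (h.WV hF)).trans le_sup_left) inf_le_right) e.ge).ge).trans
        (inf_le_left.trans (elemAb_le_Cz hA.el))))

theorem exA0 : ∃ A, MaxEl 2 A B ∧ A ≤ Cz(PW B M) := by
  obtain ⟨A, hA, m⟩ := Set.exists_max_image {A | MaxEl 2 A B}
    (fun A => Nat.card (A ⊓ PW B M : Subgroup G)) (Set.toFinite _) (CfH8.exists_maxEl 2 B)
  exact ⟨A, hA, le_Cz_comm (PW_le.2 fun F hF => le_Cz_comm (by_contra fun n => hF.1.px.elim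
    fun _ p => (h.more hF hA n).not_ge (m _ (p.off hA n).2)))⟩

theorem exA (hF : F ∈ PS B M) : ∃ A, MaxEl 2 A B ∧ ¬ A ≤ Cz(bV 2 F) ∧
    ∀ E ∈ PS B M, E ≠ F → A ≤ Cz(bV 2 E) := by
  obtain ⟨q, p⟩ := hF.1.px
  obtain ⟨A, hA, m⟩ := Set.exists_max_image {A | MaxEl 2 A B ∧ ¬ A ≤ Cz(bV 2 F)}
    (fun A => Nat.card (A ⊓ PW B M : Subgroup G)) (Set.toFinite _) p.exists_off
  refine ⟨A, hA.1, hA.2, fun E hE ne => by_contra fun n => ?_⟩
  obtain ⟨q', p'⟩ := hE.1.px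
  have k := (p'.off hA.1 n).2
  refine (h.more hE hA.1 n).not_ge (m _ ⟨k, fun e => ne (h.f4' hF hE
    (commutator_le.2 fun v hv b hb => ?_)).symm⟩)
  obtain ⟨a, ha, c, hc, rfl⟩ := p.dec hA.1.le (p.off hA.1 hA.2).1 hb
  obtain ⟨a', ha', w, hw, rfl⟩ := (mem_sup_of_le_Nm (inf_le_right.trans (Cz_le_Nm _))).1
    (k.le_of_le_Cz p.VB (elemAb_bV F) (le_Cz_comm e) hv)
  rw [comm_mul_right, comm_eq_one' hc.2 hv, mul_one, mul_inv_cancel, mul_one, comm_mul_left,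
    comm_eq_one (elemAb_le_Cz hA.1.el ha'.1) ha, mul_one]
  exact conj_mem_of_mem_normalizer (Cz_le_Nm _ ha'.2) (commutator_mem_left hw (p'.nV (hA.1.le ha)))

end CC

namespace PP

variable (h : PP M B T P)
include h

theorem QT : pCoreOf 2 P ≤ T := sylIn_pCoreOf_le h.sP

theorem nQ : P ≤ Nm(pCoreOf 2 P) := le_normalizer_pCoreOf P

theorem res_le (nN : P ≤ Nm(N)) (n : ¬ T ⊓ N ≤ pCoreOf 2 P) : pResidualOf 2 P ≤ N := by
  have k : P ≤ Nm(P ⊓ N) := le_normalizer_inf le_normalizer nN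
  exact ((h.mo.pResidualOf_le_or h.syl.pgrp inf_le_left k).resolve_right fun e => n
    ((h.mo.pCl_of_normal h.syl.pgrp e k _ (inf_le_inf_right N h.TP) h.syl.pgrp.to_inf_left).trans
      (pCoreOf_le_pCoreOf_of_normal inf_le_left k))).trans inf_le_right

theorem le_Nm (h1 : T ≤ Nm(X)) (h2 : pResidualOf 2 P ≤ Nm(X)) : P ≤ Nm(X) :=
  h.sP.sup_pResidualOf.ge.trans (sup_le h2 h1)

theorem K1 (hF : F ∈ PS B M) (n : ¬ bV 2 F ≤ pCoreOf 2 P) (hX : IsPGroup 2 X) (l : B ≤ Nm(X))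
    (l1 : F ≤ Nm(X)) (l2 : pResidualOf 2 P ≤ Nm(X)) : X = ⊥ := by_contra fun h0 => by
  have VT := hF.1.VB.trans h.BT
  have nO := (VT.trans h.TP).trans (le_normalizer_pResidualOf (p := 2) P)
  refine n ((le_inf VT (le_secCz (nO.trans (normalizer_le_normalizer_pCoreOf _)) (le_trans
    (le_inf (comm_le_left nO) ((commutator_mono le_rfl (h.gp hF hX h0 l l1)).trans (comm_le_right
      (l2.trans (le_normalizer_pCoreOf _))))) (inf_pCoreOf_le l2)))).trans (inf_secCz_res h.sP).le)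

end PP

/-- the minimal parabolic centralizes `Ω₁Z(T)` -/
structure PA (M B T P : Subgroup G) : Prop extends PP M B T P where
  z : P ≤ Cz(OZ 2 T)

namespace PA

variable (h : PA M B T P)
include h

theorem c0 (hx : x ∈ T) (e : ∀ F ∈ PS B M, x ∈ Cz(F)) : x = 1 := by
  have k : T ⊓ ⨅ F ∈ PS B M, Cz(F) = ⊥ := by_contra fun n => by
    obtain ⟨z, hz, z1, z2⟩ := exists_mem_OZ h.syl.pgrp inf_le_left (le_normalizer_inf le_normalizer
      fun t ht => mem_normalizer_of_cj_le (le_iInf₂ fun F hF => cj_le_Cz.2 ((iInf₂_le (f := fun F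
        (_ : F ∈ PS B M) => Cz(F)) _ (h.cj hF (h.TB (inv_mem ht))))))) n
    have c : ∀ X, z ∈ Cz(X) → X ≤ Nm(zpowers z) := fun X e => le_Nm_of_le_Cz (zpowers_le.2 e)
    exact h.nH ((c P (le_Cz_comm h.z z2)).trans (h.U (h.syl.pgrp.to_le (zpowers_le.2 hz.1))
      (mt zpowers_eq_bot.1 z1) (c B (Cz_anti h.BT (OZ_le_Cz T z2))) fun F hF =>
        c F (iInf₂_le (f := fun F (_ : F ∈ PS B M) => Cz(F)) F hF hz.2)))
  exact mem_bot.1 (k.le (mi hx (mem_iInf.2 fun F => mem_iInf.2 (e F))))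

theorem v0 (hF : F ∈ PS B M) (h1 : x ∈ bV 2 F) (h2 : x ∈ Cz(F)) : x = 1 := by
  obtain ⟨q, p⟩ := hF.1.px
  by_cases hq : q = 2
  · exact mem_bot.1 ((p.bk.V0_eq_bot (p.two.2 hq)).le (mi h1 h2))
  obtain ⟨S, r⟩ := h.rl' hF h.pW h.W0 h.BW (h.FW hF)
  exact h.c0 (h.BT (p.VB h1)) fun E hE => (r.pp1 hF (h.FW hF) p hq hE (h.FW hE)).elim
    (fun e => e ▸ h2) fun e => le_Cz_comm e (p.VF h1)

theorem mR : MaxEl 2 (T ⊓ Cz(PW B M)) B := by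
  obtain ⟨A, hA, e⟩ := h.exA0
  have el : IsElementaryAbelian 2 (T ⊓ Cz(PW B M) : Subgroup G) := el_of_sq fun y hy =>
    h.c0 (mul_mem hy.1 hy.1) fun F hF => hF.1.sq (h.nF hF (h.TB hy.1) (Cz_le_Nm _
      (Cz_anti (le_PW hF) hy.2))) (Cz_anti (le_PW hF) hy.2)
  have l := le_inf (hA.le.trans h.BT) e
  rwa [← le_antisymm l (((maxEl_up h.eT).1 hA).le_of_le_Cz inf_le_left el
    ((elemAb_le_Cz el).trans (Cz_anti l)))]

theorem cv (hF : F ∈ PS B M) (hs : s ∈ B) (n : s ∉ Cz(bV 2 F)) (hx : x ∈ bV 2 F ⊓ Cz(B)) :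
    ∃ v ∈ bV 2 F, ⁅s, v⁆ = x := hF.1.px.elim fun _ p =>
  (p.cv2 s hs n x hx).imp fun _ k => ⟨k.1, inv_mul_eq_one.1 (h.v0 hF k.2.1 k.2.2)⟩

theorem UC (hF : F ∈ PS B M) (hF' : F' ∈ PS B M) (n : F' ≠ F) : bV 2 F ⊓ Cz(B) ≤ Cz(F') :=
  fun x hx => by
    obtain ⟨A, h1, h2, h3⟩ := h.exA hF
    obtain ⟨a, ha, m⟩ := SetLike.not_le_iff_exists.1 h2
    obtain ⟨v, hv, rfl⟩ := h.cv hF (h1.le ha) m hx
    exact hF'.1.comm (mi (hF'.1.nF (h1.le ha)) (h3 _ hF' n ha))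
      (mi (hF'.1.nF (hF.1.VB hv)) (h.cc _ hF _ hF' hv))

theorem inCW (e : ∀ F ∈ PS B M, x ∈ Cz(bV 2 F)) : x ∈ Cz(PW B M) :=
  le_Cz_comm (PW_le.2 fun F hF => le_Cz_comm (zpowers_le.2 (e F hF))) (mem_zpowers x)

theorem DW : OZ 2 B ≤ PW B M := fun d hd => by
  obtain ⟨n, hn, e⟩ := improve (N := PW B M) (PS B M) (fun F => Cz(F)) (fun F hF k hk => by
    obtain ⟨q, p⟩ := hF.1.px
    obtain ⟨u, hu, e⟩ := p.ga hk
    exact ⟨u, mi (le_PW hF hu.1) (le_OZ (elemAb_of_le inf_le_left (elemAb_bV F))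
      (inf_le_left.trans p.VB) inf_le_right hu), e, fun E hE n => h.UC hF hE n hu⟩) hd
  exact inv_mul_eq_one.1 (h.c0 (h.BT (OZ_le B (mul_mem (inv_mem hn.2) hd))) e) ▸ hn.1

theorem eR : T ⊓ Cz(PW B M) = PW B M := by
  have m := h.mR
  refine le_antisymm (fun r hr => ?_) (le_inf (PW_B.trans h.BT) h.PW')
  choose! A a1 a2 a3 using fun F (hF : F ∈ PS B M) => h.exA hF
  have WR : PW B M ≤ T ⊓ Cz(PW B M) := le_inf (PW_B.trans h.BT) h.PW'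
  obtain ⟨w, hw, e⟩ := improve (N := PW B M) (PS B M) (fun F => Cz(A F)) (fun F hF k hk => by
    obtain ⟨q, p⟩ := hF.1.px
    have o := (p.off (a1 F hF) (a2 F hF)).2
    have l : A F ⊓ Cz(bV 2 F) ≤ T ⊓ Cz(PW B M) := fun a ha => mi (h.BT ((a1 F hF).le ha.1))
      (h.inCW fun E hE => (eq_or_ne E F).elim (fun e => e ▸ ha.2) fun e => a3 F hF E hE e ha.1)
    obtain ⟨a, ha, v, hv, rfl⟩ := (mem_sup_of_le_Nm (inf_le_right.trans (Cz_le_Nm _))).1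
      ((eq_of_le_of_card_ge (sup_le l ((le_PW hF).trans WR)) (m.card_eq o).le).ge hk)
    refine ⟨v, mi (le_PW hF hv) (WR (le_PW hF hv)), ?_, fun E hE n =>
      le_Cz_comm (a3 E hE F hF n.symm) hv⟩
    rw [← ha.2 v hv, inv_mul_cancel_left]
    exact elemAb_le_Cz (a1 F hF).el ha.1) hr
  have hd := mul_mem (inv_mem (mi2 hw)) hr
  refine (mul_mem_cancel_left (inv_mem (mi1 hw))).1 (h.DW (mem_OZ.2
    ⟨⟨m.le hd, fun b hb => ?_⟩, m.el.2 _ hd⟩))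
  obtain ⟨n, hn, e'⟩ := improve (N := Cx(w⁻¹ * r)) (PS B M) (fun F => Cz(bV 2 F)) (fun F hF k hk => by
    obtain ⟨q, p⟩ := hF.1.px
    obtain ⟨a, ha, c, hc, rfl⟩ := p.dec (a1 F hF).le (p.off (a1 F hF) (a2 F hF)).1 hk
    exact ⟨a, mi (mem_Cx.2 (e F hF a ha)) ((a1 F hF).le ha), (inv_mul_cancel_left a c).symm ▸ hc.2,
      fun E hE n => a3 F hF E hE n ha⟩) hb
  rw [← mul_inv_cancel_left n b]
  exact mem_Cx.1 (mul_mem (mi1 hn) (mem_Cx.2 (el_comm m.el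
    (mi (h.BT (mul_mem (inv_mem (mi2 hn)) hb)) (h.inCW e')) hd)))

theorem mW : MaxEl 2 (PW B M) B := h.eR ▸ h.mR

theorem mWT : MaxEl 2 (PW B M) T := (maxEl_up h.eT).1 h.mW

theorem inB (ht : t ∈ T) (e : ∀ F ∈ PS B M, t ∈ B ⊔ bC 2 F) : t ∈ B := by
  have BK : B ≤ T ⊓ ⨅ F ∈ PS B M, B ⊔ bC 2 F := le_inf h.BT (le_iInf₂ fun _ _ => le_sup_left)
  obtain ⟨n, hn, e'⟩ := improve (N := B) (K := T ⊓ ⨅ F ∈ PS B M, B ⊔ bC 2 F) (PS B M)
    (fun F => Cz(bV 2 F)) (fun F hF k hk => by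
      obtain ⟨q, p⟩ := hF.1.px
      obtain ⟨A, h1, h2, h3⟩ := h.exA hF
      obtain ⟨b, hb, c, hc, rfl⟩ := p.dec' (iInf₂_le (f := fun F (_ : F ∈ PS B M) => B ⊔ bC 2 F) F hF hk.2)
      obtain ⟨a, ha, c', hc', rfl⟩ := p.dec h1.le (p.off h1 h2).1 hb
      refine ⟨a, mi (h1.le ha) (BK (h1.le ha)), ?_, fun E hE n => h3 E hE n ha⟩
      rw [mul_assoc, inv_mul_cancel_left]
      exact mul_mem hc'.2 hc) (mi ht (mem_iInf.2 fun F => mem_iInf.2 (e F)))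
  exact (mul_mem_cancel_left (inv_mem (mi1 hn))).1
    (h.mR.le (mi (mul_mem (inv_mem (h.BT hn.1)) ht) (h.inCW e')))

theorem nWQ : ¬ PW B M ≤ pCoreOf 2 P := fun e => h.nH (h.sl (h.BT.trans h.TP) fun g hg =>
  ((maxEl_up h.eT).2 (h.mWT.of_card_le ((cj_le_of_mem_Nm e (h.nQ hg)).trans h.QT)
    (elemAb_map h.elW _) (card_cj _ _).ge)).le)

theorem x0 : pResidualOf 2 P ≤ Cz(OZ 2 (pCoreOf 2 P)) := by_contra fun n => by
  have nX := h.nQ.trans (Nm_le_Nm_OZ (p := 2) _)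
  have XT := (OZ_le (p := 2) _).trans h.QT
  have nC := nX.trans (Nm_le_Nm_Cz _)
  refine mf h.sP h.mo (XT.trans h.TP) nX (elemAb_OZ _) (le_Cz_OZ _)
    ((h.mo.pResidualOf_le_or h.syl.pgrp inf_le_left (le_normalizer_inf le_normalizer nC)).resolve_left
      fun e => n (e.trans inf_le_right)) (h.mWT.le.trans h.TP) h.elW
    (fun e => n (h.res_le nC fun k => h.nWQ ((le_inf h.mWT.le e).trans k)))
    (maxEl_ineq h.mWT XT (elemAb_OZ _)) ?_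
  exact (le_OZ (elemAb_of_le inf_le_left (elemAb_OZ _)) (inf_le_left.trans XT) inf_le_right).trans
    (le_Cz_comm h.z)

theorem tr (hF : F ∈ PS B M) (n : ¬ bV 2 F ≤ pCoreOf 2 P) (hF' : F' ∈ PS B M) :
    ∃ t ∈ T, CfH9.cj t F = F' := by
  by_contra c
  let I := {E | E ∈ PS B M ∧ ¬ ∃ t ∈ T, CfH9.cj t F = E}
  have le : ∀ E ∈ I, bV 2 E ⊓ Cz(B) ≤ ⨆ E ∈ I, bV 2 E ⊓ Cz(B) := fun E hE =>
    le_iSup₂ (f := fun E (_ : E ∈ I) => bV 2 E ⊓ Cz(B)) E hE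
  obtain ⟨z, hz, z1, z2⟩ := exists_mem_OZ (Q := ⨆ E ∈ I, bV 2 E ⊓ Cz(B)) h.syl.pgrp
    (iSup₂_le fun E hE => inf_le_left.trans (hE.1.1.VB.trans h.BT))
    (fun t ht => mem_normalizer_of_cj_le (cj_le_iff.2 (iSup₂_le fun E hE => cj_le_iff.1 (by
      rw [cj_inf, cj_bV, cj_centralizer, cj_eq_of_mem_normalizer (h.TB ht)]
      exact le _ ⟨h.cj hE.1 (h.TB ht), fun ⟨s, hs, e⟩ => hE.2 ⟨t⁻¹ * s, mul_mem (inv_mem ht) hs, by
        rw [cj_mul, e, cj_inv_cj]⟩⟩))))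
    (ne_bot_of_le (le F' ⟨hF', c⟩) (inf_Cz_ne_bot h.pB (isPGroup_bV F') hF'.1.nV hF'.1.V_ne))
  have k : ∀ X, z ∈ Cz(X) → X ≤ Nm(zpowers z) := fun X e => le_Nm_of_le_Cz (zpowers_le.2 e)
  exact z1 (zpowers_eq_bot.1 (h.K1 hF n (h.syl.pgrp.to_le (zpowers_le.2 (OZ_le T z2)))
    (k B (Cz_anti h.BT (OZ_le_Cz T z2))) (k F (iSup₂_le (fun E hE => h.UC hE.1 hF
      fun e => hE.2 ⟨1, one_mem _, (cj_one F).trans e⟩) hz))
    (k _ (Cz_anti (pResidualOf_le P) (le_Cz_comm h.z z2)))))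

theorem nVQ (hF : F ∈ PS B M) : ¬ bV 2 F ≤ pCoreOf 2 P := fun e => by
  obtain ⟨E, hE, n⟩ : ∃ E ∈ PS B M, ¬ bV 2 E ≤ pCoreOf 2 P := by
    by_contra k
    push Not at k
    exact h.nWQ (PW_le.2 k)
  obtain ⟨t, ht, rfl⟩ := h.tr hE n hF
  rw [← cj_bV, cj_le_iff, cj_eq_of_mem_normalizer (h.nQ (h.TP (inv_mem ht)))] at e
  exact n e

theorem tr' (hF : F ∈ PS B M) (hF' : F' ∈ PS B M) : ∃ t ∈ T, CfH9.cj t F = F' :=
  h.tr hF (h.nVQ hF) hF'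

theorem K2 (hF : F ∈ PS B M) (hx : x ∈ B) (h1 : x ∈ Cz(B)) (h2 : x ∈ Cz(pResidualOf 2 P))
    (h3 : x ∈ Cz(F)) : x = 1 := by
  have k : ∀ X, x ∈ Cz(X) → X ≤ Nm(zpowers x) := fun X e => le_Nm_of_le_Cz (zpowers_le.2 e)
  exact zpowers_eq_bot.1 (h.K1 hF (h.nVQ hF) (h.pB.to_le (zpowers_le.2 hx)) (k _ h1) (k _ h3) (k _ h2))

end PA

end CfH7
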