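import Cfsg.Agent.OD.Pre
import Cfsg.Agent.H7.GC13

/-! The commuting case when the minimal parabolic centralizes `Ω₁Z(T)`: the end. -/

set_option autoImplicit false
set_option linter.unusedSectionVars false
set_option maxHeartbeats 400000

open Cfsg Subgroup CfH9 CfLp Equiv
open scoped commutatorElement MatrixGroups

namespace CfH7

open CfH8 (BB JJ MaxEl)

universe u

variable {G : Type u} [Group G] [Finite G] {q q' : ℕ}
  {T B F F' S A X Y W J V E M L C R P U K N : Subgroup G} {a g s t u v x : G}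

theorem PA.one (h : PA M B T P) (hF : F ∈ PS B M) (k : ∀ E ∈ PS B M, E = F) : Res T := by
  obtain ⟨q, p⟩ := hF.1.px
  obtain ⟨A, hA, n⟩ := p.exists_off
  have eW : PW B M = bV 2 F := le_antisymm (PW_le.2 fun E a => k E a ▸ le_rfl) (le_PW hF)
  have eR := h.eR
  rw [eW] at eR
  have eQ : B ⊓ Cz(bV 2 F) = bV 2 F :=
    le_antisymm ((inf_le_inf_right _ h.BT).trans eR.le) (le_inf p.VB p.VV)
  have w : TW q B F A := ⟨p, eQ.symm ▸ elemAb_bV F, hA, n⟩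
  have nF : T ≤ Nm(F) := fun t ht => mem_normalizer_iff_cj.2 (k _ (h.cj hF (h.TB ht)))
  have cz := eR.le.trans p.VB
  by_cases q8 : 8 ≤ q
  swap
  · have c := w.cD
    rw [show B ⊓ Cz(bV 2 F) ⊓ A ⊓ Cz(F) = ⊥ from le_bot_iff.1 fun x hx =>
      h.c0 (h.BT hx.1.1.1) fun E hE => k E hE ▸ hx.2, card_bot, mul_one] at c
    have := w.small (c.le.trans (Nat.le_mul_self q)) h.syl.pgrp nF h.TB h.BT cz q8
    exact Or.inr (Or.inl (by omega))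
  exfalso
  have qq := w.qq h.syl h.loc h.BT nF h.TB cz q8
  have DZ := w.DZ
  have UD := w.UD
  have eB := w.B_eq
  rw [eQ] at qq DZ UD eB
  have BP := qq.BT.trans h.TP
  have AQ := (qq.core h.ch BP).resolve_left (h.nVQ hF)
  have nA := qq.symm.le_Nm_of_core ((sup_comm _ _).le.trans BP) AQ
  have VP := le_sup_left.trans BP
  refine h.mo.not_pResidualOf_le (p := 2) ((h.sP.le_of_le_Nm ((h.ch.isPGroup_inf_Cz (elemAb_isPGroup hA.el)
    (le_sup_right.trans BP) fun x hx => ?_).to_le (le_inf (pResidualOf_le P) ?_)) (pResidualOf_le P)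
      (h.TP.trans (le_normalizer_pResidualOf P))).trans h.mo.le)
  · obtain ⟨a, ha, m⟩ := SetLike.not_le_iff_exists.1 qq.symm.nle
    exact qq.symm.cz ha m ((sup_comm (bV 2 F) A).le (eB.ge (h.eT.le (Cz_le_B ((maxEl_up h.eT).1 hA)
      (mi (h.QT hx.1) hx.2))))) (hx.2 a ha).symm
  by_cases c : bV 2 F ⊓ pCoreOf 2 P ≤ A
  · refine h.x0.trans (Cz_anti (le_OZ hA.el AQ ((elemAb_le_Cz hA.el).trans (Cz_anti fun s hs => ?_))))
    obtain ⟨v, hv, a, ha, rfl⟩ := qq.dec (qq.f1 (h.QT hs) (le_trans (le_inf (comm_le_left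
      (zpowers_le.2 (qq.nQ (h.QT hs)))) (le_inf (comm_le_left (zpowers_le.2 (qq.nQ (h.QT hs))))
        ((commutator_mono le_rfl (zpowers_le.2 hs)).trans (comm_le_right (VP.trans h.nQ)))))
          (inf_le_inf_left _ c)))
    exact mul_mem (c (mi hv ((mul_mem_cancel_right (AQ ha)).1 hs))) ha
  obtain ⟨v, hv, m⟩ := SetLike.not_le_iff_exists.1 c
  have NV : nclo (zpowers v) P ≤ bV 2 F := nclo_le_iff'.2 fun g hg => by
    rw [cj_zpowers, zpowers_le]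
    have e : g * v * g⁻¹ * (g * v * g⁻¹) = 1 := by
      rw [mul_conj, el_sq (elemAb_bV F) hv.1, mul_one, mul_inv_cancel]
    exact (qq.inv (qq.lq (nA (inv_mem hg)) (h.QT (conj_mem_of_mem_normalizer (h.nQ hg) hv.2)) e
      (by simpa [mul_assoc] using mem_sup_left hv.1)) e).resolve_right
        fun e => m (by simpa [mul_assoc] using conj_mem_of_mem_normalizer' (nA hg) e)
  have nN := right_le_Nm_nclo (zpowers v) P
  have vN := le_nclo (zpowers v) P (mem_zpowers v)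
  have c1 : pResidualOf 2 P ≤ Cz(nclo (zpowers v) P) := h.res_le (nN.trans (Nm_le_Nm_Cz _))
    fun e => h.nVQ hF ((le_inf qq.QT (p.VV.trans (Cz_anti NV))).trans e)
  have DN : bV 2 F ⊓ A ≤ nclo (zpowers v) P := fun d hd => by
    obtain ⟨b, hb, e⟩ := p.cv1 v hv.1 (fun e => m (UD (mi hv.1 e)).2) d (mi hd.1 (DZ hd))
    rw [← inv_mul_eq_one.1 (h.v0 hF e.1 e.2)]
    exact commutator_mem_right vN (nN (h.TP (h.BT hb)))
  have c2 : ⁅⁅pResidualOf 2 P, A⁆, nclo (zpowers v) P⁆ ≤ ⊥ := three_subgroups_normal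
    (comm_eq_bot_right.2 (c1.trans (Cz_anti (comm_le_right ((le_sup_right.trans BP).trans nN))))).le
    (by rw [comm_eq_bot_right.2 c1, commutator_bot_left])
  refine pResidualOf_le_Cz_of_le' (elemAb_isPGroup hA.el) nA (le_trans ?_ ((qq.cxR hv.1 m).le.trans DN)) c1
  exact le_inf (comm_le_left ((pResidualOf_le P).trans nA)) ((commutator_comm _ _).le.trans
    ((comm_eq_bot_left.1 (le_bot_iff.1 c2)).trans (Cz_le_Cx vN)))

theorem PA.cU (h : PA M B T P) (hF : F ∈ PS B M) (p : PX q B F) :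
    Nat.card (bV 2 F ⊓ Cz(B) : Subgroup G) = q := by
  rw [p.cU, show bV0 2 F = ⊥ from le_bot_iff.1 fun x hx => h.v0 hF hx.1 hx.2, card_bot, mul_one]

/-- at least two pieces -/
structure PA2 (M B T P : Subgroup G) : Prop extends PA M B T P where
  two : ∀ F ∈ PS B M, ∃ E ∈ PS B M, E ≠ F

namespace PA2

variable (h : PA2 M B T P)
include h

theorem ne' (hF : F ∈ PS B M) (n : a ∉ Nm(F)) : CfH9.cj a F ≠ F := mt mem_normalizer_iff_cj.2 n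

theorem cV (hv : v ∈ bV 2 F) : a * v * a⁻¹ ∈ bV 2 (CfH9.cj a F) :=
  (cj_bV a F).le (conj_mem_cj a hv)

theorem UU (hF : F ∈ PS B M) (hE : E ∈ PS B M) (n : E ≠ F) (h1 : x ∈ bV 2 F ⊓ Cz(B))
    (h2 : x ∈ bV 2 E) : x = 1 := h.v0 hE h2 (h.UC hF hE n h1)

theorem D0 (hF : F ∈ PS B M) (h1 : x ∈ bV 2 F) (h2 : x ∈ OZ 2 B ⊓ Cz(pResidualOf 2 P)) : x = 1 :=
  (h.two F hF).elim fun _ k => h.K2 k.1 (OZ_le B h2.1) (OZ_le_Cz B h2.1) h2.2
    (h.UC hF k.1 k.2 (mi h1 (OZ_le_Cz B h2.1)))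

theorem U0 (hF : F ∈ PS B M) : bV 2 F ⊓ Cz(B) ≠ ⊥ :=
  inf_Cz_ne_bot h.pB (isPGroup_bV F) hF.1.nV hF.1.V_ne

theorem UD (hF : F ∈ PS B M) : bV 2 F ⊓ Cz(B) ≤ OZ 2 B :=
  le_OZ (elemAb_of_le inf_le_left (elemAb_bV F)) (inf_le_left.trans hF.1.VB) inf_le_right

theorem UX (hF : F ∈ PS B M) (ha : a ∈ pCoreOf 2 P) (n : a ∉ Nm(F)) :
    bV 2 F ⊓ Cz(B) ≤ pCoreOf 2 P := fun x hx => by
  obtain ⟨A, h1, h2, h3⟩ := h.exA hF
  obtain ⟨b, hb, m⟩ := SetLike.not_le_iff_exists.1 h2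
  obtain ⟨v, hv, rfl⟩ := h.cv hF (h1.le hb) m hx
  have hE := h.cj hF (h.TB (h.QT ha))
  have := commutator_mem_right (commutator_mem_left ha (h.nQ (h.TP (h.BT (hF.1.VB hv)))))
    (h.nQ (h.TP (h.BT (h1.le hb))))
  rwa [commutatorElement_def a, comm_mul_right, comm_eq_one (h3 _ hE (h.ne' hF n) hb) (h.cV hv), one_mul,
    el_inv (elemAb_bV F) hv, conj_eq_self (hx.2 _ (hE.1.VB (h.cV hv)))] at this

theorem UQ (hF : F ∈ PS B M) : ¬ OZ 2 B ⊓ pCoreOf 2 P ≤ OZ 2 B ⊓ Cz(pResidualOf 2 P) := fun e => by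
  have VP := hF.1.VB.trans (h.BT.trans h.TP)
  have k : bV 2 F ⊓ pCoreOf 2 P ⊓ Cz(B) = ⊥ := le_bot_iff.1 fun x hx =>
    h.D0 hF hx.1.1 (e (mi (h.UD hF (mi hx.1.1 hx.2)) hx.1.2))
  by_cases c : pCoreOf 2 P ≤ Nm(F)
  · have := not_imp_not.1 (inf_Cz_ne_bot h.pB (isPGroup_bV F).to_inf_left
      (le_normalizer_inf hF.1.nV ((h.BT.trans h.TP).trans h.nQ))) k
    exact h.nVQ hF ((le_inf VP (comm_eq_bot_left.1 (le_bot_iff.1 ((le_inf (comm_le_left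
      (c.trans (Nm_le_Nm_bV F))) (comm_le_right (VP.trans h.nQ))).trans this.le)))).trans (chP_iff.1 h.ch))
  · obtain ⟨a, ha, n⟩ := SetLike.not_le_iff_exists.1 c
    exact h.U0 hF (le_bot_iff.1 ((le_inf (le_inf inf_le_left (h.UX hF ha n)) inf_le_right).trans k.le))

theorem exU : ∃ E, E ≤ OZ 2 B ∧ E ≤ pCoreOf 2 P ∧
    ⁅pCoreOf 2 P, nclo E P⁆ ≤ OZ 2 B ⊓ Cz(pResidualOf 2 P) ∧ ¬ nclo E P ≤ Cz(PW B M) := by
  obtain ⟨F, hF⟩ := h.ex
  have nD := h.TB.trans (Nm_le_Nm_OZ (p := 2) B)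
  have n0 : P ≤ Nm(OZ 2 B ⊓ Cz(pResidualOf 2 P)) := h.le_Nm (le_normalizer_inf nD
    (h.TP.trans ((le_normalizer_pResidualOf P).trans (Nm_le_Nm_Cz _)))) (le_Nm_of_le_Cz inf_le_right)
  have QP := pCoreOf_le (p := 2) P
  have k := exists_secCz (isPGroup_pCoreOf P) (isPGroup_pCoreOf P).to_inf_right
    (le_normalizer_inf (h.QT.trans nD) le_normalizer) (QP.trans n0)
    (inf_le_right.trans (QP.trans n0)) (h.UQ hF)
  refine ⟨_, inf_le_left.trans inf_le_left, inf_le_left.trans inf_le_right,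
    commutator_le_of_le_secCz (nclo_le (le_Nm_secCz h.nQ n0) inf_le_right), fun e => k ?_⟩
  exact le_inf (inf_le_left.trans inf_le_left) ((le_nclo _ P).trans (le_Cz_comm (h.res_le
    ((right_le_Nm_nclo _ P).trans (Nm_le_Nm_Cz _))
      fun e' => h.nWQ ((le_inf h.mWT.le (le_Cz_comm e)).trans e'))))

theorem VQ (h1 : U ≤ pCoreOf 2 P) (h2 : ⁅pCoreOf 2 P, U⁆ ≤ OZ 2 B ⊓ Cz(pResidualOf 2 P))
    (h3 : ¬ U ≤ Cz(PW B M)) (hF : F ∈ PS B M) : bV 2 F ⊓ pCoreOf 2 P ≤ Cz(B) := by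
  by_contra c
  refine h3 fun u hu => ?_
  have uT := h.QT (h1 hu)
  have ex : ∀ E ∈ PS B M, ∃ v ∈ bV 2 E ⊓ pCoreOf 2 P, v ∉ Cz(B) := fun E hE => by
    obtain ⟨t, ht, rfl⟩ := h.tr' hF hE
    refine SetLike.not_le_iff_exists.1 fun e => c ?_
    rwa [← cj_bV, ← cj_eq_of_mem_normalizer (h.nQ (h.TP ht)), ← cj_inf, cj_le_Cz,
      cj_eq_of_mem_normalizer (h.TB (inv_mem ht))] at e
  have nE : ∀ E ∈ PS B M, u ∈ Nm(E) := fun E hE => by_contra fun n => by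
    obtain ⟨v, hv, m⟩ := ex E hE
    obtain ⟨A, a1, a2, a3⟩ := h.exA hE
    obtain ⟨q, p⟩ := hE.1.px
    have := Cz_anti a1.le (OZ_le_Cz B (comm_mem_of_le' h2 hv.2 hu).1)
    rw [commutatorElement_def, mul_mem_cancel_left (le_Cz_comm (a3 _ (h.cj hE (h.TB uT)) (h.ne' hE n))
      (h.cV hv.1)), inv_mem_iff] at this
    exact m (p.tiA a1.le a2 (mi hv.1 this)).2
  have k : ∀ E ∈ PS B M, ∀ x ∈ bV 2 E ⊓ pCoreOf 2 P, ⁅u, x⁆ = 1 := fun E hE x hx =>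
    h.D0 hE (commutator_mem_right hx.1 (Nm_le_Nm_bV E (nE E hE))) (comm_mem_of_le' h2 hx.2 hu)
  have uB := h.inB uT fun E hE => by
    obtain ⟨v, hv, m⟩ := ex E hE
    obtain ⟨q, p⟩ := hE.1.px
    refine p.t2 (S := T ⊓ Nm(E)) h.syl.pgrp.to_inf_left inf_le_right (inf_le_left.trans h.TB)
      (mi uT (nE E hE)) le_rfl le_sup_left fun x hx => k E hE x (mi hx.1 ?_) ▸ one_mem _
    obtain ⟨b, hb, e⟩ := p.cv1 v hv.1 m x hx
    rw [← inv_mul_eq_one.1 (h.v0 hE e.1 e.2)]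
    exact commutator_mem_right hv.2 (h.nQ (h.TP (h.BT hb)))
  refine h.inCW fun E hE => by_contra fun n => ?_
  obtain ⟨v, hv, m⟩ := ex E hE
  obtain ⟨q, p⟩ := hE.1.px
  exact m (p.ti' uB n hv.1 (commutatorElement_eq_one_iff_mul_comm.1 (k E hE v hv)))

theorem QB (k : ∀ F ∈ PS B M, bV 2 F ⊓ pCoreOf 2 P ≤ Cz(B)) (hs : s ∈ pCoreOf 2 P)
    (e : ∀ F ∈ PS B M, s ∈ Nm(F)) : s ∈ B := h.inB (h.QT hs) fun F hF => hF.1.px.elim fun _ p =>
  p.t1 (S := T ⊓ Nm(F)) h.syl.pgrp.to_inf_left inf_le_right (inf_le_left.trans h.TB)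
    (mi (h.QT hs) (e F hF)) fun _ hv => k F hF (mi (commutator_mem_right hv (Nm_le_Nm_bV F (e F hF)))
      (commutator_mem_left hs (h.nQ (h.TP (h.BT (p.VB hv))))))

theorem sw (k : ∀ F ∈ PS B M, bV 2 F ⊓ pCoreOf 2 P ≤ Cz(B)) (hF : F ∈ PS B M) :
    ∃ a ∈ pCoreOf 2 P, a ∉ Nm(F) := SetLike.not_le_iff_exists.1 fun c => by
  have QB : pCoreOf 2 P ≤ B := fun s hs => h.QB k hs fun E hE => by
    obtain ⟨t, ht, rfl⟩ := h.tr' hF hE
    rw [← cj_normalizer]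
    exact cj_mono t c ((cj_eq_of_mem_normalizer (h.nQ (h.TP ht))).ge hs)
  have l := OZ_le_OZ (p := 2) QB ((le_inf ((OZ_le B).trans (h.BT.trans h.TP))
    ((OZ_le_Cz B).trans (Cz_anti QB))).trans (chP_iff.1 h.ch))
  exact h.U0 hF (le_bot_iff.1 fun x hx => h.D0 hF hx.1
    (mi (h.UD hF hx) (le_Cz_comm h.x0 (l (h.UD hF hx)))))

theorem fin1 (k : ∀ F ∈ PS B M, bV 2 F ⊓ pCoreOf 2 P ≤ Cz(B)) (hu : u ∈ pCoreOf 2 P)
    (h1 : ∀ F ∈ PS B M, ∃ w ∈ bV 2 F ⊓ Cz(B), w ≠ 1 ∧ ⁅u, w⁆ = 1)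
    (h2 : u ∈ B → ∀ F ∈ PS B M, ∀ a ∈ pCoreOf 2 P, a ∉ Nm(F) →
      ∃ v ∈ bV 2 F, v ∉ Cz(B) ∧ ⁅u, ⁅a, v⁆⁆ = 1) : u ∈ Cz(PW B M) := by
  have uB := h.QB k hu fun F hF => by_contra fun n => by
    obtain ⟨w, hw, w1, e⟩ := h1 F hF
    have := h.cV (a := u) hw.1
    rw [conj_eq_self (commutatorElement_eq_one_iff_mul_comm.1 e)] at this
    exact w1 (h.UU hF (h.cj hF (h.TB (h.QT hu))) (h.ne' hF n) hw this)
  refine h.inCW fun F hF => by_contra fun n => ?_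
  obtain ⟨a, ha, m⟩ := h.sw k hF
  obtain ⟨v, hv, m', e⟩ := h2 uB F hF a ha m
  obtain ⟨q, p⟩ := hF.1.px
  have hE := h.cj hF (h.TB (h.QT ha))
  have z := p.quad u uB v hv
  rw [commutatorElement_def a, comm_mul_right, el_inv (elemAb_bV F) hv,
    conj_eq_self (z _ (hE.1.VB (h.cV hv))), mul_eq_one_iff_inv_eq] at e
  exact m' (p.ti' uB n hv (commutatorElement_eq_one_iff_mul_comm.1 (h.UU hF hE (h.ne' hF m)
    (mi (commutator_mem_right hv (p.nV uB)) z)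
      (e ▸ inv_mem (commutator_mem_right (h.cV hv) (hE.1.nV uB))))))

theorem three (k : ∀ F ∈ PS B M, ∀ E ∈ PS B M, ∃ X ∈ PS B M, X ≠ F ∧ X ≠ E) : False := by
  obtain ⟨E, -, e2, e3, e4⟩ := h.exU
  have UQ := nclo_le h.nQ e2
  have VQ := fun F (hF : F ∈ PS B M) => h.VQ UQ e3 e4 hF
  refine e4 fun u hu => h.fin1 VQ (UQ hu) (fun F hF => ?_) fun uB F hF a ha n => ?_
  · obtain ⟨⟨w, hw⟩, w1⟩ := ne_bot_iff_exists_ne_one.1 (h.U0 hF)
    obtain ⟨a, ha, n⟩ := h.sw VQ hF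
    have uB := h.TB (h.QT (UQ hu))
    obtain ⟨X, hX, n1, n2⟩ := k F hF _ (h.cj hF uB)
    have d := comm_mem_of_le' e3 (h.UX hF ha n hw) hu
    exact ⟨w, hw, fun e => w1 (Subtype.ext e), h.K2 hX (OZ_le B d.1) (OZ_le_Cz B d.1) d.2
      (mul_mem (h.UC (h.cj hF uB) hX n2 (mi (h.cV hw.1) (conj_mem_of_mem_normalizer (mem_Nm_Cz uB) hw.2)))
        (inv_mem (h.UC hF hX n1 hw)))⟩
  · obtain ⟨v, hv, m⟩ := SetLike.not_le_iff_exists.1 (mt le_Cz_comm hF.1.nC)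
    have hE := h.cj hF (h.TB (h.QT ha))
    obtain ⟨X, hX, n1, n2⟩ := k F hF _ hE
    obtain ⟨q, p⟩ := hF.1.px
    obtain ⟨q', p'⟩ := hE.1.px
    have d := comm_mem_of_le' e3 (commutator_mem_left ha (h.nQ (h.TP (h.BT (p.VB hv))))) hu
    refine ⟨v, hv, m, h.K2 hX (OZ_le B d.1) (OZ_le_Cz B d.1) d.2 ?_⟩
    have z := p.quad u uB v hv
    rw [commutatorElement_def a, comm_mul_right, el_inv (elemAb_bV F) hv,
      conj_eq_self (z _ (hE.1.VB (h.cV hv)))]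
    exact mul_mem (h.UC hE hX n2 (mi (commutator_mem_right (h.cV hv) (p'.nV uB))
      (p'.quad u uB _ (h.cV hv)))) (h.UC hF hX n1 (mi (commutator_mem_right hv (p.nV uB)) z))

theorem pair (hF : F ∈ PS B M) (hF' : F' ∈ PS B M) (k : ∀ E ∈ PS B M, E = F ∨ E = F') : Res T := by
  have n' : F' ≠ F := fun e => (h.two F hF).elim fun E a => a.2 ((k E a.1).elim id fun b => b.trans e)
  have s1 : ∀ t ∈ T, t ∉ Nm(F) → CfH9.cj t F = F' := fun t ht n =>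
    (k _ (h.cj hF (h.TB ht))).resolve_left (h.ne' hF n)
  have s2 : ∀ s ∈ T, ∀ t ∈ T, s ∉ Nm(F) → t ∉ Nm(F) → s * t ∈ Nm(F) := fun s hs t ht n m =>
    mem_normalizer_iff_cj.2 (by
      rw [cj_mul, s1 t ht m]
      exact (k _ (h.cj hF' (h.TB hs))).resolve_right fun e => n' (cj_inj.1 (e.trans (s1 s hs n).symm)))
  have s3 : ∀ t ∈ T, t ∈ Nm(F) → ∀ E ∈ PS B M, t ∈ Nm(E) := fun t ht e E hE =>
    (k E hE).elim (fun a => a ▸ e) fun a => a ▸ mem_normalizer_iff_cj.2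
      ((k _ (h.cj hF' (h.TB ht))).resolve_left fun b =>
        n' (cj_inj.1 (b.trans (cj_eq_of_mem_normalizer e).symm)))
  obtain ⟨q, p⟩ := hF.1.px
  have px : ∀ E ∈ PS B M, PX q B E := fun E hE => by
    obtain ⟨q', p'⟩ := hE.1.px
    obtain ⟨t, ht, rfl⟩ := h.tr' hF hE
    have := h.cU hE p'
    rw [← cj_bV, ← cj_eq_of_mem_normalizer (mem_Nm_Cz (h.TB ht)), ← cj_inf, card_cj, h.cU hF p] at this
    exact this ▸ p'
  by_cases hq : q = 2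
  · subst hq
    have c1 := card_le_two s2
    have c2 := card_le_of_le (show T ⊓ Nm(F) ≤ B from fun t ht => h.inB ht.1 fun E hE =>
      (px E hE).t1 (S := T ⊓ Nm(E)) h.syl.pgrp.to_inf_left inf_le_right (inf_le_left.trans h.TB)
        (mi ht.1 (s3 t ht.1 ht.2 E hE)) fun v hv => comm_of_two (idx_of_card (px E hE).cV)
          (Nm_le_Nm_bV E (s3 t ht.1 ht.2 E hE)) (mem_Nm_Cz (h.TB ht.1)) hv)
    have c3 := p.cB
    have c4 := (px F' hF').card_le (inf_le_left : B ⊓ Cz(bV 2 F) ≤ B)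
    have c5 := card_le_of_le (show B ⊓ Cz(bV 2 F) ⊓ Cz(bV 2 F') ≤ bV 2 F ⊔ bV 2 F' from fun x hx =>
      PW_le.2 (fun E hE => (k E hE).elim (fun a => a ▸ le_sup_left) fun a => a ▸ le_sup_right)
        (h.eR.le (mi (h.BT hx.1.1) (h.inCW fun E hE =>
          (k E hE).elim (fun a => a ▸ hx.1.2) fun a => a ▸ hx.2))))
    have c6 := card_sup_mul_card_inf (p.VB.trans hF'.1.nV)
    rw [p.cV, (px F' hF').cV, h.cU hF p, h.cU hF' (px F' hF')] at c6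
    have c7 := (Nat.le_mul_of_pos_right _ Nat.card_pos).trans c6.le
    exact Or.inr (Or.inl (by omega))
  exfalso
  have q3 : 2 < q := lt_of_le_of_ne p.q2 (Ne.symm hq)
  obtain ⟨E, e1, e2, e3, e4⟩ := h.exU
  have UQ := nclo_le h.nQ e2
  have VQ := fun F (hF : F ∈ PS B M) => h.VQ UQ e3 e4 hF
  refine e4 (nclo_le_iff'.2 fun g hg u hu => ?_)
  have i2 : ∀ s ∈ pCoreOf 2 P, ∀ t ∈ pCoreOf 2 P, ⁅u, s⁆ = 1 ∨ ⁅u, t⁆ = 1 ∨ ⁅u, s * t⁆ = 1 := by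
    have k1 : ∀ s ∈ pCoreOf 2 P, g⁻¹ * s * g ∈ Nm(F) → ⁅u, s⁆ = 1 := fun s hs e => by
      have a := conj_mem_of_mem_normalizer' (h.nQ hg) hs
      have := comm_eq_one (OZ_le_Cz B (e1 (mem_cj.1 hu))) (h.QB VQ a (s3 _ (h.QT a) e))
      rw [← conj_comm_el, mul_assoc, inv_mul_eq_one, eq_comm, mul_eq_right] at this
      exact this
    intro s hs t ht
    by_contra c
    push Not at c
    refine c.2.2 (k1 _ (mul_mem hs ht) ?_)
    rw [show g⁻¹ * (s * t) * g = g⁻¹ * s * g * (g⁻¹ * t * g) by group]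
    exact s2 _ (h.QT (conj_mem_of_mem_normalizer' (h.nQ hg) hs)) _
      (h.QT (conj_mem_of_mem_normalizer' (h.nQ hg) ht)) (mt (k1 s hs) c.1) (mt (k1 t ht) c.2.1)
  refine h.fin1 VQ (UQ (cj_le_nclo hg hu)) (fun X hX => ?_) fun uB X hX a ha n => ?_
  · obtain ⟨a, ha, n⟩ := h.sw VQ hX
    obtain ⟨v, hv, w, hw, n1, n2, n3⟩ := exists_three (A := bV 2 X ⊓ Cz(B)) (E := ⊥) (by
      rwa [inf_bot_eq, card_bot, h.cU hX (px X hX)])
    rcases i2 v (h.UX hX ha n hv) w (h.UX hX ha n hw) with e | e | e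
    exacts [⟨v, hv, n1, e⟩, ⟨w, hw, n2, e⟩, ⟨_, mul_mem hv hw, n3, e⟩]
  · obtain ⟨v, hv, w, hw, n1, n2, n3⟩ := exists_three (A := bV 2 X) (E := Cz(B)) (by
      rw [(px X hX).cV]; exact Nat.mul_lt_mul_of_lt_of_le q3 le_rfl Nat.card_pos)
    have m := fun y (hy : y ∈ bV 2 X) => commutator_mem_left ha (h.nQ (h.TP (h.BT (hX.1.VB hy))))
    rcases i2 _ (m v hv) _ (m w hw) with e | e | e
    exacts [⟨v, hv, n1, e⟩, ⟨w, hw, n2, e⟩, ⟨_, mul_mem hv hw, n3, by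
      rwa [comm_mul_right' (h.WV hX (commutator_mem_right (le_PW hX hw) (h.TH (h.QT ha))) v hv)]⟩]

end PA2

theorem PA.res (h : PA M B T P) : Res T := by
  obtain ⟨F, hF⟩ := h.ex
  by_cases c : ∀ E ∈ PS B M, E = F
  · exact h.one hF c
  push Not at c
  obtain ⟨E, hE, n⟩ := c
  have k : PA2 M B T P := ⟨h, fun X _ => (eq_or_ne X F).elim (fun e => ⟨E, hE, e ▸ n⟩)
    fun e => ⟨F, hF, e.symm⟩⟩
  by_contra r
  refine k.three fun X hX Y hY => by_contra fun c => r (k.pair hX hY fun Z hZ => by_contra fun d => c ?_)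
  exact ⟨Z, hZ, not_or.1 d⟩

end CfH7
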