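import Cfsg.Agent.OD.Pre
import Cfsg.Agent.H7.GC14

/-! The global `C*(G,T)` theorem for the prime two. -/

set_option autoImplicit false
set_option linter.unusedSectionVars false
set_option maxHeartbeats 400000

open Cfsg Subgroup CfH9 CfLp Equiv
open scoped commutatorElement MatrixGroups

namespace CfH7

open CfH8 (BB JJ MaxEl)

universe u

variable {G : Type u} [Group G] [Finite G] {q : ℕ} {T B F M R : Subgroup G}

theorem GS.split (h : GS M B T) (hO : pResidual 2 G = ⊤) : Res T ∨ CC M B T :=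
  or_iff_not_imp_left.2 fun n => ⟨h, fun _ a _ b => by_contra fun c => n (h.caseN hO a b c)⟩

theorem CC.res (h : CC M B T) (hO : pResidual 2 G = ⊤) (n : ¬ cStarOf 2 T ≤ Nm(PW B M)) : Res T := by
  by_cases z : Cz(OZ 2 T) ≤ Nm(PW B M)
  · obtain ⟨C, c1, c2, c3, c4⟩ : ∃ C, C ≤ BB 2 T ∧ C ≠ ⊥ ∧ (C.subgroupOf (BB 2 T)).Characteristic ∧
        ¬ Nm(C) ≤ Nm(PW B M) := by
      by_contra k
      push Not at k
      exact n (cs_le z k)
    obtain ⟨P, -, p⟩ := h.exists_pp (h.syl.pgrp.to_le (c1.trans (CfH8.B_le T))) c2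
      ((le_normalizer.trans (CfH8.Nm_le_Nm_B T)).trans (by
        simpa only [map_sub c1] using Nm_le_Nm_char _ (hK := c3))) le_rfl c4
    obtain ⟨q, L, b⟩ := p.exists_pb z
    exact b.res hO
  · obtain ⟨P, l, p⟩ := h.exists_pp (elemAb_isPGroup (elemAb_OZ T)) (OZ_ne_bot h.syl.pgrp
      (ne_bot_of_le h.BT h.ne)) (le_Cz_OZ T) (Cz_le_Nm _) z
    exact PA.res ⟨p, l⟩

theorem global_cs (loc : ∀ X : Subgroup G, IsPGroup 2 X → X ≠ ⊥ → ChP 2 Nm(X)) (hT : SylIn 2 T ⊤)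
    (hne : T ≠ ⊥) (h1 : pCore 2 G = ⊥) (hO : pResidual 2 G = ⊤) (hC : cStarOf 2 T ≠ ⊤) :
    (∃ H : Subgroup G, IsStronglyEmbedded H) ∨ Res T := by
  rcases exists_gs loc hT hne le_rfl hC with e | ⟨B, g⟩
  · exact Or.inl ⟨_, e⟩
  rcases g.split hO with e | c
  · exact Or.inr e
  by_cases n : cStarOf 2 T ≤ Nm(PW B (cStarOf 2 T))
  swap
  · exact Or.inr (c.res hO n)
  rcases exists_gs loc hT hne n (fun e => c.W0 (le_bot_iff.1 ((le_pCore
    (normal_of_top_le_normalizer e.ge) c.pW).trans h1.le))) with e | ⟨B', g'⟩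
  · exact Or.inl ⟨_, e⟩
  refine Or.inr ((g'.split hO).resolve_right fun c' => ?_)
  obtain rfl := c'.eT.symm.trans c.eT
  obtain ⟨F, hF⟩ := c'.ex
  exact hF.2 (c.FW ⟨hF.1, fun e => hF.2 (e.trans n)⟩)

theorem TW.cls (w : TW q T F R) [Group.IsNilpotent T] : Group.nilpotencyClass T = 2 := by
  refine le_antisymm (Subgroup.lowerCentralSeries_eq_bot_iff_nilpotencyClass_le.1 ?_) 
    (Nat.succ_le_of_lt (not_le.1 fun e => w.nC ?_))
  · rw [← map_eq_bot_iff_of_injective _ T.subtype_injective, top_subtype_lowerCentralSeries]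
    exact comm_eq_bot_left.2 (w.cmD.trans w.DZ)
  · exact (comm_eq_bot_left.1 (Subgroup.lowerCentralSeries_eq_bot_of_nilpotencyClass_le e)).trans (Cz_anti w.VB)

end CfH7
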