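import Cfsg.Agent.OD.Pre
import Cfsg.Agent.H7.PIrr
import Cfsg.Agent.H7.FStar
import Cfsg.Agent.H8.Gaschuetz
import Cfsg.Agent.H8.Coprime2
import Cfsg.Agent.H1.Frattini
import Cfsg.Agent.H1.MinNormal

/-!
Isolated `p`-minimal subgroups.
-/

set_option autoImplicit false
set_option linter.unusedSectionVars false
set_option linter.unusedVariables false
open Cfsg Subgroup CfH9
open scoped commutatorElement

namespace CfH7

variable {G : Type*} [Group G] [Finite G] {p : ℕ} [Fact p.Prime]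

theorem le_of_pMinimal_le {S X : Subgroup G} (hS : SylIn p S ⊤) (H : Subgroup G) (hSH : S ≤ H)
    (h1 : H ⊓ Nm(S) ≤ X) (h2 : ∀ P, S ≤ P → P ≤ H → IsPMinimal p P → P ≤ X) : H ≤ X := by
  induction H using WellFoundedLT.induction with
  | ind H ih =>
  by_contra hc
  have hSX : S ≤ X := (le_inf hSH le_normalizer).trans h1
  have hu : UMax S H (H ⊓ X) := ⟨le_inf hSH hSX, lt_of_le_of_ne inf_le_left fun e => hc
    (e.ge.trans inf_le_right), fun K hK hKH => le_inf hKH.le (ih K hKH hK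
      ((inf_le_inf_right _ hKH.le).trans h1) fun P a b c => h2 P a (b.trans hKH.le) c)⟩
  have hS' := hS.mono hSH le_top
  refine hc (h2 H hSH le_rfl ((isPMinimal_subgroup_iff hS').mpr ⟨H ⊓ X, hu, ?_⟩))
  refine hu.eq_of_not_le (le_nclo _ _) (nclo_le_of_le hSH) fun e => hc ?_
  exact ((hS'.mono (le_nclo _ _) (nclo_le_of_le hSH)).frattini_sup (right_le_Nm_nclo _ _)
    (nclo_le_of_le hSH)).ge.trans (sup_le (e.trans inf_le_right) h1)

structure Isol (p : ℕ) (S P L A : Subgroup G) : Prop where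
  syl : SylIn p S ⊤
  SP : S ≤ P
  SL : S ≤ L
  dich : ∀ H, S ≤ H → P ≤ H ∨ H ≤ L
  gen : P ⊔ L = ⊤
  pA : IsPGroup p A
  nA : L ≤ Nm(A)
  nO : ¬ A ≤ pCoreOf p P

theorem isol_of (S : Sylow p G) {P L : Subgroup G} (hSP : (S : Subgroup G) ≤ P)
    (hL : L = Nm((S : Subgroup G)) ⊔ ⨆ P' : {P' : Subgroup G // (S : Subgroup G) ≤ P' ∧
      IsPMinimal p ↥P' ∧ P' ≠ P}, (P' : Subgroup G))
    (hiso : ¬ pCoreOf p L ≤ pCoreOf p P) : Isol p S P L (pCoreOf p L) := by
  have h1 : Nm((S : Subgroup G)) ≤ L := hL ▸ le_sup_left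
  have h2 : ∀ P', (S : Subgroup G) ≤ P' → IsPMinimal p P' → P' ≠ P → P' ≤ L := fun P' a b c =>
    hL ▸ le_sup_of_le_right (le_iSup_of_le (⟨P', a, b, c⟩ : {P' : Subgroup G //
      (S : Subgroup G) ≤ P' ∧ IsPMinimal p ↥P' ∧ P' ≠ P}) le_rfl)
  refine ⟨sylIn_top S, hSP, le_normalizer.trans h1, fun H hH => ?_, top_le_iff.mp ?_,
    isPGroup_pCoreOf _, le_normalizer_pCoreOf _, hiso⟩
  · by_cases h : P ≤ H
    · exact Or.inl h
    · exact Or.inr (le_of_pMinimal_le (sylIn_top S) H hH (inf_le_right.trans h1)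
        fun P' a b c => h2 P' a c fun e => h (e ▸ b))
  · refine le_of_pMinimal_le (sylIn_top S) ⊤ le_top (inf_le_right.trans (h1.trans le_sup_right))
      fun P' a _ c => ?_
    by_cases h : P' = P
    · exact h ▸ le_sup_left
    · exact (h2 P' a c h).trans le_sup_right

namespace Isol

variable {S P L A : Subgroup G}

theorem AS (h : Isol p S P L A) : A ≤ S := h.syl.le_of_le_Nm h.pA le_top (h.SL.trans h.nA)

theorem map (h : Isol p S P L A) (Q : Subgroup G) [Q.Normal] (hQ : IsPGroup p Q) :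
    Isol p (S.map (QuotientGroup.mk' Q)) (P.map (QuotientGroup.mk' Q)) (L.map (QuotientGroup.mk' Q))
      (A.map (QuotientGroup.mk' Q)) := by
  have hs := QuotientGroup.mk'_surjective Q
  refine ⟨h.syl.map_surj hs, map_mono h.SP, map_mono h.SL, fun H hH => ?_, ?_, h.pA.map _,
    map_le_Nm_map h.nA _, fun e => h.nO ((map_le_pCoreOf_iff (h.AS.trans h.SP) ?_).mp e)⟩
  · rcases h.dich (H.comap (QuotientGroup.mk' Q)) (map_le_iff_le_comap.mp hH) with e | e
    · exact Or.inl (map_le_iff_le_comap.mpr e)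
    · exact Or.inr ((map_comap_eq_self_of_surjective hs H).ge.trans (map_mono e))
  · rw [← Subgroup.map_sup, h.gen]; exact map_top_of_surjective _ hs
  · rw [QuotientGroup.ker_mk']; exact hQ.to_le inf_le_right

theorem K_sup (h : Isol p S P L A) : pResidualOf p P ⊔ S = P :=
  sylIn_pResidualOf_sup (h.syl.mono h.SP le_top)

theorem not_K_le (h : Isol p S P L A) : ¬ pResidualOf p P ≤ L := fun e =>
  h.nO (le_pCoreOf (h.AS.trans h.SP) ((h.K_sup.ge.trans (sup_le e h.SL)).trans h.nA) h.pA)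

theorem dichS (h : Isol p S P L A) {X : Subgroup G} (hX : S ≤ Nm(X)) :
    pResidualOf p P ≤ X ∨ X ≤ L :=
  (h.dich (X ⊔ S) le_sup_right).imp (pResidualOf_le_of_le_sup h.syl.pgrp hX) le_sup_left.trans

theorem dichN (h : Isol p S P L A) (X : Subgroup G) [X.Normal] :
    nclo (pResidualOf p P) ⊤ ≤ X ∨ X ≤ L :=
  (h.dichS (le_Nm_normal _ _)).imp (nclo_le (top_le_Nm X)) id

theorem not_Y_le (h : Isol p S P L A) : ¬ nclo (pResidualOf p P) ⊤ ≤ L := fun e =>
  h.not_K_le ((le_nclo _ _).trans e)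

theorem Y_sup (h : Isol p S P L A) : nclo (pResidualOf p P) ⊤ ⊔ L = ⊤ :=
  top_le_iff.mp (h.gen.ge.trans (sup_le (h.K_sup.ge.trans (sup_le_sup (le_nclo _ _) h.SL))
    le_sup_right))

theorem K_le_nclo (h : Isol p S P L A) : pResidualOf p P ≤ nclo A P := by
  refine (h.dichS (h.SP.trans (right_le_Nm_nclo _ _))).resolve_right fun e => h.nO ?_
  exact ((subnIn_of_normal (le_nclo A P) (e.trans h.nA)).trans (subnIn_of_normal
    (nclo_le_of_le (h.AS.trans h.SP)) (right_le_Nm_nclo _ _))).le_pCoreOf h.pA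

theorem comm_K (h : Isol p S P L A) : ⁅pResidualOf p P, A⁆ = pResidualOf p P :=
  commutator_pResidualOf_eq (pResidualOf_pResidualOf P) h.pA
    ((h.AS.trans h.SP).trans (le_normalizer_pResidualOf P))
    (h.K_le_nclo.trans (SylIn.nclo_eq (h.syl.mono h.SP le_top) (h.SL.trans h.nA)).le)

theorem comm_Y (h : Isol p S P L A) :
    ⁅nclo (pResidualOf p P) ⊤, A⁆ = nclo (pResidualOf p P) ⊤ := by
  refine le_antisymm (comm_le_left (le_Nm_normal _ _)) (nclo_le ?_
    (h.comm_K.ge.trans (commutator_mono (le_nclo _ _) le_rfl)))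
  exact h.Y_sup.ge.trans (sup_le (left_le_Nm_comm _ _)
    (le_normalizer_commutator (le_Nm_normal _ _) h.nA))

theorem comm_bot (h : Isol p S P L A) (hO : pCore p G = ⊥) {X : Subgroup G} (hX : X.IsSubnormal)
    (hS : S ≤ Nm(X)) (hL : X ≤ L) : ⁅X, A⁆ = ⊥ := by
  have h1 : ⁅X, A⁆ ≤ X ⊓ A := le_inf (comm_le_left (h.AS.trans hS)) (comm_le_right (hL.trans h.nA))
  have h2 := le_pCore_of_subnormal ((subnIn_of_normal (inf_le_left : X ⊓ A ≤ X)
    (le_normalizer_inf le_normalizer (hL.trans h.nA))).isSubnormal hX) (h.pA.to_le inf_le_right)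
  exact le_bot_iff.mp (h1.trans (h2.trans hO.le))

theorem comm_Y_bot (h : Isol p S P L A) (hO : pCore p G = ⊥) (X : Subgroup G) [hX : X.Normal]
    (hL : X ≤ L) : ⁅X, nclo (pResidualOf p P) ⊤⁆ = ⊥ := by
  have h1 := comm_eq_bot_right.mp (h.comm_bot hO hX.isSubnormal (le_Nm_normal _ _) hL)
  refine comm_eq_bot_right.mpr (nclo_le (le_normalizer_centralizer (top_le_Nm X))
    (h.K_le_nclo.trans (nclo_le_Cz (le_Nm_normal _ _) h1)))

theorem Y_le_fstar (h : Isol p S P L A) (hO : pCore p G = ⊥) :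
    nclo (pResidualOf p P) ⊤ ≤ generalizedFittingSubgroup G := by
  refine (h.dichN _).resolve_right fun e => h.not_Y_le ?_
  exact ((comm_eq_bot_right.mp (h.comm_Y_bot hO _ e)).trans centralizer_fstar_le).trans e

theorem Y_cases (h : Isol p S P L A) (hO : pCore p G = ⊥) :
    (∃ t : ℕ, t.Prime ∧ t ≠ p ∧ IsPGroup t (nclo (pResidualOf p P) ⊤)) ∨
      layerOf (nclo (pResidualOf p P) ⊤) = nclo (pResidualOf p P) ⊤ := by
  by_contra hc
  push Not at hc
  have h1 : layerOf (nclo (pResidualOf p P) ⊤) ≤ L :=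
    (h.dichN _).resolve_left fun e => hc.2 (le_antisymm (layerOf_le _) e)
  have h2 : fittingSubgroup G ≤ L := by
    rw [fitting_eq_iSup]
    refine iSup_le fun t => (h.dichN _).resolve_left fun e => ?_
    refine hc.1 t t.2 (fun e' => h.not_Y_le ?_) ((isPGroup_pCore _ _).to_le e)
    rw [e', hO] at e
    exact e.trans bot_le
  refine h.not_Y_le ((eq_layerOf_sup_of_le_fstar (nclo_top_normal _).isSubnormal
    (h.Y_le_fstar hO)).le.trans (sup_le h1 (inf_le_right.trans h2)))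

theorem pgroup_of_coprime (h : Isol p S P L A)
    (hc : (Nat.card (nclo (pResidualOf p P) ⊤)).Coprime p) :
    ∃ t : ℕ, t.Prime ∧ t ≠ p ∧ IsPGroup t (nclo (pResidualOf p P) ⊤) := by
  set Y := nclo (pResidualOf p P) ⊤ with hY
  have hcop : (Nat.card S).Coprime (Nat.card Y) :=
    (CfH8.coprime_card_of_isPGroup' h.syl.pgrp hc).symm
  have hsyl : ∀ (t : ℕ) [Fact t.Prime], ∃ R, SylIn t R Y ∧ S ≤ Nm(R) := fun t _ =>
    CfH8.exists_invariant_sylIn t (le_Nm_normal _ _) hcop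
      (Or.inl (CfH8.isSolvable_of_isPGroup h.syl.pgrp))
  have hcen : ∀ X, X ≤ Y → S ≤ Nm(X) → X ≤ L → X ≤ Cz(A) := fun X h1 h2 h3 => by
    refine comm_eq_bot_left.mp (le_bot_iff.mp ?_)
    refine (le_inf (comm_le_right (h3.trans h.nA)) ((comm_le_left (h.AS.trans h2)).trans h1)).trans ?_
    exact (disjoint_of_isPGroup_of_coprime h.pA hc).le_bot
  have hex : ∃ t : ℕ, t.Prime ∧ ∃ R, SylIn t R Y ∧ S ≤ Nm(R) ∧ ¬ R ≤ L := by
    by_contra hn
    push Not at hn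
    refine h.not_Y_le (le_of_forall_sylIn fun q hq _ => ?_)
    have := Fact.mk hq
    obtain ⟨R, h1, h2⟩ := hsyl q
    exact ⟨R, h1, hn q hq R h1 h2⟩
  obtain ⟨t, ht, R, hR, hSR, hRL⟩ := hex
  have := Fact.mk ht
  have hK : pResidualOf p P ≤ R := (h.dichS hSR).resolve_right hRL
  have hne : t ≠ p := by
    rintro rfl
    exact hRL ((eq_bot_of_isPGroup_of_coprime hR.pgrp (coprime_card_of_le hR.le hc)).le.trans bot_le)
  refine ⟨t, ht, hne, hR.pgrp.to_le (h.comm_Y.ge.trans ?_)⟩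
  have hco : (Cz(A).relIndex Y).Coprime (R.relIndex Y) := by
    refine Nat.coprime_of_dvd fun r hr h1 h2 => ?_
    have := Fact.mk hr
    by_cases e : r = t
    · subst e; exact hR.not_dvd_relIndex h2
    obtain ⟨R', h3, h4⟩ := hsyl r
    rcases h.dichS h4 with h5 | h5
    · refine h.not_K_le ((eq_bot_of_isPGroup_of_coprime (hR.pgrp.to_le hK)
        (coprime_card_of_isPGroup_of_ne e (h3.pgrp.to_le h5))).le.trans bot_le)
    · exact h3.not_dvd_relIndex_of_le (hcen R' h3.le h4 h5) h1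
  rw [commutator_le]
  intro y hy a ha
  obtain ⟨r, hr, c, hc', rfl⟩ := CfH1.exists_mul_of_coprime_relIndex hco.symm hy
  have e1 : a * c = c * a := mem_centralizer_iff.mp hc'.1 a ha
  have e2 : ⁅r * c, a⁆ = ⁅r, a⁆ := by
    simp only [commutatorElement_def, _root_.mul_inv_rev]
    rw [mul_assoc r c a, ← e1]; group
  rw [e2]
  exact comm_le_left (h.AS.trans hSR) (commutator_mem_commutator hr.1 ha)

theorem eq_of_pgroup (h : Isol p S P L A) (hO : pCore p G = ⊥) {t : ℕ} (ht : t.Prime) (hne : t ≠ p)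
    (hp : IsPGroup t (nclo (pResidualOf p P) ⊤)) :
    nclo (pResidualOf p P) ⊤ = pResidualOf p P ∧
      ⁅⁅nclo (pResidualOf p P) ⊤, nclo (pResidualOf p P) ⊤⁆, nclo (pResidualOf p P) ⊤⁆ = ⊥ := by
  have := Fact.mk ht
  set K := pResidualOf p P with hK
  set Y := nclo K ⊤ with hY
  set F := (frattini Y).map Y.subtype with hF
  have hFn : F.Normal := normal_map_subtype_of_characteristic _
  have hFY : F ≤ Y := map_subtype_le _
  have hYY : ⁅Y, Y⁆ ≤ F := CfH1.commutator_le_frattiniOf hp.isNilpotent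
  have hKY : K ≤ Y := le_nclo _ _
  have hFL : F ≤ L := (h.dichN F).resolve_left fun e => h.not_Y_le
    ((CfH1.eq_of_sup_eq_of_le_frattiniOf (K := ⊥) le_rfl
      (le_antisymm (sup_le hFY bot_le) (le_sup_of_le_left e))).ge.trans bot_le)
  refine ⟨?_, le_bot_iff.mp ((commutator_mono hYY le_rfl).trans (h.comm_Y_bot hO F hFL).le)⟩
  let π := QuotientGroup.mk' F
  have hV : IsElementaryAbelian t (Y.map π) := by
    refine ⟨comm_iff.mpr ?_, ?_⟩
    · rintro _ ⟨a, ha, rfl⟩ _ ⟨b, hb, rfl⟩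
      rw [← commutatorElement_eq_one_iff_mul_comm, ← map_commutatorElement]
      exact (QuotientGroup.eq_one_iff _).mpr (hYY (commutator_mem_commutator ha hb))
    · rintro _ ⟨a, ha, rfl⟩
      rw [← map_pow]
      exact (QuotientGroup.eq_one_iff _).mpr (CfH1.pow_mem_frattiniOf hp ha)
  obtain ⟨W, hW1, hW2, hW3⟩ := CfH8.maschke (U := K.map π) (A := S.map π) hV
    (coprime_card_map π (coprime_card_of_isPGroup_of_ne hne.symm h.syl.pgrp))
    (map_le_Nm_map (le_Nm_normal _ _) π)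
    (map_le_Nm_map (h.SP.trans (le_normalizer_pResidualOf P)) π) (map_mono hKY)
  have hs := QuotientGroup.mk'_surjective F
  have hk : π.ker = F := QuotientGroup.ker_mk' F
  set X := W.comap π with hX
  have hXY : X ≤ Y := by
    refine (comap_mono (hW3 ▸ le_sup_right : W ≤ Y.map π)).trans ?_
    rw [comap_map_eq, hk]; exact sup_le le_rfl hFY
  have hSX : S ≤ Nm(X) := (map_le_iff_le_comap.mp hW1).trans (le_normalizer_comap π)
  have hXL : X ≤ L := (h.dichS hSX).resolve_left fun e => h.not_K_le (le_trans ?_ hFL)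
  swap
  · rw [← hk, ← Subgroup.map_eq_bot_iff, eq_bot_iff]
    exact (le_inf le_rfl (map_le_iff_le_comap.mpr e)).trans hW2.le
  have hXA : ⁅X, A⁆ = ⊥ := h.comm_bot hO
    ((subnIn_of_isPGroup hp hXY).isSubnormal (nclo_top_normal K).isSubnormal) hSX hXL
  have hYle : Y ≤ K ⊔ X := by
    have e1 : Y.map π ≤ (K ⊔ X).map π := by
      rw [Subgroup.map_sup, hX, map_comap_eq_self_of_surjective hs, hW3]
    rw [Subgroup.map_le_map_iff, hk] at e1
    exact e1.trans (sup_le le_rfl (le_sup_of_le_right (hk.ge.trans (ker_le_comap π W))))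
  have hN : Y ≤ Nm(F ⊔ K) := le_Nm_of_comm_le_left
    ((commutator_mono (sup_le hFY hKY) le_rfl).trans (hYY.trans le_sup_left))
  refine (CfH1.eq_of_sup_eq_of_le_frattiniOf (N := F) le_rfl (le_antisymm (sup_le hFY hKY) ?_)).symm
  refine h.comm_Y.ge.trans ((commutator_mono hYle le_rfl).trans (commutator_sup_left_le
    (hKY.trans hN) (hXY.trans hN) ?_ (hXA.le.trans bot_le)))
  exact h.comm_K.le.trans le_sup_right

theorem comp_conj (h : Isol p S P L A) (hO : pCore p G = ⊥)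
    (hE : layerOf (nclo (pResidualOf p P) ⊤) = nclo (pResidualOf p P) ⊤) {K₁ K₂ : Subgroup G}
    (h1 : IsComponent K₁) (h2 : IsComponent K₂) (h1' : K₁ ≤ nclo (pResidualOf p P) ⊤)
    (h2' : K₂ ≤ nclo (pResidualOf p P) ⊤) : ∃ s ∈ S, K₂ = cj s K₁ := by
  set K := pResidualOf p P with hK
  set Y := nclo K ⊤ with hY
  have hYn : Y.Normal := nclo_top_normal K
  have hperf : ⁅Y, Y⁆ = Y := by rw [← hE]; exact layerOf_perfect _
  have hYc : ∀ X : Subgroup G, (∀ C, IsComponent C → C ≤ Y → C ≤ X) → Y ≤ X := fun X hX =>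
    hE.ge.trans (layerOf_le_iff.mpr fun C a b => hX C ⟨a.isSubnormal hYn.isSubnormal, b⟩ a.le)
  have hYE : Y ≤ layer G := hYc _ fun C a _ => le_layer a
  have hnZ : ¬ K ≤ Cz(Y) := fun e => by
    have e1 : Y ≤ Cz(Y) := nclo_le (le_normalizer_centralizer (top_le_Nm Y)) e
    exact h.not_Y_le ((hperf.symm.trans (comm_eq_bot_left.mpr e1)).le.trans bot_le)
  -- the product of a family of components of `Y` is normalized by `Y`
  have hfam : ∀ 𝒞 : Set (Subgroup G), (∀ C ∈ 𝒞, IsComponent C) → Y ≤ Nm(sSup 𝒞) := fun 𝒞 h𝒞 => by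
    refine le_Nm_of_comm_le_left ?_
    rw [sSup_eq_iSup']
    exact commutator_iSup_le_of_le_normalizer (fun C => (le_iSup (fun C : 𝒞 => (C : Subgroup G)) C).trans
      le_normalizer) fun C => (comm_le_left (hYE.trans
        (layer_le_normalizer_component (h𝒞 C C.2)))).trans (le_iSup (fun C : 𝒞 => (C : Subgroup G)) C)
  have hinv : ∀ (𝒞 : Set (Subgroup G)) (X : Subgroup G), (∀ g ∈ X, ∀ C ∈ 𝒞, cj g C ∈ 𝒞) →
      X ≤ Nm(sSup 𝒞) := fun 𝒞 X hX g hg => by
    apply mem_normalizer_of_cj_le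
    rw [cj_le_iff]
    exact sSup_le fun C hC => cj_le_iff.mp (le_sSup (hX g hg C hC))
  have hcjY : ∀ g C, C ≤ Y → cj g C ≤ Y := fun g C hC => (cj_mono g hC).trans (cj_normal g Y).le
  -- no component of `Y` is centralized by `A`
  have hnc : ∀ C, IsComponent C → C ≤ Y → ¬ C ≤ Cz(A) := fun C hC hCY hCA => by
    let 𝒞 : Set (Subgroup G) := {C | IsComponent C ∧ C ≤ Y ∧ C ≤ Cz(A)}
    have hD : (sSup 𝒞).Normal := normal_of_top_le_normalizer (h.Y_sup.ge.trans (sup_le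
      (hfam 𝒞 fun C a => a.1) (hinv 𝒞 L fun g hg C a => ⟨component_conj a.1 g, hcjY g C a.2.1,
        (cj_mono g a.2.2).trans (cj_eq_of_mem_normalizer
          (le_normalizer_centralizer h.nA hg)).le⟩)))
    have hCD : C ≤ sSup 𝒞 := le_sSup ⟨hC, hCY, hCA⟩
    rcases h.dichN (sSup 𝒞) with e | e
    · have e1 : Y ≤ Cz(A) := e.trans (sSup_le fun C a => a.2.2)
      exact h.not_Y_le ((h.comm_Y.symm.trans (comm_eq_bot_left.mpr e1)).le.trans bot_le)
    · exact qs_not_le_centralizer hC.2 (hCD.trans ((comm_eq_bot_left.mp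
        (h.comm_Y_bot hO _ e)).trans (centralizer_anti hCY)))
  have hfamK : ∀ (𝒞 : Set (Subgroup G)) (C : Subgroup G), C ∈ 𝒞 →
      (∀ C ∈ 𝒞, IsComponent C ∧ C ≤ Y) → (∀ g ∈ S, ∀ C ∈ 𝒞, cj g C ∈ 𝒞) → K ≤ sSup 𝒞 :=
    fun 𝒞 C hC h3 h4 => (h.dichS (hinv 𝒞 S h4)).resolve_right fun e => by
      refine hnc C (h3 C hC).1 (h3 C hC).2 ((le_sSup hC).trans (comm_eq_bot_left.mp
        (h.comm_bot hO ?_ (hinv 𝒞 S h4) e)))
      exact (subnIn_of_normal (sSup_le fun C a => (h3 C a).2)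
        (hfam 𝒞 fun C a => (h3 C a).1)).isSubnormal hYn.isSubnormal
  by_contra hn
  let 𝒞₁ : Set (Subgroup G) := {C | ∃ s ∈ S, C = cj s K₁}
  let 𝒞₂ : Set (Subgroup G) := {C | (IsComponent C ∧ C ≤ Y) ∧ C ∉ 𝒞₁}
  have hc1 : ∀ C ∈ 𝒞₁, IsComponent C ∧ C ≤ Y := by
    rintro _ ⟨s, hs, rfl⟩; exact ⟨component_conj h1 s, hcjY s _ h1'⟩
  have hi1 : ∀ g ∈ S, ∀ C ∈ 𝒞₁, cj g C ∈ 𝒞₁ := by
    rintro g hg _ ⟨s, hs, rfl⟩; exact ⟨g * s, S.mul_mem hg hs, (cj_mul _ _ _).symm⟩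
  have a1 : K ≤ sSup 𝒞₁ := hfamK 𝒞₁ K₁ ⟨1, S.one_mem, (cj_one _).symm⟩ hc1 hi1
  have a2 : K ≤ sSup 𝒞₂ := hfamK 𝒞₂ K₂ ⟨⟨h2, h2'⟩, hn⟩ (fun C a => a.1) fun g hg C a =>
    ⟨⟨component_conj a.1.1 g, hcjY g C a.1.2⟩, fun e => a.2 (by
      have := hi1 g⁻¹ (S.inv_mem hg) _ e
      rwa [cj_inv_cj] at this)⟩
  have a3 : ∀ C ∈ 𝒞₁, ∀ D ∈ 𝒞₂, C ≤ Cz(D) := fun C hC D hD => comm_eq_bot_left.mp
    ((component_eq_or_commutator_eq_bot (hc1 C hC).1 hD.1.1).resolve_left fun e => hD.2 (e ▸ hC))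
  refine hnZ (le_Cz_comm (hYc _ fun C hC hCY => le_Cz_comm ?_))
  by_cases e : C ∈ 𝒞₁
  · exact a2.trans (sSup_le fun D hD => le_Cz_comm (a3 C e D hD))
  · exact a1.trans (sSup_le fun D hD => a3 D hD C ⟨⟨hC, hCY⟩, e⟩)

end Isol

end CfH7
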