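import Cfsg.Agent.OD.Pre
import Cfsg.Agent.H7.Isol

/-!
Isolated `p`-minimal subgroups: transfer from `G / O_p(G)`.
-/

set_option autoImplicit false
set_option linter.unusedSectionVars false
set_option linter.unusedVariables false
open Cfsg Subgroup CfH9
open scoped commutatorElement

namespace CfH7

variable {G : Type*} [Group G] [Finite G] {p : ℕ} [Fact p.Prime]

theorem exists_quot_emb (Y : Subgroup G) [hY : Y.Normal] :
    ∃ φ : (Y ⧸ pCore p Y) →* G ⧸ pCore p G, Function.Injective φ ∧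
      ∀ y : Y, φ (QuotientGroup.mk y) = QuotientGroup.mk (y : G) := by
  have hk : ((QuotientGroup.mk' (pCore p G)).comp Y.subtype).ker = pCore p Y := by
    rw [← MonoidHom.comap_ker, QuotientGroup.ker_mk', ← subgroupOf_pCoreOf,
      pCoreOf_eq_inf_of_subnormal hY.isSubnormal, inf_subgroupOf_left]
    rfl
  refine ⟨QuotientGroup.lift _ ((QuotientGroup.mk' (pCore p G)).comp Y.subtype) hk.ge,
    ?_, fun y => rfl⟩
  rw [injective_iff_map_eq_one]
  intro x hx
  obtain ⟨y, rfl⟩ := QuotientGroup.mk_surjective x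
  rw [QuotientGroup.eq_one_iff, ← hk]
  exact hx

theorem pResidualOf_nclo_eq {K H : Subgroup G} (hK : pResidualOf p K = K) :
    pResidualOf p (nclo K H) = nclo K H :=
  le_antisymm (pResidualOf_le _) (nclo_le ((right_le_Nm_nclo _ _).trans
    (normalizer_le_normalizer_pResidualOf _)) (hK.ge.trans (pResidualOf_mono (le_nclo _ _))))

theorem Isol.main {S P L A Y : Subgroup G} (h : Isol p S P L A)
    (hY : Y = nclo (pResidualOf p P) ⊤) :
    pResidualOf p P ≤ (generalizedFittingSubgroup (G ⧸ pCore p G)).comap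
      (QuotientGroup.mk' (pCore p G)) ∧
    ((pResidualOf p P = Y ∧ ∃ t : ℕ, t.Prime ∧ t ≠ p ∧ IsPGroup t (Y ⧸ pCore p Y) ∧
      ∃ _ : Group.IsNilpotent (Y ⧸ pCore p Y), Group.nilpotencyClass (Y ⧸ pCore p Y) ≤ 2) ∨
    (¬ Group.IsSolvable Y ∧ p ∣ Nat.card (Y ⧸ pCore p Y) ∧ layer (Y ⧸ pCore p Y) = ⊤ ∧
      ∀ K₁ K₂ : Subgroup (Y ⧸ pCore p Y), IsComponent K₁ → IsComponent K₂ →
        ∃ s ∈ S, ((K₂.comap (QuotientGroup.mk' (pCore p Y))).map Y.subtype) =
          cj s ((K₁.comap (QuotientGroup.mk' (pCore p Y))).map Y.subtype))) := by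
  have hYn : Y.Normal := hY ▸ nclo_top_normal _
  set π := QuotientGroup.mk' (pCore p G) with hπ
  have hs : Function.Surjective π := QuotientGroup.mk'_surjective _
  have hk : π.ker = pCore p G := QuotientGroup.ker_mk' _
  have h' := h.map (pCore p G) (isPGroup_pCore p G)
  have hO := pCore_quotient_pCore p G
  have eK : pResidualOf p (P.map π) = (pResidualOf p P).map π := (map_pResidualOf P π).symm
  have eY : nclo (pResidualOf p (P.map π)) ⊤ = Y.map π := by
    rw [hY, map_nclo, eK, map_top_of_surjective _ hs]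
  have hKY : pResidualOf p P ≤ Y := hY ▸ le_nclo _ _
  obtain ⟨φ, hφ, hφ'⟩ := exists_quot_emb (p := p) Y
  have eT : (⊤ : Subgroup (Y ⧸ pCore p Y)).map φ = Y.map π := by
    ext x
    constructor
    · rintro ⟨z, -, rfl⟩
      obtain ⟨y, rfl⟩ := QuotientGroup.mk_surjective z
      exact ⟨y, y.2, (hφ' y).symm⟩
    · rintro ⟨y, hy, rfl⟩
      exact ⟨QuotientGroup.mk ⟨y, hy⟩, mem_top _, hφ' _⟩
  have eC : Nat.card (Y ⧸ pCore p Y) = Nat.card (Y.map π) := by
    rw [← eT, card_map_of_injective hφ, card_top]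
  refine ⟨map_le_iff_le_comap.mp ((map_mono hKY).trans (eY.ge.trans (h'.Y_le_fstar hO))), ?_⟩
  have hpg : (∃ t : ℕ, t.Prime ∧ t ≠ p ∧ IsPGroup t (nclo (pResidualOf p (P.map π)) ⊤)) →
      (pResidualOf p P = Y ∧ ∃ t : ℕ, t.Prime ∧ t ≠ p ∧ IsPGroup t (Y ⧸ pCore p Y) ∧
      ∃ _ : Group.IsNilpotent (Y ⧸ pCore p Y), Group.nilpotencyClass (Y ⧸ pCore p Y) ≤ 2) := by
    rintro ⟨t, ht, hne, hp⟩
    have := Fact.mk ht
    obtain ⟨h1, h2⟩ := h'.eq_of_pgroup hO ht hne hp
    rw [eY] at h1 h2 hp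
    have hp' : IsPGroup t (Y ⧸ pCore p Y) := by
      obtain ⟨n, hn⟩ := IsPGroup.iff_card.mp hp
      exact IsPGroup.iff_card.mpr ⟨n, eC.trans hn⟩
    refine ⟨le_antisymm hKY ?_, t, ht, hne, hp', hp'.isNilpotent, ?_⟩
    · have h3 : Y ≤ P := by
        have := h1.le
        rw [eK, Subgroup.map_le_map_iff, hk] at this
        exact this.trans (sup_le (pResidualOf_le _) ((h.syl.le_of_le_Nm (isPGroup_pCore _ _) le_top
          (le_Nm_normal _ _)).trans h.SP))
      have h4 : pResidualOf p Y = Y := hY ▸ pResidualOf_nclo_eq (pResidualOf_pResidualOf P)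
      exact h4.ge.trans (pResidualOf_mono h3)
    · have := hp'.isNilpotent
      rw [← Subgroup.lowerCentralSeries_eq_bot_iff_nilpotencyClass_le]
      change ⁅⁅(⊤ : Subgroup (Y ⧸ pCore p Y)), ⊤⁆, ⊤⁆ = ⊥
      rw [← Subgroup.map_eq_bot_iff_of_injective _ hφ, map_commutator, map_commutator, eT, h2]
  rcases h'.Y_cases hO with e | e
  · exact Or.inl (hpg e)
  by_cases hd : p ∣ Nat.card (Y ⧸ pCore p Y)
  swap
  · refine Or.inl (hpg (h'.pgroup_of_coprime ?_))
    rw [eY, ← eC]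
    exact ((Nat.Prime.coprime_iff_not_dvd Fact.out).mpr hd).symm
  refine Or.inr ⟨fun hsol => h'.not_Y_le ?_, hd, ?_, fun K₁ K₂ h1 h2 => ?_⟩
  · have h1 : ⁅Y.map π, Y.map π⁆ = Y.map π := by rw [← eY, ← e]; exact layerOf_perfect _
    rw [eY, eq_bot_of_perfect_of_isSolvable h1
      (Group.isSolvable_of_surjective (MonoidHom.subgroupMap_surjective π Y))]
    exact bot_le
  · rw [← layerOf_top]
    apply Subgroup.map_injective hφ
    rw [map_layerOf_of_injective _ hφ, eT, ← eY, e]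
  · have hc : ∀ C : Subgroup (Y ⧸ pCore p Y), IsComponent C → IsComponent (C.map φ) ∧
        C.map φ ≤ nclo (pResidualOf p (P.map π)) ⊤ := fun C hC => by
      have h3 := (subnIn_top_iff.mpr hC.1).map φ
      rw [eT, ← eY] at h3
      exact ⟨⟨h3.isSubnormal (nclo_top_normal _).isSubnormal, qs_map_of_injective hC.2 hφ⟩, h3.le⟩
    have hl : ∀ C : Subgroup (Y ⧸ pCore p Y),
        (C.comap (QuotientGroup.mk' (pCore p Y))).map Y.subtype = Y ⊓ (C.map φ).comap π := fun C => by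
      ext x
      constructor
      · rintro ⟨y, hy, rfl⟩
        exact ⟨y.2, _, hy, hφ' y⟩
      · rintro ⟨hx, z, hz, hz'⟩
        refine ⟨⟨x, hx⟩, ?_, rfl⟩
        have : z = QuotientGroup.mk ⟨x, hx⟩ := hφ (hz'.trans (hφ' ⟨x, hx⟩).symm)
        subst this
        exact hz
    obtain ⟨_, ⟨s, hs', rfl⟩, h3⟩ := h'.comp_conj hO e (hc K₁ h1).1 (hc K₂ h2).1 (hc K₁ h1).2
      (hc K₂ h2).2
    refine ⟨s, hs', ?_⟩
    rw [hl, hl, cj_inf, cj_normal, h3]
    congr 1
    ext x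
    simp only [mem_comap, mem_cj, map_mul, map_inv]
    rfl

end CfH7
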