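import Cfsg.Agent.OD.Pre
import Cfsg.Agent.H7.PGV1
import Cfsg.Agent.H5.Burnside

/-! Offenders and components, second part: two components swapped on a simple module. -/

set_option autoImplicit false
set_option linter.unusedSectionVars false

open Cfsg Subgroup CfH9
open scoped commutatorElement

namespace CfH7

section

variable {P : Type*} [Group P] {W : Type*} [AddCommGroup W] [DistribMulAction P W]
  [Finite P] [Finite W] {A K : Subgroup P}

variable (W) in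
/-- the trace endomorphism -/
def ta (k : P) : W →+ W := (ae W k).toAddMonoidHom + (ae W k⁻¹).toAddMonoidHom

theorem ta_apply (k : P) (w : W) : ta W k w = k • w + k⁻¹ • w := rfl

variable (W) in
/-- the span of the traces -/
def TT (K : Subgroup P) : AddSubgroup (W →+ W) := AddSubgroup.closure {t | ∃ k ∈ K, ta W k = t}

/-- the elements commuting with an endomorphism -/
def czE (t : W →+ W) : Subgroup P where
  carrier := {g | ∀ w, t (g • w) = g • t w}
  one_mem' := fun w => by simp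
  mul_mem' := fun {g k} hg hk w => by rw [mul_smul, hg, hk, mul_smul]
  inv_mem' := fun {g} hg w => by rw [eq_inv_smul_iff, ← hg, smul_inv_smul]

variable (W) in
/-- the final configuration -/
structure PS (A K : Subgroup P) : Prop extends PG W 2 A K where
  star : St W 2 A K
  gen : K ⊔ A = ⊤
  triv : ∀ c ∈ A, c ∈ Cz(K) → c = 1
  simp : ∀ U : AddSubgroup W, (∀ g : P, ∀ w ∈ U, g • w ∈ U) → U = ⊥ ∨ U = ⊤
  off : (fx W A).index ≤ Nat.card A

namespace PS

variable {a b c : P}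

theorem add_self (h : PS W A K) (w : W) : w + w = 0 := by rw [← two_nsmul]; exact h.hp w

theorem neg_eq (h : PS W A K) (w : W) : -w = w := neg_eq_of_add_eq_zero_left (h.add_self w)

theorem inv_eq (h : PS W A K) (ha : a ∈ A) : a⁻¹ = a :=
  inv_eq_of_mul_eq_one_left (by rw [← pow_two]; exact h.el.2 a ha)

theorem smul_smul' (h : PS W A K) (ha : a ∈ A) (w : W) : a • a • w = w := by
  nth_rewrite 1 [← h.inv_eq ha]; exact inv_smul_smul a w

theorem fixU (h : PS W A K) (ha : a ∈ A) (hn : a ∉ Nm(K)) {k : P} (hk : k ∈ K) {u : W}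
    (hu : u ∈ (dl W a).range) : (a * k * a⁻¹) • u = k⁻¹ • u := by
  obtain ⟨w, rfl⟩ := mem_range_dl.1 hu
  rw [eq_inv_smul_iff, smul_smul, h.inv_eq ha, ← mul_assoc, ← mul_assoc, mul_assoc (k * a), ← pow_two]
  exact h.star a ha hn k hk w

theorem cz1 (h : PS W A K) (hn : a ∉ Nm(K)) {k : P} (hk : k ∈ K) : a * k * a⁻¹ ∈ Cz(K) :=
  comp_le_Cz (comp_cj h.co a) h.co (fun e => hn (mem_normalizer_iff_cj.2 e)) (conj_mem_cj a hk)

theorem ta_eq (h : PS W A K) (ha : a ∈ A) (hn : a ∉ Nm(K)) {k : P} (hk : k ∈ K) :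
    ta W (a * k * a⁻¹) = ta W k := by
  ext w
  have c1 := h.cz1 hn hk k hk
  have c2 := h.cz1 hn (inv_mem hk) k hk
  have e1 := h.fixU ha hn hk (mem_range_dl.2 ⟨k⁻¹ • a⁻¹ • w, rfl⟩)
  have e2 := h.fixU ha hn hk (mem_range_dl.2 ⟨a⁻¹ • w, rfl⟩)
  have e3 : (a * k * a⁻¹) • (k • (a * k⁻¹ * a⁻¹) • w - w) =
      k⁻¹ • (k • (a * k⁻¹ * a⁻¹) • w - w) := by
    have : k • (a * k⁻¹ * a⁻¹) • w - w = k • (a • k⁻¹ • a⁻¹ • w - k⁻¹ • a⁻¹ • w) -
        (a • a⁻¹ • w - a⁻¹ • w) := by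
      simp only [mul_smul, smul_sub, smul_inv_smul]; abel
    rw [this, smul_sub (a * k * a⁻¹), smul_sub k⁻¹, e2, smul_smul _ k, ← c1, mul_smul, e1,
      smul_inv_smul, inv_smul_smul]
  rw [smul_sub, smul_sub, inv_smul_smul, smul_smul _ k, ← c1, mul_smul, smul_smul (a * k * a⁻¹),
    show a * k * a⁻¹ * (a * k⁻¹ * a⁻¹) = 1 by group, one_smul, sub_eq_sub_iff_add_eq_add] at e3
  rw [ta_apply, ta_apply, e3, add_comm, show (a * k * a⁻¹)⁻¹ = a * k⁻¹ * a⁻¹ by group]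

theorem le_of (h : PS W A K) {H : Subgroup P} (h1 : K ≤ H) (h2 : ∀ a ∈ A, a ∉ Nm(K) → a ∈ H) (g : P) :
    g ∈ H := by
  obtain ⟨a, ha, hn⟩ := SetLike.not_le_iff_exists.1 h.nn
  refine (h.gen.ge.trans (sup_le h1 fun b hb => ?_)) (mem_top g)
  by_cases e : b ∈ Nm(K)
  · exact (mul_mem_cancel_left (h2 a ha hn)).1
      (h2 _ (mul_mem ha hb) fun e' => hn ((mul_mem_cancel_right e).1 e'))
  · exact h2 b hb e

theorem eqv (h : PS W A K) {t : W →+ W} (ht : t ∈ TT W K) (g : P) (w : W) : t (g • w) = g • t w := by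
  induction ht using AddSubgroup.closure_induction with
  | mem t ht =>
    obtain ⟨k, hk, rfl⟩ := ht
    obtain ⟨a, ha, hn⟩ := SetLike.not_le_iff_exists.1 h.nn
    refine h.le_of (H := czE (ta W k)) (fun x hx v => ?_) (fun b hb hn v => ?_) g w
    · have e := h.cz1 hn hk
      rw [← h.ta_eq ha hn hk, ta_apply, ta_apply, smul_add, smul_smul, smul_smul, smul_smul,
        smul_smul, e x hx, inv_mem e x hx]
    · nth_rewrite 1 [← h.ta_eq hb hn hk]
      simp only [ta_apply, mul_inv_rev, inv_inv, mul_smul, inv_smul_smul, smul_add]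
  | zero => simp
  | add s t _ _ h1 h2 => simp only [AddMonoidHom.add_apply, h1, h2, smul_add]
  | neg s _ h1 => simp only [AddMonoidHom.neg_apply, h1, smul_neg]

theorem inj (h : PS W A K) {t : W →+ W} (ht : t ∈ TT W K) {w : W} (h0 : w ≠ 0) (e : t w = 0) :
    t = 0 := by
  rcases h.simp t.ker (fun g v hv => by
    rw [AddMonoidHom.mem_ker] at hv ⊢; rw [h.eqv ht, hv, smul_zero]) with e' | e'
  · exact absurd (e'.le e) h0
  · ext v; exact e'.ge trivial

theorem span (h : PS W A K) (ha : a ∈ A) (hn : a ∉ Nm(K)) {u : W} (hu : u ∈ (dl W a).range)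
    (hA : u ∈ fx W A) (h0 : u ≠ 0) {U : AddSubgroup W} (hU : ∀ k ∈ K, k • u ∈ U) (w : W) : w ∈ U := by
  let S := AddSubgroup.closure {x | ∃ k ∈ K, k • u = x}
  have m : ∀ k ∈ K, k • u ∈ S := fun k hk => AddSubgroup.subset_closure ⟨k, hk, rfl⟩
  have e : ∀ g : P, (∀ k ∈ K, g • k • u ∈ S) → g ∈ st P S := fun g hg => mem_st fun w hw =>
    (show S ≤ S.comap (ae W g).toAddMonoidHom from (AddSubgroup.closure_le _).2 (by
      rintro _ ⟨k, hk, rfl⟩; exact hg k hk)) hw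
  have e1 : ∀ b ∈ A, ∀ k, b • k • u = (b * k * b⁻¹) • u := fun b hb k => by
    rw [mul_smul, mul_smul, hA _ (inv_mem hb)]
  have e2 : a ∈ st P S := e a fun k hk => by rw [e1 a ha, h.fixU ha hn hk hu]; exact m _ (inv_mem hk)
  have := (h.simp S fun g => fun w hw => st_apply (h.le_of (H := st P S)
    (fun x hx => e x fun k hk => by rw [smul_smul]; exact m _ (mul_mem hx hk))
    (fun b hb hn' => (mul_mem_cancel_left e2).1 (e _ fun k hk => by
      rw [e1 _ (mul_mem ha hb)]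
      exact m _ (conj_mem_of_mem_normalizer (h.mul_mem_Nm h.star ha hn hb hn') hk))) g) hw).resolve_left
    fun e' => h0 (by simpa using e'.le (m 1 (one_mem K)))
  exact (AddSubgroup.closure_le U).2 (by rintro _ ⟨k, hk, rfl⟩; exact hU k hk) (this.ge trivial)

theorem line' (h : PS W A K) (ha : a ∈ A) (hn : a ∉ Nm(K)) {u : W} (hu : u ∈ (dl W a).range)
    (hA : u ∈ fx W A) (h0 : u ≠ 0) (v : W) : ∃ t ∈ TT W K, t u = a • v - v := by
  refine h.span ha hn hu hA h0 (U := ((TT W K).map (AddMonoidHom.eval u)).comap (dl W a))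
    (fun k hk => ⟨ta W k, AddSubgroup.subset_closure ⟨k, hk, rfl⟩, ?_⟩) v
  change k • u + k⁻¹ • u = a • k • u - k • u
  rw [← h.fixU ha hn hk hu, mul_smul, mul_smul, hA _ (inv_mem ha), sub_eq_add_neg, h.neg_eq, add_comm]

theorem eq_of_triv (h : PS W A K) (ha : a ∈ A) (hn : a ∉ Nm(K)) (hb : b ∈ A) (hn' : b ∉ Nm(K))
    (e : ∀ k ∈ K, ⁅k, a * b⁆ ∈ Cz(K)) : a = b := by
  have := h.triv _ (mul_mem ha hb)
    (mem_Cz_of_perfect (qs_perfect h.co.2) (h.mul_mem_Nm h.star ha hn hb hn') e)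
  rw [← h.inv_eq hb]; exact eq_inv_of_mul_eq_one_left this

theorem ex_ne (h : PS W A K) (hn : a ∉ Nm(K)) : ∃ w : W, a • w ≠ w := by
  by_contra e
  push Not at e
  obtain ⟨x, hx, hx'⟩ := qs_exists_notMem h.co.2
  refine h.nt (top_unique (le_tr_bot.1 (qs_le_of h.co.2 (fun g _ => mem_Nm_tr (mem_st_top g)
    (mem_st_bot g)) hx hx' (h.cz1 hn (inv_mem hx)) (mem_tr_bot.2 fun w _ => ?_))))
  rw [mul_smul, mul_smul, mul_smul, e, smul_inv_smul, inv_smul_eq_iff, e]

theorem U_le (h : PS W A K) (ha : a ∈ A) (hn : a ∉ Nm(K)) : (dl W a).range ≤ fx W A := by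
  obtain ⟨w, hw⟩ := h.ex_ne hn
  obtain ⟨u, hu, h0, hA⟩ := exists_fixed h.hp (elemAb_isPGroup h.el) (U := (dl W a).range)
    (fun b hb => mem_st_range_dl (h.comm hb ha))
    fun e => hw (sub_eq_zero.1 (e.le (mem_range_dl.2 ⟨w, rfl⟩)))
  rintro _ ⟨v, rfl⟩ b hb
  obtain ⟨t, ht, e⟩ := h.line' ha hn hu hA h0 v
  change b • (a • v - v) = a • v - v
  rw [← e, ← h.eqv ht, hA b hb]

theorem line (h : PS W A K) (ha : a ∈ A) (hn : a ∉ Nm(K)) {u : W} (hu : u ∈ (dl W a).range)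
    (h0 : u ≠ 0) (v : W) : ∃ t ∈ TT W K, t u = a • v - v := h.line' ha hn hu (h.U_le ha hn hu) h0 v

theorem t_mem (h : PS W A K) {t : W →+ W} (ht : t ∈ TT W K) {u : W} (hu : u ∈ (dl W a).range) :
    t u ∈ (dl W a).range := by
  obtain ⟨v, rfl⟩ := mem_range_dl.1 hu
  exact mem_range_dl.2 ⟨t v, by rw [map_sub, h.eqv ht]⟩

theorem t_inj (h : PS W A K) {s t : TT W K} {u : W} (h0 : u ≠ 0)
    (e : (s : W →+ W) u = (t : W →+ W) u) : s = t :=
  Subtype.ext (sub_eq_zero.1 (h.inj (sub_mem s.2 t.2) h0 (by rw [AddMonoidHom.sub_apply, e, sub_self])))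

theorem card_U (h : PS W A K) (ha : a ∈ A) (hn : a ∉ Nm(K)) :
    Nat.card (dl W a).range = Nat.card (TT W K) := by
  obtain ⟨w, hw⟩ := h.ex_ne hn
  have hu : a • w - w ∈ (dl W a).range := mem_range_dl.2 ⟨w, rfl⟩
  refine (Nat.card_congr (Equiv.ofBijective (fun t : TT W K =>
    (⟨(t : W →+ W) _, h.t_mem t.2 hu⟩ : (dl W a).range))
    ⟨fun s t e => h.t_inj (sub_ne_zero.2 hw) (congrArg Subtype.val e), ?_⟩)).symm
  rintro ⟨_, v, rfl⟩
  obtain ⟨t, ht, e⟩ := h.line ha hn hu (sub_ne_zero.2 hw) v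
  exact ⟨⟨t, ht⟩, Subtype.ext e⟩

theorem idx (h : PS W A K) (ha : a ∈ A) (hn : a ∉ Nm(K)) :
    (fx W (zpowers a)).index = Nat.card (TT W K) := by rw [← card_range_dl, h.card_U ha hn]

theorem d2 (h : PS W A K) (ha : a ∈ A) (hn : a ∉ Nm(K)) (hb : b ∈ A) (hn' : b ∉ Nm(K)) {u : W}
    (hu : u ∈ (dl W a).range) (hu' : u ∈ (dl W b).range) (h0 : u ≠ 0) : a = b := by
  refine h.eq_of_triv ha hn hb hn' fun k hk => h.inf_le (mi (commutator_mem_left hk
    (h.mul_mem_Nm h.star ha hn hb hn')) (mem_tr_bot.2 fun w _ => ?_))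
  have e : ∀ w : W, (b * k⁻¹ * b⁻¹) • w = (a * k⁻¹ * a⁻¹) • w := fun w =>
    sub_eq_zero.1 (h.span ha hn hu (h.U_le ha hn hu) h0
      (U := ((ae W (b * k⁻¹ * b⁻¹)).toAddMonoidHom - (ae W (a * k⁻¹ * a⁻¹)).toAddMonoidHom).ker)
      (fun x hx => by
        change (b * k⁻¹ * b⁻¹) • x • u - (a * k⁻¹ * a⁻¹) • x • u = 0
        rw [smul_smul, smul_smul, ← h.cz1 hn (inv_mem hk) x hx, ← h.cz1 hn' (inv_mem hk) x hx, mul_smul,
          mul_smul x, h.fixU ha hn (inv_mem hk) hu, h.fixU hb hn' (inv_mem hk) hu', sub_self]) w)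
  rw [show ⁅k, a * b⁆ = k * a * (b * k⁻¹ * b⁻¹) * a⁻¹ by rw [commutatorElement_def]; group,
    mul_smul, mul_smul, e]
  simp only [mul_smul, h.inv_eq ha, h.smul_smul' ha, smul_inv_smul]

theorem y_tr (h : PS W A K) (ha : a ∈ A) (hn : a ∉ Nm(K)) {k : P} (hk : k ∈ K) (w : W) :
    (k * (a * k * a⁻¹)) • w - w ∈ fx W (zpowers a) := by
  have e : k * (a * k * a⁻¹) = (k * a) ^ 2 := by rw [h.inv_eq ha, pow_two]; group
  have := h.star a ha hn k hk w
  rw [smul_sub, smul_smul, ← y_comm' h.co (h.el.2 a ha) hn hk, mul_smul] at this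
  rw [mem_fx_zpowers, e, smul_sub, eq_add_of_sub_eq this]; abel

theorem d1 (h : PS W A K) (ha : a ∈ A) (hn : a ∉ Nm(K)) (hb : b ∈ A) (hn' : b ∉ Nm(K))
    (e : fx W (zpowers b) ≤ fx W (zpowers a)) : a = b := by
  let N := tr P ⊤ (fx W (zpowers a)) le_top
  have n1 : ∀ k ∈ K, k * (a * k * a⁻¹) ∈ N := fun k hk => mem_tr fun w _ => h.y_tr ha hn hk w
  have n2 : ∀ k ∈ K, k * (b * k * b⁻¹) ∈ N := fun k hk => mem_tr fun w _ => e (h.y_tr hb hn' hk w)
  have n3 : a ∈ Nm(N) := mem_Nm_tr (mem_st_top a) (Nm_le_st_fx _ (le_normalizer (mem_zpowers a)))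
  have n4 : K ≤ Nm(K ⊓ N) := fun k hk => mem_normalizer_of_conj_mem fun x hx =>
    mi (mul_mem (mul_mem hk hx.1) (inv_mem hk)) (by
      have := mul_mem (mul_mem (n1 k hk) hx.2) (inv_mem (n1 k hk))
      rwa [mul_assoc k, ← h.cz1 hn hk x hx.1, mul_inv_rev, ← mul_assoc, ← mul_assoc,
        mul_inv_cancel_right] at this)
  rcases qs_normal h.co.2 n4 with e1 | e1
  · refine h.eq_of_triv ha hn hb hn' fun k hk => ?_
    have m := commutator_mem_left hk (h.mul_mem_Nm h.star ha hn hb hn')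
    refine e1 (mi m (mi m ?_))
    have := conj_mem_of_mem_normalizer n3 (mul_mem (inv_mem (n1 _ (inv_mem hk))) (n2 _ (inv_mem hk)))
    convert this using 1
    rw [commutatorElement_def]
    have a2 : a * a = 1 := by nth_rewrite 1 [← h.inv_eq ha]; exact inv_mul_cancel a
    calc k * (a * b) * k⁻¹ * (a * b)⁻¹ = (a * a) * k * a * b * k⁻¹ * b⁻¹ * a⁻¹ := by rw [a2]; group
      _ = _ := by nth_rewrite 3 [← h.inv_eq ha]; group
  · obtain ⟨w, hw⟩ := h.ex_ne hn
    have k1 : cm W K ≤ fx W (zpowers a) := le_tr_top.1 (e1.trans inf_le_right)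
    have k2 : cm W (cj a K) ≤ fx W (zpowers a) :=
      le_tr_top.1 ((cj_mono a (e1.trans inf_le_right)).trans (cj_eq_of_mem_normalizer n3).le)
    rcases h.simp (cm W (K ⊔ cj a K)) (fun g w hw => smul_mem_cm (h.le_of (H := Nm(K ⊔ cj a K))
      (le_sup_left.trans le_normalizer) (fun c hc hn'' => mem_normalizer_iff_cj.2 (by
        rw [cj_sup, ← cj_mul, cj_eq_of_mem_normalizer (h.mul_mem_Nm h.star hc hn'' ha hn),
          h.r3 h.star hc hn'' ha hn, sup_comm])) g) hw) with e2 | e2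
    · exact absurd (fx_eq_top_of_perfect (qs_perfect h.co.2)
        ((cm_mono le_sup_left).trans (e2.le.trans bot_le))) h.nt
    · rw [cm_sup] at e2
      exact absurd (mem_fx_zpowers.1 (sup_le k1 k2 (e2.ge trivial))) hw

theorem ex_mem (h : PS W A K) (ha : a ∈ A) (hn : a ∉ Nm(K)) (hb : b ∈ A) (hn' : b ∉ Nm(K))
    (hne : a ≠ b) : ∃ v : W, b • v = v ∧ a • v - v ≠ 0 := by
  obtain ⟨v, h1, h2⟩ := SetLike.not_le_iff_exists.1 fun e => hne (h.d1 ha hn hb hn' e)
  exact ⟨v, mem_fx_zpowers.1 h1, sub_ne_zero.2 fun e => h2 (mem_fx_zpowers.2 e)⟩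

theorem sup_top (h : PS W A K) (ha : a ∈ A) (hn : a ∉ Nm(K)) (hb : b ∈ A) (hn' : b ∉ Nm(K))
    (hne : a ≠ b) : fx W (zpowers a) ⊔ fx W (zpowers b) = ⊤ := top_unique fun w _ => by
  obtain ⟨v, h1, h2⟩ := h.ex_mem ha hn hb hn' hne
  obtain ⟨t, ht, e⟩ := h.line ha hn (mem_range_dl.2 ⟨v, rfl⟩) h2 w
  rw [map_sub, h.eqv ht] at e
  refine AddSubgroup.mem_sup.2 ⟨w - t v, mem_fx_zpowers.2 ?_, t v, mem_fx_zpowers.2 ?_, sub_add_cancel _ _⟩
  · rw [smul_sub, eq_add_of_sub_eq e]; abel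
  · rw [← h.eqv ht, h1]

theorem U_le_sup (h : PS W A K) (ha : a ∈ A) (hn : a ∉ Nm(K)) (hb : b ∈ A) (hn' : b ∉ Nm(K))
    (hne : a ≠ b) (hc : c ∈ A) (hn'' : c ∉ Nm(K)) :
    (dl W c).range ≤ (dl W a).range ⊔ (dl W b).range := by
  have ab := h.mul_mem_Nm h.star ha hn hb hn'
  obtain ⟨v, h1, h2⟩ := h.ex_mem hc hn'' (mul_mem (mul_mem ha hb) hc)
    (fun e => hn'' ((mul_mem_cancel_left ab).1 e)) fun e => hne (by
      rw [← h.inv_eq hb]; exact eq_inv_of_mul_eq_one_left (mul_eq_right.1 e.symm))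
  have e1 : c • v = a • b • v := by
    rw [h.comm (mul_mem ha hb) hc, mul_smul, ← eq_inv_smul_iff, h.inv_eq hc, mul_smul] at h1
    exact h1.symm
  have e2 : c • v - v = (a • v - v) + (b • v - v) := by
    have := h.U_le hb hn' (mem_range_dl.2 ⟨v, rfl⟩) a ha
    rw [smul_sub] at this
    rw [e1, eq_add_of_sub_eq this]; abel
  rintro _ ⟨w, rfl⟩
  obtain ⟨t, ht, e⟩ := h.line hc hn'' (mem_range_dl.2 ⟨v, rfl⟩) h2 w
  change c • w - w ∈ _
  rw [← e, e2, map_add]
  exact AddSubgroup.add_mem_sup (h.t_mem ht (mem_range_dl.2 ⟨v, rfl⟩))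
    (h.t_mem ht (mem_range_dl.2 ⟨v, rfl⟩))

theorem card_T (h : PS W A K) : Nat.card (TT W K) = 2 := by
  classical
  obtain ⟨a, ha, hn⟩ := SetLike.not_le_iff_exists.1 h.nn
  set q := Nat.card (TT W K) with hq
  have q2 : 2 ∣ q := by
    obtain ⟨w, hw⟩ := h.ex_ne hn
    haveI : Nontrivial (dl W a).range := ⟨⟨a • w - w, mem_range_dl.2 ⟨w, rfl⟩⟩, 0,
      fun e => hw (sub_eq_zero.1 (congrArg Subtype.val e))⟩
    rw [hq, ← h.card_U ha hn]
    exact dvd_card_of_nontrivial fun x => Subtype.ext (h.hp x)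
  have q0 : 0 < q := by rw [hq, ← h.idx ha hn]; exact add_index_pos _
  suffices q ≤ 3 by omega
  let D := {c // c ∈ A ∧ c ∉ Nm(K)}
  have d1 : Nat.card A ≤ Nat.card D + Nat.card D := by
    rw [← Nat.card_sum]
    refine Nat.card_le_card_of_injective (fun c => if e : (c : P) ∈ Nm(K) then
      Sum.inr ⟨a * c, mul_mem ha c.2, fun e' => hn ((mul_mem_cancel_right e).1 e')⟩
      else Sum.inl ⟨c, c.2, e⟩) fun c c' e => ?_
    beta_reduce at e
    split_ifs at e
    · exact Subtype.ext (mul_left_cancel (congrArg Subtype.val (Sum.inr.inj e)))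
    · exact Subtype.ext (Subtype.mk.inj (Sum.inl.inj e))
  by_cases e : ∀ b ∈ A, b ∉ Nm(K) → a = b
  · have d2 : Nat.card D ≤ 1 := Finite.card_le_one_iff_subsingleton.2
      ⟨fun c c' => Subtype.ext ((e _ c.2.1 c.2.2).symm.trans (e _ c'.2.1 c'.2.2))⟩
    have := (add_index_anti (fx_anti (W := W) (zpowers_le.2 ha))).trans h.off
    rw [h.idx ha hn] at this
    omega
  push Not at e
  obtain ⟨b, hb, hn', hne⟩ := e
  have d2 : q * q ≤ Nat.card A := by
    have := index_inf_of_sup_eq_top (h.sup_top ha hn hb hn' hne)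
    rw [h.idx ha hn, h.idx hb hn'] at this
    rw [← this]
    exact (add_index_anti (le_inf (fx_anti (zpowers_le.2 ha)) (fx_anti (zpowers_le.2 hb)))).trans h.off
  have d3 : Nat.card ((dl W a).range ⊔ (dl W b).range : AddSubgroup W) ≤ q * q := by
    have := add_card_sup_mul_card_inf (dl W a).range (dl W b).range
    rw [h.card_U ha hn, h.card_U hb hn'] at this
    exact this ▸ Nat.le_mul_of_pos_right _ Nat.card_pos
  have ex : ∀ c : D, ∃ u ∈ (dl W (c : P)).range, u ≠ 0 := fun c => by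
    obtain ⟨w, hw⟩ := h.ex_ne c.2.2
    exact ⟨_, mem_range_dl.2 ⟨w, rfl⟩, sub_ne_zero.2 hw⟩
  choose u hu hu0 using ex
  haveI : Finite (TT W K) := Nat.finite_of_card_ne_zero q0.ne'
  have d4 : Nat.card D * q ≤ Nat.card ((dl W a).range ⊔ (dl W b).range : AddSubgroup W) +
      Nat.card D := by
    rw [← Nat.card_sum, hq, ← Nat.card_prod]
    refine Nat.card_le_card_of_injective (fun x => if x.2 = 0 then Sum.inr x.1 else
      Sum.inl ⟨(x.2 : W →+ W) (u x.1), h.U_le_sup ha hn hb hn' hne x.1.2.1 x.1.2.2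
        (h.t_mem x.2.2 (hu _))⟩) fun x y e => ?_
    beta_reduce at e
    split_ifs at e with e1 e2 e2
    · exact Prod.ext (Sum.inr.inj e) (e1.trans e2.symm)
    · have e3 := Subtype.mk.inj (Sum.inl.inj e)
      have e4 : x.1 = y.1 := Subtype.ext (h.d2 x.1.2.1 x.1.2.2 y.1.2.1 y.1.2.2 (h.t_mem x.2.2 (hu _))
        (e3 ▸ h.t_mem y.2.2 (hu _)) fun e' => e1 (Subtype.ext (h.inj x.2.2 (hu0 _) e')))
      exact Prod.ext e4 (h.t_inj (hu0 y.1) (by rw [← e4] at e3 ⊢; exact e3))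
  have d5 : 0 < Nat.card D := by
    haveI : Nonempty D := ⟨⟨a, ha, hn⟩⟩
    exact Nat.card_pos
  nlinarith

theorem pow_six (h : PS W A K) {k : P} (hk : k ∈ K) (w : W) : k ^ 6 • w = w := by
  have m : ∀ k ∈ K, ta W k ∈ TT W K := fun k hk => AddSubgroup.subset_closure ⟨k, hk, rfl⟩
  by_cases e : ta W k = 0
  · have e1 : ∀ w : W, k • k • w = w := fun w => by
      have := DFunLike.congr_fun e (k • w)
      rw [ta_apply, inv_smul_smul, AddMonoidHom.zero_apply, add_eq_zero_iff_eq_neg, h.neg_eq] at this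
      exact this
    simp only [pow_succ, pow_zero, one_mul, mul_smul, e1]
  · have i : ∀ w, ta W k w = 0 → w = 0 := fun w e' => by
      by_contra h0; exact e (h.inj (m k hk) h0 e')
    have e1 : ∀ w, ta W (k * k) w = ta W k (ta W k w) := fun w => by
      simp only [ta_apply, smul_add, mul_inv_rev, mul_smul, smul_inv_smul, inv_smul_smul]
      rw [add_assoc, ← add_assoc w, h.add_self, zero_add]
    obtain ⟨t, -, ht⟩ := (Nat.card_eq_two_iff' (0 : TT W K)).1 h.card_T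
    have e2 : ta W (k * k) = ta W k := congrArg Subtype.val
      ((ht ⟨_, m _ (mul_mem hk hk)⟩ fun e' => e (by
        ext w; exact i _ (by rw [← e1]; exact DFunLike.congr_fun (congrArg Subtype.val e') w))).trans
      (ht ⟨_, m k hk⟩ fun e' => e (congrArg Subtype.val e')).symm)
    have e3 : ∀ w : W, k • k • w = k • w + w := fun w => by
      have := sub_eq_zero.1 (i (ta W k (k • w) - k • w) (by rw [map_sub, ← e1, e2, sub_self]))
      rw [ta_apply, inv_smul_smul] at this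
      rw [eq_sub_of_add_eq this, sub_eq_add_neg, h.neg_eq]
    have e4 : ∀ w : W, k • k • k • w = w := fun w => by
      rw [e3 (k • w), e3, add_comm _ w, add_assoc, h.add_self, add_zero]
    simp only [pow_succ, pow_zero, one_mul, mul_smul, e4]

theorem false (h : PS W A K) : False := by
  haveI := h.co.2.2
  refine quasisimple_not_isSolvable (quasisimple_of_surjective h.co.2
    (QuotientGroup.mk'_surjective (center K))) (CfH5.burnside_of_prime_dvd (p := 2) (q := 3)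
      fun r hr e => ?_)
  haveI := Fact.mk hr
  obtain ⟨x, hx⟩ := exists_prime_orderOf_dvd_card' r e
  obtain ⟨k, rfl⟩ := QuotientGroup.mk_surjective x
  have : r ∣ 2 * 3 := hx ▸ orderOf_dvd_of_pow_eq_one (by
    rw [← QuotientGroup.mk_pow, QuotientGroup.eq_one_iff, mem_center_iff]
    exact fun g => Subtype.ext (h.inf_le (mi (pow_mem k.2 6)
      (mem_tr_bot.2 fun w _ => h.pow_six k.2 w)) g g.2))
  exact ((Nat.Prime.dvd_mul hr).1 this).imp (Nat.prime_dvd_prime_iff_eq hr Nat.prime_two).1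
    (Nat.prime_dvd_prime_iff_eq hr Nat.prime_three).1

end PS

end

end CfH7
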