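import Cfsg.Agent.OD.Pre
import Cfsg.Agent.H7.PGV2
import Cfsg.Agent.H7.SPEFF
import Cfsg.Agent.H8.Gaschuetz

/-! Best offenders normalize every component. -/

set_option autoImplicit false
set_option linter.unusedSectionVars false

open Cfsg Subgroup CfH9
open scoped commutatorElement

namespace CfH7

universe u v

section

variable {P : Type*} [Group P] {W : Type*} [AddCommGroup W] [DistribMulAction P W] {p : ℕ}

/-- the action on an invariant subgroup -/
@[reducible] def subAct (U : AddSubgroup W) (hU : ∀ (g : P), ∀ w ∈ U, g • w ∈ U) :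
    DistribMulAction P U where
  smul g x := ⟨g • x.1, hU g _ x.2⟩
  one_smul x := Subtype.ext (one_smul P x.1)
  mul_smul g k x := Subtype.ext (mul_smul g k x.1)
  smul_zero g := Subtype.ext (smul_zero g)
  smul_add g x y := Subtype.ext (smul_add g x.1 y.1)

theorem subAct_fx (U : AddSubgroup W) (hU : ∀ (g : P), ∀ w ∈ U, g • w ∈ U) (A : Subgroup P) :
    letI := subAct U hU
    fx U A = (fx W A).addSubgroupOf U := by
  letI := subAct U hU
  ext x
  exact ⟨fun h a ha => congrArg Subtype.val (h a ha), fun h a ha => Subtype.ext (h a ha)⟩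

theorem subAct_lm (U : AddSubgroup W) (hU : ∀ (g : P), ∀ w ∈ U, g • w ∈ U) (A : Subgroup P) :
    letI := subAct U hU
    lm U A = Nat.card A * Nat.card (fx W A ⊓ U : AddSubgroup W) := by
  letI := subAct U hU
  rw [lm, subAct_fx, ← AddSubgroup.inf_addSubgroupOf_right,
    Nat.card_congr (AddSubgroup.addSubgroupOfEquivOfLe inf_le_right).toEquiv]

variable [Finite P] [Finite W] {A K : Subgroup P}

theorem BestL.sub (h : BestL W A) (U : AddSubgroup W) (hU : ∀ (g : P), ∀ w ∈ U, g • w ∈ U) :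
    letI := subAct U hU
    BestL U A := by
  intro B hB
  rw [subAct_lm, subAct_lm]
  have h1 := relIndex_le_of_lm_le (B := A ⊓ tr P (fx W B ⊓ U) ⊥ bot_le) inf_le_left
    (h _ inf_le_left) (U := fx W B ⊓ U) (le_tr_bot.1 inf_le_right)
  have h2 := add_card_inf_mul_relIndex (fx W A) (fx W B ⊓ U)
  rw [← inf_assoc, inf_eq_left.2 (fx_anti hB)] at h2
  have h3 : Nat.card B ≤ Nat.card (A ⊓ tr P (fx W B ⊓ U) ⊥ bot_le : Subgroup P) :=
    card_le_of_le (le_inf hB (le_tr_bot.2 inf_le_left))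
  rw [← h2]
  nlinarith [Nat.mul_le_mul_right (Nat.card (fx W A ⊓ U : AddSubgroup W))
    ((Nat.mul_le_mul_right _ h3).trans h1)]

variable [hp : Fact p.Prime]

theorem comm_of_card_le (hW : ∀ w : W, p • w = 0) {U : AddSubgroup W} (h : Nat.card U ≤ p)
    {g k : P} (hg : g ∈ st P U) (hk : k ∈ st P U) : ⁅g, k⁆ ∈ tr P U ⊥ bot_le := by
  refine mem_tr_bot.2 fun x hx => ?_
  obtain ⟨u, hu, rfl⟩ : ∃ u ∈ U, k • g • u = x :=
    ⟨g⁻¹ • k⁻¹ • x, st_apply (inv_mem hg) (st_apply (inv_mem hk) hx), by simp⟩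
  simp only [commutatorElement_def, mul_smul, inv_smul_smul]
  by_cases h0 : u = 0
  · simp [h0]
  have e : AddSubgroup.zmultiples u = U := AddSubgroup.eq_of_le_of_card_ge
    (AddSubgroup.zmultiples_le_of_mem hu) (by
      rw [Nat.card_zmultiples, addOrderOf_eq_prime (hW u) h0]; exact h)
  obtain ⟨m, hm⟩ := AddSubgroup.mem_zmultiples_iff.1 (e.ge (st_apply hg hu))
  obtain ⟨n, hn⟩ := AddSubgroup.mem_zmultiples_iff.1 (e.ge (st_apply hk hu))
  have z : ∀ (g : P) (n : ℤ) (w : W), g • n • w = n • g • w := fun g n w => map_zsmul (ae W g) n w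
  rw [← hn, z, ← hm, z, ← hn, smul_comm]

theorem PG.star (h : PG W p A K) (hb : BestL W A)
    (hm : ∀ B, B ≤ A → B ≠ A → BestL W B → B ≤ Nm(K)) (ht : ∀ c ∈ A, c ∈ Cz(K) → c = 1) :
    St W p A K := by
  intro a ha hn k hk w
  have ap := h.el.2 a ha
  obtain ⟨x, hx, hx'⟩ := qs_exists_notMem h.co.2
  obtain ⟨B, b1, b2, b3, b4⟩ := hb.timmesfeld h.hp h.el fun e => h.nt (top_unique (le_tr_bot.1
    (qs_le_of h.co.2 (fun g _ => mem_Nm_tr (mem_st_top g) (mem_st_bot g)) hx hx'
      (comp_le_Cz (comp_cj h.co a) h.co (fun e => hn (mem_normalizer_iff_cj.2 e))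
        (conj_mem_cj a (inv_mem hx))) (mem_tr_bot.2 fun w _ => by
      rw [mul_smul, mul_smul, mul_smul, e.ge trivial a ha, smul_inv_smul,
        e.ge trivial _ (inv_mem ha)]))))
  let X := tr P (dl W a).range ⊥ bot_le
  let y := yH h.co ap hn
  have y1 : ∀ k : K, y k ∈ st P (dl W a).range := fun k =>
    mem_st_range_dl (y_comm' h.co ap hn k.2).symm
  have y2 : ∀ k : K, y k ∈ Nm(X) := fun k => mem_Nm_tr (y1 k) (mem_st_bot _)
  have BX : B ≤ X := fun b hb => mem_tr_bot.2 (by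
    rintro _ ⟨v, rfl⟩
    have := b4 b hb v a ha
    change b • (a • v - v) = a • v - v
    rw [smul_sub] at this ⊢
    rw [smul_smul, h.comm (b1 hb) ha, mul_smul, eq_add_of_sub_eq this]; abel)
  suffices X.comap y = ⊤ from mem_tr_bot.1 (this.ge (mem_top ⟨k, hk⟩)) _ (mem_range_dl.2 ⟨w, rfl⟩)
  have fin : (∀ k k' : K, ⁅y k, y k'⁆ ∈ X) → X.comap y = ⊤ := fun e => by
    haveI := h.co.2.1
    rw [eq_top_iff, ← Group.IsPerfect.commutator_eq_top, commutator_def, commutator_le]
    intro k _ k' _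
    rw [mem_comap, map_commutatorElement]; exact e k k'
  by_cases e : ∃ b ∈ B, b ∈ Nm(K) ∧ b ≠ 1
  · obtain ⟨b, hb, hbn, h1⟩ := e
    have nn : (X.comap y).Normal := ⟨fun n hn g => by
      rw [mem_comap, map_mul, map_mul, map_inv]; exact conj_mem_of_mem_normalizer (y2 g) hn⟩
    refine (quasisimple_subnormal h.co.2 nn.isSubnormal).resolve_left fun e => h1 (ht b (b1 hb)
      (mem_Cz_of_perfect (qs_perfect h.co.2) hbn fun k hk g hg => ?_))
    have m := conj_mem_of_mem_normalizer hbn hk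
    have : (⟨k, hk⟩ : K) * ⟨_, m⟩⁻¹ ∈ X.comap y := by
      rw [mem_comap, map_mul, map_inv]
      have := commutator_mem_right (BX hb) (y2 ⟨k, hk⟩)
      rwa [commutatorElement_def, show y ⟨k, hk⟩ * b * (y ⟨k, hk⟩)⁻¹ * b⁻¹ =
        y ⟨k, hk⟩ * (b * y ⟨k, hk⟩ * b⁻¹)⁻¹ by group,
        show b * y ⟨k, hk⟩ * b⁻¹ = y ⟨_, m⟩ from y_conj (h.comm (b1 hb) ha) k] at this
    have := congrArg Subtype.val (mem_center_iff.1 (e this) ⟨g, hg⟩)
    rw [show ⁅k, b⁆ = k * (b * k * b⁻¹)⁻¹ by rw [commutatorElement_def]; group]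
    exact this
  push Not at e
  obtain rfl : B = A := by
    by_contra e'
    have := hm B b1 e' fun C hC => b3 ▸ hb C (hC.trans b1)
    exact b2 (top_unique fun w _ b hb => by rw [e b hb (this hb), one_smul])
  refine fin fun k k' => ?_
  by_cases e' : B ≤ zpowers a
  · refine comm_of_card_le h.hp ?_ (y1 k) (y1 k')
    have e1 := le_antisymm e' (zpowers_le.2 ha)
    rw [card_range_dl, ← e1]
    refine (card_le_lm_iff.1 hb.card_le).trans ?_
    rw [e1, Nat.card_zpowers]
    exact Nat.le_of_dvd hp.out.pos (orderOf_dvd_of_pow_eq_one ap)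
  obtain ⟨b, hb, hb'⟩ := SetLike.not_le_iff_exists.1 e'
  have z1 : b * y k' * b⁻¹ ∈ Cx(y k) := by
    rw [← Cz_zpowers]
    refine le_Cz_comm (zpowers_le.2 (y_mem ap k.2 fun i => le_Cz_comm (zpowers_le.2 ?_)))
      (mem_zpowers _)
    rw [← mem_cj_inv, cj_centralizer, ← cj_mul]
    refine y_mem ap k'.2 fun j => comp_le_Cz (comp_cj h.co _) (comp_cj h.co _) fun e1 => hb' ?_
    rw [eq_comm, cj_eq_iff, eq_comm, ← cj_mul, ← mem_normalizer_iff_cj] at e1
    have := e _ (mul_mem (inv_mem (mul_mem (inv_mem hb) (pow_mem ha i))) (pow_mem ha j)) e1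
    rw [inv_mul_eq_one, inv_mul_eq_iff_eq_mul, ← mul_inv_eq_iff_eq_mul] at this
    exact this ▸ mul_mem (pow_mem (mem_zpowers a) i) (inv_mem (pow_mem (mem_zpowers a) j))
  have := commutator_mem_right (commutator_mem_right (BX hb) (y2 k')) (y2 k)
  convert this using 1
  have z2 := mem_Cx'.1 (mem_Cx.2 (mem_Cx.1 (inv_mem z1)).symm)
  simp only [commutatorElement_def]
  calc y k * y k' * (y k)⁻¹ * (y k')⁻¹
      = y k * y k' * (y k)⁻¹ * (y k * (b * y k' * b⁻¹)⁻¹ * (y k)⁻¹) * (b * y k' * b⁻¹) * (y k')⁻¹ := by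
        rw [z2]; group
    _ = _ := by group

end

theorem pgv_aux {p : ℕ} [Fact p.Prime] (n : ℕ) : ∀ {P : Type u} [Group P] [Finite P] {W : Type v}
    [AddCommGroup W] [Finite W] [DistribMulAction P W] {A K : Subgroup P},
    Nat.card P + Nat.card W + Nat.card A < n → BestL W A → ¬ PG W p A K := by
  induction n with
  | zero => intro P _ _ W _ _ _ A K h; omega
  | succ n ih =>
  intro P _ _ W _ _ _ A K hn hb h
  have pf := qs_perfect h.co.2
  have gen : K ⊔ A = ⊤ := by
    by_contra e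
    have := card_lt_of_ne_top e
    refine ih (A := A.subgroupOf (K ⊔ A)) (K := K.subgroupOf (K ⊔ A)) (W := W)
      (by rw [card_subgroupOf le_sup_right]; omega) (fun B hB => ?_)
      ⟨h.hp, elemAb_subgroupOf h.el _, component_subgroupOf h.co le_sup_left,
        by rw [fx_subgroupOf le_sup_left]; exact h.nt, fun e' => h.nn ?_⟩
    · rw [← lm_map_subtype, ← lm_map_subtype, map_subgroupOf_eq_of_le le_sup_right]
      exact hb _ (map_le_iff_le_comap.2 hB)
    · have := map_mono (f := (K ⊔ A).subtype) e'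
      rw [map_subtype_Nm, map_subgroupOf_eq_of_le le_sup_left,
        map_subgroupOf_eq_of_le le_sup_right] at this
      exact this.trans inf_le_right
  have minW : ∀ U : AddSubgroup W, (∀ g : P, ∀ w ∈ U, g • w ∈ U) → U ≠ ⊤ → U ≤ fx W K :=
    fun U hU e => by
    letI := subAct U hU
    by_contra e'
    have : Nat.card U < Nat.card W := by
      rw [← AddSubgroup.card_top (G := W)]
      exact lt_of_le_of_ne (AddSubgroup.card_le_of_le le_top) fun e1 =>
        e (AddSubgroup.eq_of_le_of_card_ge le_top e1.ge)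
    exact ih (W := U) (by omega) (hb.sub U hU) ⟨fun w => Subtype.ext (h.hp w), h.el, h.co,
      fun e1 => e' (by rwa [subAct_fx, AddSubgroup.addSubgroupOf_eq_top] at e1), h.nn⟩
  have minA : ∀ B, B ≤ A → B ≠ A → BestL W B → B ≤ Nm(K) := fun B h1 h2 h3 => by
    by_contra e
    have := card_lt_of_lt (lt_of_le_of_ne h1 h2)
    exact ih (by omega) h3 ⟨h.hp, elemAb_of_le h1 h.el, h.co, h.nt, e⟩
  have c1 : fx W (A ⊓ Cz(K)) = ⊤ := top_unique fun w _ c hc => by
    have c0 : ∀ g, g * c = c * g := fun g => mem_Cx.1 ((gen.ge.trans (sup_le (le_Cx_iff.2 hc.2)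
      (le_Cx_iff.2 (elemAb_le_Cz h.el hc.1)))) (mem_top g))
    suffices fx W (zpowers c) = ⊤ from mem_fx_zpowers.1 (this.ge trivial)
    by_contra e
    have c2 := minW (dl W c).range (fun g _ => st_apply (mem_st_range_dl (c0 g))) fun e' =>
      e (cm_eq_bot_of_le h.hp ((elemAb_isPGroup h.el).to_le (zpowers_le.2 hc.1))
        (top_unique (e'.ge.trans ((range_dl_le_cm (mem_zpowers c)).trans le_sup_left))))
    refine h.nt (fx_eq_top_of_perfect pf (le_trans (cm_le_iff.2 fun k hk v => mem_fx_zpowers.2 ?_)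
      (minW (fx W (zpowers c)) (fun g w hw => mem_fx_zpowers.2 (by
        rw [smul_smul, ← c0, mul_smul, mem_fx_zpowers.1 hw])) e)))
    have := c2 (mem_range_dl.2 ⟨v, rfl⟩) k hk
    rw [smul_sub] at this ⊢
    rw [smul_smul, ← c0, mul_smul, eq_add_of_sub_eq this]; abel
  have triv : ∀ c ∈ A, c ∈ Cz(K) → c = 1 := fun c hc hc' => by
    by_contra e
    obtain ⟨B, b1, b2⟩ := CfH8.exists_complement_of_elementary h.el (inf_le_left (b := Cz(K)))
    have BA : B ≤ A := b2 ▸ le_sup_right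
    have b3 : ∀ C, C ≤ B → lm W (A ⊓ Cz(K) ⊔ C) = Nat.card (A ⊓ Cz(K) : Subgroup P) * lm W C :=
      fun C hC => by
      have := card_sup_mul_card_inf (A := A ⊓ Cz(K)) (B := C)
        ((inf_le_left.trans (elemAb_le_Cz h.el)).trans ((Cz_anti (hC.trans BA)).trans (Cz_le_Nm _)))
      rw [le_bot_iff.1 ((inf_le_inf_left _ hC).trans b1.le), card_bot, mul_one] at this
      rw [lm, lm, this, fx_sup, c1, top_inf_eq, mul_assoc]
    refine h.nn (b2 ▸ sup_le (inf_le_right.trans (Cz_le_Nm _)) (minA B BA (fun e' => e ?_)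
      fun C hC => ?_))
    · exact b1.le (mi (mi hc hc') (e'.ge hc))
    · have := hb (A ⊓ Cz(K) ⊔ C) (sup_le inf_le_left (hC.trans BA))
      rw [b3 C hC, ← congrArg (lm W) b2, b3 B le_rfl] at this
      exact Nat.le_of_mul_le_mul_left this Nat.card_pos
  have s := h.star hb minA triv
  obtain rfl := h.two s
  obtain ⟨C, ⟨hC, hC'⟩, hmax⟩ := (Set.toFinite {U : AddSubgroup W |
    (∀ g : P, ∀ w ∈ U, g • w ∈ U) ∧ U ≠ ⊤}).exists_maximal ⟨⊥, fun g w hw => by
      rw [AddSubgroup.mem_bot.1 hw, smul_zero]; exact zero_mem _,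
      fun e => h.nt (top_unique (e.ge.trans bot_le))⟩
  letI := quotAct C hC
  refine PS.false (W := W ⧸ C) ⟨⟨nsmul_quot h.hp C, h.el, h.co, fun e => h.nt ?_, h.nn⟩,
    fun a ha hn k hk w => ?_, gen, triv, fun U hU => ?_, ?_⟩
  · exact fx_eq_top_of_perfect pf (le_trans (cm_le_iff.2 fun k hk w =>
      QuotientAddGroup.eq_iff_sub_mem.1 (e.ge (AddSubgroup.mem_top (w : W ⧸ C)) k hk))
      (minW C hC hC'))
  · obtain ⟨w, rfl⟩ := QuotientAddGroup.mk_surjective w
    exact congrArg QuotientAddGroup.mk (s a ha hn k hk w)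
  · have l : C ≤ U.comap (QuotientAddGroup.mk' C) := fun x hx => by
      rw [AddSubgroup.mem_comap, QuotientAddGroup.mk'_apply, (QuotientAddGroup.eq_zero_iff x).2 hx]
      exact zero_mem _
    refine or_iff_not_imp_right.2 fun e => bot_unique fun x hx => ?_
    obtain ⟨x, rfl⟩ := QuotientAddGroup.mk_surjective x
    refine (QuotientAddGroup.eq_zero_iff x).2 (hmax ⟨fun g w hw => hU g _ hw, fun e' => e
      (top_unique fun y _ => ?_)⟩ l hx)
    obtain ⟨y, rfl⟩ := QuotientAddGroup.mk_surjective y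
    exact e'.ge (AddSubgroup.mem_top y)
  · rw [← AddSubgroup.index_comap_of_surjective _ (QuotientAddGroup.mk'_surjective C)]
    refine le_trans (add_index_anti ?_) (card_le_lm_iff.1 hb.card_le)
    exact fun w hw a ha => congrArg QuotientAddGroup.mk (hw a ha)

/-- best offenders normalize the components that act nontrivially -/
theorem pgv {p : ℕ} [Fact p.Prime] {P : Type u} [Group P] [Finite P] {W : Type v}
    [AddCommGroup W] [Finite W] [DistribMulAction P W] (hp : ∀ w : W, p • w = 0) {A K : Subgroup P}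
    (hA : IsElementaryAbelian p A) (hb : BestL W A) (hK : IsComponent K) (h : fx W K ≠ ⊤) :
    A ≤ Nm(K) := by
  by_contra e
  exact pgv_aux _ (Nat.lt_succ_self _) hb ⟨hp, hA, hK, h, e⟩

end CfH7
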