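import Cfsg.Agent.H7.Qk0
import Cfsg.Agent.H3.QK0
import Cfsg.Agent.H4.L32

/-! Rank witnesses for the linear groups. -/

set_option autoImplicit false
set_option linter.unusedSectionVars false

open Cfsg Subgroup Matrix CfH3.QK
open scoped commutatorElement MatrixGroups

namespace CfH7.Qk

theorem rk_quot {G : Type*} [Group G] [Finite G] {p : ℕ} (hp : p.Prime) {x y : G}
    (hx : x ^ p ∈ center G) (hy : y ^ p ∈ center G) (c : ⁅x, y⁆ ∈ center G) (h1 : x ∉ center G)
    (h2 : ∀ k < p, y * x ^ k ∉ center G) : PRankAtLeast p 2 (G ⧸ center G) := by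
  have k : ∀ g, QuotientGroup.mk' (center G) g = 1 ↔ g ∈ center G := fun g =>
    QuotientGroup.eq_one_iff g
  set π := QuotientGroup.mk' (center G)
  have hx' : π x ^ p = 1 := by rw [← map_pow, k]; exact hx
  refine rank2_of hp hx' (y := π y) (by rw [← map_pow, k]; exact hy) (mt (k x).1 h1)
    (commutatorElement_eq_one_iff_mul_comm.1 (by rw [← map_commutatorElement, k]; exact c)) fun h => ?_
  obtain ⟨n, hn⟩ := mem_powers_iff_mem_zpowers.2 (inv_mem h)
  refine h2 (n % p) (Nat.mod_lt _ hp.pos) ((k _).1 ?_)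
  have hn : π x ^ n = (π y)⁻¹ := hn
  rw [map_mul, map_pow, ← pow_eq_pow_mod n hx', hn, mul_inv_cancel]

variable {F : Type*} [Field F]

/-- scalar matrices -/
def Sc {m : Type*} (A : Matrix m m F) : Prop := (∀ i j, i ≠ j → A i j = 0) ∧ ∀ i j, A i i = A j j

theorem sc_of_center {m : Type*} [Fintype m] [DecidableEq m] {A : SpecialLinearGroup m F}
    (h : A ∈ center (SpecialLinearGroup m F)) : Sc A.1 := by
  obtain ⟨r, -, hr⟩ := Matrix.SpecialLinearGroup.mem_center_iff.1 h
  rw [← hr]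
  exact ⟨fun i j h => by simp [h], fun i j => by simp⟩

def sl {m : ℕ} (A : Matrix (Fin m) (Fin m) F) (h : A.det = 1) : SL(m, F) := ⟨A, h⟩

@[simp] theorem sl_coe {m : ℕ} (A : Matrix (Fin m) (Fin m) F) (h : A.det = 1) : (sl A h).1 = A := rfl

/-- block embedding -/
def blk (m k : ℕ) : SL(m, F) →* SL(m + k, F) where
  toFun A := sl (reindex finSumFinEquiv finSumFinEquiv (fromBlocks A.1 0 0 1)) (by simp)
  map_one' := Subtype.ext (by simp)
  map_mul' A B := Subtype.ext (by simp [fromBlocks_multiply])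

theorem sc_blk {m k : ℕ} {A : SL(m, F)} (h : blk m k A ∈ center SL(m + k, F)) : Sc A.1 := by
  obtain ⟨h1, h2⟩ := sc_of_center h
  refine ⟨fun i j hij => ?_, fun i j => ?_⟩
  · simpa [blk] using h1 (finSumFinEquiv (.inl i)) (finSumFinEquiv (.inl j)) (by simpa using hij)
  · simpa [blk] using h2 (finSumFinEquiv (.inl i)) (finSumFinEquiv (.inl j))

theorem rk_blk [Finite F] {m n p : ℕ} (h : m ≤ n) (hp : p.Prime) {x y : SL(m, F)} (hx : x ^ p = 1)
    (hy : y ^ p = 1) (c : x * y = y * x) (h1 : ¬ Sc x.1) (h2 : ∀ k < p, ¬ Sc (y * x ^ k).1) :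
    PRankAtLeast p 2 PSL(n, F) := by
  obtain ⟨k, rfl⟩ := Nat.exists_eq_add_of_le h
  refine rk_quot hp (x := blk m k x) (y := blk m k y) (by rw [← map_pow, hx, map_one]; exact one_mem _)
    (by rw [← map_pow, hy, map_one]; exact one_mem _) ?_ (mt sc_blk h1) fun j hj => ?_
  · rw [← map_commutatorElement, commutatorElement_eq_one_iff_mul_comm.2 c, map_one]; exact one_mem _
  · rw [← map_pow, ← map_mul]; exact mt sc_blk (h2 j hj)

theorem three_dvd [Finite F] {n : ℕ} (h : 2 ≤ n) : 3 ∣ Nat.card PSL(n, F) := by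
  obtain ⟨k, rfl⟩ := Nat.exists_eq_add_of_le h
  let x : SL(2, F) := sl !![0, -1; 1, -1] (by simp [det_fin_two])
  have hx : x ^ 3 = 1 := Subtype.ext (by simp [x, pow_succ, one_fin_two])
  have : orderOf (QuotientGroup.mk' (center _) (blk 2 k x)) = 3 := orderOf_eq_prime
    (by rw [← map_pow, ← map_pow, hx, map_one, map_one]) fun e => by
      simpa [x] using (sc_blk ((QuotientGroup.eq_one_iff _).1 e)).1 1 0 (by decide)
  exact this ▸ orderOf_dvd_natCard _

theorem rk_four [Finite F] {n : ℕ} (h : 4 ≤ n) : PRankAtLeast 3 2 PSL(n, F) := by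
  let x : SL(4, F) := sl !![0, -1, 0, 0; 1, -1, 0, 0; 0, 0, 1, 0; 0, 0, 0, 1] (by
    simp [det_succ_row_zero, Fin.sum_univ_succ, Fin.succAbove])
  let y : SL(4, F) := sl !![1, 0, 0, 0; 0, 1, 0, 0; 0, 0, 0, -1; 0, 0, 1, -1] (by
    simp [det_succ_row_zero, Fin.sum_univ_succ, Fin.succAbove])
  have one4 : (1 : Matrix (Fin 4) (Fin 4) F) = !![1, 0, 0, 0; 0, 1, 0, 0; 0, 0, 1, 0; 0, 0, 0, 1] := by
    ext i j; fin_cases i <;> fin_cases j <;> rfl
  refine rk_blk h Nat.prime_three (x := x) (y := y) (Subtype.ext (by simp [x, pow_succ, one4]))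
    (Subtype.ext (by simp [y, pow_succ, one4])) (Subtype.ext (by simp [x, y])) (fun e => ?_) fun k hk e => ?_
  · simpa [x] using e.1 1 0 (by decide)
  · have := e.1 3 2 (by decide)
    interval_cases k <;> simp [x, y, pow_succ] at this

def u3 (a b : F) : SL(3, F) := sl !![1, a, b; 0, 1, 0; 0, 0, 1] (by simp [det_fin_three])

theorem u3_mul (a b c d : F) : u3 a b * u3 c d = u3 (a + c) (b + d) :=
  Subtype.ext (by simp [u3, add_comm])

theorem u3_zero : u3 (0 : F) 0 = 1 := Subtype.ext (by simp [u3, one_fin_three])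

theorem u3_pow (a b : F) (k : ℕ) : u3 a b ^ k = u3 (k * a) (k * b) := by
  induction k with
  | zero => simp [u3_zero]
  | succ k ih => rw [pow_succ, ih, u3_mul]; simp [add_mul]

theorem rk_char3 [Finite F] {p : ℕ} (hp : p.Prime) [CharP F p] : PRankAtLeast p 2 PSL(3, F) := by
  refine rk_blk le_rfl hp (x := u3 1 0) (y := u3 0 1) (by simp [u3_pow, u3_zero])
    (by simp [u3_pow, u3_zero]) (by simp [u3_mul]) (fun e => ?_) fun k hk e => ?_
  · simpa [u3] using e.1 0 1 (by decide)
  · rw [u3_pow, u3_mul] at e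
    simpa [u3] using e.1 0 2 (by decide)

def u2 (a : F) : SL(2, F) := sl !![1, a; 0, 1] (by simp [det_fin_two])

theorem u2_mul (a c : F) : u2 a * u2 c = u2 (a + c) := Subtype.ext (by simp [u2, add_comm])

theorem u2_zero : u2 (0 : F) = 1 := Subtype.ext (by simp [u2, one_fin_two])

theorem u2_pow (a : F) (k : ℕ) : u2 a ^ k = u2 (k * a) := by
  induction k with
  | zero => simp [u2_zero]
  | succ k ih => rw [pow_succ, ih, u2_mul]; simp [add_mul]

theorem rk_char2 [Fintype F] {p : ℕ} (hp : p.Prime) [CharP F p] (h : Fintype.card F ≠ p) :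
    PRankAtLeast p 2 PSL(2, F) := by
  have : Fact p.Prime := ⟨hp⟩
  obtain ⟨c, hc⟩ : ∃ c : F, ∀ k : ℕ, c + k ≠ 0 := by
    by_contra hc
    push Not at hc
    refine h ((Fintype.card_of_bijective (f := ZMod.castHom (dvd_refl p) F)
      ⟨RingHom.injective _, fun c => ?_⟩).symm.trans (ZMod.card p))
    obtain ⟨k, hk⟩ := hc c
    exact ⟨-k, by rw [map_neg, map_natCast, eq_neg_of_add_eq_zero_left hk]⟩
  refine rk_blk le_rfl hp (x := u2 1) (y := u2 c) (by simp [u2_pow, u2_zero])
    (by simp [u2_pow, u2_zero]) (by simp [u2_mul, add_comm]) (fun e => ?_) fun k hk e => ?_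
  · simpa [u2] using e.1 0 1 (by decide)
  · rw [u2_pow, u2_mul] at e
    exact hc k (by simpa [u2] using e.1 0 1 (by decide))

def d3 (a b : Fˣ) : SL(3, F) :=
  sl !![(a : F), 0, 0; 0, (b : F), 0; 0, 0, ((a * b)⁻¹ : Fˣ)] (by simp [det_fin_three]; field_simp)

theorem d3_mul (a b c d : Fˣ) : d3 a b * d3 c d = d3 (a * c) (b * d) :=
  Subtype.ext (by simp [d3]; ring)

theorem d3_one : d3 (1 : Fˣ) 1 = 1 := Subtype.ext (by simp [d3, one_fin_three])

theorem d3_pow (a b : Fˣ) (k : ℕ) : d3 a b ^ k = d3 (a ^ k) (b ^ k) := by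
  induction k with
  | zero => simp [d3_one]
  | succ k ih => rw [pow_succ, ih, d3_mul, pow_succ, pow_succ]

theorem rk_tor3 [Finite F] {r : ℕ} (hr : r.Prime) {w : Fˣ} (hw : orderOf w = r) :
    PRankAtLeast r 2 PSL(3, F) := by
  have wr : w ^ r = 1 := hw ▸ pow_orderOf_eq_one w
  have w1 : (w : F) ≠ 1 := fun e => by
    rw [Units.val_eq_one.1 e, orderOf_one] at hw
    exact hr.one_lt.ne hw
  have n1 : ¬ Sc (d3 1 w).1 := fun e => w1 (by simpa [d3] using e.2 1 0)
  by_cases h3 : r = 3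
  · subst h3
    let y : SL(3, F) := sl !![0, 0, 1; 1, 0, 0; 0, 1, 0] (by simp [det_fin_three])
    have w3 : (w : F) ^ 3 = 1 := by simpa using congrArg Units.val wr
    have wi : (w : F)⁻¹ = w * w := inv_eq_of_mul_eq_one_right (by rw [← w3]; ring)
    let z : SL(3, F) := d3 w w
    have hz : z ∈ center SL(3, F) := Matrix.SpecialLinearGroup.mem_center_iff.2 ⟨w, by simpa using w3, by
      ext i j; fin_cases i <;> fin_cases j <;> simp [z, d3, wi]
      linear_combination (-(w : F)) * w3⟩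
    refine rk_quot hr (x := d3 1 w) (y := y) (by simp [d3_pow, wr, d3_one]) ?_ ?_ (mt sc_of_center n1)
      fun k _ e => ?_
    · rw [show y ^ 3 = 1 from Subtype.ext (by simp [y, pow_succ, one_fin_three])]; exact one_mem _
    · have : d3 1 w * y = z * (y * d3 1 w) := Subtype.ext (by
        simp [y, z, d3, wi]
        exact ⟨by linear_combination (-1) * w3, by linear_combination (-(w : F)) * w3⟩)
      rw [commutatorElement_def, this]
      simpa [mul_assoc] using hz
    · rw [d3_pow] at e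
      simpa [y, d3] using (sc_of_center e).1 1 0 (by decide)
  · refine rk_blk le_rfl hr (x := d3 1 w) (y := d3 w 1) (by simp [d3_pow, wr, d3_one])
      (by simp [d3_pow, wr, d3_one]) (by simp [d3_mul]) n1 fun k _ e => h3 ?_
    rw [d3_pow, d3_mul] at e
    have e1 : (w : F) ^ k = w := by simpa [d3] using e.2 1 0
    have e2 := e.2 2 0
    simp [d3, e1] at e2
    have : w ^ 3 = 1 := Units.ext (by
      have := w.ne_zero
      field_simp at e2
      simpa using e2.symm)
    exact (Nat.prime_dvd_prime_iff_eq hr Nat.prime_three).1 (hw ▸ orderOf_dvd_of_pow_eq_one this)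

instance : Fact (Nat.Prime 7) := ⟨by norm_num⟩

open CfH4 CfL in
theorem l32_l27 : Nonempty (PSL(3, ZMod 2) ≃* PSL(2, ZMod 7)) := by
  have := simple_l32
  have key : ∀ {G : Type} [Group G] [Finite G] (ev : ℕ → G), (∀ x < 4, ev x * ev x ∈ center G) →
      (∀ r ∈ l32rels, CfH6.evw ev r ∈ center G) → ev 0 ∉ center G → Nat.card (G ⧸ center G) ≤ 168 →
      Nonempty (TE l32_g ≃* G ⧸ center G) := fun {G} _ _ ev h1 h2 h3 h4 => by
    let π := QuotientGroup.mk' (center G)
    have hw : ∀ r, CfH6.evw (fun x => π (ev x)) r = π (CfH6.evw ev r) := fun r => by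
      induction r with
      | nil => simp
      | cons a r ih => rw [CfH6.evw_cons, CfH6.evw_cons, ih, map_mul]
    obtain ⟨ψ, -, hψ⟩ := TE.exists_hom l32_g (fun x => π (ev x)) (fun x hx => by
      have hx : x < 4 := hx
      refine eq_inv_of_mul_eq_one_left ?_
      rw [show l32il.getD x 0 = x by interval_cases x <;> rfl, ← map_mul]
      exact (QuotientGroup.eq_one_iff _).2 (h1 x hx))
      fun r hr => by rw [hw]; exact (QuotientGroup.eq_one_iff _).2 (h2 r hr)
    refine ⟨MulEquiv.ofBijective ψ (Function.Injective.bijective_of_nat_card_le ?_ (by rwa [TE.card]))⟩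
    rw [← MonoidHom.ker_eq_bot_iff]
    refine (ψ.normal_ker.eq_bot_or_eq_top).resolve_right fun e => h3 ?_
    have : ψ (.mk l32_g 1) = π (ev 0) := hψ 0 _ (by decide) (by decide +kernel)
    exact (QuotientGroup.eq_one_iff _).1 (this.symm.trans (e.ge (mem_top _)))
  obtain ⟨e⟩ := key (ev4 sl32a sl32b sl32c sl32d)
    (fun x hx => by rw [show ev4 sl32a sl32b sl32c sl32d x * ev4 sl32a sl32b sl32c sl32d x = 1 by
      revert x; decide +kernel]; exact one_mem _)
    (fun r hr => by rw [show CfH6.evw (ev4 sl32a sl32b sl32c sl32d) r = 1 by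
      revert r; decide +kernel]; exact one_mem _)
    (fun h => absurd ((sc_of_center h).1 0 2 (by decide)) (by decide))
    (card_SL32 ▸ Nat.card_le_card_of_surjective _ (QuotientGroup.mk'_surjective _))
  have cen : ∀ g : SL(2, ZMod 7), g = 1 ∨ g = -1 → g ∈ center SL(2, ZMod 7) := by
    rintro _ (rfl | rfl)
    · exact one_mem _
    · exact mem_center_iff.2 fun g => by simp
  obtain ⟨e'⟩ := key (G := SL(2, ZMod 7)) (ev4 ⟨!![0, 6; 1, 0], by decide⟩ ⟨!![1, 1; 5, 6], by decide⟩
      ⟨!![2, 3; 3, 5], by decide⟩ ⟨!![2, 5; 6, 5], by decide⟩)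
    (fun x hx => cen _ (by revert x; decide +kernel)) (fun r hr => cen _ (by revert r; decide +kernel))
    (fun h => absurd ((sc_of_center h).1 1 0 (by decide)) (by decide))
    (by
      have : Nat.card (SL(2, ZMod 7) ⧸ center SL(2, ZMod 7)) * 2 = 336 := CfH3.card_PSL2 (ZMod.card 7)
      omega)
  exact ⟨e.symm.trans e'⟩

theorem t_psl2 {F : Type} [Field F] [Fintype F] : T PSL(2, F) := by
  obtain ⟨p, hc⟩ := CharP.exists F
  have hp := CharP.char_is_prime F p
  refine ⟨.inl (three_dvd le_rfl), ?_, .inr (.inl out_psl)⟩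
  by_cases h2 : p = 2
  · subst h2; exact .inl (.inl ⟨F, inferInstance, inferInstance, hc, ⟨.refl _⟩⟩)
  by_cases h : Fintype.card F = p
  · exact .inl (.inr (.inr (.inl ⟨F, inferInstance, inferInstance, by rwa [h], by rwa [h], ⟨.refl _⟩⟩)))
  · exact .inr ⟨p, hp, h2, rk_char2 hp h⟩

theorem t_psl3 {F : Type} [Field F] [Fintype F] : T PSL(3, F) := by
  obtain ⟨p, hc⟩ := CharP.exists F
  have hp := CharP.char_is_prime F p
  by_cases h : Fintype.card F = 2
  · obtain ⟨e⟩ := CfH3.psl_equiv_of_ringEquiv (n := Fin 3)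
      (FiniteField.ringEquivOfCardEq (K := F) (K' := ZMod 2) (h.trans (ZMod.card 2).symm))
    obtain ⟨e'⟩ := l32_l27
    exact T.equiv (e.trans e') t_psl2
  refine ⟨.inl (three_dvd (by omega)), .inr ?_, .inr (.inl out_psl)⟩
  by_cases h2 : p = 2
  swap
  · exact ⟨p, hp, h2, rk_char3 hp⟩
  subst h2
  classical
  have c := Fintype.card_units F
  have h1 : 1 < Fintype.card F := Fintype.one_lt_card
  have ev : Fintype.card F % 2 = 0 := by
    have := (CharP.cast_eq_zero_iff F 2 _).1 (FiniteField.cast_card_eq_zero F)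
    omega
  obtain ⟨r, hr, hd⟩ := Nat.exists_prime_and_dvd (n := Fintype.card Fˣ) (by omega)
  have : Fact r.Prime := ⟨hr⟩
  obtain ⟨w, hw⟩ := exists_prime_orderOf_dvd_card r hd
  exact ⟨r, hr, by rintro rfl; omega, rk_tor3 hr hw⟩

theorem t_psl {K : Type*} [Group K] [Finite K] [IsSimpleGroup K] (_hK : ¬ IsMulCommutative K)
    (h : IsPSL K) : T K := by
  obtain ⟨F, _, _, n, hn, -, ⟨e⟩⟩ := h
  refine T.equiv e ?_
  rcases (by omega : n = 2 ∨ n = 3 ∨ 4 ≤ n) with rfl | rfl | h4
  · exact t_psl2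
  · exact t_psl3
  · have : Nontrivial (Fin n) := Fin.nontrivial_iff_two_le.2 hn
    exact ⟨.inl (three_dvd hn), .inr ⟨3, Nat.prime_three, by omega, rk_four h4⟩, .inr (.inl out_psl)⟩

end CfH7.Qk
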